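import Cfsg.Agent.Lib.H68.Isolated
import Cfsg.Agent.Lib.H2.Frobenius
import Cfsg.Agent.S3897

/-! If `G` has no normal `2`-complement then `2 k_2(G) ≤ |P|`. -/

set_option autoImplicit false

namespace H68.TwoClass

open H68.Isolated MulAction
open scoped Pointwise

variable {G : Type*} [Group G] [Finite G] {p : ℕ} [Fact p.Prime]

/-- an element acting on `D` like `g` but centralizing the isolated elements -/
theorem exists_adjust (P : Sylow p G) (D : Subgroup G) (hD : D ≤ (P : Subgroup G)) (g : G)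
    (hg : g ∈ Subgroup.normalizer (D : Set G)) :
    ∃ x : G, (∀ d ∈ D, x * d * x⁻¹ = g * d * g⁻¹) ∧ ∀ z : G, IsIso P z → x * z * x⁻¹ = z := by
  set C := Subgroup.centralizer (D : Set G) with hC
  have hZC : isoSubgroup P ≤ C := by
    intro z hz
    rw [hC, Subgroup.mem_centralizer_iff]
    intro d hd
    exact IsIso.comm hz (hD hd)
  have hgC : ∀ c ∈ C, g * c * g⁻¹ ∈ C := by
    intro c hc
    rw [hC, Subgroup.mem_centralizer_iff] at hc ⊢
    intro d hd
    have h1 : g⁻¹ * d * g ∈ D := by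
      have := (Subgroup.mem_normalizer_iff.1 hg (g⁻¹ * d * g)).2
      apply this
      have e : g * (g⁻¹ * d * g) * g⁻¹ = d := by group
      rw [e]; exact hd
    have h2 := hc _ h1
    calc d * (g * c * g⁻¹) = g * ((g⁻¹ * d * g) * c) * g⁻¹ := by group
      _ = g * (c * (g⁻¹ * d * g)) * g⁻¹ := by rw [h2]
      _ = g * c * g⁻¹ * d := by group
  have hZp : IsPGroup p ((isoSubgroup P).subgroupOf C) :=
    (P.2.to_le (isoSubgroup_le P)).comap_of_injective C.subtype C.subtype_injective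
  obtain ⟨R, hR⟩ := hZp.exists_le_sylow
  -- the conjugate of Z by g
  set Zg : Subgroup G := (isoSubgroup P).map (MulAut.conj g).toMonoidHom with hZg
  have hZgC : Zg ≤ C := by
    rintro _ ⟨z, hz, rfl⟩
    exact hgC z (hZC hz)
  have hZgp : IsPGroup p (Zg.subgroupOf C) :=
    ((P.2.to_le (isoSubgroup_le P)).map _).comap_of_injective C.subtype C.subtype_injective
  obtain ⟨R', hR'⟩ := hZgp.exists_le_sylow
  obtain ⟨c, hc⟩ := exists_smul_eq C R' R
  -- R is in a Sylow of G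
  have hRp : IsPGroup p ((R : Subgroup C).map C.subtype) := R.2.map _
  obtain ⟨T, hT⟩ := hRp.exists_le_sylow
  obtain ⟨h, hh⟩ := exists_smul_eq G P T
  refine ⟨c * g, ?_, ?_⟩
  · intro d hd
    have h1 : g * d * g⁻¹ ∈ D := (Subgroup.mem_normalizer_iff.1 hg d).1 hd
    have h2 := Subgroup.mem_centralizer_iff.1 c.2 _ h1
    calc (c : G) * g * d * ((c : G) * g)⁻¹ = (c : G) * (g * d * g⁻¹) * (c : G)⁻¹ := by group
      _ = (g * d * g⁻¹) * (c : G) * (c : G)⁻¹ := by rw [h2]
      _ = g * d * g⁻¹ := by group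
  · intro z hz
    have h1 : z ∈ T := by
      apply hT
      exact ⟨⟨z, hZC hz⟩, hR (Subgroup.mem_subgroupOf.2 hz), rfl⟩
    have h2 : (c : G) * (g * z * g⁻¹) * (c : G)⁻¹ ∈ T := by
      apply hT
      have h3 : g * z * g⁻¹ ∈ Zg := ⟨z, hz, rfl⟩
      have h4 : (⟨g * z * g⁻¹, hZgC h3⟩ : C) ∈ R' := hR' (Subgroup.mem_subgroupOf.2 h3)
      refine ⟨c * ⟨g * z * g⁻¹, hZgC h3⟩ * c⁻¹, ?_, rfl⟩
      rw [← hc, SetLike.mem_coe]
      show c * (⟨g * z * g⁻¹, hZgC h3⟩ : C) * c⁻¹ ∈ c • R'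
      rw [mem_smul_sylow]
      have e : c⁻¹ * (c * (⟨g * z * g⁻¹, hZgC h3⟩ : C) * c⁻¹) * c = ⟨g * z * g⁻¹, hZgC h3⟩ := by group
      rw [e]
      exact h4
    rw [← hh, mem_smul_sylow] at h1 h2
    have h3 : h⁻¹ * z * h⁻¹⁻¹ ∈ P := by rwa [inv_inv]
    have h4 := hz.2 h⁻¹ h3
    have h5 : (h⁻¹ * c * g) * z * (h⁻¹ * c * g)⁻¹ ∈ P := by
      have e : (h⁻¹ * c * g) * z * (h⁻¹ * c * g)⁻¹ = h⁻¹ * ((c : G) * (g * z * g⁻¹) * (c : G)⁻¹) * h := by group
      rwa [e]
    have h6 := hz.2 _ h5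
    calc (c : G) * g * z * ((c : G) * g)⁻¹ = h * ((h⁻¹ * c * g) * z * (h⁻¹ * c * g)⁻¹) * h⁻¹ := by group
      _ = h * z * h⁻¹ := by rw [h6]
      _ = h * (h⁻¹ * z * h⁻¹⁻¹) * h⁻¹ := by rw [h4]
      _ = z := by group

/-- counting with three cosets -/
theorem count (P : Sylow p G) (x w : G) (hw : w ∈ P) (hw1 : x * w * x⁻¹ ∈ P) (hw2 : x ^ 2 * w * (x ^ 2)⁻¹ ∈ P)
    (hx : ∀ z : G, IsIso P z → x * z * x⁻¹ = z)
    (h01 : ¬ IsIso P (w⁻¹ * (x * w * x⁻¹))) (h02 : ¬ IsIso P (w⁻¹ * (x ^ 2 * w * (x ^ 2)⁻¹))) :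
    2 * Nat.card (PClass p G) ≤ Nat.card (P : Subgroup G) := by
  classical
  set Z := isoSubgroup P with hZ
  have hx2 : ∀ z : G, IsIso P z → x ^ 2 * z * (x ^ 2)⁻¹ = z := by
    intro z hz
    calc x ^ 2 * z * (x ^ 2)⁻¹ = x * (x * z * x⁻¹) * x⁻¹ := by rw [pow_two]; group
      _ = z := by rw [hx z hz, hx z hz]
  have hxinv : ∀ z : G, IsIso P (x * z * x⁻¹) → IsIso P z := by
    intro z hz
    have h1 := hx _ hz
    have h2 : x * z * x⁻¹ = z := by
      have : x * (x * z * x⁻¹) * x⁻¹ = x * z * x⁻¹ := h1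
      have h3 : x⁻¹ * (x * (x * z * x⁻¹) * x⁻¹) * x = x⁻¹ * (x * z * x⁻¹) * x := by rw [this]
      calc x * z * x⁻¹ = x⁻¹ * (x * (x * z * x⁻¹) * x⁻¹) * x := by group
        _ = x⁻¹ * (x * z * x⁻¹) * x := h3
        _ = z := by group
    rwa [h2] at hz
  let u : Fin 4 → G := ![w, x * w * x⁻¹, x ^ 2 * w * (x ^ 2)⁻¹, 1]
  have huP : ∀ i, u i ∈ P := by
    intro i
    fin_cases i
    · exact hw
    · exact hw1
    · exact hw2
    · exact one_mem _
  -- `w` is not isolated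
  have hwn : ¬ IsIso P w := by
    intro h1
    apply h01
    rw [hx w h1, inv_mul_cancel]
    exact IsIso.one P
  have hw1n : ¬ IsIso P (x * w * x⁻¹) := fun h1 => hwn (hxinv w h1)
  have hw2n : ¬ IsIso P (x ^ 2 * w * (x ^ 2)⁻¹) := by
    intro h1
    apply hw1n
    apply hxinv
    have e : x * (x * w * x⁻¹) * x⁻¹ = x ^ 2 * w * (x ^ 2)⁻¹ := by rw [pow_two]; group
    rwa [e]
  have h12 : ¬ IsIso P ((x * w * x⁻¹)⁻¹ * (x ^ 2 * w * (x ^ 2)⁻¹)) := by
    intro h1
    apply h01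
    apply hxinv
    have e : x * (w⁻¹ * (x * w * x⁻¹)) * x⁻¹ = (x * w * x⁻¹)⁻¹ * (x ^ 2 * w * (x ^ 2)⁻¹) := by rw [pow_two]; group
    rwa [e]
  have hsym : ∀ a b : G, IsIso P (a⁻¹ * b) → IsIso P (b⁻¹ * a) := by
    intro a b h1
    have := h1.inv
    rwa [mul_inv_rev, inv_inv] at this
  have hdist : ∀ i j, IsIso P ((u i)⁻¹ * u j) → i = j := by
    intro i j h1
    by_contra hij
    fin_cases i <;> fin_cases j <;> first | exact hij rfl | skip
    · exact h01 h1
    · exact h02 h1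
    · exact hwn (by simpa [u] using (hsym _ _ h1))
    · exact h01 (hsym _ _ h1)
    · exact h12 h1
    · exact hw1n (by simpa [u] using (hsym _ _ h1))
    · exact h02 (hsym _ _ h1)
    · exact h12 (hsym _ _ h1)
    · exact hw2n (by simpa [u] using (hsym _ _ h1))
    · exact hwn (by simpa [u] using h1)
    · exact hw1n (by simpa [u] using h1)
    · exact hw2n (by simpa [u] using h1)
  have := Fintype.ofFinite (P : Subgroup G)
  have := Fintype.ofFinite Z
  have hfin : Finite (PClass p G) := Finite.of_surjective _ (toClass_surjective P)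
  have := Fintype.ofFinite (PClass p G)
  let φ : Z × Fin 4 → (P : Subgroup G) := fun q => ⟨u q.2 * q.1, mul_mem (huP q.2) (isoSubgroup_le P q.1.2)⟩
  have hφ : Function.Injective φ := by
    rintro ⟨z, i⟩ ⟨z', j⟩ h
    have h1 : u i * z = u j * z' := congrArg Subtype.val h
    have h2 : (u i)⁻¹ * u j = z * (z' : G)⁻¹ := by
      rw [eq_mul_inv_iff_mul_eq, mul_assoc, ← h1, inv_mul_cancel_left]
    have h3 : IsIso P ((u i)⁻¹ * u j) := by
      rw [h2]
      exact IsIso.mul z.2 (IsIso.inv z'.2)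
    have h4 := hdist i j h3
    subst h4
    have h5 : (z : G) = z' := mul_left_cancel h1
    exact Prod.ext (Subtype.ext h5) rfl
  let T : Finset (P : Subgroup G) := Finset.univ.image φ
  have hT : T.card = 4 * Fintype.card Z := by
    rw [Finset.card_image_of_injective _ hφ, Finset.card_univ, Fintype.card_prod, Fintype.card_fin, mul_comm]
  let A : Finset (PClass p G) := Finset.univ.image (fun z : Z => toClass P ⟨z, isoSubgroup_le P z.2⟩)
  let B : Finset (PClass p G) := Finset.univ.image (fun z : Z => toClass P (φ (z, 0)))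
  have hA : A.card ≤ Fintype.card Z := Finset.card_image_le
  have hB : B.card ≤ Fintype.card Z := Finset.card_image_le
  have hTAB : ∀ y ∈ T, toClass P y ∈ A ∪ B := by
    intro y hy
    obtain ⟨⟨z, i⟩, -, rfl⟩ := Finset.mem_image.1 hy
    rw [Finset.mem_union]
    have hB' : ∀ v : G, v * z * v⁻¹ = z → ∀ (i : Fin 4), u i = v * w * v⁻¹ → toClass P (φ (z, i)) ∈ B := by
      intro v hv i hi
      rw [Finset.mem_image]
      refine ⟨z, Finset.mem_univ _, ?_⟩
      rw [toClass_eq_iff]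
      refine ⟨v, ?_⟩
      show v * (w * z) * v⁻¹ = u i * z
      rw [hi]
      calc v * (w * z) * v⁻¹ = (v * w * v⁻¹) * (v * z * v⁻¹) := by group
        _ = _ := by rw [hv]
    fin_cases i
    · right
      exact hB' 1 (by simp) 0 (by simp [u])
    · right
      exact hB' x (hx z z.2) 1 rfl
    · right
      exact hB' (x ^ 2) (hx2 z z.2) 2 rfl
    · left
      rw [Finset.mem_image]
      refine ⟨z, Finset.mem_univ _, ?_⟩
      congr 1
      apply Subtype.ext
      show (z : G) = 1 * z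
      rw [one_mul]
  let s : Finset (P : Subgroup G) := Finset.univ.filter (fun y => toClass P y ∉ A ∪ B)
  have hsT : s.card + T.card ≤ Fintype.card (P : Subgroup G) := by
    rw [← Finset.card_union_of_disjoint, ← Finset.card_univ]
    · exact Finset.card_le_card (Finset.subset_univ _)
    · rw [Finset.disjoint_left]
      intro y hy hyT
      exact (Finset.mem_filter.1 hy).2 (hTAB y hyT)
  have hs : 2 * ((A ∪ B)ᶜ).card ≤ s.card := by
    have h1 : ∀ y ∈ s, toClass P y ∈ (A ∪ B)ᶜ := by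
      intro y hy
      rw [Finset.mem_compl]
      exact (Finset.mem_filter.1 hy).2
    rw [Finset.card_eq_sum_card_fiberwise h1, mul_comm, ← smul_eq_mul]
    apply Finset.card_nsmul_le_sum
    intro c hc
    obtain ⟨y, rfl⟩ := toClass_surjective P c
    rw [Finset.mem_compl] at hc
    have hy : ¬ IsIso P y := by
      intro h2
      apply hc
      rw [Finset.mem_union]
      left
      exact Finset.mem_image.2 ⟨⟨y, h2⟩, Finset.mem_univ _, rfl⟩
    have hex : ∃ g : G, g * y * g⁻¹ ∈ P ∧ g * y * g⁻¹ ≠ y := by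
      by_contra hcon
      push Not at hcon
      exact hy ⟨y.2, hcon⟩
    obtain ⟨g, hg, hgy⟩ := hex
    have hcl : toClass P ⟨g * y * g⁻¹, hg⟩ = toClass P y := by
      symm
      rw [toClass_eq_iff]
      exact ⟨g, rfl⟩
    have h3 : ({y, ⟨g * y * g⁻¹, hg⟩} : Finset (P : Subgroup G)) ⊆ s.filter (fun a => toClass P a = toClass P y) := by
      intro a ha
      rw [Finset.mem_insert, Finset.mem_singleton] at ha
      rw [Finset.mem_filter, Finset.mem_filter]
      rcases ha with rfl | rfl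
      · exact ⟨⟨Finset.mem_univ _, hc⟩, rfl⟩
      · refine ⟨⟨Finset.mem_univ _, ?_⟩, hcl⟩
        rw [hcl]; exact hc
    have h4 : ({y, ⟨g * y * g⁻¹, hg⟩} : Finset (P : Subgroup G)).card = 2 := by
      apply Finset.card_pair
      intro h5
      exact hgy (congrArg Subtype.val h5).symm
    rw [← h4]
    exact Finset.card_le_card h3
  have hk : Fintype.card (PClass p G) ≤ A.card + B.card + ((A ∪ B)ᶜ).card := by
    rw [← Finset.card_univ, ← Finset.union_compl (A ∪ B)]
    exact (Finset.card_union_le _ _).trans (Nat.add_le_add_right (Finset.card_union_le _ _) _)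
  rw [Nat.card_eq_fintype_card, Nat.card_eq_fintype_card]
  omega

theorem main_aux (P : Sylow p G) (D : Subgroup G) (hD : D ≤ (P : Subgroup G)) (g : G) (hp2 : p = 2)
    (hg : g ∈ Subgroup.normalizer (D : Set G)) (hgo : Nat.Coprime (orderOf g) p)
    (hgc : g ∉ Subgroup.centralizer (D : Set G)) :
    2 * Nat.card (PClass p G) ≤ Nat.card (P : Subgroup G) := by
  obtain ⟨x, hx1, hx2⟩ := exists_adjust P D hD g hg
  have hxD : ∀ d ∈ D, x * d * x⁻¹ ∈ D := by
    intro d hd
    rw [hx1 d hd]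
    exact (Subgroup.mem_normalizer_iff.1 hg d).1 hd
  -- iterate
  have hxk : ∀ (k : ℕ), ∀ d ∈ D, x ^ k * d * (x ^ k)⁻¹ = g ^ k * d * (g ^ k)⁻¹ ∧ x ^ k * d * (x ^ k)⁻¹ ∈ D := by
    intro k
    induction k with
    | zero => intro d hd; simpa using hd
    | succ k ih =>
      intro d hd
      obtain ⟨h1, h2⟩ := ih (x * d * x⁻¹) (hxD d hd)
      have e : x ^ (k + 1) * d * (x ^ (k + 1))⁻¹ = x ^ k * (x * d * x⁻¹) * (x ^ k)⁻¹ := by rw [pow_succ]; group
      rw [e]
      refine ⟨?_, h2⟩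
      rw [h1, hx1 d hd, pow_succ]; group
  set n := orderOf g with hn
  have hxn : ∀ d ∈ D, x ^ n * d * (x ^ n)⁻¹ = d := by
    intro d hd
    rw [(hxk n d hd).1, hn, pow_orderOf_eq_one]; group
  -- some coset moves
  have hw : ∃ w ∈ D, ¬ IsIso P (w⁻¹ * (x * w * x⁻¹)) := by
    by_contra hcon
    push Not at hcon
    apply hgc
    rw [Subgroup.mem_centralizer_iff]
    intro w hwD
    set z := w⁻¹ * (x * w * x⁻¹) with hz
    have hzi : IsIso P z := hcon w hwD
    have h1 : x * w * x⁻¹ = w * z := by rw [hz]; group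
    have h2 : ∀ k : ℕ, x ^ k * w * (x ^ k)⁻¹ = w * z ^ k := by
      intro k
      induction k with
      | zero => simp
      | succ k ih =>
        have e : x ^ (k + 1) * w * (x ^ (k + 1))⁻¹ = x * (x ^ k * w * (x ^ k)⁻¹) * x⁻¹ := by rw [pow_succ']; group
        have hzk : x * z ^ k * x⁻¹ = z ^ k := by
          rw [← conj_pow, hx2 z hzi]
        rw [e, ih]
        calc x * (w * z ^ k) * x⁻¹ = (x * w * x⁻¹) * (x * z ^ k * x⁻¹) := by group
          _ = w * z * z ^ k := by rw [h1, hzk]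
          _ = w * z ^ (k + 1) := by rw [mul_assoc, ← pow_succ']
    have h3 := h2 n
    rw [hxn w hwD] at h3
    have h4 : z ^ n = 1 := by
      have : w * 1 = w * z ^ n := by rw [mul_one]; exact h3
      exact (mul_left_cancel this).symm
    obtain ⟨j, hj⟩ := (IsPGroup.iff_orderOf.1 P.2) ⟨z, hzi.1⟩
    have hj' : orderOf z = p ^ j := by rw [← hj]; exact (Subgroup.orderOf_coe ⟨z, hzi.1⟩)
    have h5 : orderOf z = 1 := by
      apply Nat.eq_one_of_dvd_coprimes (k := orderOf z) (hgo.pow_right j) (orderOf_dvd_of_pow_eq_one h4)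
      rw [hj']
    rw [orderOf_eq_one_iff] at h5
    rw [h5, mul_one, hx1 w hwD] at h1
    rw [mul_inv_eq_iff_eq_mul] at h1
    exact h1.symm
  obtain ⟨w, hwD, hwn⟩ := hw
  refine count P x w (hD hwD) (hD (hxD w hwD)) (hD ((hxk 2 w hwD).2)) hx2 hwn ?_
  -- the second coset
  intro h02
  apply hwn
  set z := w⁻¹ * (x ^ 2 * w * (x ^ 2)⁻¹) with hz
  have h1 : x ^ 2 * w * (x ^ 2)⁻¹ = w * z := by rw [hz]; group
  have hz2 : x ^ 2 * z * (x ^ 2)⁻¹ = z := by
    calc x ^ 2 * z * (x ^ 2)⁻¹ = x * (x * z * x⁻¹) * x⁻¹ := by rw [pow_two]; group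
      _ = z := by rw [hx2 z h02, hx2 z h02]
  have h2 : ∀ k : ℕ, x ^ (2 * k) * w * (x ^ (2 * k))⁻¹ = w * z ^ k := by
    intro k
    induction k with
    | zero => simp
    | succ k ih =>
      have e : x ^ (2 * (k + 1)) * w * (x ^ (2 * (k + 1)))⁻¹ = x ^ 2 * (x ^ (2 * k) * w * (x ^ (2 * k))⁻¹) * (x ^ 2)⁻¹ := by
        have : x ^ (2 * (k + 1)) = x ^ 2 * x ^ (2 * k) := by rw [← pow_add]; congr 1; ring
        rw [this]; group
      have hzk : x ^ 2 * z ^ k * (x ^ 2)⁻¹ = z ^ k := by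
        rw [← conj_pow, hz2]
      rw [e, ih]
      calc x ^ 2 * (w * z ^ k) * (x ^ 2)⁻¹ = (x ^ 2 * w * (x ^ 2)⁻¹) * (x ^ 2 * z ^ k * (x ^ 2)⁻¹) := by group
        _ = w * z * z ^ k := by rw [h1, hzk]
        _ = w * z ^ (k + 1) := by rw [mul_assoc, ← pow_succ']
  have hodd : Odd n := by
    rw [hp2] at hgo
    exact Nat.coprime_two_right.1 hgo
  obtain ⟨m, hm⟩ := hodd
  have h3 := h2 (m + 1)
  have h4 : x ^ (2 * (m + 1)) * w * (x ^ (2 * (m + 1)))⁻¹ = x * w * x⁻¹ := by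
    have e1 : 2 * (m + 1) = 1 + n := by omega
    rw [e1, pow_add, pow_one]
    calc x * x ^ n * w * (x * x ^ n)⁻¹ = x * (x ^ n * w * (x ^ n)⁻¹) * x⁻¹ := by group
      _ = x * w * x⁻¹ := by rw [hxn w hwD]
  rw [h4] at h3
  rw [h3, inv_mul_cancel_left]
  exact (isoSubgroup P).pow_mem h02 (m + 1)

theorem hasNPC (P : Sylow 2 G) (h : Nat.card (P : Subgroup G) < 2 * Nat.card (PClass 2 G)) :
    Cfsg.HasNormalPComplement 2 G := by
  apply H2.Frobenius.hasNPC_of_local
  intro D hD g hg hgo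
  by_contra hgc
  obtain ⟨Q, hQ⟩ := hD.exists_le_sylow
  have h1 := main_aux Q D hQ g rfl hg hgo hgc
  have h2 := H2.Frobenius.card_sylow_eq P Q
  omega

/-- map from classes of `P` -/
def mapClass (P : Sylow p G) : ConjClasses (P : Subgroup G) → PClass p G :=
  Quotient.lift (toClass P) (by
    intro a b hab
    obtain ⟨c, hc⟩ := isConj_iff.1 hab
    rw [toClass_eq_iff]
    exact ⟨c, congrArg Subtype.val hc⟩)

theorem mapClass_mk (P : Sylow p G) (y : (P : Subgroup G)) : mapClass P (ConjClasses.mk y) = toClass P y := rfl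

theorem mapClass_surjective (P : Sylow p G) : Function.Surjective (mapClass P) := by
  intro c
  obtain ⟨y, rfl⟩ := toClass_surjective P c
  exact ⟨ConjClasses.mk y, rfl⟩

theorem card_pClass_le_classes (P : Sylow p G) : Nat.card (PClass p G) ≤ Nat.card (ConjClasses (P : Subgroup G)) := by
  have : Finite (ConjClasses (P : Subgroup G)) := Finite.of_surjective _ ConjClasses.mk_surjective
  exact Nat.card_le_card_of_surjective _ (mapClass_surjective P)

theorem card_pClass_eq_of_hasNPC (P : Sylow p G) (h : Cfsg.HasNormalPComplement p G) :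
    Nat.card (PClass p G) = Nat.card (ConjClasses (P : Subgroup G)) := by
  obtain ⟨Q, N, hN, hc⟩ := h
  have hNP := Cfsg.Agent.S3897.compl_inf P Q N hc
  have hcard : Nat.card N * Nat.card (P : Subgroup G) = Nat.card G := by
    rw [← hc.card_mul_card]
    congr 1
    rw [Sylow.card_eq_multiplicity, Sylow.card_eq_multiplicity]
  have hNPc : N.IsComplement' (P : Subgroup G) := by
    apply Subgroup.isComplement'_of_card_mul_and_disjoint hcard
    rw [disjoint_iff]; exact hNP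
  symm
  apply Nat.card_congr
  refine Equiv.ofBijective (mapClass P) ⟨?_, mapClass_surjective P⟩
  intro c d hcd
  obtain ⟨y, rfl⟩ := ConjClasses.mk_surjective c
  obtain ⟨z, rfl⟩ := ConjClasses.mk_surjective d
  rw [mapClass_mk, mapClass_mk, toClass_eq_iff] at hcd
  obtain ⟨g, hg⟩ := hcd
  obtain ⟨⟨n, q⟩, hnq⟩ := hNPc.2 g
  have hnq' : (n : G) * (q : G) = g := hnq
  rw [ConjClasses.mk_eq_mk_iff_isConj, isConj_iff]
  refine ⟨q, Subtype.ext ?_⟩
  show (q : G) * y * (q : G)⁻¹ = z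
  set y' := (q : G) * y * (q : G)⁻¹ with hy'
  have hy'P : y' ∈ (P : Subgroup G) := (q * y * q⁻¹).2
  have h4 : (n : G) * y' * (n : G)⁻¹ = z := by
    rw [← hg, ← hnq', hy']; group
  have h5 : (z : G) * y'⁻¹ ∈ N := by
    rw [← h4]
    have : (n : G) * y' * (n : G)⁻¹ * y'⁻¹ = n * (y' * (n : G)⁻¹ * y'⁻¹) := by group
    rw [this]
    exact mul_mem n.2 (hN.conj_mem _ (inv_mem n.2) _)
  have h6 : (z : G) * y'⁻¹ ∈ N ⊓ (P : Subgroup G) := Subgroup.mem_inf.2 ⟨h5, mul_mem z.2 (inv_mem hy'P)⟩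
  rw [hNP, Subgroup.mem_bot, mul_inv_eq_one] at h6
  exact h6.symm

end H68.TwoClass
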