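import Mathlib

/-!
S3219, piece BC6: the abstract counting argument.
-/

set_option autoImplicit false
set_option linter.style.haveILetI false

namespace H68.BC6

open Subgroup

universe u

theorem absC6 {G : Type u} [Group G] [Finite G] {t : G} (ht : t ≠ 1) (htt : t * t = 1) {f k : ℕ} (hf : f = 2 ^ k)
    (E : Subgroup G) (htE : t ∈ E) (hEe : ∀ e ∈ E, e * e = 1) (hEcard : Nat.card E = 2 * f)
    (hEn : ∀ g, g * t = t * g → ∀ e ∈ E, g * e * g⁻¹ ∈ E)
    (hall : ∀ s : G, s ≠ 1 → s * s = 1 → IsConj t s)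
    (h8 : ¬ 8 * f ∣ Nat.card (centralizer ({t} : Set G)))
    (hbd : ∀ s, s * t = t * s → s * s = 1 → s ∉ E → ∀ D : Subgroup G, D ≤ E → (∀ d ∈ D, s * d = d * s) → Nat.card D < f) :
    (2 * f - 1) ∣ (centralizer ({t} : Set G)).index := by
  haveI : Fact (Nat.Prime 2) := ⟨Nat.prime_two⟩
  have hinv : ∀ e ∈ E, e⁻¹ = e := fun e he => inv_eq_of_mul_eq_one_left (hEe e he)
  have hEc : ∀ a ∈ E, ∀ b ∈ E, a * b = b * a := by
    intro a ha b hb
    have h1 := hinv _ (mul_mem ha hb)
    rw [mul_inv_rev, hinv a ha, hinv b hb] at h1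
    exact h1.symm
  obtain ⟨L, hL⟩ : ∃ L, L = centralizer ({t} : Set G) := ⟨_, rfl⟩
  have hLm : ∀ g, g ∈ L ↔ g * t = t * g := fun g => by rw [hL]; exact mem_centralizer_singleton_iff
  rw [← hL] at h8 ⊢
  have hLinv : ∀ g, g * t = t * g → g⁻¹ * t = t * g⁻¹ := fun g hg => (hLm _).1 (inv_mem ((hLm g).2 hg))
  have hLN : L ≤ normalizer (E : Set G) := by
    intro g hg
    rw [mem_normalizer_iff]
    intro e
    refine ⟨hEn g ((hLm g).1 hg) e, fun h1 => ?_⟩
    have h2 := hEn g⁻¹ (hLinv g ((hLm g).1 hg)) _ h1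
    have h3 : g⁻¹ * (g * e * g⁻¹) * g⁻¹⁻¹ = e := by group
    rwa [h3] at h2
  have hEL : E ≤ L := fun e he => (hLm e).2 (hEc e he t htE)
  have hp2 : ∀ A : Subgroup G, (∀ a ∈ A, a * a = 1) → IsPGroup 2 A := by
    intro A hA x
    exact ⟨1, Subtype.ext (by rw [pow_one, pow_two]; exact hA x x.2)⟩
  have hfpos : 0 < f := by rw [hf]; positivity
  -- the key step
  have key : ∀ g, g * t * g⁻¹ ∈ E → g ∈ normalizer (E : Set G) := by
    intro g hg
    obtain ⟨A, hA⟩ : ∃ A, A = E.map (MulAut.conj g⁻¹).toMonoidHom := ⟨_, rfl⟩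
    have hAm : ∀ x, x ∈ A ↔ g * x * g⁻¹ ∈ E := by
      intro x
      rw [hA]
      constructor
      · rintro ⟨y, hy, rfl⟩
        have : g * ((MulAut.conj g⁻¹).toMonoidHom y) * g⁻¹ = y := by
          show g * (g⁻¹ * y * g⁻¹⁻¹) * g⁻¹ = y
          group
        rwa [this]
      · intro hx
        refine ⟨g * x * g⁻¹, hx, ?_⟩
        show g⁻¹ * (g * x * g⁻¹) * g⁻¹⁻¹ = x
        group
    have hAcard : Nat.card A = 2 * f := by
      rw [hA, card_map_of_injective (MulAut.conj g⁻¹).injective, hEcard]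
    have hAe : ∀ a ∈ A, a * a = 1 := by
      intro a ha
      have h1 := hEe _ ((hAm a).1 ha)
      have h2 : g * a * g⁻¹ * (g * a * g⁻¹) = g * (a * a) * g⁻¹ := by group
      rw [h2] at h1
      have h3 : a * a = g⁻¹ * (g * (a * a) * g⁻¹) * g := by group
      rw [h3, h1]; group
    have hAc : ∀ a ∈ A, ∀ b ∈ A, a * b = b * a := by
      intro a ha b hb
      have h1 := hEc _ ((hAm a).1 ha) _ ((hAm b).1 hb)
      have h2 : a * b = g⁻¹ * (g * a * g⁻¹ * (g * b * g⁻¹)) * g := by group
      rw [h2, h1]; group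
    have htA : t ∈ A := (hAm t).2 hg
    have hAL : A ≤ L := fun a ha => (hLm a).2 (hAc a ha t htA)
    -- Sylow
    have hA2 : IsPGroup 2 (A.subgroupOf L) := (hp2 A hAe).comap_subtype
    have hE2 : IsPGroup 2 (E.subgroupOf L) := (hp2 E hEe).comap_subtype
    obtain ⟨P, hP⟩ := hA2.exists_le_sylow
    haveI hEnorm : (E.subgroupOf L).Normal := by
      refine ⟨fun x hx y => ?_⟩
      rw [mem_subgroupOf] at hx ⊢
      exact hEn y ((hLm _).1 y.2) x hx
    have hEP : E.subgroupOf L ≤ (P : Subgroup L) := by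
      have h1 : IsPGroup 2 (E.subgroupOf L ⊔ (P : Subgroup L) : Subgroup L) := hE2.to_sup_of_normal_left P.2
      have h2 := P.3 h1 le_sup_right
      rw [← h2]
      exact le_sup_left
    obtain ⟨j, hj⟩ := IsPGroup.iff_card.1 P.2
    have hjL : 2 ^ j ∣ Nat.card L := by rw [← hj]; exact (P : Subgroup L).card_subgroup_dvd_card
    have hj2 : j ≤ k + 2 := by
      by_contra hcon
      apply h8
      have : 8 * f = 2 ^ (k + 3) := by rw [hf]; ring
      rw [this]
      exact (pow_dvd_pow 2 (by omega)).trans hjL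
    have hcE : Nat.card (E.subgroupOf L) = 2 * f := by
      rw [← hEcard]; exact Nat.card_congr (subgroupOfEquivOfLe hEL).toEquiv
    have hcA : Nat.card (A.subgroupOf L) = 2 * f := by
      rw [← hAcard]; exact Nat.card_congr (subgroupOfEquivOfLe hAL).toEquiv
    have hrel : ∀ B D : Subgroup L, B ≤ D → Nat.card B * B.relIndex D = Nat.card D := by
      intro B D hBD
      have h1 := relIndex_mul_relIndex (⊥ : Subgroup L) B D bot_le hBD
      rwa [relIndex_bot_left, relIndex_bot_left] at h1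
    have h3 := hrel _ _ hEP
    rw [hcE, hj] at h3
    have h4 : (E.subgroupOf L).relIndex (P : Subgroup L) ≤ 2 := by
      have h5 : 2 ^ j ≤ 2 ^ (k + 2) := Nat.pow_le_pow_right (by norm_num) hj2
      rw [← h3] at h5
      have h6 : 2 ^ (k + 2) = 2 * f * 2 := by rw [hf]; ring
      rw [h6] at h5
      exact Nat.le_of_mul_le_mul_left h5 (by omega)
    have h5 : (E.subgroupOf L).relIndex (A.subgroupOf L) ≤ 2 :=
      (relIndex_le_of_le_right hP (by rw [relIndex]; exact index_ne_zero_of_finite)).trans h4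
    have h6 := hrel (E.subgroupOf L ⊓ A.subgroupOf L) (A.subgroupOf L) inf_le_right
    rw [inf_relIndex_right, hcA] at h6
    have h7 : f ≤ Nat.card (E.subgroupOf L ⊓ A.subgroupOf L : Subgroup L) := by
      by_contra hcon
      push Not at hcon
      have h8' : Nat.card (E.subgroupOf L ⊓ A.subgroupOf L : Subgroup L) * (E.subgroupOf L).relIndex (A.subgroupOf L) < f * 2 := by
        calc _ ≤ Nat.card (E.subgroupOf L ⊓ A.subgroupOf L : Subgroup L) * 2 := Nat.mul_le_mul_left _ h5
          _ < f * 2 := by omega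
      omega
    have h9 : Nat.card (E.subgroupOf L ⊓ A.subgroupOf L : Subgroup L) = Nat.card (E ⊓ A : Subgroup G) := by
      rw [← Nat.card_congr (subgroupOfEquivOfLe (inf_le_left.trans hEL : E ⊓ A ≤ L)).toEquiv]
      congr 1
    rw [h9] at h7
    -- `A = E`
    have hAE : A ≤ E := by
      by_contra hcon
      obtain ⟨s, hsA, hsE⟩ := SetLike.not_le_iff_exists.1 hcon
      have h10 := hbd s (hAc s hsA t htA) (hAe s hsA) hsE (E ⊓ A) inf_le_left
        (fun d hd => hAc s hsA d (mem_inf.1 hd).2)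
      omega
    have hAE' : A = E := eq_of_le_of_card_ge hAE (by rw [hAcard, hEcard])
    rw [mem_normalizer_iff]
    intro x
    constructor
    · intro hx
      exact (hAm x).1 (by rw [hAE']; exact hx)
    · intro hx
      rw [← hAE']
      exact (hAm x).2 hx
  -- orbit counting
  obtain ⟨N, hN⟩ : ∃ N, N = normalizer (E : Set G) := ⟨_, rfl⟩
  rw [← hN] at hLN
  letI : MulAction N G := MulAction.compHom G (MulAut.conj.comp N.subtype)
  have hact : ∀ (n : N) (x : G), n • x = (n : G) * x * (n : G)⁻¹ := fun n x => rfl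
  have hst : MulAction.stabilizer N t = L.subgroupOf N := by
    ext n
    rw [MulAction.mem_stabilizer_iff, hact, mem_subgroupOf, hLm, mul_inv_eq_iff_eq_mul]
  have horb : MulAction.orbit N t = (E : Set G) \ {1} := by
    ext e
    constructor
    · rintro ⟨n, rfl⟩
      refine ⟨?_, ?_⟩
      · have h1 : (n : G) ∈ normalizer (E : Set G) := hN ▸ n.2
        exact (mem_normalizer_iff.1 h1 t).1 htE
      · intro h1
        have h2 : (n : G) * t * (n : G)⁻¹ = 1 := h1
        apply ht
        have h3 : t = (n : G)⁻¹ * ((n : G) * t * (n : G)⁻¹) * n := by group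
        rw [h3, h2]; group
    · rintro ⟨he, he1⟩
      obtain ⟨g, hg⟩ := isConj_iff.1 (hall e he1 (hEe e he))
      have h1 : g ∈ N := by rw [hN]; exact key g (by rw [hg]; exact he)
      exact ⟨⟨g, h1⟩, hg⟩
  have hidx := MulAction.index_stabilizer N t
  rw [hst, horb] at hidx
  have hcard : ((E : Set G) \ {1}).ncard = 2 * f - 1 := by
    rw [Set.ncard_sdiff_singleton_of_mem (one_mem E)]
    congr 1
  rw [hcard] at hidx
  rw [← relIndex_mul_index hLN, relIndex, hidx]
  exact Dvd.intro _ rfl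

end H68.BC6
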