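import Mathlib
import Cfsg.Agent.Lib.H50.AutPSL2
import Cfsg.Agent.Lib.H50.FieldAut
import Cfsg.Agent.Lib.H25.SL2Card

/-! An upper bound for the order of `Aut(PSL₂(2ⁿ))`. -/

set_option autoImplicit false
set_option linter.unusedSectionVars false
set_option linter.style.haveILetI false

namespace H68.ConjEq

open Matrix H50.PSLBasic

section aut

variable {F : Type*} [Field F] [Fintype F]

theorem psi_eq_of_smul (g h : GL (Fin 2) F) (σ : F ≃+* F) {c : F} (hc : c ≠ 0)
    (hg : (g : Matrix (Fin 2) (Fin 2) F) = c • (h : Matrix (Fin 2) (Fin 2) F)) :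
    psi g σ = psi h σ := by
  have h1 : (h : Matrix (Fin 2) (Fin 2) F) * ((h⁻¹ : GL (Fin 2) F) : Matrix (Fin 2) (Fin 2) F) = 1 := by
    rw [← Units.val_mul, mul_inv_cancel, Units.val_one]
  have h2 : ((h⁻¹ : GL (Fin 2) F) : Matrix (Fin 2) (Fin 2) F) * (h : Matrix (Fin 2) (Fin 2) F) = 1 := by
    rw [← Units.val_mul, inv_mul_cancel, Units.val_one]
  let k : GL (Fin 2) F := ⟨c • (h : Matrix (Fin 2) (Fin 2) F),
    c⁻¹ • ((h⁻¹ : GL (Fin 2) F) : Matrix (Fin 2) (Fin 2) F),
    by rw [Matrix.smul_mul, Matrix.mul_smul, h1, smul_smul, mul_inv_cancel₀ hc, one_smul],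
    by rw [Matrix.smul_mul, Matrix.mul_smul, h2, smul_smul, inv_mul_cancel₀ hc, one_smul]⟩
  have hk : g = k := Units.ext hg
  have hki : ((k⁻¹ : GL (Fin 2) F) : Matrix (Fin 2) (Fin 2) F) =
    c⁻¹ • ((h⁻¹ : GL (Fin 2) F) : Matrix (Fin 2) (Fin 2) F) := rfl
  have hkv : (k : Matrix (Fin 2) (Fin 2) F) = c • (h : Matrix (Fin 2) (Fin 2) F) := rfl
  apply MulEquiv.ext
  intro x
  obtain ⟨s, rfl⟩ := QuotientGroup.mk_surjective x
  rw [psi_mk, psi_mk]
  congr 1
  apply Subtype.ext
  rw [semiSL_coe, semiSL_coe, hk, hki, hkv, Matrix.smul_mul, Matrix.smul_mul, Matrix.mul_smul, smul_smul,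
    mul_inv_cancel₀ hc, one_smul]

theorem card_mulAut_le {n : ℕ} (hF : Fintype.card F = 2 ^ n) :
    Nat.card (MulAut (ProjectiveSpecialLinearGroup (Fin 2) F)) ≤
      Nat.card (SpecialLinearGroup (Fin 2) F) * n := by
  classical
  haveI : Fact (Nat.Prime 2) := ⟨Nat.prime_two⟩
  haveI : CharP F 2 := H50.FieldAut.charP_of_card (p := 2) (by rw [Nat.card_eq_fintype_card, hF])
  have hn0 : n ≠ 0 := by
    rintro rfl
    have := Fintype.one_lt_card (α := F)
    rw [hF] at this
    norm_num at this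
  have h2 : Nat.card (F ≃+* F) = n :=
    H50.FieldAut.card_ringAut 2 (by rw [Nat.card_eq_fintype_card, hF])
  haveI : Finite (F ≃+* F) := Nat.finite_of_card_ne_zero (by rw [h2]; exact hn0)
  have hsurj : Function.Surjective (fun p : (SpecialLinearGroup (Fin 2) F) × (F ≃+* F) =>
      (psi (SpecialLinearGroup.toGL p.1 : GL (Fin 2) F) p.2 : MulAut (ProjectiveSpecialLinearGroup (Fin 2) F))) := by
    intro α
    obtain ⟨g, σ, h | ⟨h, -⟩⟩ := H50.AutPSL2.aut_psl (p := 2) (le_refl 2) α
    · have hd : (g : Matrix (Fin 2) (Fin 2) F).det ≠ 0 := by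
        intro h0
        have h1 : (g : Matrix (Fin 2) (Fin 2) F) * ((g⁻¹ : GL (Fin 2) F) : Matrix (Fin 2) (Fin 2) F) = 1 := by
          rw [← Units.val_mul, mul_inv_cancel, Units.val_one]
        have := congrArg Matrix.det h1
        rw [Matrix.det_mul, h0, zero_mul, Matrix.det_one] at this
        exact zero_ne_one this
      obtain ⟨c, hc⟩ := FiniteField.isSquare_of_char_two (F := F) (ringChar.eq F 2)
        (g : Matrix (Fin 2) (Fin 2) F).det
      have hc0 : c ≠ 0 := by
        rintro rfl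
        rw [zero_mul] at hc
        exact hd hc
      have hdet : (c⁻¹ • (g : Matrix (Fin 2) (Fin 2) F)).det = 1 := by
        rw [Matrix.det_smul, Fintype.card_fin, hc]
        field_simp
      refine ⟨(⟨_, hdet⟩, σ), ?_⟩
      rw [h]
      refine (psi_eq_of_smul g _ σ hc0 ?_).symm
      change (g : Matrix (Fin 2) (Fin 2) F) = c • (c⁻¹ • (g : Matrix (Fin 2) (Fin 2) F))
      rw [smul_smul, mul_inv_cancel₀ hc0, one_smul]
    · omega
  have h1 := Nat.card_le_card_of_surjective _ hsurj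
  rwa [Nat.card_prod, h2] at h1

end aut

/-- a group with a normal subgroup isomorphic to `PSL₂(2ⁿ)` of index `n` with trivial centralizer -/
theorem equiv_mulAut {X : Type*} [Group X] [Finite X] {L : Subgroup X} [L.Normal] {n : ℕ}
    (hc : ∀ g : X, (∀ x ∈ L, g * x = x * g) → g = 1) {F : Type*} [Field F] [Fintype F]
    (hF : Fintype.card F = 2 ^ n) (e : L ≃* ProjectiveSpecialLinearGroup (Fin 2) F)
    (hX : Nat.card X = Nat.card L * n) :
    Nonempty (X ≃* MulAut (ProjectiveSpecialLinearGroup (Fin 2) F)) := by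
  haveI : Fact (Nat.Prime 2) := ⟨Nat.prime_two⟩
  haveI : CharP F 2 := H50.FieldAut.charP_of_card (p := 2) (by rw [Nat.card_eq_fintype_card, hF])
  let f : X →* MulAut (ProjectiveSpecialLinearGroup (Fin 2) F) :=
    (MulAut.congr e).toMonoidHom.comp MulAut.conjNormal
  have hf : Function.Injective f := by
    refine (MulAut.congr e).injective.comp ?_
    rw [injective_iff_map_eq_one]
    intro g hg
    apply hc
    intro x hx
    have h1 : MulAut.conjNormal g (⟨x, hx⟩ : L) = ⟨x, hx⟩ := by rw [hg]; rfl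
    have h2 := congrArg Subtype.val h1
    rw [MulAut.conjNormal_apply] at h2
    rw [← mul_inv_eq_iff_eq_mul]
    exact h2
  haveI : Finite (MulAut (ProjectiveSpecialLinearGroup (Fin 2) F)) :=
    Finite.of_injective (fun s : MulAut (ProjectiveSpecialLinearGroup (Fin 2) F) =>
      (s : ProjectiveSpecialLinearGroup (Fin 2) F → ProjectiveSpecialLinearGroup (Fin 2) F)) DFunLike.coe_injective
  have h1 := card_mulAut_le hF
  have h2 : Nat.card (SpecialLinearGroup (Fin 2) F) = Nat.card L := by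
    classical
    rw [Nat.card_congr e.toEquiv, H25.SL2Card.card_PSL2_char_two, H25.SL2Card.card_SL2]
  rw [h2, ← hX] at h1
  have h3 : Nat.card X = Nat.card (MulAut (ProjectiveSpecialLinearGroup (Fin 2) F)) :=
    le_antisymm (Nat.card_le_card_of_injective _ hf) h1
  exact ⟨MulEquiv.ofBijective f ((Nat.bijective_iff_injective_and_card _).2 ⟨hf, h3⟩)⟩

end H68.ConjEq
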