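import Mathlib
import Cfsg.Agent.Lib.H68.ConjEqD
import Cfsg.Agent.Lib.H83.BdC3
import Cfsg.Agent.Lib.H24.SzIso
import Cfsg.Agent.Lib.H24.U3Syl

/-! The strongly embedded case. -/

set_option autoImplicit false
set_option linter.unusedSectionVars false
set_option linter.style.haveILetI false

namespace H68.ConjEq

universe u

variable {X : Type u} [Group X] [Finite X]

theorem mem_of_sq_norm [Fact (Nat.Prime 2)] {P : Sylow 2 X} {x : X} (hx : x * x = 1)
    (h : x ∈ Subgroup.normalizer ((P : Subgroup X) : Set X)) : x ∈ (P : Subgroup X) := by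
  have h2 : IsPGroup 2 (Subgroup.zpowers x) := by
    rintro ⟨y, n, rfl⟩
    refine ⟨1, Subtype.ext ?_⟩
    change (x ^ n) ^ (2 ^ 1) = 1
    rw [pow_one, pow_two, ← zpow_add, ← mul_two, mul_comm, zpow_mul, zpow_two, hx, one_zpow]
  have h3 := h2.inf_normalizer_sylow P
  have h4 : x ∈ Subgroup.zpowers x ⊓ Subgroup.normalizer (P : Set X) :=
    Subgroup.mem_inf.2 ⟨Subgroup.mem_zpowers _, h⟩
  rw [h3] at h4
  exact (Subgroup.mem_inf.1 h4).2

theorem exists_inv_of_even {H : Subgroup X} (h : Even (Nat.card H)) : ∃ s ∈ H, orderOf s = 2 := by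
  haveI : Fact (Nat.Prime 2) := ⟨Nat.prime_two⟩
  obtain ⟨x, hx⟩ := exists_prime_orderOf_dvd_card' (G := H) 2 (even_iff_two_dvd.1 h)
  exact ⟨x, x.2, by rw [Subgroup.orderOf_coe]; exact hx⟩

theorem se_norm (h : CE X) {P : Sylow 2 X} (hel : ∀ x ∈ (P : Subgroup X), x * x = 1)
    (h1 : (P : Subgroup X) ≠ ⊥) (hPn : ¬ (P : Subgroup X).Normal) :
    Cfsg.IsStronglyEmbedded (Subgroup.normalizer ((P : Subgroup X) : Set X)) := by
  haveI : Fact (Nat.Prime 2) := ⟨Nat.prime_two⟩
  refine ⟨fun htop => hPn (Subgroup.normalizer_eq_top_iff.1 htop), ?_, ?_⟩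
  · obtain ⟨x, hx, hx1⟩ := (Subgroup.bot_or_exists_ne_one (P : Subgroup X)).resolve_left h1
    have h2 : orderOf (x : X) = 2 := order_two (hel x hx) hx1
    have h3 : orderOf (⟨x, Subgroup.le_normalizer hx⟩ :
        (Subgroup.normalizer ((P : Subgroup X) : Set X))) = 2 := by
      rw [← Subgroup.orderOf_coe]; exact h2
    have h4 := orderOf_dvd_natCard (⟨x, Subgroup.le_normalizer hx⟩ :
        (Subgroup.normalizer ((P : Subgroup X) : Set X)))
    rw [h3] at h4
    exact even_iff_two_dvd.2 h4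
  · intro g hg
    by_contra hcon
    rw [Nat.not_odd_iff_even] at hcon
    obtain ⟨s, hs, hs2⟩ := exists_inv_of_even hcon
    rw [Subgroup.mem_inf, mem_map_conj] at hs
    have k1 := mem_of_sq_norm (sq_of_order hs2) hs.1
    have e : g⁻¹ * s * g * (g⁻¹ * s * g) = 1 := by
      calc g⁻¹ * s * g * (g⁻¹ * s * g) = g⁻¹ * (s * s) * g := by group
        _ = 1 := by rw [sq_of_order hs2]; group
    have k2 := mem_of_sq_norm e hs.2
    apply hg
    apply mem_norm_of_conj h hel k2 (fun h => ne_one_of_order hs2 (by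
      calc s = g * (g⁻¹ * s * g) * g⁻¹ := by group
        _ = 1 := by rw [h]; group))
    have : g * (g⁻¹ * s * g) * g⁻¹ = s := by group
    rw [this]
    exact k1

structure NN (P : Sylow 2 X) : Prop where
  se : Cfsg.IsStronglyEmbedded (Subgroup.normalizer ((P : Subgroup X) : Set X))
  core : (Subgroup.normalizer ((P : Subgroup X) : Set X)).normalCore = ⊥
  cent : ∀ g : X, (∀ s ∈ (P : Subgroup X), g * s = s * g) → g ∈ (P : Subgroup X)
  index : (Subgroup.normalizer ((P : Subgroup X) : Set X)).index = Nat.card (P : Subgroup X) + 1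
  concl : ∃ L : Subgroup X, L.Normal ∧ Odd L.index ∧ H16.BS.Concl L

theorem concl_of_equiv {L M : Type u} [Group L] [Group M] (e : L ≃* M) (h : H16.BS.Concl L) : H16.BS.Concl M := by
  rcases h with ⟨F, iF, iFf, hc, ⟨e1⟩⟩ | ⟨F, iF, iFf, m, hm, hF, ⟨e1⟩⟩ | ⟨F, iF, iFf, n, hn, hF, ⟨e1⟩⟩
  · exact Or.inl ⟨F, iF, iFf, hc, ⟨e.symm.trans e1⟩⟩
  · exact Or.inr (Or.inl ⟨F, iF, iFf, m, hm, hF, ⟨e.symm.trans e1⟩⟩)
  · exact Or.inr (Or.inr ⟨F, iF, iFf, n, hn, hF, ⟨e.symm.trans e1⟩⟩)

theorem nonnormal (main : H16.BD.BenderThm.{u, u}) (main1 : H16.BSSimple.RankOneThm.{u, u})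
    (h : CE X) (hO : Cfsg.oddCore X = ⊥) {P : Sylow 2 X}
    (hel : ∀ x ∈ (P : Subgroup X), x * x = 1) (h4 : 4 ≤ Nat.card (P : Subgroup X))
    (hPn : ¬ (P : Subgroup X).Normal) : NN P := by
  haveI : Fact (Nat.Prime 2) := ⟨Nat.prime_two⟩
  set H := Subgroup.normalizer ((P : Subgroup X) : Set X) with hH
  have hPb : (P : Subgroup X) ≠ ⊥ := by
    intro hb
    rw [hb, Subgroup.card_bot] at h4
    omega
  have hSE := se_norm h hel hPb hPn
  obtain ⟨x, hx, y, hy, hx1, hy1, hxy⟩ := exists_pair h4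
  have hF : H16.BD.Four X := ⟨x, y, hxy, order_two (hel x hx) hx1, order_two (hel y hy) hy1,
    comm_of_sq hel hx hy⟩
  have B := H83.BdC.beta_of_se main hSE hF
  obtain ⟨Q, q1, q2, q3, q4, q5, q6, q7⟩ := H83.BdC.exists_Q B
  have hcore : H.normalCore = ⊥ := by
    have h1 := H83.BdC.core_odd B
    have h2 : H.normalCore ≤ Cfsg.oddCore X := H1.Cores.le_pPrimeCore (Subgroup.normalCore_normal H) (by
      rw [Nat.coprime_comm, Nat.coprime_two_left]; exact h1)
    rwa [hO, le_bot_iff] at h2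
  have hQP : Q = (P : Subgroup X) := by
    have hQ2 : IsPGroup 2 Q := H83.BdC.isPGroup_of_core hcore q7
    have hPQ : (P : Subgroup X) ≤ Q := by
      intro z hz
      by_cases hz1 : z = 1
      · rw [hz1]; exact Q.one_mem
      · exact q6 z (Subgroup.le_normalizer hz) (order_two (hel z hz) hz1)
    exact P.is_maximal' hQ2 hPQ
  subst hQP
  obtain ⟨g₀, hg₀⟩ : ∃ g : X, g ∉ H := by
    by_contra hcon
    push Not at hcon
    exact hSE.1 (eq_top_iff.2 fun x _ => hcon x)
  refine ⟨hSE, hcore, ?_, ?_, ?_⟩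
  · intro g hg
    have hgH : g ∈ H := by
      apply Subgroup.mem_normalizer_fintype
      intro s hs
      rw [hg s hs, mul_inv_cancel_right]
      exact hs
    have hgg : g * g₀ ∉ H := fun h1 => hg₀ ((Subgroup.mul_mem_cancel_left H hgH).1 h1)
    obtain ⟨u, hu, hu1⟩ := q4 g₀ (g * g₀) hg₀ hgg
    -- `z = u⁻¹ g` fixes every coset
    have hz : ∀ b : X, b⁻¹ * (u⁻¹ * g) * b ∈ H := by
      intro b
      by_cases hb : b ∈ H
      · exact H.mul_mem (H.mul_mem (H.inv_mem hb) (H.mul_mem (H.inv_mem (Subgroup.le_normalizer hu)) hgH)) hb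
      · obtain ⟨v, hv, hv1⟩ := q4 g₀ b hg₀ hb
        -- b⁻¹ v g₀ ∈ H
        have e1 : v * (u⁻¹ * g) = (u⁻¹ * g) * v := by
          have c1 := comm_of_sq hel hv (Subgroup.inv_mem _ hu)
          have c2 := hg v hv
          calc v * (u⁻¹ * g) = (v * u⁻¹) * g := by group
            _ = u⁻¹ * (v * g) := by rw [c1]; group
            _ = u⁻¹ * (g * v) := by rw [c2]
            _ = _ := by group
        have e2 : b⁻¹ * (u⁻¹ * g) * b = (b⁻¹ * (v * g₀)) * (g₀⁻¹ * (u⁻¹ * g) * g₀) * (b⁻¹ * (v * g₀))⁻¹ := by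
          calc b⁻¹ * (u⁻¹ * g) * b = b⁻¹ * ((u⁻¹ * g) * v) * v⁻¹ * b := by group
            _ = b⁻¹ * (v * (u⁻¹ * g)) * v⁻¹ * b := by rw [e1]
            _ = _ := by group
        rw [e2]
        refine H.mul_mem (H.mul_mem hv1 ?_) (H.inv_mem hv1)
        have e3 : g₀⁻¹ * (u⁻¹ * g) * g₀ = ((g * g₀)⁻¹ * (u * g₀))⁻¹ := by group
        rw [e3]
        exact H.inv_mem hu1
    have h5 : u⁻¹ * g ∈ H.normalCore := by
      intro b
      have := hz b⁻¹
      rwa [inv_inv] at this
    rw [hcore, Subgroup.mem_bot] at h5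
    have h6 : g = u := by
      calc g = u * (u⁻¹ * g) := by group
        _ = u := by rw [h5, mul_one]
    rw [h6]; exact hu
  · let f : Option (P : Subgroup X) → X ⧸ H := fun o => match o with
      | none => QuotientGroup.mk 1
      | some u => QuotientGroup.mk ((u : X) * g₀)
    have hf : Function.Bijective f := by
      constructor
      · have key : ∀ u : (P : Subgroup X), (QuotientGroup.mk ((u : X) * g₀) : X ⧸ H) ≠ QuotientGroup.mk 1 := by
          intro u hu
          rw [eq_comm, QuotientGroup.eq] at hu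
          apply hg₀
          have h1 : (u : X) ∈ H := Subgroup.le_normalizer u.2
          have h2 : (u : X) * g₀ ∈ H := by simpa using hu
          exact (Subgroup.mul_mem_cancel_left H h1).1 h2
        rintro (_ | u) (_ | v) huv
        · rfl
        · exact absurd huv.symm (key v)
        · exact absurd huv (key u)
        · have h1 : (QuotientGroup.mk ((u : X) * g₀) : X ⧸ H) = QuotientGroup.mk ((v : X) * g₀) := huv
          rw [QuotientGroup.eq] at h1
          have h2 : g₀⁻¹ * (((u : X)⁻¹ * v) * g₀) ∈ H := by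
            have e : g₀⁻¹ * (((u : X)⁻¹ * v) * g₀) = ((u : X) * g₀)⁻¹ * (v * g₀) := by group
            rw [e]; exact h1
          have h3 := q5 g₀ hg₀ ((u : X)⁻¹ * v) ((P : Subgroup X).mul_mem (Subgroup.inv_mem _ u.2) v.2) h2
          rw [hcore, Subgroup.mem_bot, inv_mul_eq_one] at h3
          rw [Subtype.ext h3]
      · intro c
        obtain ⟨b, rfl⟩ := QuotientGroup.mk_surjective c
        by_cases hb : b ∈ H
        · refine ⟨none, ?_⟩
          change (QuotientGroup.mk 1 : X ⧸ H) = QuotientGroup.mk b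
          rw [QuotientGroup.eq]; simpa using hb
        · obtain ⟨v, hv, hv1⟩ := q4 g₀ b hg₀ hb
          refine ⟨some ⟨v, hv⟩, ?_⟩
          change (QuotientGroup.mk (v * g₀) : X ⧸ H) = QuotientGroup.mk b
          rw [eq_comm, QuotientGroup.eq]
          exact hv1
    have h1 := Nat.card_eq_of_bijective f hf
    rw [Finite.card_option] at h1
    rw [h1]
    rfl
  · obtain ⟨L, hL, hodd, hcl⟩ := H83.BdC.concl_of_beta main1 B
    have hinj : Function.Injective (MulAction.toPermHom X (X ⧸ H)) := by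
      rw [← MonoidHom.ker_eq_bot_iff, ← Subgroup.normalCore_eq_ker]
      exact hcore
    let e : X ≃* (MulAction.toPermHom X (X ⧸ H)).range := MonoidHom.ofInjective hinj
    refine ⟨L.map e.symm.toMonoidHom, hL.map _ e.symm.surjective, ?_, ?_⟩
    · have : (L.map e.symm.toMonoidHom).index = L.index := Subgroup.index_map_equiv L e.symm
      rw [this]; exact hodd
    · exact concl_of_equiv (e.symm.subgroupMap L) hcl

end H68.ConjEq
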