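import Mathlib
import Cfsg.Agent.Lib.H68.ConjEqF
import Cfsg.Agent.Lib.H68.ConjEqE
import Cfsg.Agent.Lib.H21.PSLTransport
import Cfsg.Agent.Lib.H6.SmallIsoA

/-! The strongly embedded case: identification. -/

set_option autoImplicit false
set_option linter.unusedSectionVars false
set_option linter.style.haveILetI false

namespace H68.ConjEq

universe u

theorem two_pow_le {n m a b : ℕ} (ha : Odd a) (h : 2 ^ n * a = 2 ^ m * b) : m ≤ n := by
  by_contra hcon
  push Not at hcon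
  obtain ⟨d, rfl⟩ : ∃ d, m = n + 1 + d := ⟨m - n - 1, by omega⟩
  have h1 : 2 ^ n * a = 2 ^ n * (2 * (2 ^ d * b)) := by rw [h]; ring
  have h2 : a = 2 * (2 ^ d * b) := Nat.eq_of_mul_eq_mul_left (by positivity) h1
  rw [h2] at ha
  exact (Nat.not_odd_iff_even.2 (even_two_mul _)) ha

theorem two_pow_inj {n m a b : ℕ} (ha : Odd a) (hb : Odd b) (h : 2 ^ n * a = 2 ^ m * b) : n = m :=
  le_antisymm (two_pow_le hb h.symm) (two_pow_le ha h)

theorem psl_of_concl {L : Type u} [Group L] [Finite L] (hL : H16.BS.Concl L) (h64 : ¬ 64 ∣ Nat.card L) :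
    ∃ (F : Type) (_ : Field F) (_ : Fintype F) (m : ℕ), 2 ≤ m ∧ Fintype.card F = 2 ^ m ∧
      Nonempty (L ≃* Matrix.ProjectiveSpecialLinearGroup (Fin 2) F) := by
  classical
  rcases hL with ⟨F, iF, iFf, ⟨m, hm, hc⟩, e⟩ | ⟨F, iF, iFf, m, hm, hF, ⟨e⟩⟩ | ⟨F, iF, iFf, n, hn, hF, ⟨e⟩⟩
  · exact ⟨F, iF, iFf, m, hm, hc, e⟩
  · exfalso
    apply h64
    have e' : L ≃* Cfsg.Sz F m := e.trans (H24.SzIso.equiv hF hm).symm
    haveI : Finite (Cfsg.Sz F m) := Finite.of_equiv _ e'.toEquiv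
    have h1 := H8.SuzGroup.card_stab hm hF
    have h2 := Subgroup.card_subgroup_dvd_card (MulAction.stabilizer (Cfsg.Sz F m) (Cfsg.suzukiPointInfinity F))
    rw [h1, ← Nat.card_congr e'.toEquiv] at h2
    refine dvd_trans ?_ h2
    apply Dvd.dvd.mul_right
    rw [← pow_mul]
    calc 64 = 2 ^ 6 := by norm_num
      _ ∣ 2 ^ ((2 * m + 1) * 2) := pow_dvd_pow 2 (by omega)
  · exfalso
    apply h64
    haveI : Fact (Nat.Prime 2) := ⟨Nat.prime_two⟩
    haveI : CharP F 2 := H50.FieldAut.charP_of_card (p := 2) (f := n * 2) (by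
      rw [Nat.card_eq_fintype_card, hF, ← pow_mul])
    have two : (2 : F) = 0 := CharTwo.two_eq_zero
    haveI : Finite (Cfsg.PSU 3 F (2 ^ n)) := Finite.of_equiv _ e.toEquiv
    obtain ⟨S⟩ : Nonempty (Sylow 2 (Cfsg.PSU 3 F (2 ^ n))) := inferInstance
    obtain ⟨e2⟩ := H24.U3Syl.main two hF hn rfl S
    have h1 : Nat.card S = (2 ^ n) ^ 3 := by
      rw [Nat.card_congr e2.toEquiv, H24.U3Syl.card_U two hF]
    have h2 : Nat.card S ∣ Nat.card L := by
      rw [Nat.card_congr e.toEquiv]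
      exact Subgroup.card_subgroup_dvd_card (S : Subgroup (Cfsg.PSU 3 F (2 ^ n)))
    rw [h1] at h2
    refine dvd_trans ?_ h2
    rw [← pow_mul]
    calc 64 = 2 ^ 6 := by norm_num
      _ ∣ 2 ^ (n * 3) := pow_dvd_pow 2 (by omega)

variable {X : Type u} [Group X] [Finite X]

theorem mem_of_odd_index {L : Subgroup X} (hL : L.Normal) (hodd : Odd L.index) {x : X} (hx : x * x = 1) :
    x ∈ L := by
  haveI := hL
  rw [← QuotientGroup.eq_one_iff]
  have h1 : orderOf (QuotientGroup.mk x : X ⧸ L) ∣ 2 := orderOf_dvd_of_pow_eq_one (by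
    rw [pow_two, ← QuotientGroup.mk_mul, hx]; rfl)
  have h2 : orderOf (QuotientGroup.mk x : X ⧸ L) ∣ L.index := orderOf_dvd_natCard _
  have h3 : (2 : ℕ).Coprime L.index := Nat.coprime_two_left.2 hodd
  have h4 : orderOf (QuotientGroup.mk x : X ⧸ L) = 1 := Nat.dvd_one.1 (h3 ▸ Nat.dvd_gcd h1 h2)
  exact orderOf_eq_one_iff.1 h4

theorem CE.mem_of_order (h : CE X) {L : Subgroup X} (hL : L.Normal) {p : ℕ} {d d' : X}
    (hd : orderOf d = p) (hd' : orderOf d' = p) (hdL : d' ∈ L) : d ∈ L := by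
  obtain ⟨g, hg⟩ := h (Subgroup.zpowers d') (Subgroup.zpowers d) (by
    rw [Nat.card_zpowers, Nat.card_zpowers, hd, hd'])
  have h1 : d ∈ (Subgroup.zpowers d').map (MulAut.conj g).toMonoidHom := by
    rw [← hg]; exact Subgroup.mem_zpowers d
  obtain ⟨y, hy, rfl⟩ := h1
  exact hL.conj_mem y ((Subgroup.zpowers_le.2 hdL) hy) g

theorem frattini {P : Sylow 2 X} {L : Subgroup X} (hL : L.Normal) (hPL : (P : Subgroup X) ≤ L) :
    Nat.card X * Nat.card (Subgroup.normalizer ((P : Subgroup X) : Set X) ⊓ L : Subgroup X) =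
      Nat.card (Subgroup.normalizer ((P : Subgroup X) : Set X)) * Nat.card L := by
  haveI := hL
  haveI : Fact (Nat.Prime 2) := ⟨Nat.prime_two⟩
  have h1 := Sylow.normalizer_sup_eq_top (P.subtype hPL)
  have h2 : ((P.subtype hPL : Sylow 2 L) : Subgroup L).map L.subtype = (P : Subgroup X) := by
    rw [Sylow.coe_subtype]
    exact Subgroup.map_subgroupOf_eq_of_le hPL
  rw [h2] at h1
  have h3 := H3.CardSup.card_sup_mul_card_inf (Subgroup.normalizer ((P : Subgroup X) : Set X)) L (by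
    rw [Subgroup.normalizer_eq_top_iff.2 hL]; exact le_top)
  rw [h1, Subgroup.card_top] at h3
  exact h3

theorem top_of_card {L : Subgroup X} (h : Nat.card L = Nat.card X) {M : Type*} [Group M] (e : L ≃* M) :
    Nonempty (X ≃* M) := by
  have h5 : L = ⊤ := Subgroup.eq_top_of_card_eq _ h
  subst h5
  exact ⟨Subgroup.topEquiv.symm.trans e⟩

theorem nonnormal_case (main : H16.BD.BenderThm.{u, u}) (main1 : H16.BSSimple.RankOneThm.{u, u})
    (h : CE X) (hO : Cfsg.oddCore X = ⊥) {P : Sylow 2 X}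
    (hel : ∀ x ∈ (P : Subgroup X), x * x = 1) {n : ℕ} (hn : Nat.card (P : Subgroup X) = 2 ^ n) (h2 : 2 ≤ n)
    (hPn : ¬ (P : Subgroup X).Normal) :
    (n = 2 ∧ Nonempty (X ≃* alternatingGroup (Fin 5))) ∨
    (n = 3 ∧ Nonempty (X ≃* Matrix.ProjectiveSpecialLinearGroup (Fin 2) (GaloisField 2 3))) ∨
    (n = 5 ∧ Nonempty (X ≃* MulAut (Matrix.ProjectiveSpecialLinearGroup (Fin 2) (GaloisField 2 5)))) := by
  classical
  haveI : Fact (Nat.Prime 2) := ⟨Nat.prime_two⟩
  have h4 : 4 ≤ Nat.card (P : Subgroup X) := by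
    rw [hn]; calc 4 = 2 ^ 2 := by norm_num
      _ ≤ 2 ^ n := Nat.pow_le_pow_right (by norm_num) h2
  have N := nonnormal main main1 h hO hel h4 hPn
  have A := aff_norm h hel hn h2 N.cent
  obtain ⟨m, hm, hY⟩ := A.cases
  have hX : 2 ^ n * m * (2 ^ n + 1) = Nat.card X := by
    rw [← hY, ← hn, ← N.index]
    exact Subgroup.card_mul_index _
  obtain ⟨L, hL, hodd, hcl⟩ := N.concl
  haveI := hL
  have h64 : ¬ 64 ∣ Nat.card L := by
    intro h64
    have h1 : 64 ∣ Nat.card X := h64.trans (Subgroup.card_subgroup_dvd_card L)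
    rw [← hX] at h1
    rcases hm with ⟨rfl, rfl⟩ | ⟨rfl, rfl⟩ | ⟨rfl, rfl⟩ | ⟨rfl, rfl⟩ <;> norm_num at h1
  obtain ⟨F, iF, iFf, k, hk, hF, ⟨e⟩⟩ := psl_of_concl hcl h64
  haveI : CharP F 2 := H50.FieldAut.charP_of_card (p := 2) (by rw [Nat.card_eq_fintype_card, hF])
  have hLc : Nat.card L = 2 ^ k * ((2 ^ k) ^ 2 - 1) := by
    rw [Nat.card_congr e.toEquiv, H25.SL2Card.card_PSL2_char_two, hF]
  have hLX := L.card_mul_index
  have hPL : (P : Subgroup X) ≤ L := fun x hx => mem_of_odd_index hL hodd (hel x hx)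
  have hkn : k = n := by
    apply two_pow_inj (a := ((2 ^ k) ^ 2 - 1) * L.index) (b := m * (2 ^ n + 1))
    · apply Odd.mul _ hodd
      have h1 : 1 ≤ (2 ^ k) ^ 2 := Nat.one_le_pow _ _ (by positivity)
      have h3 : Even ((2 ^ k) ^ 2) := by
        rw [← pow_mul]
        exact (Nat.even_pow.2 ⟨even_two, by omega⟩)
      exact Nat.Even.sub_odd h1 h3 odd_one
    · apply Odd.mul
      · rcases hm with ⟨rfl, rfl⟩ | ⟨rfl, rfl⟩ | ⟨rfl, rfl⟩ | ⟨rfl, rfl⟩ <;> decide
      · exact (Nat.even_pow.2 ⟨even_two, by omega⟩).add_one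
    · rw [← mul_assoc, ← hLc, hLX, ← hX]; ring
  subst hkn
  rcases hm with ⟨rfl, rfl⟩ | ⟨rfl, rfl⟩ | ⟨rfl, rfl⟩ | ⟨rfl, rfl⟩
  · left
    norm_num at hLc hX
    obtain ⟨e1⟩ := top_of_card (by rw [hLc, ← hX]) e
    obtain ⟨e2⟩ := H6.SmallIsoA.psl2_four (F := F) (by rw [hF]; norm_num)
    exact ⟨rfl, ⟨e1.trans e2⟩⟩
  · right; left
    norm_num at hLc hX
    obtain ⟨e1⟩ := top_of_card (by rw [hLc, ← hX]) e
    letI := Fintype.ofFinite (GaloisField 2 3)
    obtain ⟨e2⟩ := H21.PSLTransport.psl_congr_card (K := F) (L := GaloisField 2 3) (by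
      rw [hF, ← Nat.card_eq_fintype_card, GaloisField.card 2 3 (by norm_num)]) (Fin 2)
    exact ⟨rfl, ⟨e1.trans e2⟩⟩
  · exfalso
    norm_num at hLc hX
    have hY' : Nat.card (Subgroup.normalizer ((P : Subgroup X) : Set X)) = 168 := by rw [hY]; norm_num
    haveI : Fact (Nat.Prime 3) := ⟨Nat.prime_three⟩
    obtain ⟨d, hd⟩ := exists_prime_orderOf_dvd_card'
      (G := Subgroup.normalizer ((P : Subgroup X) : Set X)) 3 (by rw [hY']; norm_num)
    obtain ⟨d', hd'⟩ := exists_prime_orderOf_dvd_card' (G := L) 3 (by rw [hLc]; norm_num)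
    have h5 : (d : X) ∈ L := h.mem_of_order hL (p := 3) (by rw [Subgroup.orderOf_coe]; exact hd)
      (by rw [Subgroup.orderOf_coe]; exact hd') d'.2
    have h6 := frattini hL hPL
    rw [hY', hLc, ← hX] at h6
    have h7 : Nat.card (Subgroup.normalizer ((P : Subgroup X) : Set X) ⊓ L : Subgroup X) = 56 := by omega
    have h8 : orderOf (⟨(d : X), Subgroup.mem_inf.2 ⟨d.2, h5⟩⟩ :
        (Subgroup.normalizer ((P : Subgroup X) : Set X) ⊓ L : Subgroup X)) = 3 := by
      rw [← Subgroup.orderOf_coe]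
      change orderOf (d : X) = 3
      rw [Subgroup.orderOf_coe]; exact hd
    have h9 := orderOf_dvd_natCard (⟨(d : X), Subgroup.mem_inf.2 ⟨d.2, h5⟩⟩ :
        (Subgroup.normalizer ((P : Subgroup X) : Set X) ⊓ L : Subgroup X))
    rw [h8, h7] at h9
    norm_num at h9
  · right; right
    norm_num at hLc hX
    refine ⟨rfl, ?_⟩
    have hc : ∀ g : X, (∀ x ∈ L, g * x = x * g) → g = 1 := by
      intro g hg
      have hgP : g ∈ (P : Subgroup X) := N.cent g fun s hs => hg s (hPL hs)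
      by_contra hg1
      have h5 : L ≤ (P : Subgroup X) := by
        intro y hy
        apply N.cent
        intro s hs
        by_cases hs1 : s = 1
        · rw [hs1, mul_one, one_mul]
        obtain ⟨x, -, hx⟩ := tr_norm h hel hgP hs hg1 hs1
        have h6 := hg (x⁻¹ * y * x) (by simpa using hL.conj_mem y hy x⁻¹)
        rw [← hx]
        calc y * (x * g * x⁻¹) = x * ((x⁻¹ * y * x) * g) * x⁻¹ := by group
          _ = x * (g * (x⁻¹ * y * x)) * x⁻¹ := by rw [h6]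
          _ = x * g * x⁻¹ * y := by group
      have h6 := Subgroup.card_dvd_of_le h5
      have h7 := Nat.le_of_dvd Nat.card_pos h6
      rw [hLc, hn] at h7
      norm_num at h7
    obtain ⟨e1⟩ := equiv_mulAut (n := 5) hc hF e (by rw [hLc, ← hX])
    letI := Fintype.ofFinite (GaloisField 2 5)
    obtain ⟨e2⟩ := H21.PSLTransport.psl_congr_card (K := F) (L := GaloisField 2 5) (by
      rw [hF, ← Nat.card_eq_fintype_card, GaloisField.card 2 5 (by norm_num)]) (Fin 2)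
    exact ⟨e1.trans (MulAut.congr e2)⟩

end H68.ConjEq
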