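import Cfsg.Agent.Lib.H68.Zipper
import Cfsg.Agent.Lib.H1.Cores

/-! Left Engel elements (Baer). -/

namespace H68.Engel

open Subgroup Pointwise

universe u

/-- `[x, g, g, …, g]` (`n` entries `g`) with `[a, b] = a b a⁻¹ b⁻¹` -/
def eng {G : Type*} [Group G] (g x : G) (n : ℕ) : G :=
  (List.replicate n g).foldl (fun a b => a * b * a⁻¹ * b⁻¹) x

def IsEngel {G : Type*} [Group G] (g : G) : Prop := ∀ x : G, ∃ n : ℕ, eng g x n = 1

theorem eng_zero {G : Type*} [Group G] (g x : G) : eng g x 0 = x := rfl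

theorem eng_succ {G : Type*} [Group G] (g x : G) (n : ℕ) :
    eng g x (n + 1) = eng g (x * g * x⁻¹ * g⁻¹) n := by
  simp only [eng, List.replicate_succ, List.foldl_cons]

theorem map_eng {G H : Type*} [Group G] [Group H] (φ : G →* H) (g x : G) (n : ℕ) :
    φ (eng g x n) = eng (φ g) (φ x) n := by
  induction n generalizing x with
  | zero => rfl
  | succ n ih => rw [eng_succ, ih, eng_succ]; simp only [map_mul, map_inv]

theorem IsEngel.of_injective {G H : Type*} [Group G] [Group H] {φ : G →* H}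
    (hφ : Function.Injective φ) {g : G} (h : IsEngel (φ g)) : IsEngel g := by
  intro x
  obtain ⟨n, hn⟩ := h (φ x)
  refine ⟨n, hφ ?_⟩
  rw [map_eng, hn, map_one]

theorem IsEngel.map_surjective {G H : Type*} [Group G] [Group H] {φ : G →* H}
    (hφ : Function.Surjective φ) {g : G} (h : IsEngel g) : IsEngel (φ g) := by
  intro y
  obtain ⟨x, rfl⟩ := hφ y
  obtain ⟨n, hn⟩ := h x
  exact ⟨n, by rw [← map_eng, hn, map_one]⟩

/-- if the sequence leaves a proper subgroup it crosses the boundary -/
theorem exists_cross {G : Type*} [Group G] (g : G) (M : Subgroup G) (n : ℕ) :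
    ∀ x : G, x ∉ M → eng g x n = 1 → ∃ y, y ∉ M ∧ y * g * y⁻¹ * g⁻¹ ∈ M := by
  induction n with
  | zero =>
    intro x hx h
    rw [eng_zero] at h
    exact absurd (h ▸ M.one_mem) hx
  | succ n ih =>
    intro x hx h
    by_cases h1 : x * g * x⁻¹ * g⁻¹ ∈ M
    · exact ⟨x, hx, h1⟩
    · exact ih _ h1 (by rw [← eng_succ]; exact h)

theorem isSubnormal_of_isEngel (n : ℕ) : ∀ (G : Type u) [Group G] [Finite G], Nat.card G = n →
    ∀ g : G, IsEngel g → (zpowers g).IsSubnormal := by
  induction n using Nat.strong_induction_on with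
  | _ n ih =>
    intro G _ _ hn g hg
    by_contra hcon
    have hsub : ∀ V : Subgroup G, V ≠ ⊤ → zpowers g ≤ V → ((zpowers g).subgroupOf V).IsSubnormal := by
      intro V hV hgV
      have hgV' : g ∈ V := hgV (mem_zpowers g)
      have h1 : IsEngel (⟨g, hgV'⟩ : V) := IsEngel.of_injective (φ := V.subtype) V.subtype_injective hg
      have h2 := ih (Nat.card V) (by rw [← hn]; exact H11.SubnormalJoin.card_subgroup_lt V hV) V rfl _ h1
      convert h2 using 1
      ext x
      rw [mem_subgroupOf, mem_zpowers_iff, mem_zpowers_iff]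
      constructor
      · rintro ⟨k, hk⟩
        exact ⟨k, Subtype.ext (by simpa using hk)⟩
      · rintro ⟨k, hk⟩
        exact ⟨k, by simpa using congrArg Subtype.val hk⟩
    obtain ⟨M, hM, hgM, hmax⟩ := H68.Zipper.exists_unique_max (zpowers g) hcon hsub
    obtain ⟨x, hx⟩ : ∃ x, x ∉ M := by
      by_contra hall
      push Not at hall
      exact hM (eq_top_iff.2 fun x _ => hall x)
    obtain ⟨m, hm⟩ := hg x
    obtain ⟨y, hyM, hy⟩ := exists_cross g M m x hx hm
    have hgM' : g ∈ M := hgM (mem_zpowers g)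
    have hyg : y * g * y⁻¹ ∈ M := by
      have := M.mul_mem hy hgM'
      simpa [mul_assoc] using this
    -- `g ∈ y⁻¹ M y`
    have h1 : zpowers g ≤ (MulAut.conj y)⁻¹ • M := by
      rw [zpowers_le, Subgroup.mem_inv_pointwise_smul_iff]
      simpa [MulAut.smul_def, MulAut.conj_apply] using hyg
    have h2 : (MulAut.conj y)⁻¹ • M ≠ ⊤ := by
      intro htop
      apply hM
      have : M = MulAut.conj y • ((MulAut.conj y)⁻¹ • M) := by rw [smul_inv_smul]
      rw [this, htop, eq_top_iff]
      intro x _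
      rw [← smul_inv_smul (MulAut.conj y) x, Subgroup.smul_mem_pointwise_smul_iff]
      exact Subgroup.mem_top _
    have h3 := hmax _ h2 h1
    have h4 : MulAut.conj y⁻¹ • M = M := by
      apply H11.SubnormalJoin.conj_smul_eq_of_le
      rwa [map_inv]
    have h5 : y⁻¹ ∈ normalizer (M : Set G) := H11.SubnormalJoin.mem_normalizer_iff_conj.2 h4
    have h6 : normalizer (M : Set G) = ⊤ := by
      by_contra hne
      apply hyM
      have := hmax _ hne (le_trans hgM le_normalizer) h5
      simpa using this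
    have hMn : M.Normal := Subgroup.normalizer_eq_top_iff.1 h6
    exact hcon ((hsub M hM hgM).trans hgM hMn.isSubnormal)

theorem isEngel_of_mem_fitting {G : Type u} [Group G] [Finite G] {g : G}
    (hg : g ∈ Cfsg.fittingSubgroup G) : IsEngel g := by
  have hnil : Group.IsNilpotent (Cfsg.fittingSubgroup G) := H1.Cores.isNilpotent_fittingSubgroup
  obtain ⟨c, hc⟩ := hnil.nilpotent'
  have hN : (Cfsg.fittingSubgroup G).Normal := inferInstance
  have key : ∀ (m : ℕ) (g a : Cfsg.fittingSubgroup G), a ∈ Subgroup.upperCentralSeries _ m → eng g a m = 1 := by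
    intro m
    induction m with
    | zero =>
      intro g a ha
      rw [Subgroup.upperCentralSeries_zero, Subgroup.mem_bot] at ha
      rw [eng_zero, ha]
    | succ m ih =>
      intro g a ha
      rw [eng_succ]
      exact ih g _ (ha g)
  intro x
  refine ⟨c + 1, ?_⟩
  rw [eng_succ]
  have hx : x * g * x⁻¹ * g⁻¹ ∈ Cfsg.fittingSubgroup G :=
    (Cfsg.fittingSubgroup G).mul_mem (hN.conj_mem g hg x) ((Cfsg.fittingSubgroup G).inv_mem hg)
  have h1 := key c ⟨g, hg⟩ ⟨_, hx⟩ (hc ▸ Subgroup.mem_top _)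
  have h2 := congrArg (Cfsg.fittingSubgroup G).subtype h1
  rw [map_eng, map_one] at h2
  exact h2

theorem mem_fitting_iff {G : Type u} [Group G] [Finite G] {g : G} :
    g ∈ Cfsg.fittingSubgroup G ↔ IsEngel g := by
  refine ⟨isEngel_of_mem_fitting, fun h => ?_⟩
  have h1 := isSubnormal_of_isEngel _ G rfl g h
  exact H26.Subnormal.le_fittingSubgroup h1 (@CommGroup.isNilpotent _ (IsCyclic.commGroup)) (mem_zpowers g)

end H68.Engel
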