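import Mathlib
import Cfsg.Agent.Lib.H73.Cocycle
import Cfsg.Agent.Lib.H1.Frat

/-! Transfer contributions of orbits of a 2-group with commutators and squares in a central
subgroup of order two. -/

set_option autoImplicit false
set_option linter.unusedSectionVars false
set_option linter.style.haveILetI false

namespace H68.ExtraTransfer

open Subgroup
open H73.Cocycle

section orbit

variable {E Ω A : Type*} [Group E] [Finite E] [MulAction E Ω] [Finite Ω] [CommGroup A]

/-- the finite set of points in an orbit of a subgroup. -/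
noncomputable def orb (B : Subgroup E) (x : Ω) : Finset Ω := (Set.toFinite {y : Ω | ∃ b ∈ B, b • x = y}).toFinset

theorem mem_orb {B : Subgroup E} {x y : Ω} : y ∈ orb B x ↔ ∃ b ∈ B, b • x = y := by
  unfold orb
  rw [Set.Finite.mem_toFinset]; rfl

theorem smul_mem_orb {B : Subgroup E} {x y : Ω} (h : y ∈ orb B x) {b : E} (hb : b ∈ B) : b • y ∈ orb B x := by
  rw [mem_orb] at h ⊢
  obtain ⟨d, hd, rfl⟩ := h
  exact ⟨b * d, B.mul_mem hb hd, mul_smul _ _ _⟩

theorem even_card_orb (hE : IsPGroup 2 E) (B : Subgroup E) (x : Ω) (h : ∃ b ∈ B, b • x ≠ x) :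
    Even (orb B x).card := by
  have hB : IsPGroup 2 B := hE.to_subgroup B
  have h1 : (orb B x).card = Nat.card (MulAction.orbit B x) := by
    have h2 : (MulAction.orbit B x) = ((orb B x : Finset Ω) : Set Ω) := by
      ext y
      rw [Finset.mem_coe, mem_orb]
      constructor
      · rintro ⟨⟨b, hb⟩, rfl⟩
        exact ⟨b, hb, rfl⟩
      · rintro ⟨b, hb, rfl⟩
        exact ⟨⟨b, hb⟩, rfl⟩
    rw [h2]
    simp
  have h3 : Nat.card (MulAction.orbit B x) ∣ Nat.card B := by
    have h4 : (MulAction.stabilizer B x).index = Nat.card (MulAction.orbit B x) := by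
      rw [MulAction.index_stabilizer]; rfl
    rw [← h4]; exact Subgroup.index_dvd_card _
  obtain ⟨n, hn⟩ := hB.exists_card_eq
  have h4 : (orb B x).card ∣ 2 ^ n := by
    rw [h1, ← hn]; exact h3
  obtain ⟨k, -, hk⟩ := (Nat.dvd_prime_pow Nat.prime_two).1 h4
  rcases Nat.eq_zero_or_pos k with hk0 | hk0
  · exfalso
    rw [hk0, pow_zero, Finset.card_eq_one] at hk
    obtain ⟨y, hy⟩ := hk
    obtain ⟨b, hb, hbx⟩ := h
    have h5 : x ∈ orb B x := mem_orb.2 ⟨1, one_mem _, one_smul _ _⟩
    have h6 : b • x ∈ orb B x := mem_orb.2 ⟨b, hb, rfl⟩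
    rw [hy, Finset.mem_singleton] at h5 h6
    exact hbx (h6.trans h5.symm)
  · rw [hk]
    exact (Nat.even_pow.2 ⟨even_two, hk0.ne'⟩)

variable {c : E → Ω → A}

theorem orbit_prod (hc : IsCoc c) (hE : IsPGroup 2 E) (z : E) (hz2 : z * z = 1)
    (hzc : ∀ e : E, e * z = z * e) (hsq : ∀ e : E, e * e = 1 ∨ e * e = z)
    (hcm : ∀ e f : E, e⁻¹ * f⁻¹ * e * f = 1 ∨ e⁻¹ * f⁻¹ * e * f = z)
    (hB : ∀ B : Subgroup E, B.index = 2 → z ∈ ⁅B, B⁆) (x : Ω) (hx : ∃ e : E, e • x ≠ x) (e : E) :
    ∏ y ∈ orb (⊤ : Subgroup E) x, c e y = 1 := by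
  classical
  haveI : Fact (Nat.Prime 2) := ⟨Nat.prime_two⟩
  have hst : MulAction.stabilizer E x ≠ ⊤ := by
    intro h
    obtain ⟨e, he⟩ := hx
    apply he
    have : e ∈ MulAction.stabilizer E x := by rw [h]; exact mem_top _
    exact this
  obtain ⟨B, hBco, hsB⟩ := (eq_top_or_exists_le_coatom (MulAction.stabilizer E x)).resolve_left hst
  have hBi : B.index = 2 := H1.Frat.index_eq_of_isCoatom hE hBco
  have hBn : B.Normal := Subgroup.normal_of_index_eq_two hBi
  obtain ⟨r, hr⟩ : ∃ r : E, r ∉ B := by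
    by_contra h
    push Not at h
    exact hBco.1 (eq_top_iff.2 (fun y _ => h y))
  have hmulB : ∀ g : E, g ∉ B → r⁻¹ * g ∈ B := by
    intro g hg
    have h1 := (Subgroup.mul_mem_iff_of_index_two hBi (a := r⁻¹) (b := g))
    rw [h1]
    constructor
    · intro h; exact absurd (B.inv_mem_iff.1 h) hr
    · intro h; exact absurd h hg
  have hzB : z ∈ B := by
    have h1 : ⁅B, B⁆ ≤ B := Subgroup.commutator_le_right B B
    exact h1 (hB B hBi)
  set O1 := orb B x with hO1
  have hO1B : ∀ b ∈ B, ∀ y ∈ O1, b • y ∈ O1 := fun b hb y hy => smul_mem_orb hy hb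
  -- decomposition of the orbit
  have hdec : ∀ f : Ω → A, ∏ y ∈ orb (⊤ : Subgroup E) x, f y = (∏ y ∈ O1, f y) * ∏ y ∈ O1, f (r • y) := by
    intro f
    have h1 : orb (⊤ : Subgroup E) x = O1 ∪ O1.image (r • ·) := by
      ext y
      rw [Finset.mem_union, Finset.mem_image, mem_orb]
      constructor
      · rintro ⟨g, -, rfl⟩
        by_cases hg : g ∈ B
        · left; exact mem_orb.2 ⟨g, hg, rfl⟩
        · right
          refine ⟨(r⁻¹ * g) • x, mem_orb.2 ⟨_, hmulB g hg, rfl⟩, ?_⟩
          rw [← mul_smul, mul_inv_cancel_left]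
      · rintro (h | ⟨w, hw, rfl⟩)
        · obtain ⟨b, -, rfl⟩ := mem_orb.1 h
          exact ⟨b, mem_top _, rfl⟩
        · obtain ⟨b, -, rfl⟩ := mem_orb.1 hw
          exact ⟨r * b, mem_top _, mul_smul _ _ _⟩
    have h2 : Disjoint O1 (O1.image (r • ·)) := by
      rw [Finset.disjoint_left]
      intro y hy hy'
      obtain ⟨b, hb, rfl⟩ := mem_orb.1 hy
      obtain ⟨w, hw, hwy⟩ := Finset.mem_image.1 hy'
      obtain ⟨b', hb', rfl⟩ := mem_orb.1 hw
      have h3 : b⁻¹ * r * b' ∈ MulAction.stabilizer E x := by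
        rw [MulAction.mem_stabilizer_iff, mul_smul, mul_smul, inv_smul_eq_iff]
        exact hwy
      have h4 := hsB h3
      apply hr
      have h5 : r = b * (b⁻¹ * r * b') * b'⁻¹ := by group
      rw [h5]
      exact B.mul_mem (B.mul_mem hb h4) (B.inv_mem hb')
    rw [h1, Finset.prod_union h2, Finset.prod_image (fun a _ b _ h => smul_left_cancel r h)]
  -- values on the centre
  have hV1 : ∏ y ∈ O1, c z y = 1 := by
    by_cases hzx : z • x = x
    · have hconst : ∀ y ∈ O1, c z y = c z x := by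
        intro y hy
        obtain ⟨b, hb, rfl⟩ := mem_orb.1 hy
        have h1 := hc z b x
        have h2 := hc b z x
        rw [hzx, hzc b, h1, mul_comm (c b x)] at h2
        exact mul_right_cancel h2
      rw [Finset.prod_congr rfl hconst, Finset.prod_const]
      by_cases hfix : ∃ b ∈ B, b • x ≠ x
      · obtain ⟨k, hk⟩ := even_card_orb hE B x hfix
        have h1 : c z x * c z x = 1 := by
          have := hc z z x
          rw [hz2, hc.one, hzx] at this
          exact this.symm
        rw [hO1, hk, ← two_mul, pow_mul, pow_two, h1, one_pow]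
      · push Not at hfix
        have h1 : c z x = 1 := by
          let ψ : B →* A :=
            { toFun := fun b => c b x
              map_one' := hc.one x
              map_mul' := fun a b => by
                show c ((a : E) * b) x = _
                rw [hc, hfix b b.2] }
          have h2 : ∀ w ∈ ⁅B, B⁆, ∀ hw : w ∈ B, ψ ⟨w, hw⟩ = 1 := by
            intro w hw
            have h3 : ⁅B, B⁆ ≤ (ψ.ker).map B.subtype := by
              rw [Subgroup.commutator_le]
              intro a ha b hb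
              refine ⟨(⟨a, ha⟩ : B) * ⟨b, hb⟩ * (⟨a, ha⟩ : B)⁻¹ * (⟨b, hb⟩ : B)⁻¹, ?_, rfl⟩
              have : ψ ((⟨a, ha⟩ : B) * ⟨b, hb⟩ * (⟨a, ha⟩ : B)⁻¹ * (⟨b, hb⟩ : B)⁻¹) = 1 := by
                rw [map_mul, map_mul, map_mul, map_inv, map_inv, mul_comm (ψ _) (ψ _), mul_inv_cancel_right,
                  mul_inv_cancel]
              exact this
            obtain ⟨v, hv, rfl⟩ := h3 hw
            intro _
            exact hv
          exact h2 z (hB B hBi) hzB
        rw [h1, one_pow]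
    · apply hc.prod_eq_one_of_cycles (hO1B z hzB)
      intro y hy
      obtain ⟨b, hb, rfl⟩ := mem_orb.1 hy
      have h1 : z • b • x ≠ b • x := by
        intro h
        apply hzx
        rw [← mul_smul, ← hzc b, mul_smul] at h
        exact smul_left_cancel b h
      have h2 : Function.IsPeriodicPt (z • ·) 2 (b • x) := by
        show z • z • b • x = b • x
        rw [← mul_smul, hz2, one_smul]
      have h3 := h2.minimalPeriod_dvd
      rcases (Nat.dvd_prime Nat.prime_two).1 h3 with h | h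
      · exfalso
        rw [Function.minimalPeriod_eq_one_iff_isFixedPt] at h
        exact h1 h
      · rw [h, pow_two, hz2, hc.one]
  have hV : ∀ w : E, w = 1 ∨ w = z → ∏ y ∈ O1, c w y = 1 := by
    rintro w (rfl | rfl)
    · exact hc.prod_one
    · exact hV1
  -- elements of `B`
  have hBe : ∀ b ∈ B, ∏ y ∈ orb (⊤ : Subgroup E) x, c b y = 1 := by
    intro b hb
    have hrb : r⁻¹ * b * r ∈ B := by
      have := hBn.conj_mem b hb r⁻¹
      rwa [inv_inv] at this
    rw [hdec, hc.prod_shift (fun y hy => hO1B _ hrb y hy), ← hc.prod_mul (fun y hy => hO1B _ hrb y hy)]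
    apply hV
    have h1 : b * (r⁻¹ * b * r) = (b * b) * (b⁻¹ * r⁻¹ * b * r) := by group
    rw [h1]
    rcases hsq b with h2 | h2 <;> rcases hcm b r with h3 | h3 <;> rw [h2, h3]
    · left; rw [one_mul]
    · right; rw [one_mul]
    · right; rw [mul_one]
    · left; exact hz2
  have hr' : ∏ y ∈ orb (⊤ : Subgroup E) x, c r y = 1 := by
    rw [hdec, ← Finset.prod_mul_distrib]
    have h1 : ∀ y ∈ O1, c r y * c r (r • y) = c (r * r) y := by
      intro y _
      rw [hc r r y, mul_comm]
    rw [Finset.prod_congr rfl h1]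
    exact hV _ (hsq r)
  by_cases he : e ∈ B
  · exact hBe e he
  · have h1 : e = r * (r⁻¹ * e) := by group
    rw [h1, hc.prod_mul (fun y hy => smul_mem_orb hy (mem_top _)), hr', hBe _ (hmulB e he), one_mul]

/-- If every point except `x₀` is moved, the product over all points is the value at `x₀`. -/
theorem prod_eq [Fintype Ω] (hc : IsCoc c) (hE : IsPGroup 2 E) (z : E) (hz2 : z * z = 1)
    (hzc : ∀ e : E, e * z = z * e) (hsq : ∀ e : E, e * e = 1 ∨ e * e = z)
    (hcm : ∀ e f : E, e⁻¹ * f⁻¹ * e * f = 1 ∨ e⁻¹ * f⁻¹ * e * f = z)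
    (hB : ∀ B : Subgroup E, B.index = 2 → z ∈ ⁅B, B⁆) (x₀ : Ω) (hfix : ∀ e : E, e • x₀ = x₀)
    (hx : ∀ x : Ω, x ≠ x₀ → ∃ e : E, e • x ≠ x) (e : E) :
    ∏ y, c e y = c e x₀ := by
  classical
  rw [← Finset.mul_prod_erase Finset.univ _ (Finset.mem_univ x₀)]
  have h1 : ∏ y ∈ Finset.univ.erase x₀, c e y = 1 := by
    let q : Ω → MulAction.orbitRel.Quotient E Ω := fun x => Quotient.mk _ x
    rw [← Finset.prod_fiberwise_of_maps_to (s := Finset.univ.erase x₀) (t := (Finset.univ.erase x₀).image q) (g := q)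
      (fun x hx => Finset.mem_image_of_mem q hx)]
    apply Finset.prod_eq_one
    intro ω hω
    obtain ⟨x, hx', rfl⟩ := Finset.mem_image.1 hω
    have hxx : x ≠ x₀ := Finset.ne_of_mem_erase hx'
    have h2 : (Finset.univ.erase x₀).filter (fun y => q y = q x) = orb (⊤ : Subgroup E) x := by
      ext y
      rw [Finset.mem_filter, mem_orb]
      constructor
      · rintro ⟨-, hyx⟩
        have h1 : y ∈ MulAction.orbit E x := by
          rw [← MulAction.orbitRel_apply]
          exact Quotient.exact hyx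
        obtain ⟨g, rfl⟩ := h1
        exact ⟨g, mem_top _, rfl⟩
      · rintro ⟨g, -, rfl⟩
        refine ⟨Finset.mem_erase.2 ⟨?_, Finset.mem_univ _⟩, Quotient.sound ⟨g, rfl⟩⟩
        intro h
        apply hxx
        have h3 := hfix g
        rw [← h3] at h
        exact smul_left_cancel g h
    rw [h2]
    exact orbit_prod hc hE z hz2 hzc hsq hcm hB x (hx x hxx) e
  rw [h1, mul_one]

end orbit

end H68.ExtraTransfer
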