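import Cfsg.Agent.Lib.H68.ExtraTransfer
import Cfsg.Agent.Lib.H91.LargeExtra

/-! `O_2(C(z))` extraspecial of width at least two lies in the kernel of every homomorphism of
`C(z)` to an abelian 2-group, if `G` has no 2-quotient. -/

set_option autoImplicit false
set_option linter.unusedSectionVars false
set_option linter.style.haveILetI false

namespace H68.ExtraTransfer

open Subgroup Cfsg
open H73.Cocycle

theorem map_eq_one_of_residual {G A : Type*} [Group G] [Finite G] [CommGroup A] (hres : pResidual 2 G = ⊤)
    (hA : IsPGroup 2 A) (f : G →* A) (g : G) : f g = 1 := by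
  have h1 : pResidual 2 G ≤ f.ker := by
    unfold pResidual
    rw [closure_le]
    intro x hx
    show f x = 1
    obtain ⟨k, hk⟩ := hA (f x)
    have h2 : orderOf (f x) ∣ 2 ^ k := orderOf_dvd_of_pow_eq_one hk
    have h3 : orderOf (f x) ∣ orderOf x := orderOf_map_dvd f x
    have h4 : (orderOf x).Coprime (2 ^ k) := Nat.Coprime.pow_right k hx
    rw [← orderOf_eq_one_iff]
    exact Nat.eq_one_of_dvd_coprimes h4 h3 h2
  have h5 : g ∈ pResidual 2 G := by rw [hres]; exact mem_top _
  exact h1 h5

theorem main {G : Type*} [Group G] [Finite G] (hres : pResidual 2 G = ⊤) (z : G) (hz : orderOf z = 2)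
    {H : Subgroup G} (hH : H = centralizer ({z} : Set G)) (E : Subgroup G) (hEz : E ≤ H)
    (hext : IsExtraspecial 2 ↥E)
    (hcent : centralizer (E : Set G) ≤ E) (n : ℕ) (hn : 2 ≤ n) (hcard : Nat.card ↥E = 2 ^ (2 * n + 1))
    {A : Type*} [CommGroup A] (hA : IsPGroup 2 A) (φ : ↥H →* A) (e : G)
    (he : e ∈ E) : φ ⟨e, hEz he⟩ = 1 := by
  classical
  have hHm : ∀ x, x ∈ H ↔ x * z = z * x := fun x => by
    rw [hH]; exact mem_centralizer_singleton_iff
  haveI : Fact (Nat.Prime 2) := ⟨Nat.prime_two⟩
  obtain ⟨w, hwE, hw1, hww, hwZ, hwc, hwcomm, hwuniq, hcm, hsq⟩ := H91.LargeExtra.exists_z hext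
  have hz1 : z ≠ 1 := by rintro rfl; rw [orderOf_one] at hz; omega
  have hzE : z ∈ E := hcent (mem_centralizer_iff.2 (fun e he => (hHm e).1 (hEz he)))
  have hzw : z = w := by
    rcases hwuniq z hzE (fun q hq => (hHm q).1 (hEz hq)) with h | h
    · exact absurd h hz1
    · exact h
  subst hzw
  haveI : Fintype (G ⧸ H) := Fintype.ofFinite _
  set c : E → (G ⧸ H) → A := fun e x => tc φ (e : G) x with hc
  have hcoc : IsCoc c := fun g h x => tc_isCoc φ (g : G) (h : G) x
  have hE2 : IsPGroup 2 E := IsPGroup.of_card hcard
  -- index two subgroups are nonabelian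
  have hB : ∀ B : Subgroup E, B.index = 2 → (⟨z, hzE⟩ : E) ∈ ⁅B, B⁆ := by
    intro B hBi
    have hnab : ∃ a ∈ B, ∃ b ∈ B, a * b ≠ b * a := by
      by_contra hab
      push Not at hab
      obtain ⟨r, hr⟩ : ∃ r : E, r ∉ B := by
        by_contra h
        push Not at h
        have : B = ⊤ := eq_top_iff.2 (fun y _ => h y)
        rw [this, index_top] at hBi
        omega
      set C : Subgroup E := B ⊓ centralizer {r} with hC
      have hCc : C ≤ center E := by
        intro x hx
        rw [mem_center_iff]
        intro g
        have hxr : x * r = r * x := mem_centralizer_singleton_iff.1 hx.2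
        by_cases hg : g ∈ B
        · exact hab g hg x hx.1
        · have h1 : r⁻¹ * g ∈ B := by
            rw [Subgroup.mul_mem_iff_of_index_two hBi]
            constructor
            · intro h; exact absurd (B.inv_mem_iff.1 h) hr
            · intro h; exact absurd h hg
          have h2 := hab _ h1 x hx.1
          calc g * x = r * (r⁻¹ * g * x) := by group
            _ = r * (x * (r⁻¹ * g)) := by rw [h2]
            _ = (r * x) * r⁻¹ * g := by group
            _ = x * g := by rw [← hxr]; group
      have hCcard : Nat.card C ≤ 2 := by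
        have h1 := Subgroup.card_le_of_le hCc
        have h2 := hext.2
        omega
      have hBcard : Nat.card B ≤ 2 * Nat.card C := by
        by_cases hb0 : ∃ b ∈ B, b * r ≠ r * b
        · obtain ⟨b0, hb0, hb0r⟩ := hb0
          have hcmr : ∀ b : E, b * r * b⁻¹ * r⁻¹ = 1 ∨ b * r * b⁻¹ * r⁻¹ = ⟨z, hzE⟩ := by
            intro b
            rcases hcm b b.2 r r.2 with h | h
            · left; exact Subtype.ext h
            · right; exact Subtype.ext h
          have hsub : (B : Set E) ⊆ (C : Set E) ∪ (fun x => b0 * x) '' (C : Set E) := by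
            intro b hb
            by_cases hbr : b * r = r * b
            · left; exact ⟨hb, mem_centralizer_singleton_iff.2 hbr⟩
            · right
              refine ⟨b0⁻¹ * b, ⟨B.mul_mem (B.inv_mem hb0) hb, mem_centralizer_singleton_iff.2 ?_⟩, by
                show b0 * (b0⁻¹ * b) = b
                group⟩
              have h1 : b * r * b⁻¹ * r⁻¹ = ⟨z, hzE⟩ := by
                rcases hcmr b with h | h
                · exfalso; apply hbr
                  rw [mul_inv_eq_one, mul_inv_eq_iff_eq_mul] at h; exact h
                · exact h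
              have h2 : b0 * r * b0⁻¹ * r⁻¹ = ⟨z, hzE⟩ := by
                rcases hcmr b0 with h | h
                · exfalso; apply hb0r
                  rw [mul_inv_eq_one, mul_inv_eq_iff_eq_mul] at h; exact h
                · exact h
              have h3 : b * r * b⁻¹ = b0 * r * b0⁻¹ := by
                rw [← h2] at h1
                exact mul_right_cancel h1
              calc b0⁻¹ * b * r = b0⁻¹ * (b * r * b⁻¹) * b := by group
                _ = b0⁻¹ * (b0 * r * b0⁻¹) * b := by rw [h3]
                _ = r * (b0⁻¹ * b) := by group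
          have h1 : Nat.card B = (B : Set E).ncard := rfl
          have h2 : Nat.card C = (C : Set E).ncard := rfl
          rw [h1, h2]
          have h3 := Set.ncard_le_ncard hsub (Set.toFinite _)
          have h4 := Set.ncard_union_le (C : Set E) ((fun x => b0 * x) '' (C : Set E))
          have h5 := Set.ncard_image_le (f := fun x => b0 * x) (s := (C : Set E)) (Set.toFinite _)
          omega
        · push Not at hb0
          have h1 : B ≤ C := fun b hb => ⟨hb, mem_centralizer_singleton_iff.2 (hb0 b hb)⟩
          have h2 := Subgroup.card_le_of_le h1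
          omega
      have h1 := Subgroup.card_mul_index B
      rw [hBi, hcard] at h1
      have h2 : 2 ^ 5 ≤ 2 ^ (2 * n + 1) := Nat.pow_le_pow_right (by norm_num) (by omega)
      omega
    obtain ⟨a, ha, b, hb, hab⟩ := hnab
    rcases hcm a a.2 b b.2 with h | h
    · exfalso
      apply hab
      have h1 : a * b * a⁻¹ * b⁻¹ = 1 := Subtype.ext h
      rw [mul_inv_eq_one, mul_inv_eq_iff_eq_mul] at h1; exact h1
    · have h1 : (⟨z, hzE⟩ : E) = a * b * a⁻¹ * b⁻¹ := Subtype.ext h.symm
      rw [h1]
      exact Subgroup.commutator_mem_commutator ha hb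
  have key := prod_eq hcoc hE2 ⟨z, hzE⟩ (Subtype.ext hww) (fun f => Subtype.ext (hwcomm f f.2))
    (fun f => by
      rcases hsq f f.2 with h | h
      · left; exact Subtype.ext h
      · right; exact Subtype.ext h)
    (fun f g => by
      rcases hcm _ (E.inv_mem f.2) _ (E.inv_mem g.2) with h | h
      · left; apply Subtype.ext; simpa using h
      · right; apply Subtype.ext; simpa using h) hB ((1 : G) : G ⧸ H)
    (fun f => by
      show (((f : G) * 1 : G) : G ⧸ H) = _
      rw [mul_one]
      apply QuotientGroup.eq.2
      simpa using H.inv_mem (hEz f.2))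
    (fun x hx => by
      by_contra hall
      push Not at hall
      apply hx
      obtain ⟨g, rfl⟩ := QuotientGroup.mk_surjective x
      have h1 : g * z * g⁻¹ ∈ centralizer (E : Set G) := by
        rw [mem_centralizer_iff]
        intro f hf
        have h2 := hall ⟨f, hf⟩
        have h3 : ((f * g : G) : G ⧸ H) = (g : G ⧸ H) := h2
        have h4 : (f * g)⁻¹ * g ∈ H := QuotientGroup.eq.1 h3
        have h5 : g⁻¹ * f * g ∈ H := by
          have := H.inv_mem h4
          have e1 : ((f * g)⁻¹ * g)⁻¹ = g⁻¹ * f * g := by group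
          rwa [e1] at this
        have h6 : g⁻¹ * f * g * z = z * (g⁻¹ * f * g) := (hHm _).1 h5
        calc f * (g * z * g⁻¹) = g * (g⁻¹ * f * g * z) * g⁻¹ := by group
          _ = g * (z * (g⁻¹ * f * g)) * g⁻¹ := by rw [h6]
          _ = g * z * g⁻¹ * f := by group
      have h2 := hwuniq _ (hcent h1) (mem_centralizer_iff.1 h1)
      rcases h2 with h | h
      · exfalso
        apply hz1
        have : z = g⁻¹ * (g * z * g⁻¹) * g := by group
        rw [this, h]; group
      · symm
        apply QuotientGroup.eq.2
        rw [inv_one, one_mul, hHm]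
        exact mul_inv_eq_iff_eq_mul.1 h) ⟨e, he⟩
  have h1 : trans φ e = 1 := map_eq_one_of_residual hres hA (trans φ) e
  rw [trans_apply] at h1
  have h2 : tc φ e ((1 : G) : G ⧸ H) = φ ⟨e, hEz he⟩ := tc_of_mem φ (hEz he)
  have h3 : φ ⟨e, hEz he⟩ = 1 := by
    rw [← h2, ← h1]
    exact key.symm
  exact h3

end H68.ExtraTransfer
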