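import Mathlib
import Cfsg.Agent.Lib.H1.SZ
import Cfsg.Agent.Lib.H1.Coprime
import Cfsg.Agent.Lib.H68.PiClasses

/-! Classes of `π`-elements under homomorphisms with `p`-kernel (S4264). -/

set_option autoImplicit false

open Subgroup
open H68.PiClasses H68.Isolated

namespace H68.FiveK

/-- `p'`-elements with the same image under a homomorphism with `p`-kernel are conjugate -/
theorem isConj_of_map_eq {X Y : Type*} [Group X] [Finite X] [Group Y] {p : ℕ} [hp : Fact p.Prime]
    (φ : X →* Y) (hker : IsPGroup p φ.ker) {a b : X} (ha : (orderOf a).Coprime p)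
    (hb : (orderOf b).Coprime p) (h : φ a = φ b) : IsConj a b := by
  set K := φ.ker with hK
  have hKc : ∃ n, Nat.card K = p ^ n := IsPGroup.iff_card.1 hker
  obtain ⟨n, hn⟩ := hKc
  have hcopK : ∀ c : X, (orderOf c).Coprime p → (Nat.card (zpowers c)).Coprime (Nat.card K) := by
    intro c hc
    rw [Nat.card_zpowers, hn]
    exact Nat.Coprime.pow_right _ hc
  have hdis : ∀ c : X, (orderOf c).Coprime p → zpowers c ⊓ K = ⊥ := fun c hc =>
    H1.Coprime.inf_eq_bot_of_coprime_card (hcopK c hc)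
  have hnorm : ∀ L : Subgroup X, L ≤ normalizer (K : Set X) := by
    intro L
    rw [Subgroup.normalizer_eq_top]
    exact le_top
  set L := K ⊔ zpowers a with hL
  have hbL : zpowers b ≤ L := by
    rw [zpowers_le]
    have h1 : b * a⁻¹ ∈ K := by
      rw [hK, MonoidHom.mem_ker, map_mul, map_inv, h, mul_inv_cancel]
    have h2 : b = (b * a⁻¹) * a := by group
    rw [h2]
    exact mul_mem (le_sup_left (a := K) h1) (le_sup_right (a := K) (mem_zpowers a))
  have hinj : ∀ c : X, (orderOf c).Coprime p → orderOf (φ c) = orderOf c := by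
    intro c hc
    apply Nat.dvd_antisymm (orderOf_map_dvd φ c)
    rw [orderOf_dvd_iff_pow_eq_one]
    have h1 : c ^ orderOf (φ c) ∈ zpowers c ⊓ K := by
      refine Subgroup.mem_inf.2 ⟨pow_mem (mem_zpowers c) _, ?_⟩
      rw [hK, MonoidHom.mem_ker, map_pow, pow_orderOf_eq_one]
    rw [hdis c hc] at h1
    exact mem_bot.1 h1
  have hrel : K.relIndex L = Nat.card (zpowers a) :=
    H1.Coprime.relIndex_sup_of_disjoint (hnorm _) (hdis a ha)
  have hsol : Group.IsSolvable K := by
    have := hker.isNilpotent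
    infer_instance
  obtain ⟨g, hg, hgab⟩ := H1.SZ.conj_of_card_rel L K le_sup_left (hnorm _)
    (by rw [hrel]; exact (hcopK a ha).symm) (Or.inl hsol) (zpowers a) (zpowers b) le_sup_right hbL
    hrel.symm (by rw [hrel, Nat.card_zpowers, Nat.card_zpowers, ← hinj a ha, ← hinj b hb, h])
  have h3 : g * a * g⁻¹ ∈ zpowers b := by
    rw [← hgab, H1.SZ.mem_conj_smul]
    have : g⁻¹ * (g * a * g⁻¹) * g = a := by group
    rw [this]
    exact mem_zpowers a
  have hg1 : φ g = 1 := hg
  have h4 : (g * a * g⁻¹) * b⁻¹ ∈ zpowers b ⊓ K := by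
    refine Subgroup.mem_inf.2 ⟨mul_mem h3 (inv_mem (mem_zpowers b)), ?_⟩
    rw [hK, MonoidHom.mem_ker]
    simp [hg1, h]
  rw [hdis b hb] at h4
  rw [isConj_iff]
  exact ⟨g, mul_inv_eq_one.1 (mem_bot.1 h4)⟩

/-- `k_π(X) ≤ k_π(Y)` if `X → Y` is onto with `p`-kernel, `p ∉ π` -/
theorem card_piClass_le_of_ker {X Y : Type*} [Group X] [Finite X] [Group Y] [Finite Y] {p : ℕ}
    [hp : Fact p.Prime] (φ : X →* Y) (hφ : Function.Surjective φ) (hker : IsPGroup p φ.ker)
    (π : Finset ℕ) (hpπ : p ∉ π) : Nat.card (PiClass π X) ≤ Nat.card (PiClass π Y) := by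
  classical
  have hfin := finite_conjClasses Y
  have hcop : ∀ x : X, (∀ r : ℕ, r.Prime → r ∣ orderOf x → r ∈ π) → (orderOf x).Coprime p := by
    intro x hx
    rw [Nat.coprime_comm, Nat.Prime.coprime_iff_not_dvd hp.out]
    exact fun h => hpπ (hx p hp.out h)
  let f : PiClass π X → PiClass π Y := fun c =>
    ⟨ConjClasses.map φ c.1, by
      obtain ⟨x, hx⟩ := ConjClasses.exists_rep c.1
      have hx2 := c.2 x (by rw [← hx]; exact ConjClasses.mem_carrier_mk)
      rw [← hx]
      exact mem_piClass_mk (fun r hr hd => hx2 r hr (hd.trans (orderOf_map_dvd φ x)))⟩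
  refine Nat.card_le_card_of_injective f ?_
  rintro ⟨c, hc⟩ ⟨d, hd⟩ hcd
  obtain ⟨x, rfl⟩ := ConjClasses.exists_rep c
  obtain ⟨y, rfl⟩ := ConjClasses.exists_rep d
  have hx2 := hc x ConjClasses.mem_carrier_mk
  have hy2 := hd y ConjClasses.mem_carrier_mk
  have h1 : ConjClasses.mk (φ x) = ConjClasses.mk (φ y) := congrArg Subtype.val hcd
  rw [ConjClasses.mk_eq_mk_iff_isConj, isConj_iff] at h1
  obtain ⟨c, hc1⟩ := h1
  obtain ⟨c, rfl⟩ := hφ c
  apply Subtype.ext
  show ConjClasses.mk x = ConjClasses.mk y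
  rw [ConjClasses.mk_eq_mk_iff_isConj]
  have h2 : IsConj x (c * x * c⁻¹) := isConj_iff.2 ⟨c, rfl⟩
  refine h2.trans (isConj_of_map_eq φ hker ?_ (hcop y hy2) ?_)
  · rw [orderOf_conj]; exact hcop x hx2
  · rw [map_mul, map_mul, map_inv, hc1]

theorem card_piClass_congr {X Y : Type*} [Group X] [Finite X] [Group Y] [Finite Y] (φ : X ≃* Y)
    (π : Finset ℕ) : Nat.card (PiClass π X) ≤ Nat.card (PiClass π Y) := by
  obtain ⟨p, hp1, hp2⟩ := Nat.exists_infinite_primes (π.sup id + 1)
  have := Fact.mk hp2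
  refine card_piClass_le_of_ker (p := p) φ.toMonoidHom φ.surjective ?_ π ?_
  · rw [(MonoidHom.ker_eq_bot_iff _).2 φ.injective]
    exact IsPGroup.of_bot
  · intro h
    have := Finset.le_sup (f := id) h
    simp at this
    omega

end H68.FiveK
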