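import Mathlib

/-! Cycle sums over `p`-groups of permutations (S4264). -/

set_option autoImplicit false
set_option linter.style.haveILetI false

open Equiv Equiv.Perm Subgroup

namespace H68.FiveK

/-- number of cycles (fixed points included) -/
noncomputable def cyc {Ω : Type*} (x : Perm Ω) : ℕ := Nat.card (Quotient (SameCycle.setoid x))

theorem cyc_pos {Ω : Type*} [Finite Ω] [Nonempty Ω] (x : Perm Ω) : 0 < cyc x := by
  unfold cyc
  have : Nonempty (Quotient (SameCycle.setoid x)) := ⟨Quotient.mk _ (Classical.arbitrary Ω)⟩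
  exact Nat.card_pos

theorem cyc_le {Ω : Type*} [Finite Ω] (x : Perm Ω) : cyc x ≤ Nat.card Ω :=
  Nat.card_le_card_of_surjective (Quotient.mk (SameCycle.setoid x)) Quotient.mk_surjective

theorem cyc_conj {Ω : Type*} (x g : Perm Ω) : cyc (g * x * g⁻¹) = cyc x := by
  unfold cyc
  refine Nat.card_congr (Quotient.congr g⁻¹ ?_)
  intro a b
  show SameCycle (g * x * g⁻¹) a b ↔ SameCycle x (g⁻¹ a) (g⁻¹ b)
  exact sameCycle_conj

/-- restriction of an invariant permutation to a fibre -/
def resf {Ω ι : Type*} (f : Ω → ι) (x : Perm Ω) (h : ∀ ω, f (x ω) = f ω) (i : ι) :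
    Perm {ω // f ω = i} :=
  x.subtypePerm (fun ω => by rw [h ω])

theorem cyc_split {Ω ι : Type*} [Finite Ω] [Fintype ι] (f : Ω → ι) (x : Perm Ω)
    (h : ∀ ω, f (x ω) = f ω) : cyc x ≤ ∑ i, cyc (resf f x h i) := by
  unfold cyc
  rw [← Nat.card_sigma]
  let F : (Σ i, Quotient (SameCycle.setoid (resf f x h i))) → Quotient (SameCycle.setoid x) :=
    fun z => Quotient.map (fun ω : {ω // f ω = z.1} => (ω : Ω)) (by
      intro a b hab
      exact sameCycle_subtypePerm.1 hab) z.2
  refine Nat.card_le_card_of_surjective F ?_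
  intro q
  obtain ⟨ω, rfl⟩ := Quotient.exists_rep q
  exact ⟨⟨f ω, Quotient.mk _ ⟨ω, rfl⟩⟩, rfl⟩

theorem cyc_fpf {Ω : Type*} [Finite Ω] {p : ℕ} [hp : Fact p.Prime] (x : Perm Ω)
    (hx : ∃ e, x ^ (p ^ e) = 1) (hf : ∀ ω, x ω ≠ ω) : p * cyc x ≤ Nat.card Ω := by
  classical
  have := Fintype.ofFinite Ω
  have : Fintype (Quotient (SameCycle.setoid x)) := Fintype.ofFinite _
  have hP : IsPGroup p (zpowers x) := by
    obtain ⟨e, he⟩ := hx
    apply IsPGroup.of_card (n := (Nat.log p (Nat.card (zpowers x))))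
    have h1 : Nat.card (zpowers x) ∣ p ^ e := by
      rw [Nat.card_zpowers]
      exact orderOf_dvd_of_pow_eq_one he
    obtain ⟨k, _, hk⟩ := (Nat.dvd_prime_pow hp.out).1 h1
    rw [hk, Nat.log_pow hp.out.one_lt]
  have h1 : Nat.card Ω = ∑ q : Quotient (SameCycle.setoid x),
      Nat.card {ω : Ω // (Quotient.mk _ ω : Quotient (SameCycle.setoid x)) = q} := by
    rw [← Nat.card_sigma]
    exact Nat.card_congr (Equiv.sigmaFiberEquiv _).symm
  have h2 : ∀ q : Quotient (SameCycle.setoid x),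
      p ≤ Nat.card {ω : Ω // (Quotient.mk _ ω : Quotient (SameCycle.setoid x)) = q} := by
    intro q
    obtain ⟨a, rfl⟩ := Quotient.exists_rep q
    have h3 : Nat.card {ω : Ω // (Quotient.mk _ ω : Quotient (SameCycle.setoid x)) = Quotient.mk _ a}
        = Nat.card (MulAction.orbit (zpowers x) a) := by
      refine Nat.card_congr (Equiv.subtypeEquivRight ?_)
      intro ω
      rw [Quotient.eq (r := SameCycle.setoid x)]
      constructor
      · intro h
        obtain ⟨i, hi⟩ : SameCycle x ω a := h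
        refine ⟨⟨x ^ (-i), zpow_mem (mem_zpowers x) _⟩, ?_⟩
        show (x ^ (-i)) a = ω
        rw [← hi, zpow_neg]; simp
      · rintro ⟨⟨g, hg⟩, rfl⟩
        obtain ⟨i, rfl⟩ := mem_zpowers_iff.1 hg
        show SameCycle x ((x ^ i) a) a
        exact ⟨-i, by rw [zpow_neg]; simp⟩
    rw [h3]
    obtain ⟨k, hk⟩ := hP.card_orbit a
    rcases Nat.eq_zero_or_pos k with h0 | h0
    · exfalso
      subst h0
      rw [pow_zero, Nat.card_eq_one_iff_unique] at hk
      have hs := hk.1
      have := congrArg Subtype.val (Subsingleton.elim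
        (⟨x a, ⟨⟨x, mem_zpowers x⟩, rfl⟩⟩ : MulAction.orbit (zpowers x) a)
        ⟨a, MulAction.mem_orbit_self a⟩)
      exact hf a this
    · rw [hk]
      calc p = p ^ 1 := (pow_one p).symm
        _ ≤ p ^ k := Nat.pow_le_pow_right hp.out.pos h0
  rw [h1]
  calc p * cyc x = ∑ _q : Quotient (SameCycle.setoid x), p := by
        rw [Finset.sum_const, Finset.card_univ, smul_eq_mul, mul_comm]
        unfold cyc
        rw [Nat.card_eq_fintype_card]
    _ ≤ _ := Finset.sum_le_sum fun q _ => h2 q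

/-- the cycle sum -/
noncomputable def cs (c : ℝ) (P Ω : Type*) [Group P] [Finite P] [MulAction P Ω] : ℝ :=
  letI := Fintype.ofFinite P
  ∑ x : P, c ^ cyc (MulAction.toPerm x : Perm Ω)

/-- the action on a fibre -/
def resHom {Ω ι P : Type*} [Group P] [MulAction P Ω] (f : Ω → ι) (h : ∀ (x : P) (ω : Ω), f (x • ω) = f ω)
    (i : ι) : P →* Perm {ω // f ω = i} where
  toFun x := resf f (MulAction.toPerm x : Perm Ω) (h x) i
  map_one' := by
    ext ω
    show (1 : P) • (ω : Ω) = ω
    rw [one_smul]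
  map_mul' x y := by
    ext ω
    show (x * y) • (ω : Ω) = x • y • (ω : Ω)
    rw [mul_smul]

theorem cs_split {Ω ι P : Type*} [Finite Ω] [Finite ι] [Group P] [Finite P] [MulAction P Ω]
    [FaithfulSMul P Ω] (f : Ω → ι) (h : ∀ (x : P) (ω : Ω), f (x • ω) = f ω) {c : ℝ} (hc : 1 ≤ c)
    (B : ι → ℝ) (hB : ∀ i, cs c (resHom f h i).range {ω // f ω = i} ≤ B i) [Fintype ι] :
    cs c P Ω ≤ ∏ i, B i := by
  classical
  have hc0 : 0 ≤ c := zero_le_one.trans hc
  refine le_trans ?_ (Finset.prod_le_prod (fun i _ => ?_) (fun i _ => hB i))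
  swap
  · unfold cs
    exact Finset.sum_nonneg fun x _ => pow_nonneg hc0 _
  unfold cs
  letI := Fintype.ofFinite P
  letI : ∀ i, Fintype (resHom f h i).range := fun i => Fintype.ofFinite _
  rw [Finset.prod_univ_sum, Fintype.piFinset_univ]
  let g : P → (Π i, (resHom f h i).range) := fun x i => ⟨resHom f h i x, x, rfl⟩
  have hg : Function.Injective g := by
    intro x y hxy
    apply FaithfulSMul.eq_of_smul_eq_smul (α := Ω)
    intro ω
    have h1 := congrArg (fun z : (Π i, (resHom f h i).range) =>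
      (((z (f ω) : Perm {ω' // f ω' = f ω}) ⟨ω, rfl⟩ : {ω' // f ω' = f ω}) : Ω)) hxy
    exact h1
  calc ∑ x : P, c ^ cyc (MulAction.toPerm x : Perm Ω)
      ≤ ∑ x : P, ∏ i, c ^ cyc (MulAction.toPerm (g x i) : Perm {ω // f ω = i}) := by
        refine Finset.sum_le_sum fun x _ => ?_
        rw [Finset.prod_pow_eq_pow_sum]
        exact pow_le_pow_right₀ hc (cyc_split f _ (h x))
    _ = ∑ z ∈ Finset.univ.image g, ∏ i, c ^ cyc (MulAction.toPerm (z i) : Perm {ω // f ω = i}) := by
        rw [Finset.sum_image (fun x _ y _ hxy => hg hxy)]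
    _ ≤ _ := by
        refine Finset.sum_le_sum_of_subset_of_nonneg (Finset.subset_univ _) ?_
        intro z _ _
        exact Finset.prod_nonneg fun i _ => pow_nonneg hc0 _

end H68.FiveK
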