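import Mathlib
import Cfsg.Agent.Lib.H68.FiveKB

/-! The bound for cycle sums over `p`-groups (S4264). -/

set_option autoImplicit false
set_option linter.style.haveILetI false

open Equiv Equiv.Perm Subgroup

namespace H68.FiveK

theorem card_pow_le {P Ω : Type*} [Group P] [Finite P] [Finite Ω] [MulAction P Ω]
    [FaithfulSMul P Ω] {p : ℕ} [hp : Fact p.Prime] (hP : IsPGroup p P) (hΩ : 1 ≤ Nat.card Ω) :
    (Nat.card P) ^ (p - 1) ≤ p ^ (Nat.card Ω - 1) := by
  classical
  have := Fintype.ofFinite Ω
  obtain ⟨a, ha⟩ := IsPGroup.iff_card.1 hP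
  have h1 : Nat.card P ∣ (Nat.card Ω).factorial := by
    rw [← Nat.card_perm]
    exact Subgroup.card_dvd_of_injective (MulAction.toPermHom P Ω) MulAction.toPerm_injective
  rw [ha] at h1 ⊢
  have h2 : a ≤ padicValNat p (Nat.card Ω).factorial :=
    (padicValNat_dvd_iff_le (Nat.factorial_ne_zero _)).1 h1
  have h3 := sub_one_mul_padicValNat_factorial_lt_of_ne_zero (p := p) (n := Nat.card Ω) (by omega)
  rw [← pow_mul]
  apply Nat.pow_le_pow_right hp.out.pos
  have h4 : a * (p - 1) ≤ (p - 1) * padicValNat p (Nat.card Ω).factorial := by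
    rw [mul_comm]
    exact Nat.mul_le_mul_left _ h2
  omega

theorem mono_aux {c C : ℝ} (hc : 1 ≤ c) (hcC : c ≤ C) {k r n : ℕ} (hkr : k ≤ r) (hrn : r ≤ n) :
    c ^ r * C ^ (n - r) ≤ c ^ k * C ^ (n - k) := by
  have h1 : c ^ r = c ^ k * c ^ (r - k) := by rw [← pow_add]; congr 1; omega
  have h2 : C ^ (n - k) = C ^ (r - k) * C ^ (n - r) := by rw [← pow_add]; congr 1; omega
  rw [h1, h2, mul_assoc]
  have hc0 : 0 ≤ c := zero_le_one.trans hc
  have hC0 : 0 ≤ C := hc0.trans hcC
  apply mul_le_mul_of_nonneg_left _ (pow_nonneg hc0 _)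
  exact mul_le_mul_of_nonneg_right (pow_le_pow_left₀ hc0 hcC _) (pow_nonneg hC0 _)

/-- the bound holds for degree `n` -/
def Bd (p : ℕ) (c C : ℝ) (n : ℕ) : Prop :=
  ∀ (Ω P : Type) [Finite Ω] [Group P] [Finite P] [MulAction P Ω] [FaithfulSMul P Ω],
    Nat.card Ω = n → IsPGroup p P → cs c P Ω ≤ c * C ^ (n - 1)

theorem orbit_bound {p : ℕ} {c C : ℝ} (hc : 1 ≤ c) (n : ℕ)
    (ih : ∀ m < n, 1 ≤ m → Bd p c C m)
    (Ω P : Type) [Finite Ω] [Group P] [Finite P] [MulAction P Ω] [FaithfulSMul P Ω]
    (hn : Nat.card Ω = n) (hP : IsPGroup p P)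
    (hsmall : ∀ ω : Ω, Nat.card (MulAction.orbit P ω) < n) :
    cs c P Ω ≤ c ^ (Nat.card (MulAction.orbitRel.Quotient P Ω)) *
      C ^ (n - Nat.card (MulAction.orbitRel.Quotient P Ω)) := by
  classical
  have : Fintype (MulAction.orbitRel.Quotient P Ω) := Fintype.ofFinite _
  let f : Ω → MulAction.orbitRel.Quotient P Ω := fun ω => Quotient.mk _ ω
  have hf : ∀ (x : P) (ω : Ω), f (x • ω) = f ω := fun x ω =>
    Quotient.sound (show (MulAction.orbitRel P Ω).r _ _ from ⟨x, rfl⟩)
  have hfib : ∀ i, 1 ≤ Nat.card {ω // f ω = i} ∧ Nat.card {ω // f ω = i} < n := by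
    intro i
    obtain ⟨a, rfl⟩ := Quotient.exists_rep i
    have h3 : Nat.card {ω : Ω // f ω = Quotient.mk _ a} = Nat.card (MulAction.orbit P a) := by
      refine Nat.card_congr (Equiv.subtypeEquivRight ?_)
      intro ω
      show (Quotient.mk _ ω : MulAction.orbitRel.Quotient P Ω) = Quotient.mk _ a ↔ _
      rw [Quotient.eq (r := MulAction.orbitRel P Ω)]
      rfl
    constructor
    · rw [h3]
      have : Nonempty (MulAction.orbit P a) := ⟨⟨a, MulAction.mem_orbit_self a⟩⟩
      exact Nat.card_pos
    · rw [h3]; exact hsmall a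
  have h1 : Nat.card Ω = ∑ i, Nat.card {ω // f ω = i} := by
    rw [← Nat.card_sigma]
    exact Nat.card_congr (Equiv.sigmaFiberEquiv _).symm
  have h2 := cs_split f hf hc (fun i => c * C ^ (Nat.card {ω // f ω = i} - 1)) (by
    intro i
    exact ih _ (hfib i).2 (hfib i).1 _ _ rfl
      (hP.of_surjective (resHom f hf i).rangeRestrict (resHom f hf i).rangeRestrict_surjective))
  refine h2.trans (le_of_eq ?_)
  rw [Finset.prod_mul_distrib, Finset.prod_const, Finset.card_univ, Finset.prod_pow_eq_pow_sum,
    ← Nat.card_eq_fintype_card]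
  congr 2
  have h4 : ∑ i, (Nat.card {ω // f ω = i} - 1) + Nat.card (MulAction.orbitRel.Quotient P Ω) = n := by
    rw [← hn, h1, Nat.card_eq_fintype_card, ← Finset.card_univ, Finset.card_eq_sum_ones,
      ← Finset.sum_add_distrib]
    apply Finset.sum_congr rfl
    intro i _
    have := (hfib i).1
    omega
  omega

theorem cs_le {p : ℕ} [hp : Fact p.Prime] {c C : ℝ} (hc : 1 ≤ c) (hcC : c ≤ C)
    (hC : c ^ (p - 1) + (p - 1) ≤ C ^ (p - 1)) : ∀ n : ℕ, 1 ≤ n → Bd p c C n := by
  intro n
  induction n using Nat.strong_induction_on with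
  | _ n ih0 =>
  intro hn1 Ω P _ _ _ _ _ hn hP
  classical
  have ih : ∀ m < n, 1 ≤ m → Bd p c C m := fun m hm h1 => ih0 m hm h1
  have hc0 : 0 ≤ c := zero_le_one.trans hc
  have hC0 : 0 ≤ C := hc0.trans hcC
  have hne : Nonempty Ω := by
    by_contra h
    rw [not_nonempty_iff] at h
    rw [Nat.card_of_isEmpty] at hn
    omega
  -- the number of orbits is at most n
  have hrn : ∀ (Q : Type) [Group Q] [MulAction Q Ω], Nat.card (MulAction.orbitRel.Quotient Q Ω) ≤ n := by
    intro Q _ _
    rw [← hn]
    exact Nat.card_le_card_of_surjective (Quotient.mk (MulAction.orbitRel Q Ω)) Quotient.mk_surjective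
  by_cases htr : ∀ ω : Ω, Nat.card (MulAction.orbit P ω) < n
  · -- intransitive
    refine (orbit_bound hc n ih Ω P hn hP htr).trans ?_
    have hr1 : 1 ≤ Nat.card (MulAction.orbitRel.Quotient P Ω) := by
      have : Nonempty (MulAction.orbitRel.Quotient P Ω) := ⟨Quotient.mk _ hne.some⟩
      exact Nat.card_pos
    have := mono_aux hc hcC hr1 (hrn P)
    rwa [pow_one] at this
  · push Not at htr
    obtain ⟨a, ha⟩ := htr
    have hcar : Nat.card (MulAction.orbit P a) * Nat.card (MulAction.stabilizer P a) = Nat.card P := by
      rw [← Nat.card_prod]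
      exact Nat.card_congr (MulAction.orbitProdStabilizerEquivGroup P a)
    have horb : MulAction.orbit P a = Set.univ := by
      apply Set.eq_of_subset_of_ncard_le (Set.subset_univ _)
      rw [Set.ncard_univ, hn, ← Nat.card_coe_set_eq]
      exact ha
    have horb' : Nat.card (MulAction.orbit P a) = n := by
      rw [horb, Nat.card_congr (Equiv.Set.univ Ω), hn]
    rcases Nat.lt_or_ge 1 n with h1 | h1
    swap
    · -- n = 1
      have hn' : n = 1 := le_antisymm h1 hn1
      subst hn'
      have hsub : Subsingleton Ω := (Nat.card_eq_one_iff_unique.1 hn).1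
      have hPs : Subsingleton P := by
        constructor
        intro x y
        apply FaithfulSMul.eq_of_smul_eq_smul (α := Ω)
        intro ω
        exact Subsingleton.elim _ _
      unfold cs
      letI := Fintype.ofFinite P
      rw [Fintype.sum_eq_single (1 : P) (fun x hx => absurd (Subsingleton.elim x 1) hx)]
      simp only [Nat.sub_self, pow_zero, mul_one]
      calc c ^ cyc (MulAction.toPerm (1 : P) : Perm Ω) ≤ c ^ 1 :=
            pow_le_pow_right₀ hc ((cyc_le _).trans hn.le)
        _ = c := pow_one c
    · -- transitive, n > 1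
      have hst : MulAction.stabilizer P a ≠ ⊤ := by
        intro h
        rw [h, Subgroup.card_top, horb'] at hcar
        have : 0 < Nat.card P := Nat.card_pos
        nlinarith
      obtain ⟨M, hM, haM⟩ := (eq_top_or_exists_le_coatom (MulAction.stabilizer P a)).resolve_left hst
      have hnil : Group.IsNilpotent P := hP.isNilpotent
      have hMn : M.Normal := by
        have hNC : NormalizerCondition P := Group.normalizerCondition_of_isNilpotent
        exact hNC.normal_of_coatom M hM
      have hMi : M.index = p := by
        obtain ⟨j, hj⟩ := IsPGroup.iff_card.1 (hP.to_subgroup M)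
        obtain ⟨b, hb⟩ := IsPGroup.iff_card.1 hP
        have h2 : Nat.card M * M.index = Nat.card P := Subgroup.card_mul_index M
        have hlt : j < b := by
          have h3 : Nat.card M < Nat.card P := by
            refine lt_of_le_of_ne (Subgroup.card_le_card_group M) ?_
            intro h
            exact hM.1 (Subgroup.eq_top_of_card_eq M h)
          rw [hj, hb] at h3
          exact (Nat.pow_lt_pow_iff_right hp.out.one_lt).1 h3
        obtain ⟨K, hK, hMK⟩ := Sylow.exists_subgroup_card_pow_prime_le p (m := j + 1)
          (by rw [hb]; exact pow_dvd_pow p hlt) M hj (Nat.le_succ j)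
        have hKt : K = ⊤ := by
          apply hM.2
          refine lt_of_le_of_ne hMK ?_
          intro h
          rw [h, hK] at hj
          have := Nat.pow_right_injective hp.out.two_le hj
          omega
        rw [hKt, Subgroup.card_top] at hK
        rw [hj, hK, pow_succ] at h2
        exact Nat.eq_of_mul_eq_mul_left (pow_pos hp.out.pos _) h2
      -- every stabilizer lies in M
      have hstab : ∀ ω : Ω, MulAction.stabilizer P ω ≤ M := by
        intro ω
        have : ω ∈ MulAction.orbit P a := by rw [horb]; trivial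
        obtain ⟨g, rfl⟩ := this
        intro x hx
        have hx1 : x • g • a = g • a := hx
        have h2 : g⁻¹ * x * g ∈ M := by
          apply haM
          rw [MulAction.mem_stabilizer_iff, mul_smul, mul_smul, hx1, inv_smul_smul]
        have h3 := hMn.conj_mem _ h2 g
        have h4 : g * (g⁻¹ * x * g) * g⁻¹ = x := by group
        rwa [h4] at h3
      have hPM : Nat.card P = Nat.card M * p := by
        rw [← hMi, Subgroup.card_mul_index]
      -- orbits of M
      have hMorb : ∀ ω : Ω, p * Nat.card (MulAction.orbit M ω) = n := by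
        intro ω
        have h2 : Nat.card (MulAction.orbit M ω) * Nat.card (MulAction.stabilizer M ω) = Nat.card M := by
          rw [← Nat.card_prod]
          exact Nat.card_congr (MulAction.orbitProdStabilizerEquivGroup M ω)
        have h3 : Nat.card (MulAction.orbit P ω) * Nat.card (MulAction.stabilizer P ω) = Nat.card P := by
          rw [← Nat.card_prod]
          exact Nat.card_congr (MulAction.orbitProdStabilizerEquivGroup P ω)
        have h4 : Nat.card (MulAction.stabilizer M ω) = Nat.card (MulAction.stabilizer P ω) := by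
          have h5 : (MulAction.stabilizer M ω) = (MulAction.stabilizer P ω).subgroupOf M := by
            ext x
            rfl
          rw [h5]
          exact Nat.card_congr (Subgroup.subgroupOfEquivOfLe (hstab ω)).toEquiv
        have h5 : Nat.card (MulAction.orbit P ω) = n := by
          have : ω ∈ MulAction.orbit P a := by rw [horb]; trivial
          rw [MulAction.orbit_eq_iff.2 this, horb']
        rw [h5] at h3
        have h6 : 0 < Nat.card (MulAction.stabilizer P ω) := Nat.card_pos
        apply Nat.eq_of_mul_eq_mul_right h6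
        rw [h3, hPM, ← h2, h4]
        ring
      have hp1 := hp.out.one_lt
      obtain ⟨t, ht⟩ : p ∣ n := ⟨_, (hMorb a).symm⟩
      have ht1 : 1 ≤ t := by
        rcases Nat.eq_zero_or_pos t with h | h
        · rw [h] at ht; omega
        · exact h
      have hMorb' : ∀ ω : Ω, Nat.card (MulAction.orbit M ω) = t := by
        intro ω
        have := hMorb ω
        rw [ht] at this
        exact Nat.eq_of_mul_eq_mul_left hp.out.pos this
      have hMn' : Nat.card (MulAction.orbitRel.Quotient M Ω) = p := by
        have : Fintype (MulAction.orbitRel.Quotient M Ω) := Fintype.ofFinite _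
        have h1 : Nat.card Ω = ∑ i : MulAction.orbitRel.Quotient M Ω,
            Nat.card {ω : Ω // (Quotient.mk _ ω : MulAction.orbitRel.Quotient M Ω) = i} := by
          rw [← Nat.card_sigma]
          exact Nat.card_congr (Equiv.sigmaFiberEquiv _).symm
        have h2 : ∀ i : MulAction.orbitRel.Quotient M Ω,
            Nat.card {ω : Ω // (Quotient.mk _ ω : MulAction.orbitRel.Quotient M Ω) = i} = t := by
          intro i
          obtain ⟨a, rfl⟩ := Quotient.exists_rep i
          rw [← hMorb' a]
          refine Nat.card_congr (Equiv.subtypeEquivRight ?_)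
          intro ω
          rw [Quotient.eq (r := MulAction.orbitRel M Ω)]
          rfl
        rw [Finset.sum_congr rfl (fun i _ => h2 i), Finset.sum_const, Finset.card_univ, smul_eq_mul,
          hn, ht, ← Nat.card_eq_fintype_card] at h1
        exact (Nat.eq_of_mul_eq_mul_right ht1 h1).symm
      have htn : t < n := by
        rw [ht]
        nlinarith
      have hM1 := orbit_bound hc n ih Ω M hn (hP.to_subgroup M) (fun ω => by rw [hMorb' ω]; exact htn)
      rw [hMn'] at hM1
      -- elements outside M
      have hout : ∀ x : P, x ∉ M → cyc (MulAction.toPerm x : Perm Ω) ≤ t := by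
        intro x hx
        have h2 := cyc_fpf (p := p) (MulAction.toPerm x : Perm Ω) (by
          obtain ⟨e, he⟩ := hP x
          refine ⟨e, ?_⟩
          rw [← MulAction.toPermHom_apply, ← map_pow, he, map_one]) (by
          intro ω h
          exact hx (hstab ω h))
        rw [hn, ht] at h2
        exact Nat.le_of_mul_le_mul_left h2 hp.out.pos
      -- the size of M
      have hMc : (Nat.card M) ^ (p - 1) ≤ p ^ (n - p) := by
        have h2 := card_pow_le (P := P) (Ω := Ω) hP (by omega)
        rw [hPM, hn, mul_pow] at h2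
        have h3 : p ^ (n - 1) = p ^ (n - p) * p ^ (p - 1) := by
          rw [← pow_add]; congr 1
          have : p ≤ n := by rw [ht]; nlinarith
          omega
        rw [h3] at h2
        exact Nat.le_of_mul_le_mul_right h2 (pow_pos hp.out.pos _)
      -- the numerical inequality
      have hnum : (Nat.card M : ℝ) * c ^ (t - 1) ≤ C ^ (n - p) := by
        have hp0 : (0 : ℝ) < p := by exact_mod_cast hp.out.pos
        have hy : (p : ℝ) ^ p * c ^ (p - 1) ≤ (C ^ (p - 1)) ^ p := by
          set y := c ^ (p - 1) with hydef
          have hy1 : 1 ≤ y := one_le_pow₀ hc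
          have h1 : 1 + (p : ℝ) * ((y - 1) / p) ≤ (1 + (y - 1) / p) ^ p :=
            one_add_mul_le_pow (by
              have : 0 ≤ (y - 1) / p := div_nonneg (by linarith) hp0.le
              linarith) p
          have h2 : 1 + (p : ℝ) * ((y - 1) / p) = y := by
            field_simp
            ring
          rw [h2] at h1
          have h3 : (p : ℝ) * (1 + (y - 1) / p) = y + (p - 1) := by
            field_simp
            ring
          calc (p : ℝ) ^ p * y ≤ (p : ℝ) ^ p * (1 + (y - 1) / p) ^ p :=
                mul_le_mul_of_nonneg_left h1 (pow_nonneg hp0.le _)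
            _ = (y + (p - 1)) ^ p := by rw [← mul_pow, h3]
            _ ≤ (C ^ (p - 1)) ^ p := by
                apply pow_le_pow_left₀ _ hC
                have : (1 : ℝ) ≤ p := by exact_mod_cast hp.out.one_lt.le
                linarith
        have hnp : n - p = p * (t - 1) := by
          rw [ht, Nat.mul_sub, mul_one]
        have hpm : p - 1 ≠ 0 := by omega
        apply le_of_pow_le_pow_left₀ hpm (pow_nonneg hC0 _)
        have hMc' : ((Nat.card M : ℝ)) ^ (p - 1) ≤ (p : ℝ) ^ (n - p) := by exact_mod_cast hMc
        calc ((Nat.card M : ℝ) * c ^ (t - 1)) ^ (p - 1)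
            = (Nat.card M : ℝ) ^ (p - 1) * (c ^ (p - 1)) ^ (t - 1) := by
              rw [mul_pow, ← pow_mul, ← pow_mul, mul_comm (t - 1)]
          _ ≤ (p : ℝ) ^ (n - p) * (c ^ (p - 1)) ^ (t - 1) :=
              mul_le_mul_of_nonneg_right hMc' (pow_nonneg (pow_nonneg hc0 _) _)
          _ = ((p : ℝ) ^ p * c ^ (p - 1)) ^ (t - 1) := by
              rw [hnp, pow_mul, mul_pow]
          _ ≤ ((C ^ (p - 1)) ^ p) ^ (t - 1) :=
              pow_le_pow_left₀ (mul_nonneg (pow_nonneg hp0.le _) (pow_nonneg hc0 _)) hy _
          _ = (C ^ (n - p)) ^ (p - 1) := by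
              rw [hnp, ← pow_mul, ← pow_mul, ← pow_mul]
              congr 1
              ring
      -- the sum
      have hsum : cs c P Ω ≤ cs c M Ω + (p - 1) * (Nat.card M) * c ^ t := by
        unfold cs
        letI := Fintype.ofFinite P
        letI : Fintype M := Fintype.ofFinite M
        rw [← Finset.sum_filter_add_sum_filter_not Finset.univ (fun x : P => x ∈ M)]
        apply add_le_add
        · exact le_of_eq (Finset.sum_subtype (p := fun x : P => x ∈ M)
            (Finset.univ.filter (fun x : P => x ∈ M)) (fun x => by simp)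
            (fun x => c ^ cyc (MulAction.toPerm x : Perm Ω)))
        · calc ∑ x ∈ Finset.univ.filter (fun x : P => ¬ x ∈ M), c ^ cyc (MulAction.toPerm x : Perm Ω)
              ≤ ∑ x ∈ Finset.univ.filter (fun x : P => ¬ x ∈ M), c ^ t :=
                Finset.sum_le_sum fun x hx =>
                  pow_le_pow_right₀ hc (hout x (Finset.mem_filter.1 hx).2)
            _ = (Finset.univ.filter (fun x : P => ¬ x ∈ M)).card * c ^ t := by
                rw [Finset.sum_const, nsmul_eq_mul]
            _ = _ := by
                congr 1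
                have h2 : (Finset.univ.filter (fun x : P => x ∈ M)).card = Nat.card M := by
                  rw [Nat.card_eq_fintype_card, Fintype.card_subtype]
                have h3 := Finset.card_filter_add_card_filter_not (s := (Finset.univ : Finset P))
                  (fun x : P => x ∈ M)
                rw [h2, Finset.card_univ, ← Nat.card_eq_fintype_card, hPM] at h3
                have h4 : (Nat.card M : ℝ) + (Finset.univ.filter (fun x : P => ¬ x ∈ M)).card =
                  Nat.card M * p := by exact_mod_cast h3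
                linarith
      have hct : c ^ t = c * c ^ (t - 1) := by rw [← pow_succ']; congr 1; omega
      have hcp : c ^ p = c * c ^ (p - 1) := by rw [← pow_succ']; congr 1; omega
      have hp1' : (1 : ℝ) ≤ p := by exact_mod_cast hp.out.one_lt.le
      have hpn : p ≤ n := by rw [ht]; nlinarith
      calc cs c P Ω ≤ cs c M Ω + (p - 1) * (Nat.card M) * c ^ t := hsum
        _ ≤ c ^ p * C ^ (n - p) + (p - 1) * (Nat.card M) * c ^ t := by linarith
        _ = c * c ^ (p - 1) * C ^ (n - p) + (p - 1) * c * ((Nat.card M) * c ^ (t - 1)) := by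
            rw [hct, hcp]; ring
        _ ≤ c * c ^ (p - 1) * C ^ (n - p) + (p - 1) * c * C ^ (n - p) := by
            have := mul_le_mul_of_nonneg_left hnum (mul_nonneg (sub_nonneg.2 hp1') hc0)
            linarith
        _ = c * C ^ (n - p) * (c ^ (p - 1) + (p - 1)) := by ring
        _ ≤ c * C ^ (n - p) * C ^ (p - 1) :=
            mul_le_mul_of_nonneg_left hC (mul_nonneg hc0 (pow_nonneg hC0 _))
        _ = c * C ^ (n - 1) := by
            rw [mul_assoc, ← pow_add]
            congr 2
            omega

end H68.FiveK
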