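import Mathlib
import Cfsg.Agent.Lib.H68.FiveKA
import Cfsg.Agent.Lib.H68.FiveKC

/-! A permutation group of degree `d` has at most `5^(d-1)` classes (S4264). -/

set_option autoImplicit false
set_option linter.style.haveILetI false

open Equiv Equiv.Perm Subgroup
open H68.PiClasses H68.Isolated

namespace H68.FiveK

/-- the action of a permutation commuting with `x` on the cycles of `x` -/
def cycHom {Ω X : Type*} [Group X] (ρ : X →* Perm Ω) (x : Perm Ω) (h : ∀ g : X, ρ g * x = x * ρ g) :
    X →* Perm (Quotient (SameCycle.setoid x)) :=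
  have key : ∀ g : X, ∀ a b : Ω, SameCycle x a b → SameCycle x (ρ g a) (ρ g b) := by
    rintro g a b ⟨i, rfl⟩
    have h1 : Commute (ρ g) (x ^ i) := (show Commute (ρ g) x from h g).zpow_right i
    exact ⟨i, by rw [← Perm.mul_apply, ← h1.eq, Perm.mul_apply]⟩
  { toFun := fun g =>
      { toFun := Quotient.map (ρ g) (key g)
        invFun := Quotient.map (ρ g⁻¹) (key g⁻¹)
        left_inv := by
          intro q
          obtain ⟨a, rfl⟩ := Quotient.exists_rep q
          show Quotient.mk _ (ρ g⁻¹ (ρ g a)) = Quotient.mk _ a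
          rw [← Perm.mul_apply, ← map_mul, inv_mul_cancel, map_one, Perm.one_apply]
        right_inv := by
          intro q
          obtain ⟨a, rfl⟩ := Quotient.exists_rep q
          show Quotient.mk _ (ρ g (ρ g⁻¹ a)) = Quotient.mk _ a
          rw [← Perm.mul_apply, ← map_mul, mul_inv_cancel, map_one, Perm.one_apply] }
    map_one' := by
      ext q
      obtain ⟨a, rfl⟩ := Quotient.exists_rep q
      show Quotient.mk _ (ρ 1 a) = Quotient.mk _ a
      rw [map_one, Perm.one_apply]
    map_mul' := by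
      intro g g'
      ext q
      obtain ⟨a, rfl⟩ := Quotient.exists_rep q
      show Quotient.mk _ (ρ (g * g') a) = Quotient.mk _ (ρ g (ρ g' a))
      rw [map_mul, Perm.mul_apply] }

theorem cycHom_ker {Ω X : Type*} [Group X] (ρ : X →* Perm Ω) (hρ : Function.Injective ρ)
    (x : Perm Ω) (h : ∀ g : X, ρ g * x = x * ρ g) {p e : ℕ} (hx : x ^ (p ^ e) = 1) :
    IsPGroup p (cycHom ρ x h).ker := by
  rintro ⟨g, hg⟩
  refine ⟨e, ?_⟩
  apply Subtype.ext
  show g ^ (p ^ e) = 1
  apply hρ
  rw [map_one]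
  ext ω
  have h1 : SameCycle x ω (ρ g ω) := by
    have h2 : (cycHom ρ x h g) (Quotient.mk _ ω) = Quotient.mk _ ω := by
      rw [MonoidHom.mem_ker.1 hg]; rfl
    have h3 : (Quotient.mk _ (ρ g ω) : Quotient (SameCycle.setoid x)) = Quotient.mk _ ω := h2
    exact (Quotient.exact h3 : SameCycle x (ρ g ω) ω).symm
  obtain ⟨i, hi⟩ := h1
  have hc : ∀ j : ℤ, Commute (ρ g) (x ^ j) := fun j => (show Commute (ρ g) x from h g).zpow_right j
  have h4 : ∀ m : ℕ, (ρ g ^ m) ω = (x ^ (i * m)) ω := by
    intro m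
    induction m with
    | zero => simp
    | succ m ihm =>
      rw [pow_succ', Perm.mul_apply, ihm, ← Perm.mul_apply, (hc _).eq, Perm.mul_apply, ← hi,
        ← Perm.mul_apply, ← zpow_add]
      congr 2
      push_cast
      ring
  rw [map_pow, h4, mul_comm, zpow_mul, zpow_natCast, hx, one_zpow]

/-- the bound for all degrees up to `N` -/
def T (N : ℕ) (π : Finset ℕ) (A : ℝ) : Prop :=
  ∀ n, 1 ≤ n → n ≤ N → ∀ G : Subgroup (Perm (Fin n)), (Nat.card (PiClass π G) : ℝ) ≤ A ^ (n - 1)

theorem cent_bound {N : ℕ} {π : Finset ℕ} {c : ℝ} (hT : T N π c) {n : ℕ} (hn1 : 1 ≤ n)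
    (hn : n ≤ N) (G : Subgroup (Perm (Fin n))) {p : ℕ} [hp : Fact p.Prime] (hpπ : p ∉ π) (x : G)
    (hx : ∃ k, orderOf x = p ^ k) :
    (Nat.card (PiClass π (Subgroup.centralizer ({x} : Set G))) : ℝ) ≤ c ^ (cyc (x : Perm (Fin n)) - 1) := by
  obtain ⟨e, he⟩ := hx
  have : Nonempty (Fin n) := ⟨⟨0, hn1⟩⟩
  let ρ : Subgroup.centralizer ({x} : Set G) →* Perm (Fin n) :=
    G.subtype.comp (Subgroup.centralizer ({x} : Set G)).subtype
  have hρ : Function.Injective ρ := by
    intro a b hab
    exact Subtype.ext (Subtype.ext hab)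
  have hcomm : ∀ g, ρ g * (x : Perm (Fin n)) = (x : Perm (Fin n)) * ρ g := by
    intro g
    have := Subgroup.mem_centralizer_singleton_iff.1 g.2
    exact congrArg Subtype.val this
  have hx1 : (x : Perm (Fin n)) ^ (p ^ e) = 1 := by
    have := pow_orderOf_eq_one x
    rw [he] at this
    exact congrArg Subtype.val this
  have hker := cycHom_ker ρ hρ (x : Perm (Fin n)) hcomm hx1
  let E : Quotient (SameCycle.setoid (x : Perm (Fin n))) ≃ Fin (cyc (x : Perm (Fin n))) :=
    Finite.equivFin _
  let φ : Subgroup.centralizer ({x} : Set G) →* Perm (Fin (cyc (x : Perm (Fin n)))) :=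
    (E.permCongrHom.toMonoidHom).comp (cycHom ρ (x : Perm (Fin n)) hcomm)
  have hφ : φ.rangeRestrict.ker = (cycHom ρ (x : Perm (Fin n)) hcomm).ker := by
    rw [MonoidHom.ker_rangeRestrict]
    ext g
    rw [MonoidHom.mem_ker, MonoidHom.mem_ker]
    show E.permCongrHom (cycHom ρ (x : Perm (Fin n)) hcomm g) = 1 ↔ _
    rw [map_eq_one_iff _ (E.permCongrHom).injective]
  have h1 := card_piClass_le_of_ker (p := p) φ.rangeRestrict φ.rangeRestrict_surjective
    (by rw [hφ]; exact hker) π hpπ
  have h2 := hT (cyc (x : Perm (Fin n))) (cyc_pos _)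
    ((cyc_le _).trans (by rw [Nat.card_eq_fintype_card, Fintype.card_fin]; exact hn)) φ.range
  exact (by exact_mod_cast h1 : (Nat.card (PiClass π (Subgroup.centralizer ({x} : Set G))) : ℝ) ≤
    (Nat.card (PiClass π φ.range) : ℝ)).trans h2

theorem sum_le_sum_surj {α β : Type*} [Fintype α] [Fintype β] (t : α → β)
    (ht : Function.Surjective t) (f : β → ℝ) (hf : ∀ b, 0 ≤ f b) : ∑ b, f b ≤ ∑ a, f (t a) := by
  classical
  choose s hs using ht
  have hinj : Function.Injective s := fun b b' h => by rw [← hs b, h, hs b']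
  calc ∑ b, f b = ∑ b, f (t (s b)) := by simp only [hs]
    _ = ∑ a ∈ Finset.univ.image s, f (t a) := by
        rw [Finset.sum_image (fun b _ b' _ h => hinj h)]
    _ ≤ _ := Finset.sum_le_sum_of_subset_of_nonneg (Finset.subset_univ _) (fun a _ _ => hf _)

theorem T_step {N : ℕ} {π : Finset ℕ} {p : ℕ} (hp : p.Prime) {c C : ℝ} (hc : 1 ≤ c)
    (hcC : c ≤ C) (hC : c ^ (p - 1) + (p - 1) ≤ C ^ (p - 1)) (hT : T N (π.erase p) c) :
    T N π C := by
  classical
  have := Fact.mk hp
  intro n hn1 hn G
  have hc0 : 0 < c := zero_lt_one.trans_le hc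
  have : Nonempty (Fin n) := ⟨⟨0, hn1⟩⟩
  have hfc := finite_conjClasses G
  letI : Fintype (PClass p G) := Fintype.ofFinite _
  have h1 := card_piClass_le_sum (G := G) π p hp
  let P : Sylow p G := default
  letI : Fintype (P : Subgroup G) := Fintype.ofFinite _
  let w : G → ℝ := fun x => c ^ (cyc (x : Perm (Fin n)) - 1)
  have hw : ∀ x y : G, IsConj x y → w x = w y := by
    intro x y hxy
    obtain ⟨g, rfl⟩ := isConj_iff.1 hxy
    show c ^ (cyc (x : Perm (Fin n)) - 1) = c ^ (cyc ((g * x * g⁻¹ : G) : Perm (Fin n)) - 1)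
    congr 2
    exact (cyc_conj (x : Perm (Fin n)) (g : Perm (Fin n))).symm
  have h2 : (Nat.card (PiClass π G) : ℝ) ≤ ∑ d : PClass p G, w (rep d) := by
    calc (Nat.card (PiClass π G) : ℝ)
        ≤ ((∑ d : PClass p G, Nat.card (PiClass (π.erase p) (Subgroup.centralizer ({rep d} : Set G))) : ℕ) : ℝ) := by
          exact_mod_cast h1
      _ = ∑ d : PClass p G, (Nat.card (PiClass (π.erase p) (Subgroup.centralizer ({rep d} : Set G))) : ℝ) := by
          push_cast; rfl
      _ ≤ _ := by
          refine Finset.sum_le_sum fun d _ => ?_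
          apply cent_bound hT hn1 hn G (Finset.notMem_erase p π)
          refine d.2 _ ?_
          rw [← mk_rep d]
          exact ConjClasses.mem_carrier_mk
  have h3 : ∑ d : PClass p G, w (rep d) ≤ ∑ y : (P : Subgroup G), w (y : G) := by
    refine (sum_le_sum_surj (toClass P) (toClass_surjective P) (fun d => w (rep d))
      (fun d => pow_nonneg hc0.le _)).trans (le_of_eq ?_)
    refine Finset.sum_congr rfl fun y _ => ?_
    apply hw
    rw [← ConjClasses.mk_eq_mk_iff_isConj, mk_rep]
    rfl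
  have h4 : c * ∑ y : (P : Subgroup G), w (y : G) ≤ c * C ^ (n - 1) := by
    have h5 := cs_le (p := p) hc hcC hC n hn1 (Fin n) (P : Subgroup G)
      (by rw [Nat.card_eq_fintype_card, Fintype.card_fin]) P.isPGroup'
    refine le_trans (le_of_eq ?_) h5
    unfold cs
    rw [Finset.mul_sum]
    refine Finset.sum_congr ?_ fun y _ => ?_
    · ext x; simp
    · show c * c ^ (cyc ((y : G) : Perm (Fin n)) - 1) = c ^ cyc ((y : G) : Perm (Fin n))
      rw [← pow_succ']
      congr 1
      have := cyc_pos ((y : G) : Perm (Fin n))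
      omega
  have h5 := le_of_mul_le_mul_left h4 hc0
  exact h2.trans (h3.trans h5)

/-- primes in `(m, N]` -/
def pr (N m : ℕ) : Finset ℕ := (Finset.range (N + 1)).filter (fun q => q.Prime ∧ m < q)

noncomputable def AA (m : ℕ) : ℝ := 3 + 9 / 2 * (1 / 3) ^ m

theorem AA_ge (m : ℕ) : 3 ≤ AA m := by
  unfold AA
  have : (0 : ℝ) ≤ (1 / 3) ^ m := by positivity
  linarith

theorem AA_succ (m : ℕ) : AA m = AA (m + 1) + 3 * (1 / 3) ^ m := by
  unfold AA
  rw [pow_succ]
  ring

theorem AA_step (m : ℕ) (hm : 1 ≤ m) : AA (m + 1) ^ m + m ≤ AA m ^ m := by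
  set a := AA (m + 1) with ha
  have ha3 : 3 ≤ a := AA_ge _
  have ha0 : 0 < a := by linarith
  have hδ : AA m = a * (1 + 3 * (1 / 3) ^ m / a) := by
    rw [AA_succ, ← ha]
    field_simp
  set δ : ℝ := 3 * (1 / 3) ^ m with hδd
  have hδ0 : 0 ≤ δ := by rw [hδd]; positivity
  rw [hδ, mul_pow]
  have h1 : 1 + (m : ℝ) * (δ / a) ≤ (1 + δ / a) ^ m :=
    one_add_mul_le_pow (by have : 0 ≤ δ / a := div_nonneg hδ0 ha0.le; linarith) m
  have h2 : 1 ≤ a ^ (m - 1) * δ := by
    have h3 : (3 : ℝ) ^ (m - 1) ≤ a ^ (m - 1) := pow_le_pow_left₀ (by norm_num) ha3 _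
    have h4 : (3 : ℝ) ^ (m - 1) * δ = 1 := by
      rw [hδd]
      obtain ⟨k, rfl⟩ := Nat.exists_eq_add_of_le hm
      rw [Nat.add_sub_cancel_left, pow_add, pow_one, one_div, inv_pow]
      field_simp
    calc (1 : ℝ) = 3 ^ (m - 1) * δ := h4.symm
      _ ≤ _ := mul_le_mul_of_nonneg_right h3 hδ0
  have h3 : a ^ m * (1 + (m : ℝ) * (δ / a)) = a ^ m + m * (a ^ (m - 1) * δ) := by
    have h5 : a ^ m = a ^ (m - 1) * a := by rw [← pow_succ]; congr 1; omega
    rw [h5]
    field_simp
  calc a ^ m + m ≤ a ^ m + m * (a ^ (m - 1) * δ) := by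
        have : (m : ℝ) * 1 ≤ m * (a ^ (m - 1) * δ) := mul_le_mul_of_nonneg_left h2 (Nat.cast_nonneg m)
        linarith
    _ = a ^ m * (1 + (m : ℝ) * (δ / a)) := h3.symm
    _ ≤ _ := mul_le_mul_of_nonneg_left h1 (pow_nonneg ha0.le _)

theorem T_mono {N : ℕ} {π : Finset ℕ} {c C : ℝ} (hc : 0 ≤ c) (hcC : c ≤ C) (h : T N π c) :
    T N π C := fun n h1 h2 G => (h n h1 h2 G).trans (pow_le_pow_left₀ hc hcC _)

theorem T_start (N : ℕ) {c : ℝ} (hc : 1 ≤ c) : T N ∅ c := by
  intro n _ _ G
  have h := card_piClass_le ∅ G (fun r hr => absurd hr (Finset.notMem_empty _))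
  have h2 : piPart ∅ (Nat.card G) = 1 := by unfold piPart; rw [Finset.prod_empty]
  rw [h2] at h
  calc (Nat.card (PiClass ∅ G) : ℝ) ≤ 1 := by exact_mod_cast h
    _ ≤ _ := one_le_pow₀ hc

theorem T_pr (N : ℕ) : ∀ k m : ℕ, k + m = N → T N (pr N m) (AA m) := by
  intro k
  induction k with
  | zero =>
    intro m hm
    have : pr N m = ∅ := by
      unfold pr
      rw [Finset.filter_eq_empty_iff]
      intro q hq
      rw [Finset.mem_range] at hq
      rintro ⟨_, h⟩
      omega
    rw [this]
    exact T_start N (by have := AA_ge m; linarith)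
  | succ k ih =>
    intro m hm
    have h1 := ih (m + 1) (by omega)
    by_cases hp : (m + 1).Prime
    · apply T_step hp (c := AA (m + 1))
      · have := AA_ge (m + 1); linarith
      · rw [AA_succ m]
        have : (0 : ℝ) ≤ 3 * (1 / 3) ^ m := by positivity
        linarith
      · have hm1 : 1 ≤ m := by have := hp.two_le; omega
        have := AA_step m hm1
        simpa using this
      · have : (pr N m).erase (m + 1) = pr N (m + 1) := by
          ext q
          unfold pr
          simp only [Finset.mem_erase, Finset.mem_filter, Finset.mem_range]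
          constructor
          · rintro ⟨h1, h2, h3, h4⟩
            exact ⟨h2, h3, by omega⟩
          · rintro ⟨h2, h3, h4⟩
            exact ⟨by omega, h2, h3, by omega⟩
        rw [this]
        exact h1
    · have : pr N m = pr N (m + 1) := by
        ext q
        unfold pr
        simp only [Finset.mem_filter, Finset.mem_range]
        constructor
        · rintro ⟨h2, h3, h4⟩
          refine ⟨h2, h3, ?_⟩
          rcases Nat.lt_or_ge (m + 1) q with h | h
          · exact h
          · exfalso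
            have : q = m + 1 := by omega
            exact hp (this ▸ h3)
        · rintro ⟨h2, h3, h4⟩
          exact ⟨h2, h3, by omega⟩
      rw [this]
      apply T_mono _ _ h1
      · have := AA_ge (m + 1); linarith
      · rw [AA_succ m]
        have : (0 : ℝ) ≤ 3 * (1 / 3) ^ m := by positivity
        linarith

theorem T_final (N : ℕ) : T N (pr N 1) 5 := by
  have h3 : T N (pr N 3) (19 / 6) := by
    rcases Nat.lt_or_ge N 3 with h | h
    · have : pr N 3 = ∅ := by
        unfold pr
        rw [Finset.filter_eq_empty_iff]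
        intro q hq
        rw [Finset.mem_range] at hq
        rintro ⟨_, h⟩
        omega
      rw [this]
      exact T_start N (by norm_num)
    · have := T_pr N (N - 3) 3 (by omega)
      have h2 : AA 3 = 19 / 6 := by unfold AA; norm_num
      rwa [h2] at this
  have h2 : T N (pr N 2) (18 / 5) := by
    apply T_step Nat.prime_three (c := 19 / 6) (by norm_num) (by norm_num) (by norm_num)
    have : (pr N 2).erase 3 = pr N 3 := by
      ext q
      unfold pr
      simp only [Finset.mem_erase, Finset.mem_filter, Finset.mem_range]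
      constructor
      · rintro ⟨h1, h2, h3, h4⟩
        exact ⟨h2, h3, by omega⟩
      · rintro ⟨h2, h3, h4⟩
        exact ⟨by omega, h2, h3, by omega⟩
    rw [this]
    exact h3
  apply T_step Nat.prime_two (c := 18 / 5) (by norm_num) (by norm_num) (by norm_num)
  have : (pr N 1).erase 2 = pr N 2 := by
    ext q
    unfold pr
    simp only [Finset.mem_erase, Finset.mem_filter, Finset.mem_range]
    constructor
    · rintro ⟨h1, h2, h3, h4⟩
      exact ⟨h2, h3, by omega⟩
    · rintro ⟨h2, h3, h4⟩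
      exact ⟨by omega, h2, h3, by omega⟩
  rw [this]
  exact h2

theorem main (d : ℕ) (hd : 1 ≤ d) (G : Subgroup (Perm (Fin d))) :
    Nat.card (ConjClasses G) ≤ 5 ^ (d - 1) := by
  have h1 := T_final d d hd le_rfl G
  have hfc := finite_conjClasses G
  let f : ConjClasses G → PiClass (pr d 1) G := fun c => ⟨c, by
    intro x _ r hr hd'
    unfold pr
    rw [Finset.mem_filter, Finset.mem_range]
    refine ⟨?_, hr, hr.one_lt⟩
    have h2 : r ∣ d.factorial := by
      refine hd'.trans ((orderOf_dvd_natCard x).trans ((Subgroup.card_subgroup_dvd_card G).trans ?_))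
      rw [Nat.card_perm, Nat.card_eq_fintype_card, Fintype.card_fin]
    have := (hr.dvd_factorial).1 h2
    omega⟩
  have h2 : Nat.card (ConjClasses G) ≤ Nat.card (PiClass (pr d 1) G) :=
    Nat.card_le_card_of_injective f (fun a b hab => congrArg Subtype.val hab)
  have h3 : ((Nat.card (PiClass (pr d 1) G) : ℕ) : ℝ) ≤ ((5 ^ (d - 1) : ℕ) : ℝ) := by
    push_cast
    exact h1
  exact h2.trans (by exact_mod_cast h3)

end H68.FiveK
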