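import Mathlib
import Cfsg.Agent.Lib.H1.Coprime2
import Cfsg.Agent.Lib.H1.Frat
import Cfsg.Agent.Lib.H1.FpfNilp

/-! Frobenius groups acting: the norm of the complement. -/

namespace H68.FrobMod

open Subgroup

/-- If the norm of `h` vanishes then `F` acts trivially up to `|F|`-th powers. -/
theorem norm_lemma {A Γ : Type*} [CommGroup A] [Group Γ] (ρ : Γ →* MulAut A) (F : Subgroup Γ) [Finite F]
    (h : Γ) (n : ℕ) (hn : 1 ≤ n) (hF : ∀ y ∈ F, h * y * h⁻¹ ∈ F)
    (hfree : ∀ i, 0 < i → i < n → ∀ x ∈ F, x * h ^ i = h ^ i * x → x = 1)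
    (hnorm : ∀ v : A, ∏ i ∈ Finset.range n, ρ (h ^ i) v = 1) (y : Γ) (hy : y ∈ F) (v : A) :
    ρ y (v ^ Nat.card F) = v ^ Nat.card F := by
  classical
  have := Fintype.ofFinite F
  have hFi : ∀ i : ℕ, ∀ y ∈ F, h ^ i * y * (h ^ i)⁻¹ ∈ F := by
    intro i
    induction i with
    | zero => intro y hy; simpa using hy
    | succ i ih =>
      intro y hy
      have h1 := hF _ (ih y hy)
      have h2 : h ^ (i + 1) * y * (h ^ (i + 1))⁻¹ = h * (h ^ i * y * (h ^ i)⁻¹) * h⁻¹ := by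
        rw [pow_succ']; group
      rw [h2]; exact h1
  let E : A → A := fun u => ∏ x : F, ρ (x : Γ) u
  have hEmul : ∀ (s : Finset ℕ) (g : ℕ → A), E (∏ i ∈ s, g i) = ∏ i ∈ s, E (g i) := by
    intro s g
    show ∏ x : F, ρ (x : Γ) (∏ i ∈ s, g i) = ∏ i ∈ s, ∏ x : F, ρ (x : Γ) (g i)
    rw [Finset.prod_comm]
    refine Finset.prod_congr rfl fun x _ => ?_
    exact map_prod (ρ (x : Γ)) g s
  have hEfix : ∀ (y : Γ), y ∈ F → ∀ u : A, ρ y (E u) = E u := by
    intro y hy u
    show ρ y (∏ x : F, ρ (x : Γ) u) = ∏ x : F, ρ (x : Γ) u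
    rw [map_prod]
    refine Fintype.prod_bijective (fun x : F => ⟨y, hy⟩ * x) (Group.mulLeft_bijective _) _ _ fun x => ?_
    show ρ y (ρ (x : Γ) u) = ρ (((⟨y, hy⟩ * x : F) : Γ)) u
    rw [Subgroup.coe_mul, map_mul, MulAut.mul_apply]
  -- the conjugates of `h ^ i`
  have hconj : ∀ i, 0 < i → i < n → ∀ v : A,
      ∏ x : F, ρ ((x : Γ) * h ^ i * (x : Γ)⁻¹) v = E (ρ (h ^ i) v) := by
    intro i hi hin v
    have hmem : ∀ x : F, (x : Γ) * h ^ i * (x : Γ)⁻¹ * (h ^ i)⁻¹ ∈ F := by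
      intro x
      have h1 := F.mul_mem x.2 (hFi i _ (F.inv_mem x.2))
      have h2 : (x : Γ) * h ^ i * (x : Γ)⁻¹ * (h ^ i)⁻¹ = (x : Γ) * (h ^ i * (x : Γ)⁻¹ * (h ^ i)⁻¹) := by group
      rw [h2]; exact h1
    let g : F → F := fun x => ⟨_, hmem x⟩
    have hg : Function.Injective g := by
      intro a b hab
      have h1 : (a : Γ) * h ^ i * (a : Γ)⁻¹ * (h ^ i)⁻¹ = (b : Γ) * h ^ i * (b : Γ)⁻¹ * (h ^ i)⁻¹ :=
        congrArg Subtype.val hab
      have h2 : (a : Γ) * h ^ i * (a : Γ)⁻¹ = (b : Γ) * h ^ i * (b : Γ)⁻¹ := mul_right_cancel h1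
      have h3 : ((b : Γ)⁻¹ * a) * h ^ i = h ^ i * ((b : Γ)⁻¹ * a) := by
        calc ((b : Γ)⁻¹ * a) * h ^ i = (b : Γ)⁻¹ * (a * h ^ i * (a : Γ)⁻¹) * a := by group
          _ = (b : Γ)⁻¹ * (b * h ^ i * (b : Γ)⁻¹) * a := by rw [h2]
          _ = h ^ i * ((b : Γ)⁻¹ * a) := by group
      have h4 := hfree i hi hin _ (F.mul_mem (F.inv_mem b.2) a.2) h3
      have h5 : (a : Γ) = b := by
        rw [inv_mul_eq_one] at h4
        exact h4.symm
      exact Subtype.ext h5
    refine Fintype.prod_bijective g (Finite.injective_iff_bijective.1 hg) _ _ fun x => ?_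
    show _ = ρ ((x : Γ) * h ^ i * (x : Γ)⁻¹ * (h ^ i)⁻¹) (ρ (h ^ i) v)
    rw [← MulAut.mul_apply, ← map_mul, inv_mul_cancel_right]
  have key : v ^ Nat.card F = E v := by
    have h1 : ∏ x : F, ∏ i ∈ Finset.range n, ρ ((x : Γ) * h ^ i * (x : Γ)⁻¹) v = 1 := by
      apply Finset.prod_eq_one
      intro x _
      have h2 : ∏ i ∈ Finset.range n, ρ ((x : Γ) * h ^ i * (x : Γ)⁻¹) v =
          ρ (x : Γ) (∏ i ∈ Finset.range n, ρ (h ^ i) (ρ (x : Γ)⁻¹ v)) := by
        rw [map_prod]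
        refine Finset.prod_congr rfl fun i _ => ?_
        rw [map_mul, map_mul, MulAut.mul_apply, MulAut.mul_apply, map_inv]
      rw [h2, hnorm, map_one]
    rw [Finset.prod_comm] at h1
    obtain ⟨m, rfl⟩ : ∃ m, n = m + 1 := ⟨n - 1, by omega⟩
    rw [Finset.prod_range_succ'] at h1
    have h3 : ∏ x : F, ρ ((x : Γ) * h ^ 0 * (x : Γ)⁻¹) v = v ^ Nat.card F := by
      simp only [pow_zero, mul_one, mul_inv_cancel, map_one, MulAut.one_apply, Finset.prod_const,
        Finset.card_univ, Nat.card_eq_fintype_card]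
    have h4 : ∏ k ∈ Finset.range m, ∏ x : F, ρ ((x : Γ) * h ^ (k + 1) * (x : Γ)⁻¹) v = E v⁻¹ := by
      have h5 : ∏ k ∈ Finset.range m, ∏ x : F, ρ ((x : Γ) * h ^ (k + 1) * (x : Γ)⁻¹) v =
          ∏ k ∈ Finset.range m, E (ρ (h ^ (k + 1)) v) := by
        refine Finset.prod_congr rfl fun k hk => ?_
        rw [Finset.mem_range] at hk
        exact hconj (k + 1) (by omega) (by omega) v
      rw [h5, ← hEmul]
      congr 1
      have h6 := hnorm v
      rw [Finset.prod_range_succ', pow_zero, map_one, MulAut.one_apply] at h6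
      exact eq_inv_of_mul_eq_one_left h6
    rw [h3, h4] at h1
    have h7 : E v⁻¹ = (E v)⁻¹ := by
      show ∏ x : F, ρ (x : Γ) v⁻¹ = (∏ x : F, ρ (x : Γ) v)⁻¹
      rw [← Finset.prod_inv_distrib]
      exact Finset.prod_congr rfl fun x _ => map_inv _ _
    rw [h7, inv_mul_eq_one] at h1
    exact h1.symm
  rw [key]
  exact hEfix y hy v

/-- functoriality of the abelianization -/
def autAb (P : Type*) [Group P] : MulAut P →* MulAut (Abelianization P) where
  toFun e := e.abelianizationCongr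
  map_one' := by
    ext x
    obtain ⟨x, rfl⟩ := QuotientGroup.mk_surjective x
    rfl
  map_mul' e f := by
    ext x
    obtain ⟨x, rfl⟩ := QuotientGroup.mk_surjective x
    rfl

theorem autAb_of {P : Type*} [Group P] (e : MulAut P) (x : P) :
    autAb P e (Abelianization.of x) = Abelianization.of (e x) := rfl

/-- A Frobenius group `F⟨h⟩` acting on a `p`-group `P` such that `(v h)^n = 1` for all `v ∈ P`:
then `F` centralizes `P`. -/
theorem centralizes {G : Type*} [Group G] [Finite G] {p : ℕ} [hp : Fact p.Prime] (P F : Subgroup G)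
    (hP : IsPGroup p P) (hFP : F ≤ normalizer (P : Set G)) (hFp : (Nat.card F).Coprime p)
    (h : G) (hhP : h ∈ normalizer (P : Set G)) (hhF : h ∈ normalizer (F : Set G)) (n : ℕ) (hn : 1 ≤ n)
    (hfree : ∀ i, 0 < i → i < n → ∀ x ∈ F, x * h ^ i = h ^ i * x → x = 1)
    (hord : ∀ v ∈ P, (v * h) ^ n = 1) : P ≤ centralizer (F : Set G) := by
  set NP := normalizer (P : Set G) with hNP
  let ρ : NP →* MulAut (Abelianization P) := (autAb P).comp P.normalizerMonoidHom
  have hρ : ∀ (g : NP) (v : P), ρ g (Abelianization.of v) =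
      Abelianization.of ⟨(g : G) * v * (g : G)⁻¹, (Subgroup.mem_normalizer_iff.1 g.2 v).1 v.2⟩ := fun g v => rfl
  have hh1 : h ^ n = 1 := by
    have := hord 1 P.one_mem
    rwa [one_mul] at this
  -- norms
  have hnorm : ∀ v : Abelianization P, ∏ i ∈ Finset.range n, ρ ((⟨h, hhP⟩ : NP) ^ i) v = 1 := by
    intro v
    obtain ⟨v, rfl⟩ := QuotientGroup.mk_surjective v
    change ∏ i ∈ Finset.range n, ρ ((⟨h, hhP⟩ : NP) ^ i) (Abelianization.of v) = 1
    have key : ∀ k : ℕ, ∃ u : P, ((v : G) * h) ^ k = u * h ^ k ∧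
        Abelianization.of u = ∏ i ∈ Finset.range k, ρ ((⟨h, hhP⟩ : NP) ^ i) (Abelianization.of v) := by
      intro k
      induction k with
      | zero => exact ⟨1, by simp, by simp⟩
      | succ k ih =>
        obtain ⟨u, hu1, hu2⟩ := ih
        have hmem : h ^ k * (v : G) * (h ^ k)⁻¹ ∈ P :=
          (Subgroup.mem_normalizer_iff.1 (NP.pow_mem hhP k) v).1 v.2
        refine ⟨u * ⟨_, hmem⟩, ?_, ?_⟩
        · rw [pow_succ, hu1, Subgroup.coe_mul, pow_succ]
          show (u : G) * h ^ k * (v * h) = u * (h ^ k * (v : G) * (h ^ k)⁻¹) * (h ^ k * h)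
          group
        · rw [map_mul, hu2, Finset.prod_range_succ]
          congr 1
    obtain ⟨u, hu1, hu2⟩ := key n
    rw [hord v v.2, hh1, mul_one] at hu1
    rw [← hu2]
    have : u = 1 := Subtype.ext hu1.symm
    rw [this, map_one]
  -- apply the norm lemma
  have hmain := norm_lemma ρ (F.subgroupOf NP) ⟨h, hhP⟩ n hn
    (by
      intro y hy
      exact (Subgroup.mem_normalizer_iff.1 hhF (y : G)).1 hy)
    (by
      intro i hi hin x hx hc
      apply Subtype.ext
      exact hfree i hi hin x hx (congrArg Subtype.val hc))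
    hnorm
  have hcardF : Nat.card (F.subgroupOf NP) = Nat.card F :=
    Nat.card_congr (Subgroup.subgroupOfEquivOfLe hFP).toEquiv
  rw [hcardF] at hmain
  -- `[P, F] ≤ P'`
  have hcomm : ∀ (y : G) (hy : y ∈ F) (v : P), Abelianization.of (⟨y * (v : G) * y⁻¹,
      (Subgroup.mem_normalizer_iff.1 (hFP hy) v).1 v.2⟩ * v⁻¹ : P) = 1 := by
    intro y hy v
    have h1 := hmain ⟨y, hFP hy⟩ hy (Abelianization.of v)
    rw [map_pow, hρ] at h1
    set a : Abelianization P := Abelianization.of ⟨y * (v : G) * y⁻¹,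
      (Subgroup.mem_normalizer_iff.1 (hFP hy) v).1 v.2⟩ with ha
    have h1' : a ^ Nat.card F = Abelianization.of v ^ Nat.card F := h1
    rw [map_mul, map_inv, ← ha]
    have h2 : (a * (Abelianization.of v)⁻¹) ^ Nat.card F = 1 := by
      rw [mul_pow, h1', ← mul_pow, mul_inv_cancel, one_pow]
    have hPA : IsPGroup p (Abelianization P) := hP.to_quotient _
    obtain ⟨k, hk⟩ := IsPGroup.iff_orderOf.1 hPA (a * (Abelianization.of v)⁻¹)
    have h3 := orderOf_dvd_of_pow_eq_one h2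
    rw [hk] at h3
    have h4 : Nat.Coprime (p ^ k) (Nat.card F) := Nat.Coprime.pow_left _ hFp.symm
    have h5 := Nat.Coprime.eq_one_of_dvd h4 h3
    rw [h5] at hk
    exact orderOf_eq_one_iff.1 hk
  have hPnil : Group.IsNilpotent P := hP.isNilpotent
  have hcop : (Nat.card F).Coprime (Nat.card P) := by
    obtain ⟨k, hk⟩ := IsPGroup.iff_card.1 hP
    rw [hk]; exact Nat.Coprime.pow_right _ hFp
  have hsup := H1.Coprime2.commutator_sup_centralizer F P hFP hcop (Or.inr inferInstance)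
  have h1 : ⁅P, F⁆ ≤ (commutator P).map P.subtype := by
    rw [Subgroup.commutator_le]
    intro v hv y hy
    have h2 := hcomm y hy ⟨v, hv⟩
    rw [← MonoidHom.mem_ker, Abelianization.ker_of] at h2
    have h3 := (commutator P).inv_mem h2
    refine ⟨_, h3, ?_⟩
    show (((⟨y * v * y⁻¹, _⟩ * (⟨v, hv⟩ : P)⁻¹ : P)⁻¹ : P) : G) = _
    rw [Subgroup.coe_inv, Subgroup.coe_mul, Subgroup.coe_inv, commutatorElement_def]
    group
  -- conclude
  set C := P ⊓ centralizer (F : Set G) with hC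
  have h2 : C.subgroupOf P ⊔ commutator P = ⊤ := by
    rw [eq_top_iff]
    intro x _
    have h3 : (x : G) ∈ ⁅P, F⁆ ⊔ C := by rw [hsup]; exact x.2
    have h4 : (x : G) ∈ (commutator P).map P.subtype ⊔ (C.subgroupOf P).map P.subtype := by
      rw [Subgroup.map_subgroupOf_eq_of_le (inf_le_left : C ≤ P)]
      exact sup_le_sup_right h1 C h3
    rw [← Subgroup.map_sup] at h4
    obtain ⟨y, hy, hyx⟩ := h4
    have : y = x := Subtype.ext hyx
    rw [sup_comm, ← this]
    exact hy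
  have h3 : C.subgroupOf P = ⊤ := by
    apply frattini_nongenerating
    rw [eq_top_iff, ← h2]
    exact sup_le_sup_left H1.Frat.commutator_le_frattini _
  rw [Subgroup.subgroupOf_eq_top] at h3
  exact h3.trans inf_le_right

end H68.FrobMod
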