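import Cfsg.Agent.Lib.H68.FrobMod

/-! Frobenius quotients with cyclic complement force element orders. -/

namespace H68.FrobQuot

open Subgroup Cfsg H1.Coprime H1.Coprime2
open scoped Pointwise

theorem done {G : Type*} [Group G] [Finite G] (N : Subgroup G) [N.Normal] (n : ℕ) (hn : 1 ≤ n) (g : G)
    (hg : orderOf (QuotientGroup.mk' N g) = n) (hgn : g ^ n ≠ 1) :
    ∃ p : ℕ, p.Prime ∧ p ∣ Nat.card N ∧ ∃ g : G, orderOf g = p * n := by
  have h1 : g ^ n ∈ N := by
    rw [← QuotientGroup.eq_one_iff, QuotientGroup.mk_pow]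
    have : (QuotientGroup.mk' N g) ^ n = 1 := by rw [← hg, pow_orderOf_eq_one]
    exact this
  set m := orderOf (g ^ n) with hm
  have hm1 : m ≠ 1 := fun h => hgn (orderOf_eq_one_iff.1 h)
  obtain ⟨s, hs, hsm⟩ := Nat.exists_prime_and_dvd hm1
  have hmN : m ∣ Nat.card N := Subgroup.orderOf_dvd_natCard _ h1
  refine ⟨s, hs, hsm.trans hmN, g ^ (m / s), ?_⟩
  have h2 : n ∣ orderOf g := by
    rw [← hg]; exact orderOf_map_dvd _ g
  have h3 : orderOf g = n * m := by
    have := orderOf_pow_of_dvd (x := g) (n := n) (by omega) h2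
    rw [hm, this, Nat.mul_div_cancel' h2]
  have hm0 : 0 < m := orderOf_pos _
  have h4 : 0 < m / s := Nat.div_pos (Nat.le_of_dvd hm0 hsm) hs.pos
  have h5 : m / s ∣ orderOf g := by
    rw [h3]; exact (Nat.div_dvd_of_dvd hsm).mul_left n
  rw [orderOf_pow_of_dvd h4.ne' h5, h3]
  obtain ⟨k, hk⟩ := hsm
  have hk0 : 0 < k := by
    rcases Nat.eq_zero_or_pos k with h | h
    · rw [h, mul_zero] at hk; omega
    · exact h
  rw [hk, Nat.mul_div_cancel_left _ hs.pos]
  rw [show n * (s * k) = (s * n) * k by ring, Nat.mul_div_cancel _ hk0]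

theorem main {G : Type*} [Group G] [Finite G] (N : Subgroup G) [N.Normal]
    (Fb Hb : Subgroup (G ⧸ N)) [Fb.Normal] (hHb : Cfsg.IsFrobeniusComplement Hb)
    (hker : Cfsg.frobeniusKernel Hb = (Fb : Set (G ⧸ N)))
    (hcyc : IsCyclic Hb) (hcop : (Nat.card Fb).Coprime (Nat.card N))
    (hnot : ¬ Fb ≤ (Subgroup.centralizer (N : Set G)).map (QuotientGroup.mk' N)) :
    ∃ p : ℕ, p.Prime ∧ p ∣ Nat.card N ∧ ∃ g : G, orderOf g = p * Nat.card Hb := by
  by_contra hcon
  set n := Nat.card Hb with hn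
  have hn1 : 1 ≤ n := Nat.card_pos
  set π := QuotientGroup.mk' N with hπ
  have hord : ∀ g : G, orderOf (π g) = n → g ^ n = 1 := by
    intro g hg
    by_contra h
    exact hcon (done N n hn1 g hg h)
  obtain ⟨hb0, hhb0⟩ := hcyc.exists_generator
  set hb : G ⧸ N := (hb0 : G ⧸ N) with hhb
  have hbo : orderOf hb = n := by
    rw [hhb, Subgroup.orderOf_coe, hn]
    exact orderOf_eq_card_of_forall_mem_zpowers hhb0
  have hbH : hb ∈ Hb := hb0.2
  set L : Subgroup G := Fb.comap π with hL
  have hNL : N ≤ L := by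
    intro x hx
    show π x ∈ Fb
    have : π x = 1 := (QuotientGroup.eq_one_iff x).2 hx
    rw [this]; exact one_mem _
  -- the index of `N` in `L`
  have hrel : N.relIndex L = Nat.card Fb := by
    have h1 : N = (⊥ : Subgroup (G ⧸ N)).comap π := by
      ext x
      rw [Subgroup.mem_comap, Subgroup.mem_bot]
      exact (QuotientGroup.eq_one_iff x).symm
    have h2 : N.relIndex L = ((⊥ : Subgroup (G ⧸ N)).comap π).relIndex (Fb.comap π) := by rw [← h1]
    rw [h2, Subgroup.relIndex_comap, Subgroup.map_comap_eq_self_of_surjective (QuotientGroup.mk'_surjective N),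
      Subgroup.relIndex_bot_left]
  -- the complement
  obtain ⟨K0, hK0⟩ := Subgroup.exists_right_complement'_of_coprime (N := N.subgroupOf L) (by
    have h1 : Nat.card (N.subgroupOf L) = Nat.card N := H1.SZ.card_subgroupOf_of_le hNL
    rw [h1]
    show (Nat.card N).Coprime (N.relIndex L)
    rw [hrel]; exact hcop.symm)
  set F : Subgroup G := K0.map L.subtype with hF
  have hFL : F ≤ L := Subgroup.map_subtype_le K0
  have hFc : Nat.card F = Nat.card Fb := by
    rw [hF, Subgroup.card_map_of_injective L.subtype_injective, ← hrel]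
    exact hK0.symm.index_eq_card.symm
  have hcopFN : (Nat.card F).Coprime (Nat.card N) := by rw [hFc]; exact hcop
  have hFN : F ⊓ N = ⊥ := inf_eq_bot_of_coprime_card hcopFN
  have hFinj : ∀ x ∈ F, π x = 1 → x = 1 := by
    intro x hx h
    have h1 : x ∈ F ⊓ N := ⟨hx, (QuotientGroup.eq_one_iff x).1 h⟩
    rwa [hFN, Subgroup.mem_bot] at h1
  have hFmap : F.map π = Fb := by
    apply Subgroup.eq_of_le_of_card_ge
    · rw [Subgroup.map_le_iff_le_comap]; exact hFL
    · have h1 : Function.Injective (π.subgroupMap F) := by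
        rw [injective_iff_map_eq_one]
        intro x hx
        exact Subtype.ext (hFinj x x.2 (congrArg Subtype.val hx))
      rw [← hFc]
      exact Nat.card_le_card_of_injective _ h1
  have hFnot : ¬ F ≤ centralizer (N : Set G) := by
    intro h
    apply hnot
    rw [← hFmap]
    exact Subgroup.map_mono h
  -- solvability of `F`
  have hFsol : Group.IsSolvable F := by
    obtain ⟨M, hM, -, -, hnil⟩ := H1.FpfNilp.frobeniusKernel_nilpotent hHb
    have hMF : M = Fb := SetLike.coe_injective (hM.trans hker)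
    rw [hMF] at hnil
    have h1 : Group.IsSolvable Fb := inferInstance
    have h2 : Group.IsSolvable (F.map π) := by rw [hFmap]; exact h1
    have h3 : Function.Injective (π.subgroupMap F) := by
      rw [injective_iff_map_eq_one]
      intro x hx
      exact Subtype.ext (hFinj x x.2 (congrArg Subtype.val hx))
    exact Group.isSolvable_of_isSolvable_injective h3
  have hFNn : F ≤ normalizer (N : Set G) := by rw [Subgroup.normalizer_eq_top]; exact le_top
  -- a good prime and Sylow subgroup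
  obtain ⟨p, hp, S, hS, hFS, hSc⟩ : ∃ p : ℕ, p.Prime ∧ ∃ S : Subgroup G, IsSylIn p N S ∧
      F ≤ normalizer (S : Set G) ∧ ¬ S ≤ centralizer (F : Set G) := by
    by_contra h
    push Not at h
    apply hFnot
    have h1 : Nat.card N ∣ Nat.card (N ⊓ centralizer (F : Set G) : Subgroup G) := by
      rw [Nat.dvd_iff_prime_pow_dvd_dvd]
      intro p k hp hk
      have : Fact p.Prime := ⟨hp⟩
      obtain ⟨S, hS, hFS⟩ := exists_invariant_sylow F N hFNn hcopFN (Or.inl hFsol) p
      have h2 : S ≤ N ⊓ centralizer (F : Set G) := le_inf hS.1 (h p hp S hS hFS)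
      have h3 : k ≤ (Nat.card N).factorization p :=
        (hp.pow_dvd_iff_le_factorization Nat.card_pos.ne').1 hk
      exact (pow_dvd_pow p h3).trans (hS.2 ▸ Subgroup.card_dvd_of_le h2)
    have h2 : N ⊓ centralizer (F : Set G) = N :=
      Subgroup.eq_of_le_of_card_ge inf_le_left (Nat.le_of_dvd Nat.card_pos h1)
    have h3 : N ≤ centralizer (F : Set G) := inf_eq_left.1 h2
    exact Subgroup.le_centralizer_iff.1 h3
  have : Fact p.Prime := ⟨hp⟩
  have hpN : p ∣ Nat.card N := by
    by_contra h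
    apply hSc
    have h1 : Nat.card S = 1 := by
      rw [hS.2, Nat.factorization_eq_zero_of_not_dvd h, pow_zero]
    rw [Subgroup.card_eq_one.1 h1]
    exact bot_le
  have hFp : (Nat.card F).Coprime p := Nat.Coprime.coprime_dvd_right hpN hcopFN
  -- choose `h`
  obtain ⟨g0, hg0⟩ := QuotientGroup.mk'_surjective N hb
  have hg0N : g0 ∈ normalizer (N : Set G) := by rw [Subgroup.normalizer_eq_top]; exact Subgroup.mem_top _
  obtain ⟨k, hk, hkS⟩ := (hS.smul hg0N).conj hS
  set g1 := k * g0 with hg1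
  have hg1S : g1 ∈ normalizer (S : Set G) := by
    apply H1.SZ.mem_normalizer_of_conj_smul_eq
    rw [hg1, map_mul, mul_smul]; exact hkS
  have hk1 : π k = 1 := (QuotientGroup.eq_one_iff k).2 hk
  have hg1π : π g1 = hb := by rw [hg1, map_mul, hk1, one_mul]; exact hg0
  set L₁ := L ⊓ normalizer (S : Set G) with hL₁
  set N₁ := N ⊓ normalizer (S : Set G) with hN₁
  have hLn : L.Normal := Subgroup.Normal.comap inferInstance π
  have hFL₁ : F ≤ L₁ := le_inf hFL hFS
  have hN₁L₁ : N₁ ≤ L₁ := inf_le_inf_right _ hNL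
  have hL₁N₁ : L₁ ≤ normalizer (N₁ : Set G) :=
    le_normalizer_inf (by rw [Subgroup.normalizer_eq_top]; exact le_top) (inf_le_right.trans Subgroup.le_normalizer)
  have hsup : L₁ ≤ N₁ ⊔ F := by
    intro x hx
    have h1 : π x ∈ F.map π := by rw [hFmap]; exact hx.1
    obtain ⟨f, hf, hfx⟩ := h1
    have h2 : x * f⁻¹ ∈ N := by
      rw [← QuotientGroup.eq_one_iff]
      have : π (x * f⁻¹) = 1 := by rw [map_mul, map_inv, hfx, mul_inv_cancel]
      exact this
    have h3 : x * f⁻¹ ∈ N₁ := ⟨h2, Subgroup.mul_mem _ hx.2 (Subgroup.inv_mem _ (hFS hf))⟩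
    have h4 : x = (x * f⁻¹) * f := by group
    rw [h4]
    exact Subgroup.mul_mem_sup h3 hf
  have hrel₁ : Nat.card F = N₁.relIndex L₁ := by
    have h1 : N₁ ⊔ F = L₁ := le_antisymm (sup_le hN₁L₁ hFL₁) hsup
    have h2 := relIndex_sup_of_disjoint (A := F) (D := N₁) (hFL₁.trans hL₁N₁) (by
      rw [eq_bot_iff, ← hFN]
      exact inf_le_inf_left _ inf_le_left)
    rw [h1] at h2
    exact h2.symm
  have hFnN₁ : F ≤ normalizer (N₁ : Set G) := hFL₁.trans hL₁N₁
  obtain ⟨g2, hg2, hg2F⟩ := H1.SZ.conj_of_card_rel L₁ N₁ hN₁L₁ hL₁N₁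
    (by
      rw [← hrel₁]
      exact (Nat.Coprime.coprime_dvd_right (Subgroup.card_dvd_of_le inf_le_left) hcopFN).symm)
    (Or.inr (by
      intro hnn
      exact isSolvable_quotient_sup hsup hFnN₁ hFsol))
    (MulAut.conj g1 • F) F
    (by
      intro x hx
      rw [H1.SZ.mem_conj_smul] at hx
      have h1 := hFL₁ hx
      have h2 : x = g1 * (g1⁻¹ * x * g1) * g1⁻¹ := by group
      rw [h2]
      exact ⟨hLn.conj_mem _ h1.1 g1, Subgroup.mul_mem _ (Subgroup.mul_mem _ hg1S h1.2) (Subgroup.inv_mem _ hg1S)⟩)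
    hFL₁ (by rw [H1.SZ.card_conj_smul]; exact hrel₁) hrel₁
  set h := g2 * g1 with hh
  have hhF : h ∈ normalizer (F : Set G) := by
    apply H1.SZ.mem_normalizer_of_conj_smul_eq
    rw [hh, map_mul, mul_smul]; exact hg2F
  have hhS : h ∈ normalizer (S : Set G) := Subgroup.mul_mem _ hg2.2 hg1S
  have hg21 : π g2 = 1 := (QuotientGroup.eq_one_iff g2).2 hg2.1
  have hhπ : π h = hb := by rw [hh, map_mul, hg21, one_mul, hg1π]
  apply hSc
  apply H68.FrobMod.centralizes S F hS.isPGroup hFS hFp h hhS hhF n hn1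
  · intro i hi hin x hx hc
    apply hFinj x hx
    have h1 : π x * hb ^ i = hb ^ i * π x := by
      rw [← hhπ, ← map_pow, ← map_mul, hc, map_mul]
    have h2 : hb ^ i ≠ 1 := by
      intro h2
      have := Nat.le_of_dvd hi (orderOf_dvd_of_pow_eq_one h2)
      rw [hbo] at this
      omega
    have h3 : π x ∈ Hb := by
      by_contra h3
      apply h2
      have h4 : hb ^ i ∈ Hb ⊓ (MulAut.conj (π x) • Hb) := by
        refine ⟨Hb.pow_mem hbH i, ?_⟩
        show hb ^ i ∈ MulAut.conj (π x) • Hb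
        rw [H1.SZ.mem_conj_smul]
        have : (π x)⁻¹ * hb ^ i * π x = hb ^ i := by
          rw [mul_assoc, ← h1, inv_mul_cancel_left]
        rw [this]
        exact Hb.pow_mem hbH i
      rw [hHb.2.2 _ h3] at h4
      exact h4
    have h4 : π x ∈ frobeniusKernel Hb := by
      rw [hker]
      have : π x ∈ F.map π := ⟨x, hx, rfl⟩
      rw [hFmap] at this
      exact this
    rcases h4 with h4 | h4
    · exact h4
    · exfalso
      apply h4 1
      rw [map_one, one_smul]
      exact h3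
  · intro v hv
    apply hord
    have hvN : π v = 1 := (QuotientGroup.eq_one_iff v).2 (hS.1 hv)
    rw [map_mul, hvN, one_mul, hhπ]
    exact hbo

end H68.FrobQuot
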