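import Cfsg.Agent.Lib.H68.UniqMax

/-! Iterated commutators with an automorphism generate. -/

namespace H68.IterComm

open Subgroup Pointwise H11.SubnormalJoin

universe u

/-- invariance under `α` implies invariance under the powers of `α` -/
theorem zpowers_mem {G : Type u} [Group G] [Finite G] {α : MulAut G} {L : Subgroup G}
    (hL : ∀ x ∈ L, α x ∈ L) (β : MulAut G) (hβ : β ∈ Subgroup.zpowers α) (x : G) (hx : x ∈ L) : β x ∈ L := by
  have h1 : α • L = L := by
    apply Subgroup.eq_of_le_of_card_ge
    · rintro _ ⟨y, hy, rfl⟩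
      exact hL y hy
    · exact le_of_eq (Nat.card_congr (Subgroup.equivSMul α L).toEquiv)
  have h2 : Subgroup.zpowers α ≤ MulAction.stabilizer (MulAut G) L := by
    rw [Subgroup.zpowers_le]
    exact h1
  have h3 : β • L = L := h2 hβ
  rw [← h3]
  exact ⟨x, hx, rfl⟩

/-- the semidirect product -/
abbrev Gam {G : Type u} [Group G] (α : MulAut G) : Type u :=
  G ⋊[(Subgroup.zpowers α).subtype] (Subgroup.zpowers α)

/-- the subgroup `L ⋊ ⟨α⟩` -/
def hat {G : Type u} [Group G] [Finite G] {α : MulAut G} (L : Subgroup G) (hL : ∀ x ∈ L, α x ∈ L) :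
    Subgroup (Gam α) where
  carrier := {x | x.left ∈ L}
  one_mem' := L.one_mem
  mul_mem' := by
    intro x y hx hy
    show (x * y).left ∈ L
    rw [SemidirectProduct.mul_left]
    exact L.mul_mem hx (zpowers_mem hL _ x.right.2 _ hy)
  inv_mem' := by
    intro x hx
    show (x⁻¹).left ∈ L
    rw [SemidirectProduct.inv_left]
    exact zpowers_mem hL _ (x.right⁻¹).2 _ (L.inv_mem hx)

theorem mem_hat {G : Type u} [Group G] [Finite G] {α : MulAut G} {L : Subgroup G}
    (hL : ∀ x ∈ L, α x ∈ L) {x : Gam α} : x ∈ hat L hL ↔ x.left ∈ L := Iff.rfl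

/-- the generator -/
def gen {G : Type u} [Group G] (α : MulAut G) : Subgroup.zpowers α := ⟨α, Subgroup.mem_zpowers α⟩

theorem inl_f {G : Type u} [Group G] (α : MulAut G) (c : G) :
    (SemidirectProduct.inl (c * (α c)⁻¹) : Gam α) =
      SemidirectProduct.inl c * SemidirectProduct.inr (gen α) * (SemidirectProduct.inl c)⁻¹ *
        (SemidirectProduct.inr (gen α))⁻¹ := by
  rw [map_mul, map_inv]
  have h1 : (SemidirectProduct.inl (α c) : Gam α) =
      SemidirectProduct.inr (gen α) * SemidirectProduct.inl c * (SemidirectProduct.inr (gen α))⁻¹ := by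
    have := SemidirectProduct.inl_aut (φ := (Subgroup.zpowers α).subtype) (gen α) c
    rw [← map_inv]
    exact this
  rw [h1]
  group

theorem iterate_coe {G : Type u} [Group G] {α : MulAut G} {H₀ : Subgroup G} (β : MulAut H₀)
    (hβ : ∀ x : H₀, (β x : G) = α x) (k : ℕ) (c : H₀) :
    ((((fun c : H₀ => c * (β c)⁻¹)^[k]) c : H₀) : G) = ((fun c : G => c * (α c)⁻¹)^[k]) c := by
  induction k with
  | zero => rfl
  | succ k ih =>
    rw [Function.iterate_succ_apply', Function.iterate_succ_apply', ← ih]
    simp only [Subgroup.coe_mul, Subgroup.coe_inv, hβ]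

theorem iterate_comm {G : Type u} [Group G] (α : MulAut G) (k : ℕ) (c : G) :
    α (((fun c : G => c * (α c)⁻¹)^[k]) c) = ((fun c : G => c * (α c)⁻¹)^[k]) (α c) := by
  induction k with
  | zero => rfl
  | succ k ih =>
    rw [Function.iterate_succ_apply', Function.iterate_succ_apply', ← ih]
    simp only [map_mul, map_inv]

/-- `[H₀, α]` -/
def comm {G : Type u} [Group G] (α : MulAut G) (H₀ : Subgroup G) : Subgroup G :=
  Subgroup.closure ((fun c : G => c * (α c)⁻¹) '' (H₀ : Set G))

theorem comm_inv {G : Type u} [Group G] {α : MulAut G} {H₀ : Subgroup G} (hH : ∀ x ∈ H₀, α x ∈ H₀) :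
    ∀ x ∈ comm α H₀, α x ∈ comm α H₀ := by
  intro x hx
  have : comm α H₀ ≤ (comm α H₀).comap (α : G →* G) := by
    rw [comm, Subgroup.closure_le]
    rintro _ ⟨c, hc, rfl⟩
    apply Subgroup.subset_closure
    refine ⟨α c, hH c hc, ?_⟩
    show α c * (α (α c))⁻¹ = α (c * (α c)⁻¹)
    rw [map_mul, map_inv]
  exact this hx

theorem comm_conj {G : Type u} [Group G] {α : MulAut G} {H₀ : Subgroup G} (g : G) (hg : g ∈ H₀) :
    ∀ x ∈ comm α H₀, g * x * g⁻¹ ∈ comm α H₀ := by
  intro x hx
  have : comm α H₀ ≤ (comm α H₀).comap (MulAut.conj g : G →* G) := by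
    conv_lhs => rw [comm]
    rw [Subgroup.closure_le]
    rintro _ ⟨c, hc, rfl⟩
    show g * (c * (α c)⁻¹) * g⁻¹ ∈ comm α H₀
    have h1 : g * (c * (α c)⁻¹) * g⁻¹ = ((g * c) * (α (g * c))⁻¹) * (g * (α g)⁻¹)⁻¹ := by
      rw [map_mul]; group
    rw [h1]
    apply Subgroup.mul_mem
    · exact Subgroup.subset_closure ⟨g * c, H₀.mul_mem hg hc, rfl⟩
    · exact Subgroup.inv_mem _ (Subgroup.subset_closure ⟨g, hg, rfl⟩)
  exact this hx

theorem comm_zpowers {G : Type u} [Group G] [Finite G] {α : MulAut G} {H₀ : Subgroup G}
    (hH : ∀ x ∈ H₀, α x ∈ H₀) (β : MulAut G) (hβ : β ∈ Subgroup.zpowers α) :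
    ∀ g ∈ H₀, g * (β g)⁻¹ ∈ comm α H₀ := by
  have key : ∀ n : ℕ, ∀ g ∈ H₀, g * ((α ^ n) g)⁻¹ ∈ comm α H₀ := by
    intro n
    induction n with
    | zero => intro g _; simp
    | succ n ih =>
      intro g hg
      have h1 : g * ((α ^ (n + 1)) g)⁻¹ = (g * (α g)⁻¹) * (α g * ((α ^ n) (α g))⁻¹) := by
        rw [pow_succ, MulAut.mul_apply]; group
      rw [h1]
      exact Subgroup.mul_mem _ (Subgroup.subset_closure ⟨g, hg, rfl⟩) (ih _ (hH g hg))
  obtain ⟨n, rfl⟩ := mem_powers_iff_mem_zpowers.2 hβ
  exact key n

theorem main {G : Type u} [Group G] [Finite G] (α : MulAut G)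
    (hG : Subgroup.closure (Set.range (fun c : G => c * (α c)⁻¹)) = ⊤) (k : ℕ) :
    Subgroup.closure (Set.range ((fun c : G => c * (α c)⁻¹)^[k])) = ⊤ := by
  induction hn : Nat.card G using Nat.strong_induction_on generalizing G with
  | _ n ih =>
    rcases subsingleton_or_nontrivial G with hs | hnt
    · exact Subsingleton.elim _ _
    set L := Subgroup.closure (Set.range ((fun c : G => c * (α c)⁻¹)^[k])) with hLdef
    have hL : ∀ x ∈ L, α x ∈ L := by
      intro x hx
      have : L ≤ L.comap (α : G →* G) := by
        conv_lhs => rw [hLdef]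
        rw [Subgroup.closure_le]
        rintro _ ⟨c, rfl⟩
        apply Subgroup.subset_closure
        exact ⟨α c, (iterate_comm α k c).symm⟩
      exact this hx
    have hfin : Finite (Gam α) := Finite.of_equiv _ (SemidirectProduct.equivProd (φ := (Subgroup.zpowers α).subtype)).symm
    let A : Subgroup (Gam α) := (SemidirectProduct.inr : Subgroup.zpowers α →* Gam α).range
    have hgA : (SemidirectProduct.inr (gen α) : Gam α) ∈ A := ⟨gen α, rfl⟩
    have hdec : ∀ x : Gam α, SemidirectProduct.inl x.left * SemidirectProduct.inr x.right = x :=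
      fun x => SemidirectProduct.inl_left_mul_inr_right x
    have hA : Subgroup.normalClosure (A : Set (Gam α)) = ⊤ := by
      have h1 : (Subgroup.normalClosure (A : Set (Gam α))).comap SemidirectProduct.inl = ⊤ := by
        rw [eq_top_iff, ← hG, Subgroup.closure_le]
        rintro _ ⟨c, rfl⟩
        show (SemidirectProduct.inl (c * (α c)⁻¹) : Gam α) ∈ Subgroup.normalClosure (A : Set (Gam α))
        rw [inl_f]
        have h2 := Subgroup.subset_normalClosure (s := (A : Set (Gam α))) hgA
        exact Subgroup.mul_mem _ (Subgroup.normalClosure_normal.conj_mem _ h2 _) (Subgroup.inv_mem _ h2)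
      rw [eq_top_iff]
      intro x _
      rw [← hdec x]
      refine Subgroup.mul_mem _ ?_ (Subgroup.subset_normalClosure ⟨x.right, rfl⟩)
      have : x.left ∈ (Subgroup.normalClosure (A : Set (Gam α))).comap SemidirectProduct.inl := by
        rw [h1]; exact Subgroup.mem_top _
      exact this
    have hAT : A ≠ ⊤ := by
      intro h
      obtain ⟨g, hg⟩ := exists_ne (1 : G)
      have : (SemidirectProduct.inl g : Gam α) ∈ A := by rw [h]; exact Subgroup.mem_top _
      obtain ⟨b, hb⟩ := this
      apply hg
      have := congrArg SemidirectProduct.left hb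
      rw [SemidirectProduct.left_inr, SemidirectProduct.left_inl] at this
      exact this.symm
    have hAhat : A ≤ hat L hL := by
      rintro _ ⟨b, rfl⟩
      rw [mem_hat, SemidirectProduct.left_inr]
      exact L.one_mem
    by_cases hY : sSup (H68.UniqMax.Sig A) = ⊤
    · -- generation by proper subgroups
      have hHL : ∀ H ∈ H68.UniqMax.Sig A, H ≤ hat L hL := by
        intro H hH
        obtain ⟨hAH, hHT, hHn⟩ := hH
        let H₀ : Subgroup G := H.comap SemidirectProduct.inl
        have hH₀ : ∀ x ∈ H₀, α x ∈ H₀ := by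
          intro x hx
          show (SemidirectProduct.inl (α x) : Gam α) ∈ H
          have h1 := SemidirectProduct.inl_aut (φ := (Subgroup.zpowers α).subtype) (gen α) x
          have h2 : (SemidirectProduct.inl (α x) : Gam α) = SemidirectProduct.inr (gen α) *
              SemidirectProduct.inl x * SemidirectProduct.inr (gen α)⁻¹ := h1
          rw [h2]
          exact H.mul_mem (H.mul_mem (hAH ⟨_, rfl⟩) hx) (hAH ⟨_, rfl⟩)
        have hH₀T : H₀ ≠ ⊤ := by
          intro h
          apply hHT
          rw [eq_top_iff]
          intro x _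
          rw [← hdec x]
          refine H.mul_mem ?_ (hAH ⟨_, rfl⟩)
          have : x.left ∈ H₀ := by rw [h]; exact Subgroup.mem_top _
          exact this
        have hleft : ∀ x ∈ H, x.left ∈ H₀ := by
          intro x hx
          show (SemidirectProduct.inl x.left : Gam α) ∈ H
          have h1 := hdec x
          have h2 : (SemidirectProduct.inl x.left : Gam α) = x * (SemidirectProduct.inr x.right)⁻¹ := by
            rw [eq_mul_inv_iff_mul_eq]; exact h1
          rw [h2]
          exact H.mul_mem hx (H.inv_mem (hAH ⟨_, rfl⟩))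
        -- `[H₀, α] = H₀`
        have hKH : comm α H₀ ≤ H₀ := by
          rw [comm, Subgroup.closure_le]
          rintro _ ⟨c, hc, rfl⟩
          exact H₀.mul_mem hc (H₀.inv_mem (hH₀ c hc))
        have hK : H₀ ≤ comm α H₀ := by
          let Kh : Subgroup (Gam α) := hat (comm α H₀) (comm_inv hH₀)
          have h1 : (Kh.subgroupOf H).Normal := by
            refine ⟨fun x hx h => ?_⟩
            show (h : Gam α) * (x : Gam α) * (h : Gam α)⁻¹ ∈ Kh
            have hx' : (x : Gam α).left ∈ comm α H₀ := hx
            have hh : (h : Gam α).left ∈ H₀ := hleft _ h.2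
            have h5 : ∀ b : Subgroup.zpowers α, (SemidirectProduct.inr b : Gam α) ∈ Kh := by
              intro b
              show (SemidirectProduct.inr b : Gam α).left ∈ comm α H₀
              rw [SemidirectProduct.left_inr]
              exact Subgroup.one_mem _
            have h6 : ∀ g ∈ H₀, ∀ y : Gam α, y ∈ Kh →
                (SemidirectProduct.inl g : Gam α) * y * (SemidirectProduct.inl g)⁻¹ ∈ Kh := by
              intro g hg y hy
              show ((SemidirectProduct.inl g : Gam α) * y * (SemidirectProduct.inl g)⁻¹).left ∈ comm α H₀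
              rw [← map_inv, SemidirectProduct.mul_left, SemidirectProduct.mul_left,
                SemidirectProduct.left_inl, SemidirectProduct.left_inl, SemidirectProduct.mul_right,
                SemidirectProduct.right_inl, one_mul, map_one, MulAut.one_apply]
              have h7 : g * y.left * ((Subgroup.zpowers α).subtype y.right) g⁻¹ =
                  (g * y.left * g⁻¹) * (g * (((y.right : MulAut G)) g)⁻¹) := by
                rw [map_inv]
                show g * y.left * ((y.right : MulAut G) g)⁻¹ = _
                group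
              rw [h7]
              exact Subgroup.mul_mem _ (comm_conj g hg _ hy) (comm_zpowers hH₀ _ y.right.2 g hg)
            have h8 : (SemidirectProduct.inr (h : Gam α).right : Gam α) * (x : Gam α) *
                (SemidirectProduct.inr (h : Gam α).right)⁻¹ ∈ Kh :=
              Kh.mul_mem (Kh.mul_mem (h5 _) hx') (Kh.inv_mem (h5 _))
            have h9 := h6 _ hh _ h8
            have h10 : (h : Gam α) * (x : Gam α) * (h : Gam α)⁻¹ =
                (SemidirectProduct.inl (h : Gam α).left) * ((SemidirectProduct.inr (h : Gam α).right : Gam α) * (x : Gam α) *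
                (SemidirectProduct.inr (h : Gam α).right)⁻¹) * (SemidirectProduct.inl (h : Gam α).left)⁻¹ := by
              conv_lhs => rw [← hdec (h : Gam α)]
              group
            rw [h10]
            exact h9
          have h2 : Subgroup.normalClosure ((A.subgroupOf H : Subgroup ↥H) : Set ↥H) ≤ Kh.subgroupOf H := by
            apply Subgroup.normalClosure_le_normal
            intro x hx
            obtain ⟨b, hb⟩ : (x : Gam α) ∈ A := hx
            show (x : Gam α).left ∈ comm α H₀
            rw [← hb, SemidirectProduct.left_inr]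
            exact Subgroup.one_mem _
          rw [hHn] at h2
          intro g hg
          have h3 := h2 (Subgroup.mem_top (⟨SemidirectProduct.inl g, hg⟩ : H))
          have h4 : (SemidirectProduct.inl g : Gam α).left ∈ comm α H₀ := h3
          rwa [SemidirectProduct.left_inl] at h4
        -- induction
        have hmap : H₀.map (α : G →* G) = H₀ := by
          apply Subgroup.eq_of_le_of_card_ge
          · rintro _ ⟨y, hy, rfl⟩
            exact hH₀ y hy
          · exact le_of_eq (Nat.card_congr (α.subgroupMap H₀).toEquiv)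
        let β : MulAut H₀ := (α.subgroupMap H₀).trans (MulEquiv.subgroupCongr hmap)
        have hβ : ∀ x : H₀, (β x : G) = α x := fun x => rfl
        have hlt : Nat.card H₀ < n := by
          rw [← hn]
          exact card_subgroup_lt H₀ hH₀T
        have h1 : Subgroup.closure (Set.range (fun c : H₀ => c * (β c)⁻¹)) = ⊤ := by
          have h2 : (Subgroup.closure (Set.range (fun c : H₀ => c * (β c)⁻¹))).map H₀.subtype = comm α H₀ := by
            rw [MonoidHom.map_closure, comm]
            congr 1
            ext y
            constructor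
            · rintro ⟨_, ⟨c, rfl⟩, rfl⟩
              exact ⟨c, c.2, rfl⟩
            · rintro ⟨c, hc, rfl⟩
              exact ⟨_, ⟨⟨c, hc⟩, rfl⟩, rfl⟩
          rw [eq_top_iff]
          intro x _
          have h3 : (x : G) ∈ comm α H₀ := hK x.2
          rw [← h2] at h3
          obtain ⟨y, hy, hyx⟩ := h3
          have : y = x := Subtype.ext hyx
          rwa [← this]
        have h2 := ih _ hlt β h1 rfl
        have h3 : H₀ ≤ L := by
          have h4 : (Subgroup.closure (Set.range ((fun c : H₀ => c * (β c)⁻¹)^[k]))).map H₀.subtype ≤ L := by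
            rw [MonoidHom.map_closure, Subgroup.closure_le]
            rintro _ ⟨_, ⟨c, rfl⟩, rfl⟩
            apply Subgroup.subset_closure
            exact ⟨c, (iterate_coe β hβ k c).symm⟩
          rw [h2] at h4
          intro x hx
          exact h4 ⟨⟨x, hx⟩, Subgroup.mem_top _, rfl⟩
        intro x hx
        exact h3 (hleft x hx)
      have h1 : hat L hL = ⊤ := by
        rw [eq_top_iff, ← hY]
        exact sSup_le hHL
      rw [eq_top_iff]
      intro g _
      have : (SemidirectProduct.inl g : Gam α) ∈ hat L hL := by rw [h1]; exact Subgroup.mem_top _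
      rwa [mem_hat, SemidirectProduct.left_inl] at this
    · -- unique maximal subgroup
      obtain ⟨M, hM, hAM, hMu⟩ := H68.UniqMax.main A hA hAT hY
      by_contra hLT
      have h1 : hat L hL ≠ ⊤ := by
        intro h1
        apply hLT
        rw [eq_top_iff]
        intro g _
        have : (SemidirectProduct.inl g : Gam α) ∈ hat L hL := by rw [h1]; exact Subgroup.mem_top _
        rwa [mem_hat, SemidirectProduct.left_inl] at this
      obtain ⟨Z, hZ, hLZ⟩ := (eq_top_or_exists_le_coatom _).resolve_left h1
      have hZM : Z = M := hMu Z hZ (hAhat.trans hLZ)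
      subst hZM
      let P : ℕ → Prop := fun j => ∀ c : G, (SemidirectProduct.inl (((fun c : G => c * (α c)⁻¹)^[j]) c) : Gam α) ∈ Z
      have hP : ∃ j, P j := by
        refine ⟨k, fun c => hLZ ?_⟩
        rw [mem_hat, SemidirectProduct.left_inl]
        exact Subgroup.subset_closure ⟨c, rfl⟩
      classical
      have hfind := Nat.find_spec hP
      have hmin := fun m => @Nat.find_min P _ hP m
      rcases hj : Nat.find hP with _ | i
      · rw [hj] at hfind
        apply hZ.1
        rw [eq_top_iff]
        intro x _
        rw [← hdec x]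
        exact Z.mul_mem (hfind x.left) (hAM ⟨_, rfl⟩)
      · rw [hj] at hfind
        have h2 := hmin i (by omega)
        have h3 : ¬ ∀ c : G, (SemidirectProduct.inl (((fun c : G => c * (α c)⁻¹)^[i]) c) : Gam α) ∈ Z := h2
        push Not at h3
        obtain ⟨c, hc⟩ := h3
        have h4 := hfind c
        rw [Function.iterate_succ_apply'] at h4
        set d := ((fun c : G => c * (α c)⁻¹)^[i]) c with hd
        have h5 : (SemidirectProduct.inl (d * (α d)⁻¹) : Gam α) ∈ Z := h4
        rw [inl_f] at h5
        have h6 : (SemidirectProduct.inl d * SemidirectProduct.inr (gen α) * (SemidirectProduct.inl d)⁻¹ : Gam α) ∈ Z := by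
          have := Z.mul_mem h5 (hAM hgA)
          rwa [inv_mul_cancel_right] at this
        have h7 : A ≤ (MulAut.conj (SemidirectProduct.inl d : Gam α)⁻¹) • Z := by
          rintro _ ⟨b, rfl⟩
          have h8 : b ∈ Subgroup.zpowers (gen α) := by
            obtain ⟨m, hm⟩ := Subgroup.mem_zpowers_iff.1 b.2
            exact Subgroup.mem_zpowers_iff.2 ⟨m, Subtype.ext (by rw [← hm]; rfl)⟩
          obtain ⟨m, rfl⟩ := Subgroup.mem_zpowers_iff.1 h8
          rw [map_zpow]
          apply Subgroup.zpow_mem
          rw [Subgroup.mem_pointwise_smul_iff_inv_smul_mem, ← map_inv, inv_inv, MulAut.smul_def, MulAut.conj_apply]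
          exact h6
        have h8 := hMu _ (H68.UniqMax.isCoatom_conj hZ _) h7
        have h9 := mem_normalizer_iff_conj.2 h8
        have h10 : normalizer (Z : Set (Gam α)) = Z := by
          by_contra hne
          have h11 : normalizer (Z : Set (Gam α)) = ⊤ := hZ.2 _ (lt_of_le_of_ne Subgroup.le_normalizer (Ne.symm hne))
          have h12 : Z.Normal := Subgroup.normalizer_eq_top_iff.1 h11
          apply hZ.1
          rw [eq_top_iff, ← hA]
          exact Subgroup.normalClosure_le_normal hAM
        rw [h10] at h9
        apply hc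
        have := Z.inv_mem h9
        rwa [inv_inv] at this

end H68.IterComm
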