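import Mathlib
import Cfsg.Agent.Lib.H1.FrobThm

/-! Normal subgroups `N` such that the centralizers in `G` of the elements of `N \ Z(N)` are maximal: the case with a
noncentral abelian normal subgroup. -/

set_option autoImplicit false
set_option linter.unusedSectionVars false

open scoped commutatorElement Pointwise

namespace H68.MaxCentA

variable {G : Type*} [Group G]

/-- the centre of `N`, as a subgroup of `G` -/
def ZZ (N : Subgroup G) : Subgroup G := N ⊓ Subgroup.centralizer (N : Set G)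

theorem mem_ZZ {N : Subgroup G} {z : G} : z ∈ ZZ N ↔ z ∈ N ∧ ∀ n ∈ N, n * z = z * n := by
  rw [ZZ, Subgroup.mem_inf, Subgroup.mem_centralizer_iff]
  rfl

instance ZZ_normal (N : Subgroup G) [hN : N.Normal] : (ZZ N).Normal := by
  constructor
  intro z hz g
  rw [mem_ZZ] at hz ⊢
  refine ⟨hN.conj_mem _ hz.1 g, fun n hn => ?_⟩
  have h1 := hz.2 (g⁻¹ * n * g) (by simpa using hN.conj_mem _ hn g⁻¹)
  calc n * (g * z * g⁻¹) = g * ((g⁻¹ * n * g) * z) * g⁻¹ := by group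
    _ = g * (z * (g⁻¹ * n * g)) * g⁻¹ := by rw [h1]
    _ = (g * z * g⁻¹) * n := by group

/-- centralizer of an element -/
abbrev MM (x : G) : Subgroup G := Subgroup.centralizer ({x} : Set G)

theorem mem_MM {x g : G} : g ∈ MM x ↔ g * x = x * g := Subgroup.mem_centralizer_singleton_iff

theorem MM_symm {x g : G} : g ∈ MM x ↔ x ∈ MM g := by
  rw [mem_MM, mem_MM, eq_comm]

/-- the hypothesis -/
def Hyp (N : Subgroup G) : Prop := ∀ x : G, x ∈ N → x ∉ ZZ N → IsCoatom (MM x)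

variable {N : Subgroup G}

theorem Hyp.eq_of_le (h : Hyp N) {x y : G} (hx : x ∈ N) (hxZ : x ∉ ZZ N) (hy : y ∈ N) (hyZ : y ∉ ZZ N)
    (hle : MM x ≤ MM y) : MM x = MM y := by
  rcases (h x hx hxZ).le_iff.1 hle with h1 | h1
  · exact absurd h1 (h y hy hyZ).1
  · exact h1.symm

theorem Hyp.factor (h : Hyp N) {x : G} (hx : x ∈ N) (hxZ : x ∉ ZZ N) (V : Subgroup G) [hV : V.Normal]
    (hVx : ¬ V ≤ MM x) (g : G) : ∃ v ∈ V, ∃ m ∈ MM x, g = v * m := by
  have h1 : V ⊔ MM x = ⊤ := by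
    apply (h x hx hxZ).2
    rw [right_lt_sup]
    exact hVx
  have h2 : g ∈ V ⊔ MM x := by rw [h1]; trivial
  rw [Subgroup.mem_sup_of_normal_left] at h2
  obtain ⟨v, hv, m, hm, rfl⟩ := h2
  exact ⟨v, hv, m, hm, rfl⟩

/-- data of a minimal abelian normal subgroup above `Z` -/
structure Dat (N V : Subgroup G) : Prop where
  normal : V.Normal
  le : V ≤ N
  Zle : ZZ N ≤ V
  ne : V ≠ ZZ N
  comm : ∀ a ∈ V, ∀ b ∈ V, a * b = b * a
  min : ∀ W : Subgroup G, W.Normal → ZZ N ≤ W → W ≤ V → W = ZZ N ∨ W = V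

theorem exists_dat [Finite G] [N.Normal] (V0 : Subgroup G) (h0 : V0.Normal) (hle : V0 ≤ N)
    (hc : ∀ a ∈ V0, ∀ b ∈ V0, a * b = b * a) (hne : ¬ V0 ≤ ZZ N) : ∃ V, Dat N V := by
  have hV1 : ∀ a ∈ V0 ⊔ ZZ N, ∀ b ∈ V0 ⊔ ZZ N, a * b = b * a := by
    intro a ha b hb
    rw [Subgroup.mem_sup_of_normal_left] at ha hb
    obtain ⟨v, hv, z, hz, rfl⟩ := ha
    obtain ⟨w, hw, y, hy, rfl⟩ := hb
    rw [mem_ZZ] at hz hy
    have e1 := hc v hv w hw
    have e2 := hz.2 w (hle hw)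
    have e3 := hz.2 y hy.1
    have e4 := hy.2 v (hle hv)
    calc v * z * (w * y) = v * (z * w) * y := by group
      _ = v * (w * z) * y := by rw [e2]
      _ = (v * w) * (z * y) := by group
      _ = (w * v) * (y * z) := by rw [e1, e3]
      _ = w * (v * y) * z := by group
      _ = w * (y * v) * z := by rw [e4]
      _ = w * y * (v * z) := by group
  have hne1 : V0 ⊔ ZZ N ≠ ZZ N := by
    intro h
    exact hne (h ▸ le_sup_left)
  let P : Set (Subgroup G) := {V | V.Normal ∧ V ≤ N ∧ ZZ N ≤ V ∧ V ≠ ZZ N ∧ ∀ a ∈ V, ∀ b ∈ V, a * b = b * a}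
  have hP : (V0 ⊔ ZZ N) ∈ P := ⟨Subgroup.sup_normal _ _, sup_le hle inf_le_left, le_sup_right, hne1, hV1⟩
  obtain ⟨V, hVP, hmin⟩ := Set.Finite.exists_minimal (s := P) (Set.toFinite _) ⟨_, hP⟩
  obtain ⟨h1, h2, h3, h4, h5⟩ := hVP
  refine ⟨V, h1, h2, h3, h4, h5, ?_⟩
  intro W hW hZW hWV
  by_cases hWZ : W = ZZ N
  · exact Or.inl hWZ
  · right
    apply le_antisymm hWV
    exact hmin ⟨hW, hWV.trans h2, hZW, hWZ, fun a ha b hb => h5 a (hWV ha) b (hWV hb)⟩ hWV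

section
variable {V : Subgroup G} (h : Hyp N) (d : Dat N V)
include h d

theorem not_le_MM {y : G} (hy : y ∉ Subgroup.centralizer (V : Set G)) : ¬ V ≤ MM y := by
  intro h1
  apply hy
  rw [Subgroup.mem_centralizer_iff]
  intro v hv
  exact (mem_MM.1 (h1 hv))

theorem not_mem_ZZ {y : G} (hy : y ∉ Subgroup.centralizer (V : Set G)) : y ∉ ZZ N := by
  intro h1
  apply hy
  rw [Subgroup.mem_centralizer_iff]
  intro v hv
  exact (mem_ZZ.1 h1).2 v (d.le hv)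

theorem factor {y : G} (hyN : y ∈ N) (hy : y ∉ Subgroup.centralizer (V : Set G)) (g : G) :
    ∃ v ∈ V, ∃ m ∈ MM y, g = v * m := by
  have := d.normal
  exact h.factor hyN (not_mem_ZZ h d hy) V (not_le_MM h d hy) g

/-- an `M_y`-invariant subgroup of `V` is normal in `G` -/
theorem min_of_inv [N.Normal] {y : G} (hyN : y ∈ N) (hy : y ∉ Subgroup.centralizer (V : Set G)) (W : Subgroup G)
    (hZW : ZZ N ≤ W) (hWV : W ≤ V) (hinv : ∀ m ∈ MM y, ∀ w ∈ W, m * w * m⁻¹ ∈ W) : W = ZZ N ∨ W = V := by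
  apply d.min W ?_ hZW hWV
  constructor
  intro w hw g
  obtain ⟨v, hv, m, hm, rfl⟩ := factor h d hyN hy g
  have h1 := hinv m hm w hw
  have h2 := d.comm v hv _ (hWV h1)
  have h3 : v * m * w * (v * m)⁻¹ = v * (m * w * m⁻¹) * v⁻¹ := by group
  rw [h3, h2]
  simpa using h1

theorem mem_ZZ_of_comm [N.Normal] {y : G} (hyN : y ∈ N) (hy : y ∉ Subgroup.centralizer (V : Set G)) {v : G} (hv : v ∈ V)
    (hvy : v * y = y * v) : v ∈ ZZ N := by
  have hVn := d.normal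
  have h1 : V ⊓ MM y = ZZ N ∨ V ⊓ MM y = V := by
    apply min_of_inv h d hyN hy
    · intro z hz
      refine Subgroup.mem_inf.2 ⟨d.Zle hz, ?_⟩
      rw [mem_MM]
      exact ((mem_ZZ.1 hz).2 y hyN).symm
    · exact inf_le_left
    · intro m hm w hw
      obtain ⟨h2, h3⟩ := Subgroup.mem_inf.1 hw
      exact Subgroup.mem_inf.2 ⟨hVn.conj_mem _ h2 m, (MM y).mul_mem ((MM y).mul_mem hm h3) ((MM y).inv_mem hm)⟩
  rcases h1 with h1 | h1
  · rw [← h1]
    exact Subgroup.mem_inf.2 ⟨hv, mem_MM.2 hvy⟩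
  · exact absurd (inf_eq_left.1 h1) (not_le_MM h d hy)

theorem exists_outside : ∃ t ∈ N, t ∉ Subgroup.centralizer (V : Set G) := by
  by_contra hcon
  push Not at hcon
  apply d.ne
  apply le_antisymm _ d.Zle
  intro v hv
  rw [mem_ZZ]
  refine ⟨d.le hv, fun n hn => ?_⟩
  exact ((Subgroup.mem_centralizer_iff.1 (hcon n hn)) v hv).symm

theorem exists_mem : ∃ v ∈ V, v ∉ ZZ N := by
  by_contra hcon
  push Not at hcon
  exact d.ne (le_antisymm hcon d.Zle)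

theorem exists_prime [Finite G] [N.Normal] : ∃ p : ℕ, p.Prime ∧ ∀ v ∈ V, v ^ p ∈ ZZ N := by
  obtain ⟨v, hv, hvZ⟩ := exists_mem h d
  have hVn := d.normal
  set o := orderOf (QuotientGroup.mk v : G ⧸ ZZ N) with ho
  have ho1 : o ≠ 1 := by
    intro h1
    rw [ho, orderOf_eq_one_iff, QuotientGroup.eq_one_iff] at h1
    exact hvZ h1
  have ho0 : 0 < o := orderOf_pos _
  have hp := Nat.minFac_prime ho1
  refine ⟨o.minFac, hp, ?_⟩
  let W : Subgroup G :=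
    { carrier := {w | w ∈ V ∧ w ^ o.minFac ∈ ZZ N}
      mul_mem' := by
        rintro a b ⟨ha, ha'⟩ ⟨hb, hb'⟩
        refine ⟨V.mul_mem ha hb, ?_⟩
        have : Commute a b := d.comm a ha b hb
        rw [this.mul_pow]
        exact (ZZ N).mul_mem ha' hb'
      one_mem' := ⟨V.one_mem, by rw [one_pow]; exact (ZZ N).one_mem⟩
      inv_mem' := by
        rintro a ⟨ha, ha'⟩
        exact ⟨V.inv_mem ha, by rw [inv_pow]; exact (ZZ N).inv_mem ha'⟩ }
  have hW : W = ZZ N ∨ W = V := by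
    apply d.min W
    · constructor
      rintro w ⟨hw, hw'⟩ g
      refine ⟨hVn.conj_mem _ hw g, ?_⟩
      rw [conj_pow]
      exact (ZZ_normal N).conj_mem _ hw' g
    · intro z hz
      exact ⟨d.Zle hz, (ZZ N).pow_mem hz _⟩
    · rintro w ⟨hw, -⟩
      exact hw
  rcases hW with hW | hW
  · exfalso
    obtain ⟨k, hk⟩ := o.minFac_dvd
    have h1 : v ^ k ∈ W := by
      refine ⟨V.pow_mem hv k, ?_⟩
      rw [← pow_mul, mul_comm, ← hk, ← QuotientGroup.eq_one_iff, QuotientGroup.mk_pow, ho, pow_orderOf_eq_one]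
    rw [hW, ← QuotientGroup.eq_one_iff, QuotientGroup.mk_pow] at h1
    have h2 := orderOf_dvd_of_pow_eq_one h1
    rw [← ho] at h2
    have hk0 : 0 < k := by
      rcases Nat.eq_zero_or_pos k with h3 | h3
      · rw [h3, mul_zero] at hk; omega
      · exact h3
    have h3 := Nat.le_of_dvd hk0 h2
    have h4 := hp.two_le
    nlinarith
  · intro w hw
    rw [← hW] at hw
    exact hw.2

/-- closure of a multiplicative property holding outside a proper subgroup -/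
theorem of_outside [N.Normal] (P : G → Prop) (hmul : ∀ a ∈ N, ∀ b ∈ N, P a → P b → P (a * b))
    (hP : ∀ y ∈ N, y ∉ Subgroup.centralizer (V : Set G) → P y) : ∀ a ∈ N, P a := by
  intro a ha
  by_cases haC : a ∈ Subgroup.centralizer (V : Set G)
  · obtain ⟨t, ht, htC⟩ := exists_outside h d
    have h1 : t⁻¹ * a ∉ Subgroup.centralizer (V : Set G) := by
      intro h2
      apply htC
      have h3 := (Subgroup.centralizer (V : Set G)).mul_mem haC (Subgroup.inv_mem _ h2)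
      have h4 : a * (t⁻¹ * a)⁻¹ = t := by group
      rwa [h4] at h3
    have h2 := hmul t ht (t⁻¹ * a) (N.mul_mem (N.inv_mem ht) ha) (hP t ht htC)
      (hP _ (N.mul_mem (N.inv_mem ht) ha) h1)
    rwa [mul_inv_cancel_left] at h2
  · exact hP a ha haC

/-- first subcase -/
theorem subcase_one [N.Normal] {p : ℕ} (hVp : ∀ v ∈ V, v ^ p ∈ ZZ N)
    (hI : ∀ v ∈ V, ∀ n ∈ N, ⁅v, n⁆ ∈ ZZ N) : (∀ a ∈ N, ∀ b ∈ N, ⁅a, b⁆ ∈ ZZ N) ∧ ∀ a ∈ N, a ^ p ∈ ZZ N := by
  have hout : ∀ y ∈ N, y ∉ Subgroup.centralizer (V : Set G) → ∀ n ∈ N, ⁅y, n⁆ ∈ ZZ N := by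
    intro y hy hyC n hn
    obtain ⟨v, hv, m, hm, rfl⟩ := factor h d hy hyC n
    have h1 : ⁅y, v * m⁆ = ⁅v, y⁆⁻¹ := by
      rw [mem_MM] at hm
      calc ⁅y, v * m⁆ = y * v * (m * y⁻¹) * m⁻¹ * v⁻¹ := by rw [commutatorElement_def]; group
        _ = y * v * (y⁻¹ * m) * m⁻¹ * v⁻¹ := by
          have : m * y⁻¹ = y⁻¹ * m := by
            rw [eq_inv_mul_iff_mul_eq, ← mul_assoc, ← hm]; group
          rw [this]
        _ = ⁅v, y⁆⁻¹ := by rw [commutatorElement_def]; group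
    rw [h1]
    exact (ZZ N).inv_mem (hI v hv y hy)
  have hcomm : ∀ a ∈ N, ∀ b ∈ N, ⁅a, b⁆ ∈ ZZ N := by
    apply of_outside h d (fun a => ∀ b ∈ N, ⁅a, b⁆ ∈ ZZ N) _ hout
    intro a ha b hb hPa hPb n hn
    have h1 : ⁅a * b, n⁆ = a * ⁅b, n⁆ * a⁻¹ * ⁅a, n⁆ := by
      rw [commutatorElement_def, commutatorElement_def, commutatorElement_def]; group
    rw [h1]
    exact (ZZ N).mul_mem ((ZZ_normal N).conj_mem _ (hPb n hn) a) (hPa n hn)
  refine ⟨hcomm, ?_⟩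
  apply of_outside h d (fun a => a ^ p ∈ ZZ N)
  · intro a ha b hb hPa hPb
    rw [← QuotientGroup.eq_one_iff, QuotientGroup.mk_pow] at hPa hPb ⊢
    have h1 : Commute (QuotientGroup.mk a : G ⧸ ZZ N) (QuotientGroup.mk b) := by
      have h2 := hcomm a ha b hb
      rw [← QuotientGroup.eq_one_iff] at h2
      have h3 : ⁅(QuotientGroup.mk a : G ⧸ ZZ N), (QuotientGroup.mk b : G ⧸ ZZ N)⁆ = 1 := h2
      rwa [commutatorElement_eq_one_iff_commute] at h3
    rw [QuotientGroup.mk_mul, h1.mul_pow, hPa, hPb, one_mul]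
  · intro y hy hyC
    by_contra hyp
    have hyZ := not_mem_ZZ h d hyC
    have h1 : MM y = MM (y ^ p) := by
      apply h.eq_of_le hy hyZ (N.pow_mem hy p) hyp
      intro g hg
      rw [mem_MM] at hg ⊢
      exact (show Commute g y from hg).pow_right p
    apply not_le_MM h d hyC
    rw [h1]
    intro v hv
    rw [mem_MM]
    -- `y v = z v y`
    set z := ⁅y, v⁆ with hz
    have hzZ : z ∈ ZZ N := hcomm y hy v (d.le hv)
    have hzy : Commute z y := ((mem_ZZ.1 hzZ).2 y hy).symm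
    have hzv : Commute z v := ((mem_ZZ.1 hzZ).2 v (d.le hv)).symm
    have hyv : y * v = z * v * y := by rw [hz, commutatorElement_def]; group
    have hzp : z ^ p = 1 := by
      have h2 : y * v * y⁻¹ = z * v := by rw [hyv]; group
      have h3 : y * v ^ p * y⁻¹ = z ^ p * v ^ p := by
        rw [← conj_pow, h2, hzv.mul_pow]
      have h4 : y * v ^ p * y⁻¹ = v ^ p := by
        rw [(mem_ZZ.1 (hVp v hv)).2 y hy]; group
      rw [h4] at h3
      exact (mul_eq_right.1 h3.symm)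
    have hk : ∀ k : ℕ, y ^ k * v = z ^ k * v * y ^ k := by
      intro k
      induction k with
      | zero => simp
      | succ k ih =>
        calc y ^ (k + 1) * v = y ^ k * (y * v) := by rw [pow_succ]; group
          _ = y ^ k * (z * v * y) := by rw [hyv]
          _ = (y ^ k * z) * v * y := by group
          _ = (z * y ^ k) * v * y := by rw [(hzy.pow_right k).eq]
          _ = z * (y ^ k * v) * y := by group
          _ = z * (z ^ k * v * y ^ k) * y := by rw [ih]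
          _ = (z * z ^ k) * v * (y ^ k * y) := by group
          _ = z ^ (k + 1) * v * y ^ (k + 1) := by rw [← pow_succ', ← pow_succ]
    rw [hk p, hzp, one_mul]

/-- `[N, G] ≤ V` -/
theorem comm_mem [N.Normal] {n : G} (hn : n ∈ N) (g : G) : ⁅n, g⁆ ∈ V := by
  have hVn := d.normal
  refine of_outside h d (fun a => ⁅a, g⁆ ∈ V) ?_ ?_ n hn
  · intro a ha b hb hPa hPb
    have h1 : ⁅a * b, g⁆ = a * ⁅b, g⁆ * a⁻¹ * ⁅a, g⁆ := by
      rw [commutatorElement_def, commutatorElement_def, commutatorElement_def]; group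
    show ⁅a * b, g⁆ ∈ V
    rw [h1]
    exact V.mul_mem (hVn.conj_mem _ hPb a) hPa
  · intro y hy hyC
    obtain ⟨v, hv, m, hm, rfl⟩ := factor h d hy hyC g
    have h1 : ⁅y, v * m⁆ = y * v * y⁻¹ * v⁻¹ := by
      rw [mem_MM] at hm
      calc ⁅y, v * m⁆ = y * v * (m * y⁻¹) * m⁻¹ * v⁻¹ := by rw [commutatorElement_def]; group
        _ = y * v * (y⁻¹ * m) * m⁻¹ * v⁻¹ := by
          have : m * y⁻¹ = y⁻¹ * m := by
            rw [eq_inv_mul_iff_mul_eq, ← mul_assoc, ← hm]; group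
          rw [this]
        _ = y * v * y⁻¹ * v⁻¹ := by group
    show ⁅y, v * m⁆ ∈ V
    rw [h1]
    exact V.mul_mem (hVn.conj_mem _ hv y) (V.inv_mem hv)

theorem normal_of_between [N.Normal] {L : Subgroup G} (hVL : V ≤ L) (hLN : L ≤ N) : L.Normal := by
  constructor
  intro l hl g
  have h1 : g * l * g⁻¹ = ⁅l, g⁆⁻¹ * l := by rw [commutatorElement_def]; group
  rw [h1]
  exact L.mul_mem (L.inv_mem (hVL (comm_mem h d (hLN hl) g))) hl

section two

variable [N.Normal] {v₀ n₀ : G} (hv₀ : v₀ ∈ V) (hn₀ : n₀ ∈ N) (hvn : ⁅v₀, n₀⁆ ∉ ZZ N)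
include hv₀ hn₀ hvn

theorem n₀_not_mem : n₀ ∉ Subgroup.centralizer (V : Set G) := by
  intro h1
  apply hvn
  have h2 : ⁅v₀, n₀⁆ = 1 := by
    rw [commutatorElement_eq_one_iff_mul_comm]
    exact (Subgroup.mem_centralizer_iff.1 h1) v₀ hv₀
  rw [h2]
  exact (ZZ N).one_mem

theorem Y_le {y : G} (hy : y ∈ N) (hyY : ∀ v ∈ V, ⁅v, y⁆ ∈ ZZ N) : y ∈ Subgroup.centralizer (V : Set G) := by
  by_contra hyC
  have hVn := d.normal
  apply hvn
  -- `v = v₀⁻¹`
  have key : ∀ v ∈ V, ∃ z ∈ ZZ N, y * v * y⁻¹ = z * v ∧ y * (n₀ * v * n₀⁻¹) * y⁻¹ = z * (n₀ * v * n₀⁻¹) := by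
    intro v hv
    -- commutator of `y` with anything in `N` lies in `Z`
    have hyN : ∀ n ∈ N, ⁅y, n⁆ ∈ ZZ N := by
      intro n hn
      obtain ⟨v, hv, m, hm, rfl⟩ := factor h d hy hyC n
      have h1 : ⁅y, v * m⁆ = ⁅v, y⁆⁻¹ := by
        rw [mem_MM] at hm
        calc ⁅y, v * m⁆ = y * v * (m * y⁻¹) * m⁻¹ * v⁻¹ := by rw [commutatorElement_def]; group
          _ = y * v * (y⁻¹ * m) * m⁻¹ * v⁻¹ := by
            have : m * y⁻¹ = y⁻¹ * m := by
              rw [eq_inv_mul_iff_mul_eq, ← mul_assoc, ← hm]; group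
            rw [this]
          _ = ⁅v, y⁆⁻¹ := by rw [commutatorElement_def]; group
      rw [h1]
      exact (ZZ N).inv_mem (hyY v hv)
    refine ⟨⁅y, v⁆, hyN v (d.le hv), by rw [commutatorElement_def]; group, ?_⟩
    have hz := hyN v (d.le hv)
    have hw := hyN n₀ hn₀
    -- `y n₀ = w n₀ y`
    have e1 : y * n₀ = ⁅y, n₀⁆ * n₀ * y := by rw [commutatorElement_def]; group
    have e2 : n₀⁻¹ * y⁻¹ = y⁻¹ * n₀⁻¹ * ⁅y, n₀⁆⁻¹ := by rw [commutatorElement_def]; group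
    have e3 : y * v * y⁻¹ = ⁅y, v⁆ * v := by rw [commutatorElement_def]; group
    have c1 := (mem_ZZ.1 hz).2 n₀ hn₀
    have hx : ⁅y, v⁆ * (n₀ * v * n₀⁻¹) ∈ N :=
      N.mul_mem (mem_ZZ.1 hz).1 ((inferInstance : N.Normal).conj_mem _ (d.le hv) n₀)
    have c2 := (mem_ZZ.1 hw).2 _ hx
    calc y * (n₀ * v * n₀⁻¹) * y⁻¹ = (y * n₀) * v * (n₀⁻¹ * y⁻¹) := by group
      _ = (⁅y, n₀⁆ * n₀ * y) * v * (y⁻¹ * n₀⁻¹ * ⁅y, n₀⁆⁻¹) := by rw [e1, e2]
      _ = ⁅y, n₀⁆ * n₀ * (y * v * y⁻¹) * n₀⁻¹ * ⁅y, n₀⁆⁻¹ := by group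
      _ = ⁅y, n₀⁆ * n₀ * (⁅y, v⁆ * v) * n₀⁻¹ * ⁅y, n₀⁆⁻¹ := by rw [e3]
      _ = ⁅y, n₀⁆ * (n₀ * ⁅y, v⁆) * v * n₀⁻¹ * ⁅y, n₀⁆⁻¹ := by group
      _ = ⁅y, n₀⁆ * (⁅y, v⁆ * n₀) * v * n₀⁻¹ * ⁅y, n₀⁆⁻¹ := by rw [c1]
      _ = ⁅y, n₀⁆ * (⁅y, v⁆ * (n₀ * v * n₀⁻¹)) * ⁅y, n₀⁆⁻¹ := by group
      _ = (⁅y, v⁆ * (n₀ * v * n₀⁻¹)) * ⁅y, n₀⁆ * ⁅y, n₀⁆⁻¹ := by rw [← c2]
      _ = ⁅y, v⁆ * (n₀ * v * n₀⁻¹) := by group
  obtain ⟨z, hz, h1, h2⟩ := key v₀⁻¹ (V.inv_mem hv₀)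
  -- `v₀ n₀ v₀⁻¹ n₀⁻¹` commutes with `y`
  apply mem_ZZ_of_comm h d hy hyC
  · rw [commutatorElement_def]
    have h3 : v₀ * n₀ * v₀⁻¹ * n₀⁻¹ = v₀ * (n₀ * v₀⁻¹ * n₀⁻¹) := by group
    rw [h3]
    exact V.mul_mem hv₀ (hVn.conj_mem _ (V.inv_mem hv₀) n₀)
  · have hzc : Commute z (n₀ * v₀⁻¹ * n₀⁻¹) :=
      ((mem_ZZ.1 hz).2 _ ((inferInstance : N.Normal).conj_mem _ (N.inv_mem (d.le hv₀)) n₀)).symm
    have hzv : z * v₀⁻¹ = v₀⁻¹ * z := ((mem_ZZ.1 hz).2 _ (N.inv_mem (d.le hv₀))).symm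
    have h3 : y * v₀ * y⁻¹ = v₀ * z⁻¹ := by
      have : (y * v₀⁻¹ * y⁻¹)⁻¹ = (z * v₀⁻¹)⁻¹ := by rw [h1]
      calc y * v₀ * y⁻¹ = (y * v₀⁻¹ * y⁻¹)⁻¹ := by group
        _ = (z * v₀⁻¹)⁻¹ := this
        _ = v₀ * z⁻¹ := by group
    symm
    calc y * ⁅v₀, n₀⁆ = (y * v₀ * y⁻¹) * (y * (n₀ * v₀⁻¹ * n₀⁻¹) * y⁻¹) * y := by
          rw [commutatorElement_def]; group
      _ = (v₀ * z⁻¹) * (z * (n₀ * v₀⁻¹ * n₀⁻¹)) * y := by rw [h3, h2]
      _ = ⁅v₀, n₀⁆ * y := by rw [commutatorElement_def]; group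

/-- elements outside act fixed-point-freely on `V / Z` -/
theorem fpf {n : G} (hn : n ∈ N) (hnC : n ∉ Subgroup.centralizer (V : Set G)) {v : G} (hv : v ∈ V)
    (hvz : ⁅v, n⁆ ∈ ZZ N) : v ∈ ZZ N := by
  have hVn := d.normal
  let W : Subgroup G :=
    { carrier := {w | w ∈ V ∧ ⁅w, n⁆ ∈ ZZ N}
      mul_mem' := by
        rintro a b ⟨ha, ha'⟩ ⟨hb, hb'⟩
        refine ⟨V.mul_mem ha hb, ?_⟩
        have h1 : ⁅a * b, n⁆ = a * ⁅b, n⁆ * a⁻¹ * ⁅a, n⁆ := by
          rw [commutatorElement_def, commutatorElement_def, commutatorElement_def]; group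
        rw [h1]
        exact (ZZ N).mul_mem ((ZZ_normal N).conj_mem _ hb' a) ha'
      one_mem' := ⟨V.one_mem, by rw [commutatorElement_one_left]; exact (ZZ N).one_mem⟩
      inv_mem' := by
        rintro a ⟨ha, ha'⟩
        refine ⟨V.inv_mem ha, ?_⟩
        have h1 : ⁅a⁻¹, n⁆ = a⁻¹ * ⁅a, n⁆⁻¹ * a⁻¹⁻¹ := by
          rw [commutatorElement_def, commutatorElement_def]; group
        rw [h1]
        exact (ZZ_normal N).conj_mem _ ((ZZ N).inv_mem ha') a⁻¹ }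
  have hW : W = ZZ N ∨ W = V := by
    apply min_of_inv h d hn hnC
    · intro z hz
      refine ⟨d.Zle hz, ?_⟩
      have h1 : ⁅z, n⁆ = 1 := by
        rw [commutatorElement_eq_one_iff_mul_comm]
        exact ((mem_ZZ.1 hz).2 n hn).symm
      rw [h1]
      exact (ZZ N).one_mem
    · rintro w ⟨hw, -⟩
      exact hw
    · rintro m hm w ⟨hw, hw'⟩
      refine ⟨hVn.conj_mem _ hw m, ?_⟩
      rw [mem_MM] at hm
      have h1 : ⁅m * w * m⁻¹, n⁆ = m * ⁅w, n⁆ * m⁻¹ := by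
        have h2 : m⁻¹ * n = n * m⁻¹ := by
          rw [inv_mul_eq_iff_eq_mul, ← mul_assoc, hm]; group
        have h3 : m⁻¹ * n⁻¹ = n⁻¹ * m⁻¹ := by
          rw [← mul_inv_rev, ← mul_inv_rev, hm]
        calc ⁅m * w * m⁻¹, n⁆ = m * w * (m⁻¹ * n) * m * w⁻¹ * (m⁻¹ * n⁻¹) := by
              rw [commutatorElement_def]; group
          _ = m * w * (n * m⁻¹) * m * w⁻¹ * (n⁻¹ * m⁻¹) := by rw [h2, h3]
          _ = m * ⁅w, n⁆ * m⁻¹ := by rw [commutatorElement_def]; group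
      rw [h1]
      exact (ZZ_normal N).conj_mem _ hw' m
  rcases hW with hW | hW
  · rw [← hW]
    exact ⟨hv, hvz⟩
  · exfalso
    apply hnC
    apply Y_le h d hv₀ hn₀ hvn hn
    intro w hw
    rw [← hW] at hw
    exact hw.2

/-- `V` is self-centralizing in `N` -/
theorem cent_le {c' : G} (hc'N : c' ∈ N) (hc'C : c' ∈ Subgroup.centralizer (V : Set G)) : c' ∈ V := by
  have hVn := d.normal
  have htC := n₀_not_mem h d hv₀ hn₀ hvn
  obtain ⟨v, hv, c, hc, rfl⟩ := factor h d hn₀ htC c'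
  have hcN : c ∈ N := by
    have := N.mul_mem (N.inv_mem (d.le hv)) hc'N
    rwa [inv_mul_cancel_left] at this
  have hVC : V ≤ Subgroup.centralizer (V : Set G) := by
    intro a ha
    rw [Subgroup.mem_centralizer_iff]
    intro b hb
    exact d.comm b hb a ha
  have hcC : c ∈ Subgroup.centralizer (V : Set G) := by
    have := (Subgroup.centralizer (V : Set G)).mul_mem (Subgroup.inv_mem _ (hVC hv)) hc'C
    rwa [inv_mul_cancel_left] at this
  suffices hcZ : c ∈ ZZ N from V.mul_mem hv (d.Zle hcZ)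
  by_contra hcZ
  -- `[c, n] ∈ Z`
  have hcn : ∀ n ∈ N, ⁅c, n⁆ ∈ ZZ N := by
    intro n hn
    obtain ⟨v, hv, m, hm, rfl⟩ := factor h d hn₀ htC n
    have hmN : m ∈ N := by
      have := N.mul_mem (N.inv_mem (d.le hv)) hn
      rwa [inv_mul_cancel_left] at this
    have e1 : c * v = v * c := ((Subgroup.mem_centralizer_iff.1 hcC) v hv).symm
    have h1 : ⁅c, v * m⁆ = v * ⁅c, m⁆ * v⁻¹ := by
      calc ⁅c, v * m⁆ = (c * v) * m * c⁻¹ * m⁻¹ * v⁻¹ := by rw [commutatorElement_def]; group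
        _ = (v * c) * m * c⁻¹ * m⁻¹ * v⁻¹ := by rw [e1]
        _ = v * ⁅c, m⁆ * v⁻¹ := by rw [commutatorElement_def]; group
    rw [h1]
    apply (ZZ_normal N).conj_mem
    apply mem_ZZ_of_comm h d hn₀ htC (comm_mem h d hcN m)
    have h2 : ⁅c, m⁆ ∈ MM n₀ := by
      rw [commutatorElement_def]
      exact (MM n₀).mul_mem ((MM n₀).mul_mem ((MM n₀).mul_mem hc hm) ((MM n₀).inv_mem hc)) ((MM n₀).inv_mem hm)
    exact mem_MM.1 h2
  obtain ⟨u, hu, huZ⟩ := exists_mem h d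
  set c1 := c * u with hc1
  have hc1N : c1 ∈ N := N.mul_mem hcN (d.le hu)
  have hc1Z : c1 ∉ ZZ N := by
    intro h1
    apply huZ
    apply mem_ZZ_of_comm h d hn₀ htC hu
    have h2 : u ∈ MM n₀ := by
      have h3 : c1 ∈ MM n₀ := by
        rw [mem_MM]
        exact ((mem_ZZ.1 h1).2 n₀ hn₀).symm
      have h4 := (MM n₀).mul_mem ((MM n₀).inv_mem hc) h3
      rwa [hc1, inv_mul_cancel_left] at h4
    exact mem_MM.1 h2
  have hcoat := h c1 hc1N hc1Z
  -- `C_N(c1) ≤ C`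
  have hS : ∀ n ∈ N, n ∈ MM c1 → n ∈ Subgroup.centralizer (V : Set G) := by
    intro n hn hn1
    by_contra hnC
    apply huZ
    apply fpf h d hv₀ hn₀ hvn hn hnC hu
    rw [mem_MM] at hn1
    have h1 : ⁅c1, n⁆ = 1 := by
      rw [commutatorElement_eq_one_iff_mul_comm]; exact hn1.symm
    have h2 : ⁅c1, n⁆ = c * ⁅u, n⁆ * c⁻¹ * ⁅c, n⁆ := by
      rw [hc1, commutatorElement_def, commutatorElement_def, commutatorElement_def]; group
    rw [h1] at h2
    have h3 : ⁅u, n⁆ = c⁻¹ * ⁅c, n⁆⁻¹ * c⁻¹⁻¹ := by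
      have : c * ⁅u, n⁆ * c⁻¹ = ⁅c, n⁆⁻¹ := eq_inv_of_mul_eq_one_left h2.symm
      rw [← this]; group
    rw [h3]
    exact (ZZ_normal N).conj_mem _ ((ZZ N).inv_mem (hcn n hn)) c⁻¹
  -- decompositions along `M (c1)`
  have hfac : ∀ L : Subgroup G, V ≤ L → L ≤ N → ¬ L ≤ MM c1 → ∀ n ∈ N, ∃ l ∈ L, ∃ m ∈ MM c1, m ∈ N ∧ n = l * m := by
    intro L hVL hLN hL n hn
    have := normal_of_between h d hVL hLN
    obtain ⟨l, hl, m, hm, rfl⟩ := h.factor hc1N hc1Z L hL n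
    refine ⟨l, hl, m, hm, ?_, rfl⟩
    have := N.mul_mem (N.inv_mem (hLN hl)) hn
    rwa [inv_mul_cancel_left] at this
  have hCle : N ⊓ Subgroup.centralizer (V : Set G) ≤ MM c1 := by
    by_contra hcon
    obtain ⟨l, hl, m, hm, hmN, he⟩ := hfac (N ⊓ Subgroup.centralizer (V : Set G)) (le_inf d.le hVC) inf_le_left hcon n₀ hn₀
    apply htC
    rw [he]
    exact (Subgroup.centralizer (V : Set G)).mul_mem (Subgroup.mem_inf.1 hl).2 (hS m hmN hm)
  have hCMc : N ⊓ Subgroup.centralizer (V : Set G) ≤ MM c := by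
    intro a ha
    have h1 := mem_MM.1 (hCle ha)
    have h2 := (Subgroup.mem_centralizer_iff.1 (Subgroup.mem_inf.1 ha).2) u hu
    rw [mem_MM]
    have h3 : a * (c * u) * u⁻¹ = c * (u * a) * u⁻¹ := by rw [← hc1, h1, hc1]; group
    rw [h2] at h3
    have h4 : a * (c * u) * u⁻¹ = a * c := by group
    have h5 : c * (a * u) * u⁻¹ = c * a := by group
    rwa [h4, h5] at h3
  apply hcZ
  rw [mem_ZZ]
  refine ⟨hcN, fun n hn => ?_⟩
  have hVMc : V ≤ N ⊓ MM c := by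
    refine le_inf d.le (le_trans (le_inf d.le hVC) hCMc)
  have hnot : ¬ N ⊓ MM c ≤ MM c1 := by
    intro h1
    have h2 : n₀ ∈ N ⊓ MM c := by
      refine Subgroup.mem_inf.2 ⟨hn₀, ?_⟩
      rw [mem_MM] at hc ⊢
      exact hc.symm
    exact htC (hS n₀ hn₀ (h1 h2))
  obtain ⟨l, hl, m, hm, hmN, rfl⟩ := hfac (N ⊓ MM c) hVMc inf_le_left hnot n hn
  have h1 : m ∈ MM c := hCMc (Subgroup.mem_inf.2 ⟨hmN, hS m hmN hm⟩)
  exact mem_MM.1 ((MM c).mul_mem (Subgroup.mem_inf.1 hl).2 h1)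

theorem cent_iff {y : G} (hy : y ∈ N) : y ∈ Subgroup.centralizer (V : Set G) ↔ y ∈ V := by
  constructor
  · exact cent_le h d hv₀ hn₀ hvn hy
  · intro hyV
    rw [Subgroup.mem_centralizer_iff]
    intro b hb
    exact d.comm b hb y hyV

theorem eq_of_between {L : Subgroup G} (hVL : V ≤ L) (hLN : L ≤ N) : L = V ∨ L = N := by
  by_cases hL : L ≤ V
  · exact Or.inl (le_antisymm hL hVL)
  · right
    apply le_antisymm hLN
    obtain ⟨v, hv, hvZ⟩ := exists_mem h d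
    have hLn := normal_of_between h d hVL hLN
    have hLM : ¬ L ≤ MM v := by
      intro h1
      apply hL
      intro l hl
      by_contra hlV
      have hlC : l ∉ Subgroup.centralizer (V : Set G) := fun h2 => hlV ((cent_iff h d hv₀ hn₀ hvn (hLN hl)).1 h2)
      apply hvZ
      exact mem_ZZ_of_comm h d (hLN hl) hlC hv ((mem_MM.1 (h1 hl)).symm)
    intro n hn
    obtain ⟨l, hl, m, hm, rfl⟩ := h.factor (d.le hv) hvZ L hLM n
    apply L.mul_mem hl
    apply hVL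
    by_contra hmV
    have hmN : m ∈ N := by
      have := N.mul_mem (N.inv_mem (hLN hl)) hn
      rwa [inv_mul_cancel_left] at this
    have hmC : m ∉ Subgroup.centralizer (V : Set G) := fun h2 => hmV ((cent_iff h d hv₀ hn₀ hvn hmN).1 h2)
    exact hvZ (mem_ZZ_of_comm h d hmN hmC hv (mem_MM.1 hm).symm)

theorem relIndex_prime [Finite G] : (V.relIndex N).Prime := by
  have hVn := d.normal
  have hmin : ∀ K : Subgroup (N ⧸ V.subgroupOf N), K = ⊥ ∨ K = ⊤ := by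
    intro K
    set L : Subgroup N := K.comap (QuotientGroup.mk' (V.subgroupOf N)) with hL
    have h1 : V ≤ L.map N.subtype := by
      intro v hv
      refine ⟨⟨v, d.le hv⟩, ?_, rfl⟩
      rw [SetLike.mem_coe, hL, Subgroup.mem_comap]
      have : QuotientGroup.mk' (V.subgroupOf N) ⟨v, d.le hv⟩ = 1 := by
        rw [QuotientGroup.mk'_apply, QuotientGroup.eq_one_iff, Subgroup.mem_subgroupOf]
        exact hv
      rw [this]
      exact K.one_mem
    have h2 : L.map N.subtype ≤ N := Subgroup.map_subtype_le _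
    have hK : K = L.map (QuotientGroup.mk' (V.subgroupOf N)) := by
      rw [hL, Subgroup.map_comap_eq_self_of_surjective (QuotientGroup.mk'_surjective _)]
    rcases eq_of_between h d hv₀ hn₀ hvn h1 h2 with h3 | h3
    · left
      rw [hK, eq_bot_iff]
      rintro _ ⟨l, hl, rfl⟩
      rw [Subgroup.mem_bot, QuotientGroup.mk'_apply, QuotientGroup.eq_one_iff, Subgroup.mem_subgroupOf, ← h3]
      exact ⟨l, hl, rfl⟩
    · right
      rw [hK, eq_top_iff]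
      rintro x -
      obtain ⟨n, rfl⟩ := QuotientGroup.mk'_surjective _ x
      refine ⟨n, ?_, rfl⟩
      have h4 : (n : G) ∈ L.map N.subtype := by rw [h3]; exact n.2
      obtain ⟨m, hm, hmn⟩ := h4
      have : m = n := Subtype.ext hmn
      rwa [← this]
  have hcard : V.relIndex N = Nat.card (N ⧸ V.subgroupOf N) := rfl
  rw [hcard]
  have hne1 : Nat.card (N ⧸ V.subgroupOf N) ≠ 1 := by
    intro h1
    have h2 : V.subgroupOf N = ⊤ := Subgroup.index_eq_one.1 h1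
    rw [Subgroup.subgroupOf_eq_top] at h2
    exact n₀_not_mem h d hv₀ hn₀ hvn ((cent_iff h d hv₀ hn₀ hvn hn₀).2 (h2 hn₀))
  have hq := Nat.minFac_prime hne1
  have := Fact.mk hq
  obtain ⟨x, hx⟩ := exists_prime_orderOf_dvd_card' (G := N ⧸ V.subgroupOf N) _ (Nat.minFac_dvd _)
  rcases hmin (Subgroup.zpowers x) with h1 | h1
  · rw [Subgroup.zpowers_eq_bot] at h1
    rw [h1, orderOf_one] at hx
    exact absurd hx.symm hq.ne_one
  · have h2 : Nat.card (Subgroup.zpowers x) = Nat.card (N ⧸ V.subgroupOf N) := by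
      rw [h1, Subgroup.card_top]
    rw [← h2, Nat.card_zpowers, hx]
    exact hq

end two

end

end H68.MaxCentA
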