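import Cfsg.Agent.Lib.H68.MaxCentA

/-! Normal subgroups `N` such that the centralizers in `G` of the elements of `N \ Z(N)` are maximal: centralizers when
all abelian normal subgroups are central. -/

set_option autoImplicit false
set_option linter.unusedSectionVars false

open scoped commutatorElement Pointwise

namespace H68.MaxCentB

open H68.MaxCentA

variable {G : Type*} [Group G] {N : Subgroup G}

/-- centralizer in `N` -/
def SS (N : Subgroup G) (x : G) : Subgroup G := N ⊓ MM x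

theorem mem_SS {x g : G} : g ∈ SS N x ↔ g ∈ N ∧ g * x = x * g := by
  rw [SS, Subgroup.mem_inf, mem_MM]

theorem ZZ_le_SS {x : G} (hx : x ∈ N) : ZZ N ≤ SS N x := by
  intro z hz
  rw [mem_ZZ] at hz
  exact mem_SS.2 ⟨hz.1, (hz.2 x hx).symm⟩

theorem SS_conj [N.Normal] (x g : G) {s : G} : s ∈ SS N (g * x * g⁻¹) ↔ g⁻¹ * s * g ∈ SS N x := by
  rw [mem_SS, mem_SS]
  constructor
  · rintro ⟨h1, h2⟩
    refine ⟨by simpa using (inferInstance : N.Normal).conj_mem _ h1 g⁻¹, ?_⟩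
    calc g⁻¹ * s * g * x = g⁻¹ * (s * (g * x * g⁻¹)) * g := by group
      _ = g⁻¹ * ((g * x * g⁻¹) * s) * g := by rw [h2]
      _ = x * (g⁻¹ * s * g) := by group
  · rintro ⟨h1, h2⟩
    refine ⟨?_, ?_⟩
    · have := (inferInstance : N.Normal).conj_mem _ h1 g
      have e : g * (g⁻¹ * s * g) * g⁻¹ = s := by group
      rwa [e] at this
    · calc s * (g * x * g⁻¹) = g * ((g⁻¹ * s * g) * x) * g⁻¹ := by group
        _ = g * (x * (g⁻¹ * s * g)) * g⁻¹ := by rw [h2]
        _ = g * x * g⁻¹ * s := by group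

/-- case two: abelian normal subgroups inside `N` are central -/
def HypII (N : Subgroup G) : Prop := ∀ V : Subgroup G, V.Normal → V ≤ N → (∀ a ∈ V, ∀ b ∈ V, a * b = b * a) → V ≤ ZZ N

theorem mem_MM_of_normalizer [N.Normal] (h : Hyp N) (hII : HypII N) {x : G} (hx : x ∈ N) (hxZ : x ∉ ZZ N) {g : G}
    (hg : g ∈ Subgroup.normalizer (SS N x : Set G)) : g ∈ MM x := by
  have hle1 : Subgroup.normalizer (SS N x : Set G) ≤ Subgroup.normalizer (ZZ (SS N x) : Set G) := by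
    intro g hg
    rw [Subgroup.mem_normalizer_iff] at hg ⊢
    have key : ∀ g : G, (∀ s, s ∈ SS N x ↔ g * s * g⁻¹ ∈ SS N x) → ∀ z, z ∈ ZZ (SS N x) → g * z * g⁻¹ ∈ ZZ (SS N x) := by
      intro g hg z hz
      rw [mem_ZZ] at hz ⊢
      refine ⟨(hg z).1 hz.1, fun n hn => ?_⟩
      have h1 : g⁻¹ * n * g ∈ SS N x := by
        rw [hg]
        have : g * (g⁻¹ * n * g) * g⁻¹ = n := by group
        rwa [this]
      have h2 := hz.2 _ h1
      calc n * (g * z * g⁻¹) = g * ((g⁻¹ * n * g) * z) * g⁻¹ := by group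
        _ = g * (z * (g⁻¹ * n * g)) * g⁻¹ := by rw [h2]
        _ = (g * z * g⁻¹) * n := by group
    intro z
    refine ⟨key g hg z, fun hz => ?_⟩
    have h1 := key g⁻¹ (fun s => by
      rw [inv_inv]
      have h2 := hg (g⁻¹ * s * g)
      have h3 : g * (g⁻¹ * s * g) * g⁻¹ = s := by group
      rw [h3] at h2
      exact h2.symm) _ hz
    have h2 : g⁻¹ * (g * z * g⁻¹) * g⁻¹⁻¹ = z := by group
    rwa [h2] at h1
  have hle2 : MM x ≤ Subgroup.normalizer (SS N x : Set G) := by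
    intro m hm
    rw [Subgroup.mem_normalizer_iff]
    intro s
    have h1 : m * x * m⁻¹ = x := by rw [mem_MM.1 hm]; group
    have h2 := SS_conj (N := N) x m (s := m * s * m⁻¹)
    rw [h1] at h2
    have h3 : m⁻¹ * (m * s * m⁻¹) * m = s := by group
    rw [h3] at h2
    exact h2.symm
  have hxin : x ∈ ZZ (SS N x) := by
    rw [mem_ZZ]
    exact ⟨mem_SS.2 ⟨hx, rfl⟩, fun n hn => (mem_SS.1 hn).2⟩
  rcases (h x hx hxZ).le_iff.1 (hle2.trans hle1) with h1 | h1
  · exfalso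
    have h2 : (ZZ (SS N x)).Normal := Subgroup.normalizer_eq_top_iff.1 h1
    apply hxZ
    apply hII _ h2 (inf_le_left.trans inf_le_left) ?_ hxin
    intro a ha b hb
    exact (mem_ZZ.1 hb).2 a (mem_ZZ.1 ha).1
  · rw [← h1]
    exact hle1 hg

/-- `w` is a `p`-element modulo `Z` -/
def pel (N : Subgroup G) (p : ℕ) (w : G) : Prop := ∃ k : ℕ, w ^ (p ^ k) ∈ ZZ N

theorem pel_unique {p r : ℕ} (hp : p.Prime) (hr : r.Prime) {w : G} (hw : w ∉ ZZ N) (h1 : pel N p w) (h2 : pel N r w) :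
    p = r := by
  by_contra hne
  obtain ⟨k, hk⟩ := h1
  obtain ⟨l, hl⟩ := h2
  apply hw
  have hcop : Nat.Coprime (p ^ k) (r ^ l) := Nat.Coprime.pow _ _ ((Nat.coprime_primes hp hr).2 hne)
  have h3 : w = (w ^ (p ^ k)) ^ (Nat.gcdA (p ^ k) (r ^ l)) * (w ^ (r ^ l)) ^ (Nat.gcdB (p ^ k) (r ^ l)) := by
    have h4 := Nat.gcd_eq_gcd_ab (p ^ k) (r ^ l)
    rw [hcop] at h4
    rw [← zpow_natCast w (p ^ k), ← zpow_natCast w (r ^ l), ← zpow_mul, ← zpow_mul, ← zpow_add, ← h4]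
    simp
  rw [h3]
  exact (ZZ N).mul_mem ((ZZ N).zpow_mem hk _) ((ZZ N).zpow_mem hl _)

section fin
variable [Finite G] [N.Normal]

theorem prim {x : G} {r : ℕ} (hr : r.Prime) (hrx : r ∣ orderOf (QuotientGroup.mk x : G ⧸ ZZ N)) :
    ∃ k a : ℕ, orderOf (x ^ k) = r ^ a ∧ x ^ k ∉ ZZ N := by
  have h0 : orderOf x ≠ 0 := (orderOf_pos x).ne'
  refine ⟨ordCompl[r] (orderOf x), (orderOf x).factorization r, ?_, ?_⟩
  · rw [orderOf_pow' x (Nat.ordCompl_pos r h0).ne', Nat.gcd_eq_right (Nat.ordCompl_dvd _ _)]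
    apply Nat.div_eq_of_eq_mul_left (Nat.ordCompl_pos r h0)
    exact (Nat.ordProj_mul_ordCompl_eq_self _ _).symm
  · intro h1
    rw [← QuotientGroup.eq_one_iff, QuotientGroup.mk_pow] at h1
    have h2 := orderOf_dvd_of_pow_eq_one h1
    exact Nat.not_dvd_ordCompl hr h0 (hrx.trans h2)

omit [Finite G] in
theorem mem_zpowers_of_coprime {a b : G} (hab : a * b = b * a) (hc : Nat.Coprime (orderOf a) (orderOf b)) :
    a ∈ Subgroup.zpowers (a * b) := by
  have h1 : (a * b) ^ orderOf b = a ^ orderOf b := by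
    rw [(show Commute a b from hab).mul_pow, pow_orderOf_eq_one, mul_one]
  have h2 : a ∈ Subgroup.zpowers (a ^ orderOf b) := by
    rw [mem_zpowers_pow_iff]
    exact hc.symm
  rw [← h1] at h2
  exact (Subgroup.zpowers_le.2 (Subgroup.pow_mem _ (Subgroup.mem_zpowers _) _)) h2

theorem MM_le_of_mem_zpowers {a b : G} (hab : a ∈ Subgroup.zpowers b) : MM b ≤ MM a := by
  intro g hg
  obtain ⟨k, rfl⟩ := Subgroup.mem_zpowers_iff.1 hab
  rw [mem_MM] at hg ⊢
  exact (show Commute g b from hg).zpow_right k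

theorem two_commuting (h : Hyp N) {x y : G} (hx : x ∈ N) (hxZ : x ∉ ZZ N) (hy : y ∈ N) (hyZ : y ∉ ZZ N)
    (hxy : x * y = y * x) (hne : MM x ≠ MM y) : ∃ p : ℕ, p.Prime ∧ pel N p x ∧ pel N p y := by
  set n := orderOf (QuotientGroup.mk x : G ⧸ ZZ N) with hn
  set m := orderOf (QuotientGroup.mk y : G ⧸ ZZ N) with hm
  have key : ∀ r s : ℕ, r.Prime → s.Prime → r ∣ n → s ∣ m → r = s := by
    intro r s hr hs hrn hsm
    by_contra hrs
    apply hne
    obtain ⟨k, a, hk, hkZ⟩ := prim (N := N) hr hrn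
    obtain ⟨l, b, hl, hlZ⟩ := prim (N := N) hs hsm
    have hc : x ^ k * y ^ l = y ^ l * x ^ k := ((show Commute x y from hxy).pow_pow k l).eq
    have hcop : Nat.Coprime (orderOf (x ^ k)) (orderOf (y ^ l)) := by
      rw [hk, hl]
      exact Nat.Coprime.pow _ _ ((Nat.coprime_primes hr hs).2 hrs)
    have h1 := mem_zpowers_of_coprime hc hcop
    have h2 : y ^ l ∈ Subgroup.zpowers (x ^ k * y ^ l) := by
      rw [hc]
      exact mem_zpowers_of_coprime hc.symm hcop.symm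
    set w := x ^ k * y ^ l with hw
    have hwN : w ∈ N := N.mul_mem (N.pow_mem hx k) (N.pow_mem hy l)
    have hwZ : w ∉ ZZ N := by
      intro h3
      exact hkZ ((Subgroup.zpowers_le.2 h3) h1)
    have e1 := h.eq_of_le hwN hwZ (N.pow_mem hx k) hkZ (MM_le_of_mem_zpowers h1)
    have e2 := h.eq_of_le hwN hwZ (N.pow_mem hy l) hlZ (MM_le_of_mem_zpowers h2)
    have e3 := h.eq_of_le hx hxZ (N.pow_mem hx k) hkZ
      (MM_le_of_mem_zpowers (Subgroup.pow_mem _ (Subgroup.mem_zpowers _) _))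
    have e4 := h.eq_of_le hy hyZ (N.pow_mem hy l) hlZ
      (MM_le_of_mem_zpowers (Subgroup.pow_mem _ (Subgroup.mem_zpowers _) _))
    rw [e3, e4, ← e1, e2]
  have hn1 : n ≠ 1 := by
    intro h1
    rw [hn, orderOf_eq_one_iff, QuotientGroup.eq_one_iff] at h1
    exact hxZ h1
  have hm1 : m ≠ 1 := by
    intro h1
    rw [hm, orderOf_eq_one_iff, QuotientGroup.eq_one_iff] at h1
    exact hyZ h1
  have hp := Nat.minFac_prime hn1
  have hq := Nat.minFac_prime hm1
  have hpq : n.minFac = m.minFac := key _ _ hp hq (Nat.minFac_dvd _) (Nat.minFac_dvd _)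
  refine ⟨n.minFac, hp, ?_, ?_⟩
  · have h1 : n = n.minFac ^ n.primeFactorsList.length := by
      apply Nat.eq_prime_pow_of_unique_prime_dvd (orderOf_pos _).ne'
      intro d hd hdn
      exact (key d m.minFac hd hq hdn (Nat.minFac_dvd _)).trans hpq.symm
    refine ⟨n.primeFactorsList.length, ?_⟩
    rw [← h1, ← QuotientGroup.eq_one_iff, QuotientGroup.mk_pow, hn, pow_orderOf_eq_one]
  · have h1 : m = m.minFac ^ m.primeFactorsList.length := by
      apply Nat.eq_prime_pow_of_unique_prime_dvd (orderOf_pos _).ne'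
      intro d hd hdn
      exact (key n.minFac d hp hd (Nat.minFac_dvd _) hdn).symm.trans hpq
    refine ⟨m.primeFactorsList.length, ?_⟩
    rw [hpq, ← h1, ← QuotientGroup.eq_one_iff, QuotientGroup.mk_pow, hm, pow_orderOf_eq_one]

theorem dichotomy (h : Hyp N) {x : G} (hx : x ∈ N) (hxZ : x ∉ ZZ N) :
    (∀ y ∈ SS N x, y ∉ ZZ N → MM y = MM x) ∨ ∃ p : ℕ, p.Prime ∧ ∀ y ∈ SS N x, pel N p y := by
  by_cases h1 : ∀ y ∈ SS N x, y ∉ ZZ N → MM y = MM x
  · exact Or.inl h1
  · right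
    push Not at h1
    obtain ⟨y, hy, hyZ, hyx⟩ := h1
    obtain ⟨hyN, hyc⟩ := mem_SS.1 hy
    obtain ⟨p, hp, hpx, hpy⟩ := two_commuting h hx hxZ hyN hyZ hyc.symm hyx.symm
    refine ⟨p, hp, ?_⟩
    intro w hw
    obtain ⟨hwN, hwc⟩ := mem_SS.1 hw
    by_cases hwZ : w ∈ ZZ N
    · exact ⟨0, by simpa using hwZ⟩
    · by_cases hwx : MM w = MM x
      · have h2 : w * y = y * w := by
          have h3 : y ∈ MM w := by rw [hwx, mem_MM]; exact hyc
          exact (mem_MM.1 h3).symm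
        obtain ⟨r, hr, hrw, hry⟩ := two_commuting h hwN hwZ hyN hyZ h2 (by rw [hwx]; exact hyx.symm)
        have h4 := pel_unique hp hr hyZ hpy hry
        rw [h4]
        exact hrw
      · obtain ⟨r, hr, hrw, hrx⟩ := two_commuting h hwN hwZ hx hxZ hwc hwx
        have h4 := pel_unique hp hr hxZ hpx hrx
        rw [h4]
        exact hrw

theorem eq_of_normalizer {p : ℕ} (hp : p.Prime) {S T : Subgroup G} (hTN : T ≤ N) (hST : S ≤ T)
    (hZS : ZZ N ≤ S) (hT : ∀ t ∈ T, pel N p t)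
    (hn : ∀ t ∈ T, t ∈ Subgroup.normalizer (S : Set G) → t ∈ S) : S = T := by
  have := Fact.mk hp
  let f : T →* G ⧸ ZZ N := (QuotientGroup.mk' (ZZ N)).comp T.subtype
  have hf : f.rangeRestrict.ker ≤ Subgroup.center T := by
    rw [MonoidHom.ker_rangeRestrict]
    intro t ht
    have h1 : (t : G) ∈ ZZ N := by
      rw [MonoidHom.mem_ker] at ht
      exact (QuotientGroup.eq_one_iff _).1 ht
    rw [Subgroup.mem_center_iff]
    intro g
    exact Subtype.ext ((mem_ZZ.1 h1).2 g (hTN g.2))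
  have hr : IsPGroup p f.range := by
    rintro ⟨_, t, rfl⟩
    obtain ⟨k, hk⟩ := hT t t.2
    refine ⟨k, Subtype.ext ?_⟩
    show (QuotientGroup.mk (t : G) : G ⧸ ZZ N) ^ (p ^ k) = 1
    rw [← QuotientGroup.mk_pow, QuotientGroup.eq_one_iff]
    exact hk
  have hnil : Group.IsNilpotent f.range := hr.isNilpotent
  have hTnil : Group.IsNilpotent T := Subgroup.isNilpotent_of_ker_le_center f.rangeRestrict hf
  by_contra hne
  have hlt : S.subgroupOf T < ⊤ := by
    rw [lt_top_iff_ne_top]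
    intro h1
    rw [Subgroup.subgroupOf_eq_top] at h1
    exact hne (le_antisymm hST h1)
  have hnc := (Group.normalizerCondition_of_isNilpotent (G := T)) (S.subgroupOf T) hlt
  obtain ⟨t, ht1, ht2⟩ := SetLike.exists_of_lt hnc
  apply ht2
  rw [Subgroup.mem_subgroupOf]
  apply hn t t.2
  rw [Subgroup.mem_normalizer_iff] at ht1 ⊢
  intro s
  constructor
  · intro hs
    have := (ht1 ⟨s, hST hs⟩).1 (Subgroup.mem_subgroupOf.2 hs)
    exact Subgroup.mem_subgroupOf.1 this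
  · intro hs
    have hsT : s ∈ T := by
      have h1 := T.mul_mem (T.mul_mem (T.inv_mem t.2) (hST hs)) t.2
      have h2 : (t : G)⁻¹ * (t * s * (t : G)⁻¹) * t = s := by group
      rwa [h2] at h1
    exact Subgroup.mem_subgroupOf.1 ((ht1 ⟨s, hsT⟩).2 (Subgroup.mem_subgroupOf.2 hs))

end fin

end H68.MaxCentB
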