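import Cfsg.Agent.Lib.H68.MaxCentB

/-! Normal subgroups `N` such that the centralizers in `G` of the elements of `N \ Z(N)` are maximal: no abelian
centralizer when all abelian normal subgroups are central. -/

set_option autoImplicit false
set_option linter.unusedSectionVars false

open scoped commutatorElement Pointwise

namespace H68.MaxCentC

open H68.MaxCentA H68.MaxCentB H1.Frob

variable {G : Type*} [Group G] {N : Subgroup G} [Finite G] [N.Normal]

/-- in the abelian case all noncentral elements have the same centralizer -/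
theorem SS_eq_of_abelian (h : Hyp N) (hII : HypII N) {x : G} (hx : x ∈ N) (hxZ : x ∉ ZZ N)
    (hab : ∀ a ∈ SS N x, ∀ b ∈ SS N x, a * b = b * a) {y : G} (hy : y ∈ SS N x) (hyZ : y ∉ ZZ N) :
    SS N y = SS N x := by
  obtain ⟨hyN, hyc⟩ := mem_SS.1 hy
  rcases dichotomy h hx hxZ with h1 | ⟨p, hp, h1⟩
  · rw [SS, h1 y hy hyZ, SS]
  · rcases dichotomy h hyN hyZ with h2 | ⟨r, hr, h2⟩
    · have h3 := h2 x (mem_SS.2 ⟨hx, hyc.symm⟩) hxZ
      rw [SS, ← h3, SS]
    · have hyy : y ∈ SS N y := mem_SS.2 ⟨hyN, rfl⟩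
      have hpr := pel_unique hp hr hyZ (h1 y hy) (h2 y hyy)
      subst hpr
      symm
      apply eq_of_normalizer hp inf_le_left ?_ (ZZ_le_SS hx) h2
      · intro t ht htn
        exact Subgroup.mem_inf.2 ⟨(mem_SS.1 ht).1, mem_MM_of_normalizer h hII hx hxZ htn⟩
      · intro s hs
        exact mem_SS.2 ⟨(mem_SS.1 hs).1, hab s hs y hy⟩

theorem not_abelian (h : Hyp N) (hII : HypII N) {x : G} (hx : x ∈ N) (hxZ : x ∉ ZZ N)
    (hab : ∀ a ∈ SS N x, ∀ b ∈ SS N x, a * b = b * a) : False := by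
  classical
  set X := N ⧸ Subgroup.center N with hX
  set π : N →* X := QuotientGroup.mk' (Subgroup.center N) with hπ
  have hπs : Function.Surjective π := QuotientGroup.mk'_surjective _
  have hcen : ∀ n : N, n ∈ Subgroup.center N ↔ (n : G) ∈ ZZ N := by
    intro n
    rw [Subgroup.mem_center_iff, mem_ZZ]
    constructor
    · intro h1
      exact ⟨n.2, fun m hm => congrArg Subtype.val (h1 ⟨m, hm⟩)⟩
    · intro h1 m
      exact Subtype.ext (h1.2 m m.2)
  have hπ1 : ∀ n : N, π n = 1 ↔ (n : G) ∈ ZZ N := by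
    intro n
    rw [hπ, QuotientGroup.mk'_apply, QuotientGroup.eq_one_iff, hcen]
  set H : Subgroup X := ((SS N x).subgroupOf N).map π with hH
  have hmemH : ∀ n : N, π n ∈ H ↔ (n : G) ∈ SS N x := by
    intro n
    constructor
    · rintro ⟨s, hs, hsn⟩
      have h1 : s⁻¹ * n ∈ Subgroup.center N := by
        rw [hπ, QuotientGroup.mk'_apply, QuotientGroup.mk'_apply, QuotientGroup.eq] at hsn
        exact hsn
      rw [hcen] at h1
      have h2 := (SS N x).mul_mem (Subgroup.mem_subgroupOf.1 hs) (ZZ_le_SS hx h1)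
      have h3 : (s : G) * ((s⁻¹ * n : N) : G) = n := by
        rw [Subgroup.coe_mul, Subgroup.coe_inv, mul_inv_cancel_left]
      rwa [h3] at h2
    · intro h1
      exact ⟨n, Subgroup.mem_subgroupOf.2 h1, rfl⟩
  have hconj : ∀ (n m : N), π m ∈ MulAut.conj (π n) • H ↔ ((n⁻¹ * m * n : N) : G) ∈ SS N x := by
    intro n m
    rw [H1.SZ.mem_conj_smul, ← map_inv, ← map_mul, ← map_mul, hmemH]
  -- noncentral elements of conjugates
  have hkey : ∀ n m : N, ((n⁻¹ * m * n : N) : G) ∈ SS N x → (m : G) ∉ ZZ N →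
      ∀ g : G, g ∈ SS N m ↔ (n : G)⁻¹ * g * n ∈ SS N x := by
    intro n m h1 h2 g
    have h3 : (n : G)⁻¹ * m * n ∉ ZZ N := by
      intro h4
      apply h2
      have := (ZZ_normal N).conj_mem _ h4 (n : G)
      have e : (n : G) * ((n : G)⁻¹ * m * n) * (n : G)⁻¹ = m := by group
      rwa [e] at this
    have h4 := SS_eq_of_abelian h hII hx hxZ hab h1 h3
    have h5 := SS_conj (N := N) ((n : G)⁻¹ * m * n) (n : G) (s := g)
    have e : (n : G) * ((n : G)⁻¹ * m * n) * (n : G)⁻¹ = m := by group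
    rw [e] at h5
    rw [h5]
    have h6 : SS N ((n : G)⁻¹ * m * n) = SS N x := h4
    rw [h6]
  have hTI : IsTIself H := by
    intro g hg
    rw [eq_bot_iff]
    intro u hu
    obtain ⟨hu1, hu2⟩ := Subgroup.mem_inf.1 hu
    rw [Subgroup.mem_bot]
    obtain ⟨n, rfl⟩ := hπs g
    obtain ⟨m, rfl⟩ := hπs u
    by_contra hne
    rw [hπ1] at hne
    rw [hconj] at hu2
    rw [hmemH] at hu1 hg
    apply hg
    apply Subgroup.mem_inf.2 ⟨n.2, ?_⟩
    apply mem_MM_of_normalizer h hII hx hxZ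
    have h1 := hkey n m hu2 hne
    have h2 := SS_eq_of_abelian h hII hx hxZ hab hu1 hne
    rw [← inv_mem_iff, Subgroup.mem_normalizer_iff]
    intro s
    rw [inv_inv, ← h1, h2]
  obtain ⟨K, hK, hKn, hKc⟩ := H1.FrobThm.frobenius_kernel hTI
  have hxH : π ⟨x, hx⟩ ∈ H := (hmemH _).2 (mem_SS.2 ⟨hx, rfl⟩)
  have hx1 : π ⟨x, hx⟩ ≠ 1 := by
    rw [Ne, hπ1]
    exact hxZ
  have hHtop : H ≠ ⊤ := by
    intro h1
    apply hxZ
    rw [mem_ZZ]
    refine ⟨hx, fun n hn => ?_⟩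
    have h2 : π ⟨n, hn⟩ ∈ H := by rw [h1]; trivial
    rw [hmemH] at h2
    exact (mem_SS.1 h2).2
  have hmemK : ∀ n : N, π n ∈ K ↔ ((n : G) ∈ ZZ N ∨ ∀ m : N, ((m⁻¹ * n * m : N) : G) ∉ SS N x) := by
    intro n
    rw [← SetLike.mem_coe, hK]
    unfold Cfsg.frobeniusKernel
    rw [Set.mem_ofPred_eq, hπ1]
    constructor
    · rintro (h1 | h1)
      · exact Or.inl h1
      · right
        intro m hm
        exact h1 (π m) ((hconj m n).2 hm)
    · rintro (h1 | h1)
      · exact Or.inl h1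
      · right
        intro g hg
        obtain ⟨m, rfl⟩ := hπs g
        exact h1 m ((hconj m n).1 hg)
  -- the preimage in `G` is normal
  set L : Subgroup G := (K.comap π).map N.subtype with hL
  have hmemL : ∀ n : N, (n : G) ∈ L ↔ π n ∈ K := by
    intro n
    constructor
    · rintro ⟨m, hm, hmn⟩
      have : m = n := Subtype.ext hmn
      rw [← this]; exact hm
    · intro h1
      exact ⟨n, h1, rfl⟩
  have hLN : L ≤ N := Subgroup.map_subtype_le _
  have hxnot : ¬ N ≤ MM x := by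
    intro h1
    apply hxZ
    rw [mem_ZZ]
    exact ⟨hx, fun n hn => mem_MM.1 (h1 hn)⟩
  have hLn : L.Normal := by
    constructor
    intro k hk g
    obtain ⟨k, rfl⟩ : ∃ k' : N, (k' : G) = k := ⟨⟨k, hLN hk⟩, rfl⟩
    have hk' : g * (k : G) * g⁻¹ ∈ N := (inferInstance : N.Normal).conj_mem _ k.2 g
    have e0 : g * (k : G) * g⁻¹ = ((⟨g * (k : G) * g⁻¹, hk'⟩ : N) : G) := rfl
    rw [hmemL, hmemK] at hk
    rw [e0, hmemL, hmemK]
    by_cases hkZ : (k : G) ∈ ZZ N
    · left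
      exact (ZZ_normal N).conj_mem _ hkZ g
    · right
      intro m hm
      rcases hk with hk | hk
      · exact hkZ hk
      · obtain ⟨v, hv, c, hc, he⟩ := h.factor hx hxZ N hxnot (g⁻¹ * m)
        apply hk ⟨v, hv⟩
        have h1 : (m : G)⁻¹ * (g * k * g⁻¹) * m ∈ SS N x := hm
        have h2 : (m : G)⁻¹ * (g * k * g⁻¹) * m = c⁻¹ * (v⁻¹ * k * v) * c := by
          have : (m : G)⁻¹ * (g * k * g⁻¹) * m = (g⁻¹ * m)⁻¹ * k * (g⁻¹ * m) := by group
          rw [this, he]; group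
        rw [h2] at h1
        show v⁻¹ * (k : G) * v ∈ SS N x
        have h3 := (SS_conj (N := N) x c (s := v⁻¹ * (k : G) * v)).2 h1
        have h4 : c * x * c⁻¹ = x := by rw [mem_MM.1 hc]; group
        rwa [h4] at h3
  -- a noncentral element of the kernel not centralizing it
  have hKbot : K ≠ ⊥ := by
    intro h1
    rw [h1] at hKc
    have h2 := hKc.sup_eq_top
    rw [bot_sup_eq] at h2
    exact hHtop h2
  have hnot : ∃ k ∈ L, k ∉ ZZ N ∧ ¬ L ≤ MM k := by
    by_contra hcon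
    push Not at hcon
    have h1 : L ≤ ZZ N := by
      apply hII L hLn hLN
      intro a ha b hb
      by_cases hbZ : b ∈ ZZ N
      · exact (mem_ZZ.1 hbZ).2 a (hLN ha)
      · exact mem_MM.1 (hcon b hb hbZ ha)
    apply hKbot
    rw [eq_bot_iff]
    intro u hu
    obtain ⟨n, rfl⟩ := hπs u
    rw [Subgroup.mem_bot, hπ1]
    exact h1 ((hmemL n).2 hu)
  obtain ⟨k, hkL, hkZ, hkn⟩ := hnot
  have hcent : ∀ w ∈ N, w ∈ MM k → w ∈ L := by
    intro w hw hwk
    have e0 : w = ((⟨w, hw⟩ : N) : G) := rfl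
    rw [e0, hmemL, hmemK]
    by_contra hcon
    push Not at hcon
    obtain ⟨hwZ, m, hm⟩ := hcon
    have h1 := (hkey m ⟨w, hw⟩ hm hwZ k).1 (mem_SS.2 ⟨hLN hkL, (mem_MM.1 hwk).symm⟩)
    have h2 : π ⟨k, hLN hkL⟩ ∈ K := (hmemL ⟨k, hLN hkL⟩).1 hkL
    rw [hmemK] at h2
    rcases h2 with h2 | h2
    · exact hkZ h2
    · exact h2 m h1
  have hNL : N ≤ L := by
    intro n hn
    obtain ⟨v, hv, m, hm, rfl⟩ := h.factor (hLN hkL) hkZ L hkn n
    apply L.mul_mem hv
    apply hcent m ?_ hm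
    have := N.mul_mem (N.inv_mem (hLN hv)) hn
    rwa [inv_mul_cancel_left] at this
  have hxK : π ⟨x, hx⟩ ∈ K := (hmemL ⟨x, hx⟩).1 (hNL hx)
  have := hKc.disjoint.eq_bot
  have h3 : π ⟨x, hx⟩ ∈ K ⊓ H := Subgroup.mem_inf.2 ⟨hxK, hxH⟩
  rw [this, Subgroup.mem_bot] at h3
  exact hx1 h3

end H68.MaxCentC
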