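import Cfsg.Agent.Lib.H68.MaxCentC

/-! Normal subgroups `N` such that the centralizers in `G` of the elements of `N \ Z(N)` are maximal: counting. -/

set_option autoImplicit false
set_option linter.unusedSectionVars false

open scoped commutatorElement Pointwise

namespace H68.MaxCentD

open H68.MaxCentA H68.MaxCentB

theorem sum_le (n : ℕ) (hn : 1 ≤ n) : ∑ k ∈ Finset.Icc 2 n, (1 : ℚ) / (k : ℚ) ^ 2 ≤ 1 - 1 / n := by
  induction n, hn using Nat.le_induction with
  | base => simp
  | succ n hn ih =>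
    rw [← Finset.insert_Icc_right_eq_Icc_add_one (by omega), Finset.sum_insert (by simp)]
    have h0 : (0 : ℚ) < n := by exact_mod_cast hn
    have h1 : (1 : ℚ) / ((n + 1 : ℕ) : ℚ) ^ 2 ≤ 1 / n - 1 / ((n + 1 : ℕ) : ℚ) := by
      push_cast
      rw [div_sub_div _ _ h0.ne' (by positivity), div_le_div_iff₀ (by positivity) (by positivity)]
      nlinarith
    linarith

theorem sum_primeFactors_le (n : ℕ) (hn : 1 ≤ n) : ∑ p ∈ n.primeFactors, (1 : ℚ) / (p : ℚ) ^ 2 ≤ 1 - 1 / n := by
  refine le_trans (Finset.sum_le_sum_of_subset_of_nonneg ?_ ?_) (sum_le n hn)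
  · intro p hp
    rw [Nat.mem_primeFactors] at hp
    rw [Finset.mem_Icc]
    exact ⟨hp.1.two_le, Nat.le_of_dvd (by omega) hp.2.1⟩
  · intro i _ _
    positivity

variable {G : Type*} [Group G] {N : Subgroup G} [Finite G] [N.Normal]

/-- abstract counting in a group `X` -/
theorem card_lt {X : Type*} [Group X] [Finite X] (p : ℕ) (hp : p.Prime) (S D : Subgroup X) (hDS : ∀ d ∈ D, ∀ s ∈ S, s * d = d * s)
    (hcard : Nat.card D * p ^ 2 ≤ Nat.card S) (U : Set X)
    (hU : ∀ u ∈ U, ∃ c : X, ∃ d ∈ D, d ≠ 1 ∧ u = c * d * c⁻¹) : U.ncard * p ^ 2 < Nat.card X := by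
  classical
  let D' := {d : D // d ≠ 1}
  let f : (X ⧸ S) × D' → X := fun q => q.1.out * (q.2.1 : X) * (q.1.out)⁻¹
  have h1 : U ⊆ Set.range f := by
    intro u hu
    obtain ⟨c, d, hd, hd1, rfl⟩ := hU u hu
    refine ⟨(QuotientGroup.mk c, ⟨⟨d, hd⟩, fun h => hd1 (congrArg Subtype.val h)⟩), ?_⟩
    obtain ⟨s, hs⟩ := QuotientGroup.mk_out_eq_mul S c
    show (QuotientGroup.mk c : X ⧸ S).out * d * ((QuotientGroup.mk c : X ⧸ S).out)⁻¹ = _
    rw [hs]
    have h2 := hDS d hd s s.2
    calc c * s * d * (c * s)⁻¹ = c * (s * d) * (s : X)⁻¹ * c⁻¹ := by group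
      _ = c * (d * s) * (s : X)⁻¹ * c⁻¹ := by rw [h2]
      _ = c * d * c⁻¹ := by group
  have h2 : U.ncard ≤ S.index * (Nat.card D - 1) := by
    calc U.ncard ≤ (Set.range f).ncard := Set.ncard_le_ncard h1 (Set.toFinite _)
      _ ≤ Nat.card ((X ⧸ S) × D') := by
        rw [← Nat.card_coe_set_eq]
        exact Nat.card_le_card_of_surjective (Set.rangeFactorization f) Set.rangeFactorization_surjective
      _ = S.index * Nat.card D' := by rw [Nat.card_prod]; rfl
      _ ≤ S.index * (Nat.card D - 1) := by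
        apply Nat.mul_le_mul_left
        have := Fintype.ofFinite D
        rw [Nat.card_eq_fintype_card, Nat.card_eq_fintype_card]
        have : Fintype.card D' = Fintype.card D - 1 := by
          show Fintype.card {d : D // d ≠ 1} = _
          rw [Fintype.card_subtype_compl, Fintype.card_subtype_eq]
        omega
  have h3 : S.index * Nat.card S = Nat.card X := by rw [mul_comm]; exact S.card_mul_index
  have h4 : 0 < S.index := Nat.pos_of_ne_zero Subgroup.index_ne_zero_of_finite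
  have h5 : 0 < Nat.card D := Nat.card_pos
  have h6 : 0 < p ^ 2 := pow_pos hp.pos 2
  obtain ⟨k, hk⟩ : ∃ k, Nat.card D = k + 1 := ⟨Nat.card D - 1, by omega⟩
  rw [hk, Nat.add_sub_cancel] at h2
  rw [hk] at hcard
  calc U.ncard * p ^ 2 ≤ S.index * k * p ^ 2 := Nat.mul_le_mul_right _ h2
    _ < S.index * ((k + 1) * p ^ 2) := by
      have : S.index * ((k + 1) * p ^ 2) = S.index * k * p ^ 2 + S.index * p ^ 2 := by ring
      rw [this]
      have := Nat.mul_pos h4 h6
      omega
    _ ≤ S.index * Nat.card S := Nat.mul_le_mul_left _ hcard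
    _ = Nat.card X := h3

/-- a nonabelian group whose central quotient is a `p`-group has central index at least `p ^ 2` -/
theorem sq_le_index {S : Type*} [Group S] [Finite S] {p : ℕ} (hp : p.Prime) (Z : Subgroup S) (hZ : Z ≤ Subgroup.center S)
    (hel : ∀ s : S, ∃ k : ℕ, s ^ (p ^ k) ∈ Z) (hna : ¬ ∀ a b : S, a * b = b * a) :
    p ^ 2 ≤ (Subgroup.center S).index := by
  have := Fact.mk hp
  have hpg : IsPGroup p (S ⧸ Subgroup.center S) := by
    intro x
    obtain ⟨s, rfl⟩ := QuotientGroup.mk_surjective x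
    obtain ⟨k, hk⟩ := hel s
    refine ⟨k, ?_⟩
    rw [← QuotientGroup.mk_pow, QuotientGroup.eq_one_iff]
    exact hZ hk
  obtain ⟨j, hj⟩ := IsPGroup.iff_card.1 hpg
  have hj2 : 2 ≤ j := by
    by_contra hlt
    have hcyc : IsCyclic (S ⧸ Subgroup.center S) := by
      have : j = 0 ∨ j = 1 := by omega
      rcases this with rfl | rfl
      · rw [pow_zero] at hj
        have : Subsingleton (S ⧸ Subgroup.center S) := (Nat.card_eq_one_iff_unique.1 hj).1
        infer_instance
      · rw [pow_one] at hj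
        exact isCyclic_of_prime_card hj
    apply hna
    exact (MonoidHom.isMulCommutative_of_isCyclic_of_ker_le_center (QuotientGroup.mk' (Subgroup.center S))
      (by rw [QuotientGroup.ker_mk'])).is_comm.comm
  rw [Subgroup.index_eq_card, hj]
  exact Nat.pow_le_pow_right hp.pos hj2

theorem caseII (h : Hyp N) (hII : HypII N) (hne : ∃ x ∈ N, x ∉ ZZ N) : False := by
  classical
  -- all centralizers are nonabelian
  have hnab : ∀ x ∈ N, x ∉ ZZ N → ¬ ∀ a ∈ SS N x, ∀ b ∈ SS N x, a * b = b * a :=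
    fun x hx hxZ hab => H68.MaxCentC.not_abelian h hII hx hxZ hab
  have hprime : ∀ x ∈ N, x ∉ ZZ N → ∃ p : ℕ, p.Prime ∧ ∀ y ∈ SS N x, pel N p y := by
    intro x hx hxZ
    rcases dichotomy h hx hxZ with h1 | h1
    · exfalso
      apply hnab x hx hxZ
      intro a ha b hb
      by_cases hbZ : b ∈ ZZ N
      · exact (mem_ZZ.1 hbZ).2 a (mem_SS.1 ha).1
      · have h2 : a ∈ MM b := by
          rw [h1 b hb hbZ, mem_MM]
          exact (mem_SS.1 ha).2
        exact mem_MM.1 h2
    · exact h1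
  set X := N ⧸ Subgroup.center N with hX
  set π : N →* X := QuotientGroup.mk' (Subgroup.center N) with hπ
  have hπs : Function.Surjective π := QuotientGroup.mk'_surjective _
  have hcen : ∀ n : N, n ∈ Subgroup.center N ↔ (n : G) ∈ ZZ N := by
    intro n
    rw [Subgroup.mem_center_iff, mem_ZZ]
    constructor
    · intro h1
      exact ⟨n.2, fun m hm => congrArg Subtype.val (h1 ⟨m, hm⟩)⟩
    · intro h1 m
      exact Subtype.ext (h1.2 m m.2)
  have hπ1 : ∀ n : N, π n = 1 ↔ (n : G) ∈ ZZ N := by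
    intro n
    rw [hπ, QuotientGroup.mk'_apply, QuotientGroup.eq_one_iff, hcen]
  -- images of subgroups
  let im : Subgroup G → Subgroup X := fun T => (T.subgroupOf N).map π
  have hmem : ∀ (T : Subgroup G), ZZ N ≤ T → ∀ n : N, π n ∈ im T ↔ (n : G) ∈ T := by
    intro T hT n
    constructor
    · rintro ⟨s, hs, hsn⟩
      have h1 : s⁻¹ * n ∈ Subgroup.center N := by
        rw [hπ, QuotientGroup.mk'_apply, QuotientGroup.mk'_apply, QuotientGroup.eq] at hsn
        exact hsn
      rw [hcen] at h1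
      have h2 := T.mul_mem (Subgroup.mem_subgroupOf.1 hs) (hT h1)
      have h3 : (s : G) * ((s⁻¹ * n : N) : G) = n := by
        rw [Subgroup.coe_mul, Subgroup.coe_inv, mul_inv_cancel_left]
      rwa [h3] at h2
    · intro h1
      exact ⟨n, Subgroup.mem_subgroupOf.2 h1, rfl⟩
  have hpim : ∀ (p : ℕ) (T : Subgroup G), (∀ t ∈ T, pel N p t) → IsPGroup p (im T) := by
    rintro p T hT ⟨_, t, ht, rfl⟩
    obtain ⟨k, hk⟩ := hT t (Subgroup.mem_subgroupOf.1 ht)
    refine ⟨k, Subtype.ext ?_⟩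
    show (π t) ^ (p ^ k) = 1
    rw [← map_pow, hπ1]
    exact hk
  -- Sylow property
  have hsyl : ∀ (p : ℕ) (hp : p.Prime) (x : G), x ∈ N → x ∉ ZZ N → (∀ y ∈ SS N x, pel N p y) →
      ∀ Q : Subgroup X, IsPGroup p Q → im (SS N x) ≤ Q → Q = im (SS N x) := by
    intro p hp x hx hxZ hpx Q hQ hle
    have h1 : SS N x = (Q.comap π).map N.subtype := by
      apply eq_of_normalizer hp (Subgroup.map_subtype_le _) ?_ (ZZ_le_SS hx) ?_ ?_
      · intro s hs
        have hsN := (mem_SS.1 hs).1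
        exact ⟨⟨s, hsN⟩, hle ⟨⟨s, hsN⟩, Subgroup.mem_subgroupOf.2 hs, rfl⟩, rfl⟩
      · rintro _ ⟨t, ht, rfl⟩
        obtain ⟨k, hk⟩ := hQ ⟨π t, ht⟩
        refine ⟨k, ?_⟩
        have h2 : (π t) ^ (p ^ k) = 1 := congrArg Subtype.val hk
        rw [← map_pow, hπ1] at h2
        exact h2
      · rintro _ ⟨t, ht, rfl⟩ htn
        exact Subgroup.mem_inf.2 ⟨t.2, mem_MM_of_normalizer h hII hx hxZ htn⟩
    apply le_antisymm _ hle
    intro q hq
    obtain ⟨n, rfl⟩ := hπs q
    rw [hmem _ (ZZ_le_SS hx), h1]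
    exact ⟨n, hq, rfl⟩
  let U : ℕ → Set X := fun p => {u | ∃ n : N, π n = u ∧ (n : G) ∉ ZZ N ∧ ∀ w ∈ SS N n, pel N p w}
  have hUcard : ∀ p : ℕ, p.Prime → (U p).ncard * p ^ 2 < Nat.card X := by
    intro p hp
    have := Fact.mk hp
    by_cases hUe : U p = ∅
    · rw [hUe, Set.ncard_empty, zero_mul]
      exact Nat.card_pos
    · obtain ⟨u0, n0, hn0, hn0Z, hn0p⟩ := Set.nonempty_iff_ne_empty.2 hUe
      set S := SS N n0 with hS
      have hZS : ZZ N ≤ S := ZZ_le_SS n0.2
      set D := ZZ S with hD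
      have hDS : D ≤ S := inf_le_left
      have hZD : ZZ N ≤ D := by
        intro z hz
        rw [hD, mem_ZZ]
        exact ⟨hZS hz, fun s hs => (mem_ZZ.1 hz).2 s (mem_SS.1 hs).1⟩
      apply card_lt p hp (im S) (im D)
      · rintro _ ⟨d, hd, rfl⟩ _ ⟨s, hs, rfl⟩
        rw [← map_mul, ← map_mul]
        congr 1
        apply Subtype.ext
        exact (mem_ZZ.1 (Subgroup.mem_subgroupOf.1 hd)).2 s (Subgroup.mem_subgroupOf.1 hs)
      · -- cardinalities
        have hSN : S ≤ N := inf_le_left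
        have hcomap : ∀ T : Subgroup G, ZZ N ≤ T → (im T).comap π = T.subgroupOf N := by
          intro T hT
          ext n
          rw [Subgroup.mem_comap, hmem T hT, Subgroup.mem_subgroupOf]
        have hind : ∀ T : Subgroup G, ZZ N ≤ T → (im T).index = (T.subgroupOf N).index := by
          intro T hT
          rw [← hcomap T hT, Subgroup.index_comap_of_surjective _ hπs]
        have h1 : (D.subgroupOf N).index = D.relIndex S * (S.subgroupOf N).index := by
          show D.relIndex N = D.relIndex S * S.relIndex N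
          rw [Subgroup.relIndex_mul_relIndex _ _ _ hDS hSN]
        have h2 := (im S).card_mul_index
        have h3 := (im D).card_mul_index
        rw [hind S hZS] at h2
        rw [hind D hZD, h1] at h3
        have h4 : 0 < (S.subgroupOf N).index := Nat.pos_of_ne_zero Subgroup.index_ne_zero_of_finite
        have h5 : Nat.card (im S) = Nat.card (im D) * D.relIndex S := by
          apply Nat.eq_of_mul_eq_mul_right h4
          rw [h2, ← h3, mul_assoc]
        rw [h5]
        apply Nat.mul_le_mul_left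
        have h6 : D.subgroupOf S = Subgroup.center S := by
          ext s
          rw [Subgroup.mem_subgroupOf, hD, mem_ZZ, Subgroup.mem_center_iff]
          constructor
          · intro h7 t
            exact Subtype.ext (h7.2 t t.2)
          · intro h7
            exact ⟨s.2, fun t ht => congrArg Subtype.val (h7 ⟨t, ht⟩)⟩
        show p ^ 2 ≤ (D.subgroupOf S).index
        rw [h6]
        apply sq_le_index hp ((ZZ N).subgroupOf S)
        · rw [← h6]
          exact Subgroup.comap_mono hZD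
        · intro s
          obtain ⟨k, hk⟩ := hn0p s s.2
          exact ⟨k, Subgroup.mem_subgroupOf.2 hk⟩
        · intro hab
          exact hnab n0 n0.2 hn0Z (fun a ha b hb => congrArg Subtype.val (hab ⟨a, ha⟩ ⟨b, hb⟩))
      · rintro u ⟨n, rfl, hnZ, hnp⟩
        let P0 : Sylow p X := ⟨im S, hpim p S hn0p, fun hQ hle => hsyl p hp n0 n0.2 hn0Z hn0p _ hQ hle⟩
        let P1 : Sylow p X := ⟨im (SS N n), hpim p _ hnp, fun hQ hle => hsyl p hp n n.2 hnZ hnp _ hQ hle⟩
        obtain ⟨c, hc⟩ := MulAction.exists_smul_eq X P0 P1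
        have hc' : MulAut.conj c • (im S) = im (SS N n) := by
          have := congrArg (fun P : Sylow p X => (P : Subgroup X)) hc
          exact this
        obtain ⟨v, rfl⟩ := hπs c
        -- membership transfer
        have htr : ∀ s : N, (s : G) ∈ SS N n ↔ ((v⁻¹ * s * v : N) : G) ∈ S := by
          intro s
          rw [← hmem _ (ZZ_le_SS n.2), ← hc', H1.SZ.mem_conj_smul, ← map_inv, ← map_mul, ← map_mul, hmem _ hZS]
        refine ⟨π v, π (v⁻¹ * n * v), ?_, ?_, ?_⟩
        · rw [hmem _ hZD, hD, mem_ZZ]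
          refine ⟨(htr n).1 (mem_SS.2 ⟨n.2, rfl⟩), ?_⟩
          intro s hs
          have hsN : s ∈ N := (mem_SS.1 hs).1
          have h1 : ((v * ⟨s, hsN⟩ * v⁻¹ : N) : G) ∈ SS N n := by
            rw [htr]
            have : v⁻¹ * (v * (⟨s, hsN⟩ : N) * v⁻¹) * v = ⟨s, hsN⟩ := by group
            rw [this]
            exact hs
          have h2 : (v : G) * s * (v : G)⁻¹ * n = n * ((v : G) * s * (v : G)⁻¹) := (mem_SS.1 h1).2
          show s * ((v : G)⁻¹ * n * v) = ((v : G)⁻¹ * n * v) * s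
          calc s * ((v : G)⁻¹ * n * v) = (v : G)⁻¹ * ((v : G) * s * (v : G)⁻¹ * n) * v := by group
            _ = (v : G)⁻¹ * (n * ((v : G) * s * (v : G)⁻¹)) * v := by rw [h2]
            _ = ((v : G)⁻¹ * n * v) * s := by group
        · intro h1
          rw [hπ1] at h1
          apply hnZ
          have h2 := (ZZ_normal N).conj_mem _ h1 (v : G)
          have e : (v : G) * ((v⁻¹ * n * v : N) : G) * (v : G)⁻¹ = n := by
            rw [Subgroup.coe_mul, Subgroup.coe_mul, Subgroup.coe_inv]; group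
          rwa [e] at h2
        · rw [← map_inv, ← map_mul, ← map_mul]
          congr 1
          group
  -- covering
  have hpf : ∀ u : X, u ≠ 1 → ∃ p ∈ (Nat.card X).primeFactors, u ∈ U p := by
    intro u hu
    obtain ⟨n, rfl⟩ := hπs u
    rw [Ne, hπ1] at hu
    obtain ⟨p, hp, hpn⟩ := hprime n n.2 hu
    refine ⟨p, ?_, n, rfl, hu, hpn⟩
    rw [Nat.mem_primeFactors]
    refine ⟨hp, ?_, Nat.card_pos.ne'⟩
    obtain ⟨k, hk⟩ := hpn n (mem_SS.2 ⟨n.2, rfl⟩)
    have h1 : (π n) ^ (p ^ k) = 1 := by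
      rw [← map_pow, hπ1]
      exact hk
    have h2 := orderOf_dvd_of_pow_eq_one h1
    obtain ⟨j, -, hj⟩ := (Nat.dvd_prime_pow hp).1 h2
    have hj0 : j ≠ 0 := by
      rintro rfl
      rw [pow_zero, orderOf_eq_one_iff, hπ1] at hj
      exact hu hj
    have h3 : p ∣ orderOf (π n) := by
      rw [hj]
      exact dvd_pow_self p hj0
    exact h3.trans (orderOf_dvd_natCard _)
  obtain ⟨x, hx, hxZ⟩ := hne
  have hx1 : π ⟨x, hx⟩ ≠ 1 := by
    rw [Ne, hπ1]
    exact hxZ
  obtain ⟨p0, hp0, -⟩ := hpf _ hx1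
  have hcov : Nat.card X - 1 ≤ ∑ p ∈ (Nat.card X).primeFactors, (U p).ncard := by
    have h1 : ({1}ᶜ : Set X) ⊆ ⋃ p ∈ (Nat.card X).primeFactors, U p := by
      intro u hu
      obtain ⟨p, hp, hup⟩ := hpf u hu
      exact Set.mem_biUnion hp hup
    have h2 : ({1}ᶜ : Set X).ncard = Nat.card X - 1 := by
      rw [Set.ncard_compl, Set.ncard_singleton]
    rw [← h2]
    refine (Set.ncard_le_ncard h1 (Set.toFinite _)).trans ?_
    exact Finset.set_ncard_biUnion_le _ _
  -- final estimate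
  have hXpos : 0 < Nat.card X := Nat.card_pos
  have hXq : (0 : ℚ) < Nat.card X := by exact_mod_cast hXpos
  have h1 : ∑ p ∈ (Nat.card X).primeFactors, ((U p).ncard : ℚ) <
      ∑ p ∈ (Nat.card X).primeFactors, (Nat.card X : ℚ) * (1 / (p : ℚ) ^ 2) := by
    apply Finset.sum_lt_sum_of_nonempty ⟨p0, hp0⟩
    intro p hp
    have hpp := (Nat.mem_primeFactors.1 hp).1
    have h2 := hUcard p hpp
    have h3 : ((U p).ncard : ℚ) * (p : ℚ) ^ 2 < Nat.card X := by exact_mod_cast h2
    have h4 : (0 : ℚ) < (p : ℚ) ^ 2 := by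
      have : (0 : ℚ) < p := by exact_mod_cast hpp.pos
      positivity
    rw [mul_one_div, lt_div_iff₀ h4]
    exact h3
  rw [← Finset.mul_sum] at h1
  have h2 := sum_primeFactors_le (Nat.card X) hXpos
  have h3 : (Nat.card X : ℚ) * ∑ p ∈ (Nat.card X).primeFactors, (1 : ℚ) / (p : ℚ) ^ 2 ≤ Nat.card X - 1 := by
    calc (Nat.card X : ℚ) * ∑ p ∈ (Nat.card X).primeFactors, (1 : ℚ) / (p : ℚ) ^ 2
        ≤ Nat.card X * (1 - 1 / Nat.card X) := mul_le_mul_of_nonneg_left h2 hXq.le
      _ = Nat.card X - 1 := by field_simp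
  have h4 : ((Nat.card X - 1 : ℕ) : ℚ) ≤ ∑ p ∈ (Nat.card X).primeFactors, ((U p).ncard : ℚ) := by
    exact_mod_cast hcov
  rw [Nat.cast_sub (by omega)] at h4
  push_cast at h4
  linarith

end H68.MaxCentD
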