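import Cfsg.Agent.Lib.H68.MaxCentD
import Cfsg.Prelude.Def_Transfer

/-! Normal subgroups `N` such that the centralizers in `G` of the elements of `N \ Z(N)` are maximal: main theorem. -/

set_option autoImplicit false
set_option linter.unusedSectionVars false

open scoped commutatorElement Pointwise

namespace H68.MaxCentE

open H68.MaxCentA H68.MaxCentB

variable {G : Type*} [Group G] {N : Subgroup G} [Finite G] [N.Normal]

theorem main (h : Hyp N) : (∃ p : ℕ, p.Prime ∧ (∀ a ∈ N, ∀ b ∈ N, ⁅a, b⁆ ∈ ZZ N) ∧ ∀ a ∈ N, a ^ p ∈ ZZ N) ∨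
    ∃ (V : Subgroup G) (p : ℕ) (v₀ n₀ : G), p.Prime ∧ Dat N V ∧ (∀ v ∈ V, v ^ p ∈ ZZ N) ∧ v₀ ∈ V ∧ n₀ ∈ N ∧
      ⁅v₀, n₀⁆ ∉ ZZ N := by
  by_cases hne : ∃ x ∈ N, x ∉ ZZ N
  · by_cases hII : HypII N
    · exact (H68.MaxCentD.caseII h hII hne).elim
    · unfold HypII at hII
      push Not at hII
      obtain ⟨V0, h1, h2, h3, h4⟩ := hII
      obtain ⟨V, d⟩ := exists_dat (N := N) V0 h1 h2 h3 h4
      obtain ⟨p, hp, hVp⟩ := exists_prime h d
      by_cases hI : ∀ v ∈ V, ∀ n ∈ N, ⁅v, n⁆ ∈ ZZ N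
      · left
        obtain ⟨h5, h6⟩ := subcase_one h d hVp hI
        exact ⟨p, hp, h5, h6⟩
      · right
        push Not at hI
        obtain ⟨v₀, hv₀, n₀, hn₀, hvn⟩ := hI
        exact ⟨V, p, v₀, n₀, hp, d, hVp, hv₀, hn₀, hvn⟩
  · left
    push Not at hne
    refine ⟨2, Nat.prime_two, fun a ha b hb => ?_, fun a ha => (ZZ N).pow_mem (hne a ha) 2⟩
    have h1 : ⁅a, b⁆ = 1 := by
      rw [commutatorElement_eq_one_iff_mul_comm]
      exact (mem_ZZ.1 (hne b hb)).2 a ha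
    rw [h1]
    exact (ZZ N).one_mem

/-- `K ⊆` kernel with the right order is the Frobenius kernel -/
theorem eq_frobeniusKernel {X : Type*} [Group X] [Finite X] {K Q : Subgroup X} [hK : K.Normal]
    (hc : K.IsComplement' Q) (hQ : Cfsg.IsFrobeniusComplement Q) : (K : Set X) = Cfsg.frobeniusKernel Q := by
  refine Set.eq_of_subset_of_ncard_le ?_ ?_ (Set.toFinite _)
  · intro k hk
    by_cases hk1 : k = 1
    · exact Or.inl hk1
    · right
      intro g hg
      rw [H1.SZ.mem_conj_smul] at hg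
      have h1 : g⁻¹ * k * g ∈ K := by simpa using hK.conj_mem _ hk g⁻¹
      have h2 : g⁻¹ * k * g ∈ K ⊓ Q := Subgroup.mem_inf.2 ⟨h1, hg⟩
      rw [hc.disjoint.eq_bot, Subgroup.mem_bot] at h2
      apply hk1
      have h3 : k = g * (g⁻¹ * k * g) * g⁻¹ := by group
      rw [h3, h2]
      simp
  · have h1 := H1.Frob.card_frobeniusKernel (H := Q) hQ.2.2
    rw [Nat.card_coe_set_eq] at h1
    rw [h1, ← Nat.card_coe_set_eq]
    have h2 : Nat.card K * Nat.card Q = Nat.card X := hc.card_mul_card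
    have h3 := Q.card_mul_index
    have h4 : 0 < Nat.card Q := Nat.card_pos
    have h5 : Nat.card K = Q.index := by
      apply Nat.eq_of_mul_eq_mul_right h4
      rw [h2, ← h3, mul_comm]
    exact h5.ge

section two
variable {V : Subgroup G} {p : ℕ} {v₀ n₀ : G} (h : Hyp N) (hp : p.Prime) (d : Dat N V)
  (hVp : ∀ v ∈ V, v ^ p ∈ ZZ N) (hv₀ : v₀ ∈ V) (hn₀ : n₀ ∈ N) (hvn : ⁅v₀, n₀⁆ ∉ ZZ N)
include h hp d hVp hv₀ hn₀ hvn

theorem cen_iff (n : N) : n ∈ Subgroup.center N ↔ (n : G) ∈ ZZ N := by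
  rw [Subgroup.mem_center_iff, mem_ZZ]
  constructor
  · intro h1
    exact ⟨n.2, fun m hm => congrArg Subtype.val (h1 ⟨m, hm⟩)⟩
  · intro h1 m
    exact Subtype.ext (h1.2 m m.2)

/-- the Frobenius structure of `N / Z(N)` -/
theorem frob : ∃ (K Q : Subgroup (N ⧸ Subgroup.center N)), K.Normal ∧ K.IsComplement' Q ∧ Cfsg.IsFrobeniusComplement Q ∧
    Nat.card Q = V.relIndex N ∧ (Nat.card Q).Prime ∧ Cfsg.IsElementaryAbelian p K ∧
    K = (V.subgroupOf N).map (QuotientGroup.mk' (Subgroup.center N)) ∧ K ≠ ⊥ := by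
  set X := N ⧸ Subgroup.center N with hX
  set π : N →* X := QuotientGroup.mk' (Subgroup.center N) with hπ
  have hπs : Function.Surjective π := QuotientGroup.mk'_surjective _
  have hcen := cen_iff h hp d hVp hv₀ hn₀ hvn
  have hπ1 : ∀ n : N, π n = 1 ↔ (n : G) ∈ ZZ N := by
    intro n
    rw [hπ, QuotientGroup.mk'_apply, QuotientGroup.eq_one_iff, hcen]
  have hVn := d.normal
  have htC := n₀_not_mem h d hv₀ hn₀ hvn
  have htV : n₀ ∉ V := fun h1 => htC ((cent_iff h d hv₀ hn₀ hvn hn₀).2 h1)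
  have hmemK : ∀ n : N, π n ∈ (V.subgroupOf N).map π ↔ (n : G) ∈ V := by
    intro n
    constructor
    · rintro ⟨s, hs, hsn⟩
      have h1 : s⁻¹ * n ∈ Subgroup.center N := by
        rw [hπ, QuotientGroup.mk'_apply, QuotientGroup.mk'_apply, QuotientGroup.eq] at hsn
        exact hsn
      rw [hcen] at h1
      have h2 := V.mul_mem (Subgroup.mem_subgroupOf.1 hs) (d.Zle h1)
      have h3 : (s : G) * ((s⁻¹ * n : N) : G) = n := by
        rw [Subgroup.coe_mul, Subgroup.coe_inv, mul_inv_cancel_left]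
      rwa [h3] at h2
    · intro h1
      exact ⟨n, Subgroup.mem_subgroupOf.2 h1, rfl⟩
  set K := (V.subgroupOf N).map π with hK
  set Q := ((SS N n₀).subgroupOf N).map π with hQ
  have hVSn : (V.subgroupOf N).Normal := inferInstance
  have hKn : K.Normal := hVSn.map π hπs
  have hdis : K ⊓ Q = ⊥ := by
    rw [eq_bot_iff]
    intro u hu
    obtain ⟨h1, ⟨s, hs, rfl⟩⟩ := Subgroup.mem_inf.1 hu
    rw [hmemK] at h1
    rw [Subgroup.mem_bot, hπ1]
    exact mem_ZZ_of_comm h d hn₀ htC h1 (mem_SS.1 (Subgroup.mem_subgroupOf.1 hs)).2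
  have hsup : K ⊔ Q = ⊤ := by
    rw [eq_top_iff]
    intro u _
    obtain ⟨n, rfl⟩ := hπs u
    obtain ⟨v, hv, m, hm, he⟩ := factor h d hn₀ htC (n : G)
    have hmN : m ∈ N := by
      have := N.mul_mem (N.inv_mem (d.le hv)) n.2
      rwa [he, inv_mul_cancel_left] at this
    have h1 : n = ⟨v, d.le hv⟩ * ⟨m, hmN⟩ := Subtype.ext he
    rw [h1, map_mul]
    apply Subgroup.mul_mem_sup
    · exact ⟨⟨v, d.le hv⟩, Subgroup.mem_subgroupOf.2 hv, rfl⟩
    · exact ⟨⟨m, hmN⟩, Subgroup.mem_subgroupOf.2 (Subgroup.mem_inf.2 ⟨hmN, hm⟩), rfl⟩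
  have hc : K.IsComplement' Q := Subgroup.isComplement'_of_disjoint_and_mul_eq_univ
    (disjoint_iff.2 hdis) (by
      rw [← Subgroup.normal_mul, hsup]
      rfl)
  have hKbot : K ≠ ⊥ := by
    intro h1
    apply hvn
    have h2 : π ⟨v₀, d.le hv₀⟩ ∈ K := (hmemK _).2 hv₀
    rw [h1, Subgroup.mem_bot, hπ1] at h2
    have h3 : ⁅v₀, n₀⁆ = 1 := by
      rw [commutatorElement_eq_one_iff_mul_comm]
      exact ((mem_ZZ.1 h2).2 n₀ hn₀).symm
    rw [h3]
    exact (ZZ N).one_mem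
  have hQbot : Q ≠ ⊥ := by
    intro h1
    have h2 : π ⟨n₀, hn₀⟩ ∈ Q := ⟨⟨n₀, hn₀⟩, Subgroup.mem_subgroupOf.2 (mem_SS.2 ⟨hn₀, rfl⟩), rfl⟩
    rw [h1, Subgroup.mem_bot, hπ1] at h2
    exact htV (d.Zle h2)
  have hQc : Cfsg.IsFrobeniusComplement Q := by
    rw [H1.Frob.isFrobeniusComplement_iff K Q hc hKbot hQbot]
    intro q hq hq1
    rw [eq_bot_iff]
    intro k hk
    obtain ⟨hk1, hk2⟩ := Subgroup.mem_inf.1 hk
    obtain ⟨v, hv, rfl⟩ := hk1
    obtain ⟨n, rfl⟩ := hπs q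
    rw [Subgroup.mem_bot, hπ1]
    have hnV : (n : G) ∉ V := by
      intro h1
      apply hq1
      have h2 : π n ∈ K ⊓ Q := Subgroup.mem_inf.2 ⟨(hmemK n).2 h1, hq⟩
      rwa [hdis, Subgroup.mem_bot] at h2
    have hnC : (n : G) ∉ Subgroup.centralizer (V : Set G) := fun h1 => hnV ((cent_iff h d hv₀ hn₀ hvn n.2).1 h1)
    apply fpf h d hv₀ hn₀ hvn n.2 hnC (Subgroup.mem_subgroupOf.1 hv)
    have h1 : π v * π n = π n * π v := Subgroup.mem_centralizer_singleton_iff.1 hk2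
    have h2 : π ⁅v, n⁆ = 1 := by
      rw [map_commutatorElement, commutatorElement_eq_one_iff_mul_comm]
      exact h1
    rw [hπ1] at h2
    exact h2
  have hcardQ : Nat.card Q = V.relIndex N := by
    have h1 : Nat.card K * Nat.card Q = Nat.card X := hc.card_mul_card
    have h2 := K.card_mul_index
    have h3 : K.comap π = V.subgroupOf N := by
      ext n
      rw [Subgroup.mem_comap, hmemK, Subgroup.mem_subgroupOf]
    have h4 : K.index = V.relIndex N := by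
      rw [← Subgroup.index_comap_of_surjective K hπs, h3]
      rfl
    rw [h4] at h2
    exact Nat.eq_of_mul_eq_mul_left Nat.card_pos (h1.trans h2.symm)
  refine ⟨K, Q, hKn, hc, hQc, hcardQ, ?_, ?_, rfl, hKbot⟩
  · rw [hcardQ]
    exact relIndex_prime h d hv₀ hn₀ hvn
  · constructor
    · refine ⟨⟨?_⟩⟩
      rintro ⟨_, a, ha, rfl⟩ ⟨_, b, hb, rfl⟩
      apply Subtype.ext
      show π a * π b = π b * π a
      rw [← map_mul, ← map_mul]
      congr 1
      exact Subtype.ext (d.comm a (Subgroup.mem_subgroupOf.1 ha) b (Subgroup.mem_subgroupOf.1 hb))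
    · rintro _ ⟨a, ha, rfl⟩
      rw [← map_pow, hπ1]
      exact hVp a (Subgroup.mem_subgroupOf.1 ha)

end two

end H68.MaxCentE
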