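import Mathlib.GroupTheory.SchurZassenhaus
import Mathlib.GroupTheory.Transfer
import Mathlib.GroupTheory.Solvable
import Cfsg.Agent.Lib.H1.Coprime2
import Cfsg.Agent.Lib.H68.Util

/-! Maximal subgroups that are abelian Sylow subgroups: the group is solvable. -/

set_option autoImplicit false

namespace H68.MaxSylow

open Subgroup

variable {G : Type*} [Group G]

/-- a normal solvable coatom: the group is solvable. -/
theorem isSolvable_of_normal_coatom (M : Subgroup G) [M.Normal] (hM : IsCoatom M) (hs : Group.IsSolvable M) :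
    Group.IsSolvable G := by
  rw [Group.isSolvable_iff_subgroup_quotient M]
  refine ⟨hs, ?_⟩
  obtain ⟨g, hg⟩ : ∃ g, g ∉ M := by
    by_contra h
    push Not at h
    exact hM.1 (eq_top_iff.2 fun x _ => h x)
  have h1 : M ⊔ Subgroup.zpowers g = ⊤ := by
    apply hM.2
    refine lt_of_le_of_ne le_sup_left fun h => hg ?_
    rw [h]
    exact (le_sup_right : Subgroup.zpowers g ≤ _) (Subgroup.mem_zpowers g)
  apply Group.isSolvable_of_comm
  have h2 : ∀ x : G ⧸ M, ∃ k : ℤ, x = (g : G ⧸ M) ^ k := by
    intro x
    obtain ⟨y, rfl⟩ := QuotientGroup.mk_surjective x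
    have hy : y ∈ M ⊔ Subgroup.zpowers g := by rw [h1]; trivial
    rw [Subgroup.mem_sup_of_normal_left] at hy
    obtain ⟨m, hm, z, hz, rfl⟩ := hy
    obtain ⟨k, rfl⟩ := Subgroup.mem_zpowers_iff.1 hz
    refine ⟨k, ?_⟩
    rw [QuotientGroup.mk_mul, (QuotientGroup.eq_one_iff m).2 hm, one_mul, QuotientGroup.mk_zpow]
  intro a b
  obtain ⟨k, rfl⟩ := h2 a
  obtain ⟨l, rfl⟩ := h2 b
  rw [← zpow_add, ← zpow_add, add_comm]

/-- An abelian Sylow subgroup that is a maximal subgroup: the group is solvable. -/
theorem isSolvable_of_coatom_abelian_sylow [Finite G] {p : ℕ} [Fact p.Prime] (P : Sylow p G)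
    (hM : IsCoatom (P : Subgroup G)) (hab : ∀ a ∈ P, ∀ b ∈ P, a * b = b * a) :
    Group.IsSolvable G := by
  have hPs : Group.IsSolvable (P : Subgroup G) := Group.isSolvable_of_comm fun a b => Subtype.ext (hab a a.2 b b.2)
  by_cases hn : (P : Subgroup G).Normal
  · exact isSolvable_of_normal_coatom _ hM hPs
  · have hN : Subgroup.normalizer (P : Set G) = (P : Subgroup G) := by
      rcases hM.le_iff.1 (Subgroup.le_normalizer (H := (P : Subgroup G))) with h | h
      · exact absurd (Subgroup.normalizer_eq_top_iff.1 h) hn
      · exact h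
    have hNC : Subgroup.normalizer (P : Set G) ≤ Subgroup.centralizer (P : Set G) := by
      rw [hN]
      intro a ha
      rw [Subgroup.mem_centralizer_iff]
      intro b hb
      exact hab b hb a ha
    set K := (MonoidHom.transferSylow P hNC).ker with hK
    have hc : K.IsComplement' (P : Subgroup G) := MonoidHom.ker_transferSylow_isComplement' P hNC
    have hcard : Nat.card K * Nat.card (P : Subgroup G) = Nat.card G := hc.card_mul_card
    by_cases hK1 : K = ⊥
    · -- then P = ⊤
      exfalso
      apply hM.1
      apply Subgroup.eq_top_of_card_eq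
      rw [← hcard, hK1, Subgroup.card_bot, one_mul]
    · have hcop : (Nat.card (P : Subgroup G)).Coprime (Nat.card K) := by
        obtain ⟨k, hk⟩ := IsPGroup.iff_card.1 P.2
        rw [hk]
        apply Nat.Coprime.pow_left
        rw [Nat.Prime.coprime_iff_not_dvd Fact.out, ← hc.index_eq_card]
        exact P.not_dvd_index
      have hne : Nat.card K ≠ 1 := by rwa [Ne, Subgroup.card_eq_one]
      set r := (Nat.card K).minFac with hr
      have hrp : r.Prime := Nat.minFac_prime hne
      have : Fact r.Prime := ⟨hrp⟩
      obtain ⟨S, hS, hPS⟩ := H1.Coprime2.exists_invariant_sylow (P : Subgroup G) K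
        (by rw [Subgroup.normalizer_eq_top]; exact le_top) hcop (Or.inl hPs) r
      have hS1 : S ≠ ⊥ := by
        intro h
        have h2 := hS.2
        rw [h, Subgroup.card_bot] at h2
        have h3 : 0 < (Nat.card K).factorization r :=
          (hrp.dvd_iff_one_le_factorization Nat.card_pos.ne').1 (Nat.minFac_dvd _)
        have h4 := Nat.one_lt_pow h3.ne' hrp.one_lt
        omega
      have hSP : S ⊓ (P : Subgroup G) = ⊥ := by
        apply le_antisymm _ bot_le
        calc S ⊓ (P : Subgroup G) ≤ K ⊓ P := inf_le_inf_right _ hS.1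
          _ = ⊥ := hc.disjoint.eq_bot
      have hsup : S ⊔ (P : Subgroup G) = ⊤ := by
        apply hM.2
        refine lt_of_le_of_ne le_sup_right fun h => hS1 ?_
        have : S ≤ P := by rw [h]; exact le_sup_left
        rw [← inf_eq_left.2 this, hSP]
      -- K = S
      have hKS : K = S := by
        apply le_antisymm _ hS.1
        intro x hx
        have hx' : x ∈ S ⊔ (P : Subgroup G) := by rw [hsup]; trivial
        obtain ⟨s, hs, q, hq, rfl⟩ := (H68.Util.mem_sup_of_le_normalizer hPS).1 hx'
        have hqK : q ∈ K := by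
          have : q = s⁻¹ * (s * q) := by group
          rw [this]
          exact mul_mem (inv_mem (hS.1 hs)) hx
        have : q ∈ K ⊓ (P : Subgroup G) := Subgroup.mem_inf.2 ⟨hqK, hq⟩
        rw [hc.disjoint.eq_bot, Subgroup.mem_bot] at this
        subst this
        simpa using hs
      have hKs : Group.IsSolvable K := by
        have hpg : IsPGroup r K := by rw [hKS]; exact hS.isPGroup
        have := hpg.isNilpotent
        infer_instance
      rw [Group.isSolvable_iff_subgroup_quotient K]
      refine ⟨hKs, ?_⟩
      exact Group.isSolvable_of_isSolvable_injective (QuotientGroup.kerLift_injective (MonoidHom.transferSylow P hNC))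

end H68.MaxSylow
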