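import Cfsg.Agent.Lib.H68.Zipper

/-! Wielandt: a minimal normal subgroup normalizes every subnormal subgroup. -/

namespace H68.MinNorm

open Subgroup Pointwise H11.SubnormalJoin

universe u

theorem minNormal_le_normalizer {G : Type u} [Group G] [Finite G] (N H : Subgroup G) (hN : N.Normal)
    (hmin : ∀ K : Subgroup G, K.Normal → K ≤ N → K = ⊥ ∨ K = N) (hH : H.IsSubnormal) :
    N ≤ normalizer (H : Set G) := by
  induction hn : Nat.card G using Nat.strong_induction_on generalizing G with
  | _ n ih =>
    by_cases hT : H = ⊤
    · intro x _
      rw [hT, Subgroup.mem_normalizer_iff]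
      simp
    obtain ⟨M, hMn, hHM, hMT⟩ := hH.exists_normal_and_le_and_lt_top_of_ne hT
    rcases hmin (N ⊓ M) inferInstance inf_le_left with h0 | h1
    · -- N centralizes M
      have hc : ⁅N, M⁆ = ⊥ := by
        rw [eq_bot_iff, ← h0]
        exact Subgroup.commutator_le_inf N M
      have h2 : N ≤ centralizer (M : Set G) := by
        rw [← Subgroup.commutator_eq_bot_iff_le_centralizer]; exact hc
      refine h2.trans (le_trans (Subgroup.centralizer_le hHM) ?_)
      exact Subgroup.centralizer_le_normalizer (H : Set G)
    · have hNM : N ≤ M := by rw [← h1]; exact inf_le_right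
      by_cases hN0 : N = ⊥
      · rw [hN0]; exact bot_le
      -- minimal normal subgroups of M in N
      let S : Set (Subgroup M) := {K | K.Normal ∧ K.map M.subtype ≤ N ∧ K ≠ ⊥ ∧
        ∀ L : Subgroup M, L.Normal → L ≤ K → L = ⊥ ∨ L = K}
      let J : Subgroup G := (sSup S).map M.subtype
      have hJN : J ≤ N := by
        rw [Subgroup.map_le_iff_le_comap]
        refine sSup_le fun K hK => ?_
        rw [← Subgroup.map_le_iff_le_comap]
        exact hK.2.1
      -- existence
      have hne : J ≠ ⊥ := by
        let T : Set (Subgroup M) := {K | K.Normal ∧ K.map M.subtype ≤ N ∧ K ≠ ⊥}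
        have hTne : T.Nonempty := by
          refine ⟨N.subgroupOf M, inferInstance, ?_, ?_⟩
          · rw [Subgroup.map_subgroupOf_eq_of_le hNM]
          · intro h
            apply hN0
            rw [← Subgroup.map_subgroupOf_eq_of_le hNM, h, Subgroup.map_bot]
        obtain ⟨K, hK⟩ := (Set.toFinite T).exists_minimal hTne
        have hKS : K ∈ S := by
          refine ⟨hK.prop.1, hK.prop.2.1, hK.prop.2.2, fun L hL hLK => ?_⟩
          by_cases hL0 : L = ⊥
          · exact Or.inl hL0
          · right
            exact le_antisymm hLK (hK.le_of_le ⟨hL, (Subgroup.map_mono hLK).trans hK.prop.2.1, hL0⟩ hLK)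
        intro hJ0
        apply hKS.2.2.1
        rw [eq_bot_iff]
        have := (Subgroup.map_eq_bot_iff_of_injective _ M.subtype_injective).1 hJ0
        rw [← this]
        exact le_sSup hKS
      have hJn : J.Normal := by
        refine ⟨fun x hx g => ?_⟩
        -- conjugation by g as an automorphism of M
        let e : M ≃* M := MulAut.conjNormal g
        have hS : ∀ K ∈ S, K.map (e : M →* M) ∈ S := by
          intro K hK
          refine ⟨hK.1.map _ e.surjective, ?_, ?_, ?_⟩
          · rintro _ ⟨_, ⟨y, hy, rfl⟩, rfl⟩
            have : M.subtype (e y) = g * (y : G) * g⁻¹ := MulAut.conjNormal_apply g y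
            show M.subtype (e y) ∈ N
            rw [this]
            exact hN.conj_mem _ (hK.2.1 ⟨y, hy, rfl⟩) g
          · intro h
            exact hK.2.2.1 ((Subgroup.map_eq_bot_iff_of_injective _ e.injective).1 h)
          · intro L hL hLK
            have h3 : (L.comap (e : M →* M)).Normal := hL.comap _
            have h4 : L.comap (e : M →* M) ≤ K := by
              have := Subgroup.comap_mono (f := (e : M →* M)) hLK
              have h9 := Subgroup.comap_map_eq_self_of_injective (f := (e : M →* M)) e.injective K
              rwa [h9] at this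
            rcases hK.2.2.2 _ h3 h4 with h5 | h5
            · left
              rw [← Subgroup.map_comap_eq_self_of_surjective (f := (e : M →* M)) e.surjective L, h5, Subgroup.map_bot]
            · right
              rw [← Subgroup.map_comap_eq_self_of_surjective (f := (e : M →* M)) e.surjective L, h5]
        obtain ⟨y, hy, rfl⟩ := hx
        have h6 : (sSup S).map (e : M →* M) ≤ sSup S := by
          rw [Subgroup.map_le_iff_le_comap]
          refine sSup_le fun K hK => ?_
          rw [← Subgroup.map_le_iff_le_comap]
          exact le_sSup (hS K hK)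
        refine ⟨e y, h6 ⟨y, hy, rfl⟩, ?_⟩
        exact MulAut.conjNormal_apply g y
      have hJ : J = N := (hmin J hJn hJN).resolve_left hne
      rw [← hJ]
      have hlt : Nat.card M < n := by
        rw [← hn]
        exact card_subgroup_lt M hMT.ne
      have hsn : (H.subgroupOf M).IsSubnormal := hH.subgroupOf
      have h7 : sSup S ≤ normalizer ((H.subgroupOf M : Subgroup M) : Set M) := by
        refine sSup_le fun K hK => ?_
        exact ih _ hlt K (H.subgroupOf M) hK.1 hK.2.2.2 hsn rfl
      have h8 : (sSup S).map M.subtype ≤ normalizer ((((H.subgroupOf M).map M.subtype : Subgroup G)) : Set G) :=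
        (Subgroup.map_mono h7).trans (Subgroup.le_normalizer_map _)
      rwa [Subgroup.map_subgroupOf_eq_of_le hHM] at h8

end H68.MinNorm
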