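import Cfsg.Agent.Lib.H3.LocalNPC
import Cfsg.Agent.Lib.H3.CardSup
import Cfsg.Agent.Lib.H28.Sup
import Cfsg.Agent.Lib.H1.Hall

/-!
# Groups in which the normalizers of the nontrivial subgroups with at most two prime divisors are maximal:
basic facts
-/

set_option autoImplicit false
set_option linter.all false

namespace H68.NormMaxA
open Subgroup

/-- at most two prime divisors -/
def Two {G : Type*} [Group G] (H : Subgroup G) : Prop :=
  ∃ p q : ℕ, p.Prime ∧ q.Prime ∧ ∀ r : ℕ, r.Prime → r ∣ Nat.card H → r = p ∨ r = q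

def HP (G : Type*) [Group G] : Prop := ∀ H : Subgroup G, H ≠ ⊥ → Two H → IsCoatom (normalizer (H : Set G))

variable {G : Type*} [Group G] [Finite G]

theorem eq_of_le {A B : Subgroup G} (hA : IsCoatom A) (hAB : A ≤ B) (hB : B ≠ ⊤) : A = B := by
  by_contra h
  exact hB (hA.2 B (lt_of_le_of_ne hAB h))

theorem two_p {p : ℕ} [hp : Fact p.Prime] {H : Subgroup G} (h : IsPGroup p H) : Two H := by
  refine ⟨p, p, hp.out, hp.out, fun r hr hd => ?_⟩
  obtain ⟨n, hn⟩ := IsPGroup.iff_card.mp h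
  rw [hn] at hd
  left; exact (Nat.prime_dvd_prime_iff_eq hr hp.out).mp (hr.dvd_of_dvd_pow hd)

theorem two_sup {p q : ℕ} [hp : Fact p.Prime] [hq : Fact q.Prime] {X Y : Subgroup G} (hX : IsPGroup p X) (hY : IsPGroup q Y)
    (hn : Y ≤ normalizer (X : Set G)) : Two (X ⊔ Y) := by
  refine ⟨p, q, hp.out, hq.out, fun r hr hd => ?_⟩
  obtain ⟨n, hn1⟩ := IsPGroup.iff_card.mp hX
  obtain ⟨m, hm⟩ := IsPGroup.iff_card.mp hY
  have h1 := H3.CardSup.card_sup_mul_card_inf Y X hn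
  have h2 : r ∣ Nat.card Y * Nat.card X := by
    rw [← h1, sup_comm]; exact hd.mul_right _
  rw [hn1, hm] at h2
  rcases (Nat.Prime.dvd_mul hr).mp h2 with h3 | h3
  · right; exact (Nat.prime_dvd_prime_iff_eq hr hq.out).mp (hr.dvd_of_dvd_pow h3)
  · left; exact (Nat.prime_dvd_prime_iff_eq hr hp.out).mp (hr.dvd_of_dvd_pow h3)

theorem eq_one_of_coprime {x : G} {p q a b : ℕ} (hp : p.Prime) (hq : q.Prime) (hpq : p ≠ q) (h1 : x ^ p ^ a = 1)
    (h2 : x ^ q ^ b = 1) : x = 1 := by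
  rw [← orderOf_eq_one_iff]
  have h3 := orderOf_dvd_of_pow_eq_one h1
  have h4 := orderOf_dvd_of_pow_eq_one h2
  have h5 : Nat.Coprime (p ^ a) (q ^ b) := Nat.Coprime.pow _ _ ((Nat.coprime_primes hp hq).mpr hpq)
  exact Nat.eq_one_of_dvd_coprimes h5 h3 h4

theorem exists_pow {p : ℕ} {X : Subgroup G} (hX : IsPGroup p X) {x : G} (hx : x ∈ X) : ∃ k, x ^ p ^ k = 1 := by
  obtain ⟨k, hk⟩ := hX ⟨x, hx⟩
  exact ⟨k, congrArg Subtype.val hk⟩

theorem disj {p q : ℕ} [hp : Fact p.Prime] [hq : Fact q.Prime] (hpq : p ≠ q) {X Y : Subgroup G} (hX : IsPGroup p X)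
    (hY : IsPGroup q Y) {x : G} (h1 : x ∈ X) (h2 : x ∈ Y) : x = 1 := by
  obtain ⟨a, ha⟩ := exists_pow hX h1
  obtain ⟨b, hb⟩ := exists_pow hY h2
  exact eq_one_of_coprime hp.out hq.out hpq ha hb

theorem le_norm_of_comm {X Y : Subgroup G} (hc : ∀ x ∈ X, ∀ y ∈ Y, x * y = y * x) : Y ≤ normalizer (X : Set G) := by
  intro y hy
  apply mem_normalizer_fintype
  intro x hx
  have : y * x * y⁻¹ = x := by rw [← hc x hx y hy]; group
  rw [this]; exact hx

theorem mem_of_sup {p q : ℕ} [hp : Fact p.Prime] [hq : Fact q.Prime] (hpq : p ≠ q) {X Y : Subgroup G}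
    (hY : IsPGroup q Y) (hX : Y ≤ normalizer (X : Set G)) {g : G} (hXp : IsPGroup p X) (hc : ∀ x ∈ X, ∀ y ∈ Y, x * y = y * x) (hg : g ∈ X ⊔ Y) {k : ℕ} (hk : g ^ p ^ k = 1) :
    g ∈ X := by
  obtain ⟨x, hx, y, hy, rfl⟩ := (H28.Sup.mem_sup_iff hX).1 hg
  obtain ⟨j, hj⟩ := exists_pow hXp hx
  obtain ⟨i, hi⟩ := exists_pow hY hy
  have h1 : y ^ p ^ (k + j) = 1 := by
    have h2 : (x * y) ^ p ^ (k + j) = 1 := by rw [pow_add, pow_mul, hk, one_pow]
    have h3 : Commute x y := hc x hx y hy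
    rw [h3.mul_pow, show x ^ p ^ (k + j) = 1 by rw [add_comm, pow_add, pow_mul, hj, one_pow], one_mul] at h2
    exact h2
  have h4 : y = 1 := eq_one_of_coprime hp.out hq.out hpq h1 hi
  rw [h4, mul_one]; exact hx

theorem norm_sup_le {p q : ℕ} [hp : Fact p.Prime] [hq : Fact q.Prime] (hpq : p ≠ q) {X Y : Subgroup G} (hX : IsPGroup p X)
    (hY : IsPGroup q Y) (hc : ∀ x ∈ X, ∀ y ∈ Y, x * y = y * x) : normalizer ((X ⊔ Y : Subgroup G) : Set G) ≤ normalizer (X : Set G) := by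
  intro g hg
  apply mem_normalizer_fintype
  intro x hx
  obtain ⟨k, hk⟩ := exists_pow hX hx
  refine mem_of_sup hpq hY (le_norm_of_comm hc) hX hc ((mem_normalizer_iff.1 hg x).1 (le_sup_left (a := X) hx)) (k := k) ?_
  rw [conj_pow, hk]; group

/-- A1 -/
theorem norm_eq (hP : HP G) {p q : ℕ} [hp : Fact p.Prime] [hq : Fact q.Prime] (hpq : p ≠ q) {X Y : Subgroup G} (hX : IsPGroup p X)
    (hY : IsPGroup q Y) (hc : ∀ x ∈ X, ∀ y ∈ Y, x * y = y * x) (hX1 : X ≠ ⊥) (hY1 : Y ≠ ⊥) :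
    normalizer (X : Set G) = normalizer (Y : Set G) := by
  have h1 := norm_sup_le hpq hX hY hc
  have h2 := norm_sup_le hpq.symm hY hX (fun y hy x hx => (hc x hx y hy).symm)
  rw [sup_comm] at h2
  have h3 : IsCoatom (normalizer ((X ⊔ Y : Subgroup G) : Set G)) := by
    apply hP
    · intro h
      exact hX1 (le_bot_iff.1 (h ▸ le_sup_left))
    · exact two_sup hX hY (le_norm_of_comm hc)
  have h4 := eq_of_le h3 h1 (hP X hX1 (two_p hX)).1
  have h5 := eq_of_le h3 h2 (hP Y hY1 (two_p hY)).1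
  rw [← h4, h5]

theorem mem_zp_iff {t : G} (ht : orderOf t = 2) {x : G} : x ∈ zpowers t ↔ x = 1 ∨ x = t := by
  constructor
  · rintro ⟨k, rfl⟩
    have h2 : t ^ (2 : ℤ) = 1 := by
      have := pow_orderOf_eq_one t
      rw [ht] at this; exact_mod_cast this
    change t ^ k = 1 ∨ t ^ k = t
    rcases Int.even_or_odd' k with ⟨m, rfl | rfl⟩
    · left; rw [zpow_mul, h2, one_zpow]
    · right; rw [zpow_add, zpow_mul, h2, one_zpow, one_mul, zpow_one]
  · rintro (rfl | rfl)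
    · exact one_mem _
    · exact mem_zpowers _

theorem ne_one_of_two {t : G} (ht : orderOf t = 2) : t ≠ 1 := by
  rintro rfl; rw [orderOf_one] at ht; omega

theorem norm_invol {t : G} (ht : orderOf t = 2) : normalizer ((zpowers t : Subgroup G) : Set G) = centralizer {t} := by
  ext g
  rw [mem_centralizer_singleton_iff]
  constructor
  · intro hg
    have h1 := (mem_normalizer_iff.1 hg t).1 (mem_zpowers t)
    rcases (mem_zp_iff ht).1 h1 with h2 | h2
    · exact absurd (conj_eq_one_iff.1 h2) (ne_one_of_two ht)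
    · exact mul_inv_eq_iff_eq_mul.1 h2
  · intro hg
    apply mem_normalizer_fintype
    intro x hx
    rcases (mem_zp_iff ht).1 hx with rfl | rfl
    · simp
    · rw [hg]; simpa using hx

theorem isP_zp {x : G} {p : ℕ} (hx : orderOf x = p) : IsPGroup p (zpowers x) := by
  apply IsPGroup.of_card (n := 1)
  rw [Nat.card_zpowers, hx, pow_one]

theorem isP_zp' {x : G} {p k : ℕ} (hx : orderOf x = p ^ k) : IsPGroup p (zpowers x) := by
  apply IsPGroup.of_card (n := k)
  rw [Nat.card_zpowers, hx]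

theorem zp_ne {x : G} {p : ℕ} (hp : p.Prime) (hx : orderOf x = p) : zpowers x ≠ ⊥ := by
  intro h
  rw [zpowers_eq_bot] at h
  rw [h, orderOf_one] at hx
  exact hp.one_lt.ne hx

theorem comm_zp {x y : G} (h : x * y = y * x) : ∀ a ∈ zpowers x, ∀ b ∈ zpowers y, a * b = b * a := by
  rintro _ ⟨i, rfl⟩ _ ⟨j, rfl⟩
  exact ((Commute.zpow_right (Commute.zpow_left h i) j))

theorem comm_zp_left {x : G} {U : Subgroup G} (h : ∀ u ∈ U, x * u = u * x) : ∀ a ∈ zpowers x, ∀ b ∈ U, a * b = b * a := by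
  rintro _ ⟨i, rfl⟩ b hb
  exact (Commute.zpow_left (h b hb) i)

/-- A2 -/
theorem cent_eq (hP : HP G) {t : G} (ht : orderOf t = 2) {q : ℕ} [hq : Fact q.Prime] (hq2 : q ≠ 2) {Y : Subgroup G}
    (hY : IsPGroup q Y) (hY1 : Y ≠ ⊥) (hc : ∀ y ∈ Y, t * y = y * t) : normalizer (Y : Set G) = centralizer {t} := by
  haveI : Fact (Nat.Prime 2) := ⟨Nat.prime_two⟩
  rw [← norm_invol ht]
  exact (norm_eq hP (Ne.symm hq2) (isP_zp ht) hY (comm_zp_left hc) (zp_ne Nat.prime_two ht) hY1).symm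

theorem cent_coatom (hP : HP G) {t : G} (ht : orderOf t = 2) : IsCoatom (centralizer ({t} : Set G)) := by
  haveI : Fact (Nat.Prime 2) := ⟨Nat.prime_two⟩
  rw [← norm_invol ht]
  exact hP _ (zp_ne Nat.prime_two ht) (two_p (isP_zp ht))

theorem cent_eq' (hP : HP G) {t w : G} (ht : orderOf t = 2) {r : ℕ} (hr : r.Prime) (hr2 : r ≠ 2) (hw : orderOf w = r)
    (hc : t * w = w * t) : normalizer ((zpowers w : Subgroup G) : Set G) = centralizer {t} := by
  haveI : Fact r.Prime := ⟨hr⟩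
  refine cent_eq hP ht hr2 (isP_zp hw) (zp_ne hr hw) ?_
  rintro _ ⟨i, rfl⟩
  exact (Commute.zpow_right (show Commute t w from hc) i)

section inv

variable {t x : G} {p : ℕ}

theorem inv_mem (hinv : t * x * t⁻¹ = x⁻¹) {y : G} (hy : y ∈ zpowers x) : t * y * t⁻¹ = y⁻¹ := by
  obtain ⟨k, rfl⟩ := hy
  change t * x ^ k * t⁻¹ = (x ^ k)⁻¹
  rw [← conj_zpow, hinv, inv_zpow]

theorem tinv (ht : orderOf t = 2) : t⁻¹ = t := by
  have := pow_orderOf_eq_one t
  rw [ht, sq] at this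
  exact inv_eq_of_mul_eq_one_left this

theorem t_norm (ht : orderOf t = 2) (hinv : t * x * t⁻¹ = x⁻¹) : zpowers t ≤ normalizer ((zpowers x : Subgroup G) : Set G) := by
  rw [zpowers_le]
  apply mem_normalizer_fintype
  intro y hy
  rw [inv_mem hinv hy]
  exact inv_mem_iff.2 hy

theorem mem_dih (ht : orderOf t = 2) (hinv : t * x * t⁻¹ = x⁻¹) {g : G} (hg : g ∈ zpowers x ⊔ zpowers t) :
    g ∈ zpowers x ∨ ∃ y ∈ zpowers x, g = y * t := by
  obtain ⟨y, hy, s, hs, rfl⟩ := (H28.Sup.mem_sup_iff (t_norm ht hinv)).1 hg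
  rcases (mem_zp_iff ht).1 hs with rfl | rfl
  · left; simpa using hy
  · right; exact ⟨y, hy, rfl⟩

theorem sq_yt (ht : orderOf t = 2) (hinv : t * x * t⁻¹ = x⁻¹) {y : G} (hy : y ∈ zpowers x) : (y * t) ^ 2 = 1 := by
  have h1 := inv_mem hinv hy
  rw [tinv ht] at h1
  have h2 : (y * t) ^ 2 = y * (t * y * t) := by rw [sq]; group
  rw [h2, h1, mul_inv_cancel]

/-- A3 -/
theorem inv_norm_eq (hP : HP G) (ht : orderOf t = 2) (hp : p.Prime) (hp2 : p ≠ 2) (hx : orderOf x = p)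
    (hinv : t * x * t⁻¹ = x⁻¹) : normalizer ((zpowers x ⊔ zpowers t : Subgroup G) : Set G) = normalizer ((zpowers x : Subgroup G) : Set G) := by
  haveI : Fact (Nat.Prime 2) := ⟨Nat.prime_two⟩
  haveI : Fact p.Prime := ⟨hp⟩
  apply eq_of_le
  · apply hP
    · intro h
      exact zp_ne hp hx (le_bot_iff.1 (h ▸ le_sup_left))
    · exact two_sup (isP_zp hx) (isP_zp ht) (t_norm ht hinv)
  · intro g hg
    apply mem_normalizer_fintype
    have key : g * x * g⁻¹ ∈ zpowers x := by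
      rcases mem_dih ht hinv ((mem_normalizer_iff.1 hg x).1 (le_sup_left (a := zpowers x) (mem_zpowers x))) with h1 | ⟨y, hy, h1⟩
      · exact h1
      · exfalso
        have h2 : (g * x * g⁻¹) ^ 2 = 1 := by rw [h1]; exact sq_yt ht hinv hy
        rw [conj_pow, conj_eq_one_iff] at h2
        have h3 := orderOf_dvd_of_pow_eq_one h2
        rw [hx] at h3
        exact hp2 ((Nat.prime_dvd_prime_iff_eq hp Nat.prime_two).1 h3)
    rintro _ ⟨k, rfl⟩
    change g * x ^ k * g⁻¹ ∈ zpowers x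
    rw [← conj_zpow]
    exact zpow_mem key k
  · exact (hP _ (zp_ne hp hx) (two_p (isP_zp hx))).1

theorem inv_norm (hP : HP G) (ht : orderOf t = 2) (hp : p.Prime) (hp2 : p ≠ 2) (hx : orderOf x = p)
    (hinv : t * x * t⁻¹ = x⁻¹) {g : G} (hg : g ∈ normalizer ((zpowers x : Subgroup G) : Set G)) :
    ∃ u ∈ zpowers x, ∃ c ∈ centralizer ({t} : Set G), c ∈ normalizer ((zpowers x : Subgroup G) : Set G) ∧ g = u * c := by
  rw [← inv_norm_eq hP ht hp hp2 hx hinv] at hg
  have h1 := (mem_normalizer_iff.1 hg t).1 (le_sup_right (a := zpowers x) (mem_zpowers t))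
  rw [inv_norm_eq hP ht hp hp2 hx hinv] at hg
  have hodd : Odd p := hp.odd_of_ne_two hp2
  rcases mem_dih ht hinv h1 with h2 | ⟨y, hy, h2⟩
  · exfalso
    have h3 : orderOf (g * t * g⁻¹) ∣ orderOf x := orderOf_dvd_of_mem_zpowers h2
    have h4 : orderOf (g * t * g⁻¹) = 2 := by
      rw [← ht]; exact MulEquiv.orderOf_eq (MulAut.conj g) t
    rw [h4, hx] at h3
    exact hp2 ((Nat.prime_dvd_prime_iff_eq Nat.prime_two hp).1 h3).symm
  · have hyp : y ^ p = 1 := by
      have : orderOf y ∣ orderOf x := orderOf_dvd_of_mem_zpowers hy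
      rw [hx] at this
      exact orderOf_dvd_iff_pow_eq_one.1 this
    obtain ⟨k, hk⟩ := hodd
    have hu : (y ^ (k + 1)) * (y ^ (k + 1)) = y := by
      rw [← pow_add, show k + 1 + (k + 1) = (2 * k + 1) + 1 by ring, pow_succ, ← hk, hyp, one_mul]
    set u := y ^ (k + 1) with hudef
    have hux : u ∈ zpowers x := pow_mem hy _
    have h3 : u * t * u⁻¹ = y * t := by
      have h4 := inv_mem hinv (inv_mem_iff.2 hux)
      rw [tinv ht, inv_inv] at h4
      have h5 : t * u⁻¹ = u * t := by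
        have h6 : t * u⁻¹ * t * t⁻¹ = u * t⁻¹ := by rw [h4]
        rw [tinv ht] at h6
        have h7 : t * t = 1 := by have := pow_orderOf_eq_one t; rwa [ht, sq] at this
        rwa [mul_assoc (t * u⁻¹) t t, h7, mul_one] at h6
      rw [mul_assoc, h5, ← mul_assoc, hu]
    have hun : u ∈ normalizer ((zpowers x : Subgroup G) : Set G) := Subgroup.le_normalizer hux
    refine ⟨u, hux, u⁻¹ * g, ?_, mul_mem (inv_mem_iff.2 hun) hg, by group⟩
    rw [mem_centralizer_singleton_iff]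
    have h5 : g * t = u * t * u⁻¹ * g := by rw [h3, ← h2]; group
    calc u⁻¹ * g * t = u⁻¹ * (g * t) := by group
      _ = u⁻¹ * (u * t * u⁻¹ * g) := by rw [h5]
      _ = t * (u⁻¹ * g) := by group

/-- A3 b -/
theorem inv_two (hP : HP G) (ht : orderOf t = 2) (hp : p.Prime) (hp2 : p ≠ 2) (hx : orderOf x = p)
    (hinv : t * x * t⁻¹ = x⁻¹) {z : G} (h1 : z * t = t * z) (h2 : z * x = x * z) {r : ℕ} (hr : r.Prime) (hz : orderOf z = r) :
    r = 2 := by
  by_contra hr2
  have h3 := cent_eq' hP ht hr hr2 hz h1.symm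
  have h4 : x ∈ normalizer ((zpowers z : Subgroup G) : Set G) := by
    apply mem_normalizer_fintype
    rintro _ ⟨k, rfl⟩
    have : x * z ^ k * x⁻¹ = z ^ k := by
      have := (Commute.zpow_right (show Commute x z from h2.symm) k).eq
      rw [this]; group
    change x * z ^ k * x⁻¹ ∈ zpowers z
    rw [this]; exact zpow_mem (mem_zpowers z) k
  rw [h3, mem_centralizer_singleton_iff] at h4
  have h5 : x = x⁻¹ := by
    rw [← hinv, ← h4]; group
  have h6 : x ^ 2 = 1 := by rw [sq]; nth_rewrite 1 [h5]; group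
  have h7 := orderOf_dvd_of_pow_eq_one h6
  rw [hx] at h7
  exact hp2 ((Nat.prime_dvd_prime_iff_eq hp Nat.prime_two).1 h7)

end inv

theorem isTwo {H : Subgroup G} (h : ∀ z ∈ H, ∀ r : ℕ, r.Prime → orderOf z = r → r = 2) : IsPGroup 2 H := by
  rcases Nat.eq_two_pow_or_exists_odd_prime_and_dvd (Nat.card H) with ⟨k, hk⟩ | ⟨r, hr, hd, hodd⟩
  · exact IsPGroup.of_card hk
  · exfalso
    haveI : Fact r.Prime := ⟨hr⟩
    obtain ⟨z, hz⟩ := exists_prime_orderOf_dvd_card' r hd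
    have := h z z.2 r hr (by rw [Subgroup.orderOf_coe, hz])
    subst this
    exact absurd hodd (by decide)

/-- an element of odd prime order -/
theorem exists_odd {H : Subgroup G} (h : ¬ IsPGroup 2 H) : ∃ w ∈ H, ∃ r : ℕ, r.Prime ∧ r ≠ 2 ∧ orderOf w = r := by
  by_contra hcon
  push Not at hcon
  apply h
  apply isTwo
  intro z hz r hr hzr
  by_contra hr2
  exact hcon z hz r hr hr2 hzr

/-- no nontrivial solvable normal subgroups -/
theorem normal_solvable (hP : HP G) (N : Subgroup G) [N.Normal] (hN : Group.IsSolvable N) : N = ⊥ := by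
  by_contra hne
  haveI : Nontrivial N := (Subgroup.nontrivial_iff_ne_bot N).2 hne
  obtain ⟨p, hp, h6⟩ := H1.Hall.exists_pCore_ne_bot hN
  haveI : Fact p.Prime := ⟨hp⟩
  haveI := H1.Cores.pCore_characteristic (G := N) p
  have h7 : ((Cfsg.pCore p N).map N.subtype).Normal := ConjAct.normal_of_characteristic_of_normal
  have h8 : (Cfsg.pCore p N).map N.subtype ≠ ⊥ := by
    intro h
    exact h6 ((Subgroup.map_eq_bot_iff_of_injective _ N.subtype_injective).1 h)
  have h9 : IsPGroup p ((Cfsg.pCore p N).map N.subtype) := (H1.Cores.isPGroup_pCore (G := N) p).map _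
  exact (hP _ h8 (two_p h9)).1 (normalizer_eq_top_iff.2 h7)

end H68.NormMaxA
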