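import Cfsg.Agent.Lib.H68.NormMaxA
import Cfsg.Agent.Lib.H70.SolvRad
import Cfsg.Agent.Lib.H4.Burnside
import Cfsg.Agent.Lib.H1.Hall

/-!
# Normalizers of nonsubnormal subgroups maximal: passing to the quotient by the solvable radical
-/

set_option autoImplicit false
set_option linter.all false

universe u

namespace H68.NormMaxK
open Subgroup H68.NormMaxA H70.SolvRad

variable {G : Type u} [Group G] [Finite G]

theorem mem_srad_of_normal {K : Subgroup G} (T : Subgroup K) [hT : T.Normal] (hTs : Group.IsSolvable T) {x : K} (hx : x ∈ T) :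
    x ∈ srad K := le_srad hT hTs hx

theorem subnormal_aux {H : Subgroup G} (hH : H.IsSubnormal) : ∀ x ∈ srad H, (x : G) ∈ srad G := by
  induction hH with
  | top =>
    intro x hx
    have h1 := map_srad_le (topEquiv : (⊤ : Subgroup G) ≃* G).toMonoidHom (topEquiv : (⊤ : Subgroup G) ≃* G).surjective
    exact h1 ⟨x, hx, rfl⟩
  | step H K hle hK hN ih =>
    intro x hx
    haveI := hN
    have h1 := map_subtype_srad_le (G := K) (H.subgroupOf K)
    let e : H ≃* H.subgroupOf K := (subgroupOfEquivOfLe hle).symm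
    have h2 := map_srad_le e.toMonoidHom e.surjective
    have h3 : e x ∈ srad (H.subgroupOf K) := h2 ⟨x, hx, rfl⟩
    have h4 : ((e x : H.subgroupOf K) : K) ∈ srad K := h1 ⟨e x, h3, rfl⟩
    have h5 := ih _ h4
    exact h5

theorem subnormal_le {H : Subgroup G} (hH : H.IsSubnormal) (hs : Group.IsSolvable H) : H ≤ srad G := by
  intro x hx
  have h1 : (⟨x, hx⟩ : H) ∈ srad H := by
    have : (⊤ : Subgroup H) ≤ srad H := le_srad inferInstance (Group.isSolvable_of_surjective (f := (topEquiv (G := H)).symm.toMonoidHom) (topEquiv (G := H)).symm.surjective)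
    exact this (mem_top _)
  exact subnormal_aux hH _ h1

theorem two_iff_card {n : ℕ} (hn : n ≠ 0) {p q : ℕ} (hp : p.Prime) (hq : q.Prime) (h : ∀ r : ℕ, r.Prime → r ∣ n → r = p ∨ r = q) :
    ∃ a b : ℕ, n = p ^ a * q ^ b := by
  by_cases hpq : p = q
  · subst hpq
    refine ⟨n.factorization p, 0, ?_⟩
    have h1 : n / p ^ n.factorization p = 1 := by
      by_contra h2
      obtain ⟨r, hr, hrd⟩ := Nat.exists_prime_and_dvd h2
      have h3 : r ∣ n := hrd.trans (Nat.div_dvd_of_dvd (Nat.ordProj_dvd n p))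
      have h4 : r = p := by rcases h r hr h3 with h | h <;> exact h
      subst h4
      exact Nat.not_dvd_ordCompl hr hn hrd
    have h2 := Nat.ordProj_mul_ordCompl_eq_self n p
    rw [h1, mul_one] at h2
    rw [pow_zero, mul_one]; exact h2.symm
  · refine ⟨n.factorization p, (n / p ^ n.factorization p).factorization q, ?_⟩
    set n' := n / p ^ n.factorization p with hn'
    have hn'0 : n' ≠ 0 := (Nat.ordCompl_pos p hn).ne'
    have h1 : n' / q ^ n'.factorization q = 1 := by
      by_contra h2
      obtain ⟨r, hr, hrd⟩ := Nat.exists_prime_and_dvd h2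
      have h3' : r ∣ n' := hrd.trans (Nat.div_dvd_of_dvd (Nat.ordProj_dvd n' q))
      have h3 : r ∣ n := h3'.trans (Nat.div_dvd_of_dvd (Nat.ordProj_dvd n p))
      rcases h r hr h3 with h4 | h4
      · subst h4
        exact Nat.not_dvd_ordCompl hr hn h3'
      · subst h4
        exact Nat.not_dvd_ordCompl hr hn'0 hrd
    have h2 := Nat.ordProj_mul_ordCompl_eq_self n' q
    rw [h1, mul_one] at h2
    have h3 := Nat.ordProj_mul_ordCompl_eq_self n p
    rw [h2]; exact h3.symm

theorem two_solvable {H : Subgroup G} (h : Two H) : Group.IsSolvable H := by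
  obtain ⟨p, q, hp, hq, hr⟩ := h
  obtain ⟨a, b, hab⟩ := two_iff_card (Nat.card_pos (α := H)).ne' hp hq hr
  exact H4.Burnside.isSolvable_of_card_eq p q hp hq _ H rfl ⟨a, b, hab⟩

/-- splitting a number -/
theorem split {N p q : ℕ} (hN : N ≠ 0) (hp : p.Prime) (hq : q.Prime) : ∃ m n : ℕ, N = m * n ∧ m.Coprime n ∧
    (∀ r : ℕ, r.Prime → r ∣ m → r = p ∨ r = q) ∧ (∀ r : ℕ, r.Prime → r ∣ n → r ≠ p ∧ r ≠ q) := by
  set N' := N / p ^ N.factorization p with hN'
  have hN'0 : N' ≠ 0 := (Nat.ordCompl_pos p hN).ne'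
  set n := N' / q ^ N'.factorization q with hn
  refine ⟨p ^ N.factorization p * q ^ N'.factorization q, n, ?_, ?_, ?_, ?_⟩
  · rw [mul_assoc, hn, Nat.ordProj_mul_ordCompl_eq_self, hN', Nat.ordProj_mul_ordCompl_eq_self]
  · apply Nat.Coprime.mul_left
    · apply Nat.Coprime.pow_left
      rw [hp.coprime_iff_not_dvd]
      intro h
      exact Nat.not_dvd_ordCompl hp hN (h.trans (Nat.div_dvd_of_dvd (Nat.ordProj_dvd N' q)))
    · apply Nat.Coprime.pow_left
      rw [hq.coprime_iff_not_dvd]
      exact Nat.not_dvd_ordCompl hq hN'0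
  · intro r hr hd
    rcases (Nat.Prime.dvd_mul hr).1 hd with h | h
    · left; exact (Nat.prime_dvd_prime_iff_eq hr hp).1 (hr.dvd_of_dvd_pow h)
    · right; exact (Nat.prime_dvd_prime_iff_eq hr hq).1 (hr.dvd_of_dvd_pow h)
  · intro r hr hd
    constructor
    · rintro rfl
      exact Nat.not_dvd_ordCompl hr hN (hd.trans (Nat.div_dvd_of_dvd (Nat.ordProj_dvd N' q)))
    · rintro rfl
      exact Nat.not_dvd_ordCompl hr hN'0 hd

/-- the hypothesis of the theorem -/
def HN (G : Type u) [Group G] : Prop := ∀ H : Subgroup G, ¬ H.IsSubnormal → Two H → IsCoatom (normalizer (H : Set G))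

instance srad_normal : (srad G).Normal := srad_mem.1

variable (hN : HN G)
include hN

theorem coatom_of {H : Subgroup G} (h2 : Two H) (hH : ¬ H ≤ srad G) : IsCoatom (normalizer (H : Set G)) :=
  hN H (fun hs => hH (subnormal_le hs (two_solvable h2))) h2

theorem norm_eq_sup {H : Subgroup G} (h2 : Two H) (hH : ¬ H ≤ srad G) :
    normalizer (H : Set G) = normalizer ((H ⊔ srad G : Subgroup G) : Set G) := by
  apply eq_of_le (coatom_of hN h2 hH)
  · intro g hg
    apply mem_normalizer_fintype
    intro x hx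
    rw [SetLike.mem_coe, mem_sup_of_normal_right] at hx
    obtain ⟨y, hy, r, hr, rfl⟩ := hx
    have e : g * (y * r) * g⁻¹ = (g * y * g⁻¹) * (g * r * g⁻¹) := by group
    rw [e]
    exact mul_mem_sup ((mem_normalizer_iff.1 hg y).1 hy) (srad_mem.1.conj_mem r hr g)
  · intro h
    have hn : (H ⊔ srad G).Normal := normalizer_eq_top_iff.1 h
    apply hH
    refine le_trans le_sup_left (le_srad hn ?_)
    rw [sup_comm]
    refine H26.SupCard.isSolvable_sup ?_ (isSolvable_srad (G := G)) (two_solvable h2)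
    rw [normalizer_eq_top_iff.2 (srad_mem (G := G)).1]
    exact le_top

theorem R_le {H : Subgroup G} (h2 : Two H) (hH : ¬ H ≤ srad G) : srad G ≤ normalizer (H : Set G) := by
  rw [norm_eq_sup hN h2 hH]
  exact le_trans le_sup_right le_normalizer

theorem HP_quot : HP (G ⧸ srad G) := by
  intro B hB1 hB2
  set R := srad G with hR
  set H₁ := B.comap (QuotientGroup.mk' R) with hH₁
  have hRH : R ≤ H₁ := by
    intro x hx
    rw [hH₁, mem_comap, QuotientGroup.mk'_apply, (QuotientGroup.eq_one_iff x).2 hx]; exact one_mem _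
  have hmap : H₁.map (QuotientGroup.mk' R) = B := map_comap_eq_self_of_surjective (QuotientGroup.mk'_surjective R) B
  have hBs := two_solvable hB2
  obtain ⟨p, q, hp, hq, hr⟩ := hB2
  have hH₁s : Group.IsSolvable H₁ := by
    let f : H₁ →* B := ((QuotientGroup.mk' R).comp H₁.subtype).codRestrict B (fun x => x.2)
    let g : R →* H₁ := inclusion hRH
    haveI : Group.IsSolvable R := isSolvable_srad
    apply Group.isSolvable_of_ker_le_range g f
    intro x hx
    have h1 : (QuotientGroup.mk' R) (x : G) = 1 := congrArg Subtype.val (MonoidHom.mem_ker.1 hx)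
    have h2 : (x : G) ∈ R := (QuotientGroup.eq_one_iff _).1 h1
    exact ⟨⟨x, h2⟩, rfl⟩
  obtain ⟨m, n, hmn, hcop, hm, hn⟩ := split (Nat.card_pos (α := H₁)).ne' hp hq
  obtain ⟨H₀, hH₀⟩ := H1.Hall.exists_card_eq hH₁s m n hmn hcop
  set H := H₀.map H₁.subtype with hH
  have hHc : Nat.card H = m := by
    rw [← hH₀]
    exact (Nat.card_congr (H₀.equivMapOfInjective _ H₁.subtype_injective).toEquiv).symm
  have hHH₁ : H ≤ H₁ := map_subtype_le _
  have h2 : Two H := ⟨p, q, hp, hq, by rw [hHc]; exact hm⟩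
  -- H R = H₁
  have hsup : H ⊔ R = H₁ := by
    have hle : H ⊔ R ≤ H₁ := sup_le hHH₁ hRH
    have hi1 : (H ⊔ R).relIndex H₁ ∣ n := by
      have h3 : (H ⊔ R).relIndex H₁ ∣ H.relIndex H₁ := relIndex_dvd_of_le_left H₁ le_sup_left
      have h4 : m * H.relIndex H₁ = m * n := by
        have := relIndex_mul_relIndex ⊥ H H₁ bot_le hHH₁
        rw [relIndex_bot_left, relIndex_bot_left, hHc, hmn] at this
        exact this
      have hm0 : 0 < m := by rw [← hHc]; exact Nat.card_pos
      rw [Nat.eq_of_mul_eq_mul_left hm0 h4] at h3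
      exact h3
    have hi2 : (H ⊔ R).relIndex H₁ ∣ Nat.card B := by
      have h3 : (H ⊔ R).relIndex H₁ ∣ R.relIndex H₁ := relIndex_dvd_of_le_left H₁ le_sup_right
      have h4 : Nat.card R * R.relIndex H₁ = Nat.card R * Nat.card B := by
        have := relIndex_mul_relIndex ⊥ R H₁ bot_le hRH
        rw [relIndex_bot_left, relIndex_bot_left] at this
        rw [this, hH₁, H1.Cores.card_comap_mk']
      rw [Nat.eq_of_mul_eq_mul_left Nat.card_pos h4] at h3
      exact h3
    have h1 : (H ⊔ R).relIndex H₁ = 1 := by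
      by_contra hne
      obtain ⟨r, hrp, hrd⟩ := Nat.exists_prime_and_dvd hne
      have h5 := hn r hrp (hrd.trans hi1)
      rcases hr r hrp (hrd.trans hi2) with h6 | h6
      · exact h5.1 h6
      · exact h5.2 h6
    exact le_antisymm hle (relIndex_eq_one.1 h1)
  have hHR : ¬ H ≤ R := by
    intro h
    apply hB1
    rw [← hmap, ← hsup, sup_eq_right.2 h]
    rw [eq_bot_iff]
    rintro _ ⟨x, hx, rfl⟩
    exact (QuotientGroup.eq_one_iff x).2 hx
  have hco := coatom_of hN h2 hHR
  rw [norm_eq_sup hN h2 hHR, ← hR, hsup] at hco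
  -- N(B) = N(H₁)/R
  have hcm : (normalizer (B : Set (G ⧸ R))).comap (QuotientGroup.mk' R) = normalizer (H₁ : Set G) := by
    ext g
    rw [mem_comap, mem_normalizer_iff, mem_normalizer_iff]
    constructor
    · intro h x
      have := h (QuotientGroup.mk' R x)
      rw [hH₁, mem_comap, mem_comap, map_mul, map_mul, map_inv]
      exact this
    · intro h x
      obtain ⟨x, rfl⟩ := QuotientGroup.mk'_surjective R x
      have := h x
      rw [hH₁, mem_comap, mem_comap, map_mul, map_mul, map_inv] at this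
      exact this
  have hRN : R ≤ normalizer (H₁ : Set G) := hRH.trans le_normalizer
  constructor
  · intro h
    apply hco.1
    rw [← hcm, h, comap_top]
  · intro X hX
    have h1 : normalizer (H₁ : Set G) < X.comap (QuotientGroup.mk' R) := by
      rw [← hcm]
      exact comap_lt_comap_of_surjective (QuotientGroup.mk'_surjective R) |>.2 hX
    have h3 := hco.2 _ h1
    rw [← comap_top (QuotientGroup.mk' R)] at h3
    exact comap_injective (QuotientGroup.mk'_surjective R) h3

end H68.NormMaxK
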