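import Cfsg.Agent.Lib.H68.NormMaxK

/-!
# Normalizers of nonsubnormal subgroups maximal: the layer centralizes the radical
-/

set_option autoImplicit false
set_option linter.all false

universe u

namespace H68.NormMaxL
open Subgroup H68.NormMaxA H70.SolvRad H68.NormMaxK
open scoped commutatorElement

variable {G : Type u} [Group G] [Finite G]

theorem comm_pq (hN : HN G) {p q : ℕ} (hp : p.Prime) (hq : q.Prime) (hpq : p ≠ q) {x y : G} {a b : ℕ}
    (hx : x ^ p ^ a = 1) (hy : y ^ q ^ b = 1) (hxR : x ∉ srad G) (hyR : y ∈ srad G) : x * y = y * x := by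
  haveI : Fact p.Prime := ⟨hp⟩
  have hXp : IsPGroup p (zpowers x) := by
    obtain ⟨j, hj, hj2⟩ := (Nat.dvd_prime_pow hp).1 (orderOf_dvd_of_pow_eq_one hx)
    exact isP_zp' hj2
  have h1 := R_le hN (two_p hXp) (fun h => hxR (h (mem_zpowers x))) hyR
  obtain ⟨k, hk⟩ := (mem_normalizer_iff.1 h1 x).1 (mem_zpowers x)
  change x ^ k = y * x * y⁻¹ at hk
  have h2 : x ^ (k - 1) ∈ srad G := by
    rw [zpow_sub, zpow_one, hk]
    have e : y * x * y⁻¹ * x⁻¹ = y * (x * y⁻¹ * x⁻¹) := by group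
    rw [e]
    exact mul_mem hyR (srad_mem.1.conj_mem _ (inv_mem hyR) x)
  have h3 : (p : ℤ) ∣ k - 1 := by
    by_contra h
    have hc : IsCoprime (k - 1) ((p : ℤ) ^ a) := by
      apply IsCoprime.pow_right
      rw [isCoprime_comm]
      exact (Int.prime_iff_natAbs_prime.2 (by simpa using hp)).coprime_iff_not_dvd.2 h
    obtain ⟨u, v, huv⟩ := hc
    apply hxR
    have e : x = (x ^ (k - 1)) ^ u * (x ^ ((p : ℤ) ^ a)) ^ v := by
      rw [← zpow_mul, ← zpow_mul, ← zpow_add]
      have : (k - 1) * u + (p : ℤ) ^ a * v = 1 := by linear_combination huv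
      rw [this, zpow_one]
    rw [e]
    apply mul_mem (zpow_mem h2 u)
    have : x ^ ((p : ℤ) ^ a) = 1 := by exact_mod_cast hx
    rw [this, one_zpow]; exact one_mem _
  have h4 : ((p : ℤ) ^ (a + 1)) ∣ k ^ p ^ a - 1 ^ p ^ a := dvd_sub_pow_of_dvd_sub h3 a
  rw [one_pow] at h4
  have h5 : ∀ n : ℕ, y ^ n * x * (y ^ n)⁻¹ = x ^ (k ^ n) := by
    intro n
    induction n with
    | zero => simp
    | succ n ih =>
      have e : y ^ (n + 1) * x * (y ^ (n + 1))⁻¹ = y * (y ^ n * x * (y ^ n)⁻¹) * y⁻¹ := by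
        rw [pow_succ']; group
      rw [e, ih, ← conj_zpow, ← hk, ← zpow_mul, pow_succ']
  have h6 : y ^ p ^ a * x = x * y ^ p ^ a := by
    have e := h5 (p ^ a)
    have e2 : x ^ (k ^ p ^ a) = x := by
      obtain ⟨m, hm⟩ := h4
      have : k ^ p ^ a = (p : ℤ) ^ a * (p * m) + 1 := by
        have e3 : k ^ p ^ a = (k ^ p ^ a - 1) + 1 := by ring
        rw [e3, hm]; ring
      rw [this, zpow_add, zpow_mul, zpow_one]
      have : x ^ ((p : ℤ) ^ a) = 1 := by exact_mod_cast hx
      rw [this, one_zpow, one_mul]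
    rw [e2] at e
    exact mul_inv_eq_iff_eq_mul.1 e
  have h7 : y ∈ centralizer ({x} : Set G) := by
    have hc : Nat.Coprime (p ^ a) (q ^ b) := Nat.Coprime.pow _ _ ((Nat.coprime_primes hp hq).2 hpq)
    apply H3.LocalNPC.mem_of_pow_mem_of_coprime hc
    · exact mem_centralizer_singleton_iff.2 h6
    · rw [hy]; exact one_mem _
  exact (mem_centralizer_singleton_iff.1 h7).symm

/-- a `p`-element outside the normal subgroup `R` -/
theorem exists_pel (R : Subgroup G) [R.Normal] {p : ℕ} (hp : p.Prime) (hd : p ∣ Nat.card (G ⧸ R)) :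
    ∃ x : G, x ∉ R ∧ ∃ a : ℕ, x ^ p ^ a = 1 := by
  haveI : Fact p.Prime := ⟨hp⟩
  obtain ⟨z, hz⟩ := exists_prime_orderOf_dvd_card' p hd
  obtain ⟨g, rfl⟩ := QuotientGroup.mk'_surjective R z
  have h0 : orderOf g ≠ 0 := (orderOf_pos g).ne'
  set m := orderOf g / p ^ (orderOf g).factorization p with hm
  refine ⟨g ^ m, ?_, (orderOf g).factorization p, ?_⟩
  · intro h
    have h1 : (QuotientGroup.mk' R g) ^ m = 1 := by
      rw [← map_pow]; exact (QuotientGroup.eq_one_iff _).2 h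
    have h2 := orderOf_dvd_of_pow_eq_one h1
    rw [hz] at h2
    exact Nat.not_dvd_ordCompl hp h0 h2
  · rw [← pow_mul, mul_comm, hm, Nat.ordProj_mul_ordCompl_eq_self, pow_orderOf_eq_one]

/-- the subgroup generated by the `p`-elements outside `srad G` -/
def LL (p : ℕ) (G : Type u) [Group G] : Subgroup G := closure {x : G | x ∉ srad G ∧ ∃ a : ℕ, x ^ p ^ a = 1}

theorem LL_normal (p : ℕ) : (LL p G).Normal := by
  have : closure {x : G | x ∉ srad G ∧ ∃ a : ℕ, x ^ p ^ a = 1} = normalClosure {x : G | x ∉ srad G ∧ ∃ a : ℕ, x ^ p ^ a = 1} := by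
    apply le_antisymm closure_le_normalClosure
    rw [normalClosure, closure_le]
    intro y hy
    obtain ⟨x, ⟨hx, a, ha⟩, hxy⟩ := Group.mem_conjugatesOfSet_iff.1 hy
    obtain ⟨g, hg⟩ := isConj_iff.1 hxy
    apply Subgroup.subset_closure
    rw [← hg]
    refine ⟨fun h => hx ?_, a, ?_⟩
    · have := srad_mem.1.conj_mem _ h g⁻¹
      have e : g⁻¹ * (g * x * g⁻¹) * g⁻¹⁻¹ = x := by group
      rwa [e] at this
    · rw [conj_pow, ha]; group
  rw [LL, this]; exact normalClosure_normal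

theorem LL_comm (hN : HN G) {p q : ℕ} (hp : p.Prime) (hq : q.Prime) (hpq : p ≠ q) {y : G} {b : ℕ} (hy : y ^ q ^ b = 1) (hyR : y ∈ srad G) :
    LL p G ≤ centralizer {y} := by
  rw [LL, closure_le]
  rintro x ⟨hx, a, ha⟩
  rw [SetLike.mem_coe, mem_centralizer_singleton_iff]
  exact comm_pq hN hp hq hpq ha hy hx hyR

section simple

variable [hs : IsSimpleGroup (G ⧸ srad G)]

theorem sup_eq_top (N : Subgroup G) [hNn : N.Normal] (h : ¬ N ≤ srad G) : N ⊔ srad G = ⊤ := by
  have h1 : (N.map (QuotientGroup.mk' (srad G))).Normal := Subgroup.Normal.map hNn _ (QuotientGroup.mk'_surjective _)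
  rcases h1.eq_bot_or_eq_top with h2 | h2
  · exfalso; apply h
    rw [Subgroup.map_eq_bot_iff, QuotientGroup.ker_mk'] at h2
    exact h2
  · have h3 := congrArg (Subgroup.comap (QuotientGroup.mk' (srad G))) h2
    rw [comap_map_eq, QuotientGroup.ker_mk', comap_top] at h3
    exact h3

/-- products of commutators -/
theorem comm_sup (hna : ¬ Group.IsSolvable G) (N M : Subgroup G) [hNn : N.Normal] [hMn : M.Normal] (hNR : N ⊔ srad G = ⊤) (hMR : M ⊔ srad G = ⊤) :
    ⁅N, M⁆ ⊔ srad G = ⊤ := by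
  apply sup_eq_top
  intro hle
  apply hna
  -- the quotient is abelian
  have hab : ∀ a b : G ⧸ srad G, a * b = b * a := by
    intro a b
    obtain ⟨g, rfl⟩ := QuotientGroup.mk'_surjective _ a
    obtain ⟨h, rfl⟩ := QuotientGroup.mk'_surjective _ b
    have hg : g ∈ N ⊔ srad G := by rw [hNR]; exact mem_top g
    have hh : h ∈ M ⊔ srad G := by rw [hMR]; exact mem_top h
    rw [mem_sup_of_normal_right] at hg hh
    obtain ⟨n, hn, r, hr, rfl⟩ := hg
    obtain ⟨m, hm, r', hr', rfl⟩ := hh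
    have h1 : QuotientGroup.mk' (srad G) r = 1 := (QuotientGroup.eq_one_iff r).2 hr
    have h2 : QuotientGroup.mk' (srad G) r' = 1 := (QuotientGroup.eq_one_iff r').2 hr'
    rw [map_mul, map_mul, h1, h2, mul_one, mul_one]
    have h3 : QuotientGroup.mk' (srad G) ⁅n, m⁆ = 1 := (QuotientGroup.eq_one_iff _).2 (hle (commutator_mem_commutator hn hm))
    rw [map_commutatorElement, commutatorElement_eq_one_iff_mul_comm] at h3
    exact h3
  have : Group.IsSolvable (G ⧸ srad G) := Group.isSolvable_of_comm hab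
  haveI := isSolvable_srad (G := G)
  apply Group.isSolvable_of_ker_le_range (srad G).subtype (QuotientGroup.mk' (srad G))
  rw [QuotientGroup.ker_mk', Subgroup.range_subtype]

/-- the layer -/
theorem exists_K (hna : ¬ Group.IsSolvable G) : ∃ K : Subgroup G, K.Normal ∧ K ⊔ srad G = ⊤ ∧ ⁅K, K⁆ = K ∧
    ∀ N : Subgroup G, N.Normal → N ⊔ srad G = ⊤ → K ≤ N := by
  obtain ⟨K, ⟨hK1, hK2⟩, hmin⟩ := Set.exists_min_image {N : Subgroup G | N.Normal ∧ N ⊔ srad G = ⊤} (fun N => Nat.card N)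
    (Set.toFinite _) ⟨⊤, inferInstance, by simp⟩
  haveI := hK1
  have key : ∀ N : Subgroup G, N.Normal → N ⊔ srad G = ⊤ → K ≤ N := by
    intro N hN1 hN2
    haveI := hN1
    have h1 := comm_sup hna K N hK2 hN2
    have h2 := hmin ⁅K, N⁆ ⟨inferInstance, h1⟩
    have h3 : ⁅K, N⁆ ≤ K := commutator_le_left K N
    have h4 := eq_of_le_of_card_ge h3 h2
    rw [← h4]; exact commutator_le_right K N
  refine ⟨K, hK1, hK2, ?_, key⟩
  apply le_antisymm (commutator_le_left K K)
  exact key _ inferInstance (comm_sup hna K K hK2 hK2)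

theorem K_comm (hN : HN G) (h2 : 2 ∣ Nat.card (G ⧸ srad G)) (h3 : 3 ∣ Nat.card (G ⧸ srad G)) {K : Subgroup G}
    (hK : ∀ N : Subgroup G, N.Normal → N ⊔ srad G = ⊤ → K ≤ N) : ∀ k ∈ K, ∀ r ∈ srad G, k * r = r * k := by
  have hL : ∀ p : ℕ, p.Prime → p ∣ Nat.card (G ⧸ srad G) → K ≤ LL p G := by
    intro p hp hd
    haveI := LL_normal (G := G) p
    apply hK _ inferInstance
    apply sup_eq_top
    intro hle
    obtain ⟨x, hx, hx2⟩ := exists_pel (srad G) hp hd
    exact hx (hle (subset_closure ⟨hx, hx2⟩))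
  intro k hk r hr
  have h4 : r ∈ centralizer (K : Set G) := by
    apply H3.LocalNPC.mem_of_prime_powers (orderOf r) r rfl (orderOf_pos r)
    intro m q j hq hj _
    rw [mem_centralizer_iff]
    intro z hz
    have hrm : r ^ m ∈ srad G := pow_mem hr m
    have hrq : (r ^ m) ^ q ^ j = 1 := by rw [← hj, pow_orderOf_eq_one]
    by_cases hq2 : q = 2
    · subst hq2
      have := LL_comm hN Nat.prime_three hq (by norm_num) hrq hrm (hL 3 Nat.prime_three h3 hz)
      exact mem_centralizer_singleton_iff.1 this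
    · have := LL_comm hN Nat.prime_two hq (Ne.symm hq2) hrq hrm (hL 2 Nat.prime_two h2 hz)
      exact mem_centralizer_singleton_iff.1 this
  exact mem_centralizer_iff.1 h4 k hk

end simple

end H68.NormMaxL
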