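import Mathlib.LinearAlgebra.Matrix.SpecialLinearGroup
import Mathlib.LinearAlgebra.Matrix.Adjugate
import Mathlib.Data.ZMod.Basic
import Mathlib.Tactic

/-!
# Some elements of `SL(2, 13)`
-/

set_option autoImplicit false
set_option linter.all false

namespace H68.NormMaxN
open Matrix

abbrev E := Matrix.SpecialLinearGroup (Fin 2) (ZMod 13)

def mk (a b c d : ZMod 13) (h : a * d - b * c = 1) : E := ⟨!![a, b; c, d], by rw [Matrix.det_fin_two_of]; exact h⟩

theorem mk_mul {a b c d a' b' c' d' : ZMod 13} {h : a * d - b * c = 1} {h' : a' * d' - b' * c' = 1} :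
    mk a b c d h * mk a' b' c' d' h' = mk (a * a' + b * c') (a * b' + b * d') (c * a' + d * c') (c * b' + d * d') (by
      linear_combination (a' * d' - b' * c') * h + h') := by
  apply Subtype.ext
  change !![a, b; c, d] * !![a', b'; c', d'] = _
  rw [Matrix.mul_fin_two]; rfl

theorem mk_inv {a b c d : ZMod 13} {h : a * d - b * c = 1} :
    (mk a b c d h)⁻¹ = mk d (-b) (-c) a (by linear_combination h) := by
  apply Subtype.ext
  rw [Matrix.SpecialLinearGroup.coe_inv]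
  change Matrix.adjugate !![a, b; c, d] = _
  rw [Matrix.adjugate_fin_two_of]; rfl

theorem mk_eq {a b c d a' b' c' d' : ZMod 13} {h : a * d - b * c = 1} {h' : a' * d' - b' * c' = 1}
    (h1 : a = a') (h2 : b = b') (h3 : c = c') (h4 : d = d') : mk a b c d h = mk a' b' c' d' h' := by
  subst h1 h2 h3 h4; rfl

theorem one_eq : (1 : E) = mk 1 0 0 1 (by ring) := by
  apply Subtype.ext
  change (1 : Matrix (Fin 2) (Fin 2) (ZMod 13)) = !![1, 0; 0, 1]
  exact Matrix.one_fin_two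

theorem neg_eq {a b c d : ZMod 13} {h : a * d - b * c = 1} : -(mk a b c d h) = mk (-a) (-b) (-c) (-d) (by linear_combination h) := by
  apply Subtype.ext
  rw [Matrix.SpecialLinearGroup.coe_neg]
  change - !![a, b; c, d] = !![-a, -b; -c, -d]
  simp

theorem mk_ne_one {a b c d : ZMod 13} {h : a * d - b * c = 1} (h1 : a ≠ 1) : mk a b c d h ≠ 1 := by
  intro he
  apply h1
  have := congrArg (fun z : E => (z : Matrix (Fin 2) (Fin 2) (ZMod 13)) 0 0) he
  simpa [mk] using this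

theorem mk_ne_one' {a b c d : ZMod 13} {h : a * d - b * c = 1} (h1 : b ≠ 0) : mk a b c d h ≠ 1 := by
  intro he
  apply h1
  have := congrArg (fun z : E => (z : Matrix (Fin 2) (Fin 2) (ZMod 13)) 0 1) he
  simpa [mk] using this

def x3 : E := mk 3 0 0 9 (by decide)
def k3 : E := mk 0 1 (-1) 0 (by decide)
def x7 : E := mk 0 (-1) 1 7 (by decide)
def k7 : E := mk 0 5 5 0 (by decide)
def x13 : E := mk 1 1 0 1 (by decide)
def k13 : E := mk 5 0 0 8 (by decide)
def ea : E := mk 5 0 0 8 (by decide)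
def eb : E := mk 0 1 (-1) 0 (by decide)
def ec : E := mk 3 3 2 11 (by decide)

theorem elt3 : x3 ^ 3 = 1 ∧ x3 ≠ 1 ∧ k3 * x3 * k3⁻¹ = x3⁻¹ := by
  refine ⟨?_, mk_ne_one (by decide), ?_⟩
  · rw [pow_succ, pow_succ, pow_one, one_eq, x3, mk_mul, mk_mul]
    apply mk_eq <;> decide
  · rw [x3, k3, mk_inv, mk_inv, mk_mul, mk_mul]
    apply mk_eq <;> decide

theorem elt7 : x7 ^ 7 = 1 ∧ x7 ≠ 1 ∧ k7 * x7 * k7⁻¹ = x7⁻¹ := by
  refine ⟨?_, mk_ne_one (by decide), ?_⟩
  · rw [pow_succ, pow_succ, pow_succ, pow_succ, pow_succ, pow_succ, pow_one, one_eq, x7, mk_mul, mk_mul, mk_mul, mk_mul, mk_mul, mk_mul]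
    apply mk_eq <;> decide
  · rw [x7, k7, mk_inv, mk_inv, mk_mul, mk_mul]
    apply mk_eq <;> decide

theorem pow13 (n : ℕ) : x13 ^ n = mk 1 (n : ZMod 13) 0 1 (by ring) := by
  induction n with
  | zero => rw [pow_zero, one_eq]; apply mk_eq <;> simp
  | succ n ih =>
    rw [pow_succ, ih, x13, mk_mul]
    apply mk_eq
    · ring
    · push_cast; ring
    · ring
    · ring

theorem elt13 : x13 ^ 13 = 1 ∧ x13 ≠ 1 ∧ k13 * x13 * k13⁻¹ = x13⁻¹ := by
  refine ⟨?_, mk_ne_one' (by decide), ?_⟩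
  · rw [pow13, one_eq]
    apply mk_eq rfl _ rfl rfl
    decide
  · rw [x13, k13, mk_inv, mk_inv, mk_mul, mk_mul]
    apply mk_eq <;> decide

theorem exists_elt (p : ℕ) (hp : p = 3 ∨ p = 7 ∨ p = 13) : ∃ x k : E, x ^ p = 1 ∧ x ≠ 1 ∧ k * x * k⁻¹ = x⁻¹ := by
  rcases hp with rfl | rfl | rfl
  · exact ⟨x3, k3, elt3⟩
  · exact ⟨x7, k7, elt7⟩
  · exact ⟨x13, k13, elt13⟩

theorem quat : ∃ a b c : E, a * a = -1 ∧ b * b = -1 ∧ c * a * c⁻¹ = b ∧ c * b * c⁻¹ = a * b ∧ b * a = - (a * b) := by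
  refine ⟨ea, eb, ec, ?_, ?_, ?_, ?_, ?_⟩
  · rw [ea, mk_mul, one_eq, neg_eq]
    apply mk_eq <;> decide
  · rw [eb, mk_mul, one_eq, neg_eq]
    apply mk_eq <;> decide
  · rw [ea, eb, ec, mk_inv, mk_mul, mk_mul]
    apply mk_eq <;> decide
  · rw [ea, eb, ec, mk_inv, mk_mul, mk_mul, mk_mul]
    apply mk_eq <;> decide
  · rw [ea, eb, mk_mul, mk_mul, neg_eq]
    apply mk_eq <;> decide

end H68.NormMaxN
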