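import Mathlib.GroupTheory.SchurZassenhaus
import Cfsg.Prelude.Def_OddOrderLocal
import Cfsg.Prelude.Def_Transfer

/-! If `G` has a normal `r`-complement with abelian Sylow `r`-subgroups for every `r ∈ π`, then it has a normal
`π`-complement and an abelian Hall `π`-subgroup. -/

set_option autoImplicit false

namespace H68.PiComplement

variable {G : Type*} [Group G] [Finite G]

/-- from normal complements for each `r` in `π` -/
theorem exists_of_forall (π : Finset ℕ) (hπ : ∀ r ∈ π, r.Prime)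
    (h : ∀ r ∈ π, ∃ N : Subgroup G, N.Normal ∧ ¬ r ∣ Nat.card N ∧ (∃ k, N.index = r ^ k) ∧
      ∀ a b : G, a * b * a⁻¹ * b⁻¹ ∈ N) :
    ∃ N : Subgroup G, N.Normal ∧ (∀ r : ℕ, r.Prime → r ∣ Nat.card ↥N → r ∉ π) ∧ (∀ r : ℕ, r.Prime → r ∣ N.index → r ∈ π) ∧
      ∀ a b : G, a * b * a⁻¹ * b⁻¹ ∈ N := by
  classical
  choose! N hN hcard hind hcomm using h
  let M : Subgroup G := ⨅ r ∈ π, N r
  have hMle : ∀ r ∈ π, M ≤ N r := fun r hr => iInf₂_le r hr
  have hMn : M.Normal := by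
    constructor
    intro m hm g
    rw [Subgroup.mem_iInf] at hm ⊢
    intro r
    rw [Subgroup.mem_iInf]
    intro hr
    exact (hN r hr).conj_mem m ((Subgroup.mem_iInf.1 (hm r)) hr) g
  refine ⟨M, hMn, ?_, ?_, ?_⟩
  · intro r hr hd hrπ
    exact hcard r hrπ (hd.trans (Subgroup.card_dvd_of_le (hMle r hrπ)))
  · intro q hq hqd
    -- every g ^ (∏ index) ∈ M
    have h1 : ∀ g : G, g ^ (∏ r ∈ π, (N r).index) ∈ M := by
      intro g
      rw [Subgroup.mem_iInf]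
      intro r
      rw [Subgroup.mem_iInf]
      intro hr
      have := hN r hr
      obtain ⟨c, hc⟩ := Finset.dvd_prod_of_mem (fun r => (N r).index) hr
      have h2 : ∏ r ∈ π, (N r).index = (N r).index * c := hc
      rw [h2, pow_mul]
      exact pow_mem ((N r).pow_index_mem g) c
    have : Fact q.Prime := ⟨hq⟩
    have h3 : q ∣ Nat.card (G ⧸ M) := by rwa [Subgroup.index] at hqd
    obtain ⟨x, hx⟩ := exists_prime_orderOf_dvd_card' (G := G ⧸ M) q h3
    obtain ⟨g, rfl⟩ := QuotientGroup.mk_surjective x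
    have h4 : ((g : G ⧸ M)) ^ (∏ r ∈ π, (N r).index) = 1 := by
      rw [← QuotientGroup.mk_pow, QuotientGroup.eq_one_iff]
      exact h1 g
    have h5 := orderOf_dvd_of_pow_eq_one h4
    rw [hx, Prime.dvd_finset_prod_iff hq.prime] at h5
    obtain ⟨r, hr, hd⟩ := h5
    obtain ⟨k, hk⟩ := hind r hr
    rw [hk] at hd
    have := (Nat.prime_dvd_prime_iff_eq hq (hπ r hr)).1 (hq.dvd_of_dvd_pow hd)
    rwa [this]
  · intro a b
    rw [Subgroup.mem_iInf]
    intro r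
    rw [Subgroup.mem_iInf]
    intro hr
    exact hcomm r hr a b

theorem of_hasNormalPComplement {r : ℕ} [Fact r.Prime] (h : Cfsg.HasNormalPComplement r G)
    (hab : ∀ P : Sylow r G, IsMulCommutative ↥(P : Subgroup G)) :
    ∃ N : Subgroup G, N.Normal ∧ ¬ r ∣ Nat.card N ∧ (∃ k, N.index = r ^ k) ∧
      ∀ a b : G, a * b * a⁻¹ * b⁻¹ ∈ N := by
  obtain ⟨P, N, hN, hc⟩ := h
  refine ⟨N, hN, ?_, ?_, ?_⟩
  · rw [← hc.index_eq_card]; exact P.not_dvd_index
  · obtain ⟨k, hk⟩ := IsPGroup.iff_card.1 P.2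
    exact ⟨k, by rw [← hk, hc.symm.index_eq_card]⟩
  · intro a b
    obtain ⟨⟨n, q⟩, hnq⟩ := hc.2 a
    obtain ⟨⟨m, s⟩, hms⟩ := hc.2 b
    have h1 : (n : G) * (q : G) = a := hnq
    have h2 : (m : G) * (s : G) = b := hms
    rw [← QuotientGroup.eq_one_iff (N := N)]
    have h3 : ((n : G) : G ⧸ N) = 1 := (QuotientGroup.eq_one_iff _).2 n.2
    have h4 : ((m : G) : G ⧸ N) = 1 := (QuotientGroup.eq_one_iff _).2 m.2
    have h5 : (q : G) * (s : G) = s * q := congrArg Subtype.val ((hab P).is_comm.comm q s)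
    have h6 : ((a : G) : G ⧸ N) = ((q : G) : G ⧸ N) := by rw [← h1, QuotientGroup.mk_mul, h3, one_mul]
    have h7 : ((b : G) : G ⧸ N) = ((s : G) : G ⧸ N) := by rw [← h2, QuotientGroup.mk_mul, h4, one_mul]
    rw [QuotientGroup.mk_mul, QuotientGroup.mk_mul, QuotientGroup.mk_mul, QuotientGroup.mk_inv, QuotientGroup.mk_inv, h6, h7,
      ← QuotientGroup.mk_mul, h5, QuotientGroup.mk_mul]
    group

/-- Schur–Zassenhaus for an abelian quotient. -/
theorem exists_hall (π : Set ℕ) (N : Subgroup G) [N.Normal] (h1 : ∀ r : ℕ, r.Prime → r ∣ Nat.card ↥N → r ∉ π)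
    (h2 : ∀ r : ℕ, r.Prime → r ∣ N.index → r ∈ π) (hc : ∀ a b : G, a * b * a⁻¹ * b⁻¹ ∈ N) :
    ∃ H : Subgroup G, Cfsg.IsPiHall π H ∧ IsMulCommutative ↥H := by
  have hcop : Nat.Coprime (Nat.card N) N.index := by
    rw [Nat.coprime_iff_gcd_eq_one]
    by_contra hne
    obtain ⟨q, hq, hd⟩ := Nat.exists_prime_and_dvd hne
    exact h1 q hq (hd.trans (Nat.gcd_dvd_left _ _)) (h2 q hq (hd.trans (Nat.gcd_dvd_right _ _)))
  obtain ⟨H, hH⟩ := Subgroup.exists_right_complement'_of_coprime hcop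
  refine ⟨H, ⟨?_, ?_⟩, ?_⟩
  · intro p hp hd
    rw [← hH.symm.index_eq_card] at hd
    exact h2 p hp hd
  · intro p hp hpπ hd
    rw [hH.index_eq_card] at hd
    exact h1 p hp hd hpπ
  · refine ⟨⟨fun a b => Subtype.ext ?_⟩⟩
    have h3 : (a : G) * b * (a : G)⁻¹ * (b : G)⁻¹ ∈ N ⊓ H :=
      Subgroup.mem_inf.2 ⟨hc a b, mul_mem (mul_mem (mul_mem a.2 b.2) (inv_mem a.2)) (inv_mem b.2)⟩
    rw [hH.disjoint.eq_bot, Subgroup.mem_bot, mul_inv_eq_one, mul_inv_eq_iff_eq_mul] at h3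
    exact h3

end H68.PiComplement
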