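import Cfsg.Agent.Lib.H68.TwoClass
import Cfsg.Agent.Lib.H68.PiComplement
import Cfsg.Agent.Lib.H68.PiClasses

/-! Classes of `r`-elements in groups of odd order, and coprime class counting. -/

set_option autoImplicit false

namespace H68.OddClass

open H68.Isolated H68.TwoClass H68.PiClasses MulAction
open scoped Pointwise

variable {G : Type*} [Group G] [Finite G] {p : ℕ} [Fact p.Prime]

/-- an involutory action by an element of odd order is trivial -/
theorem fix_of_sq {x y : G} (hodd : Odd (orderOf x)) (h : x ^ 2 * y * (x ^ 2)⁻¹ = y) : x * y * x⁻¹ = y := by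
  obtain ⟨m, hm⟩ := hodd
  have h1 : Commute (x ^ 2) y := by
    rw [mul_inv_eq_iff_eq_mul] at h; exact h
  have h2 : Commute ((x ^ 2) ^ (m + 1)) y := h1.pow_left _
  have h3 : (x ^ 2) ^ (m + 1) = x := by
    rw [← pow_mul]
    have : 2 * (m + 1) = orderOf x + 1 := by omega
    rw [this, pow_succ, pow_orderOf_eq_one, one_mul]
  rw [h3] at h2
  rw [mul_inv_eq_iff_eq_mul]
  exact h2

theorem odd_orderOf (ho : Odd (Nat.card G)) (x : G) : Odd (orderOf x) := ho.of_dvd_nat (orderOf_dvd_natCard x)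

/-- in a group of odd order a nonisolated element of `P` has two further conjugates in `P` -/
theorem exists_three (ho : Odd (Nat.card G)) (P : Sylow p G) {y : G} (hy : y ∈ P) (hyn : ¬ IsIso P y) :
    ∃ g h : G, g * y * g⁻¹ ∈ P ∧ h * y * h⁻¹ ∈ P ∧ g * y * g⁻¹ ≠ y ∧ h * y * h⁻¹ ≠ y ∧ g * y * g⁻¹ ≠ h * y * h⁻¹ := by
  have hex : ∃ g : G, g * y * g⁻¹ ∈ P ∧ g * y * g⁻¹ ≠ y := by
    by_contra hcon
    push Not at hcon
    exact hyn ⟨hy, hcon⟩
  obtain ⟨g, hg, hgy⟩ := hex
  by_contra hcon
  push Not at hcon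
  have hcon' : ∀ h : G, h * y * h⁻¹ ∈ P → h * y * h⁻¹ ≠ y → g * y * g⁻¹ = h * y * h⁻¹ :=
    fun h h1 h2 => hcon g h hg h1 hgy h2
  set y' := g * y * g⁻¹ with hy'
  -- swapping elements do not exist
  have hsw : ∀ h : G, h * y * h⁻¹ = y' → h * y' * h⁻¹ = y → False := by
    intro h h1 h2
    apply hgy
    rw [← h1]
    apply fix_of_sq (odd_orderOf ho h)
    calc h ^ 2 * y * (h ^ 2)⁻¹ = h * (h * y * h⁻¹) * h⁻¹ := by rw [pow_two]; group
      _ = y := by rw [h1, h2]
  -- P centralizes y and y'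
  have hPy : ∀ x ∈ P, x * y * x⁻¹ = y := by
    intro x hx
    by_contra hne
    have h1 : x * y * x⁻¹ = y' := (hcon' x (mul_mem (mul_mem hx hy) (inv_mem hx)) hne).symm
    apply hsw x h1
    by_contra h2
    have h3 : x * y' * x⁻¹ = y' := by
      have h4 : (x * g) * y * (x * g)⁻¹ = x * y' * x⁻¹ := by rw [hy']; group
      rw [← h4]
      symm
      apply hcon'
      · rw [h4]; exact mul_mem (mul_mem hx hg) (inv_mem hx)
      · rw [h4]; exact h2
    apply hne
    have h4 : y' = x⁻¹ * y' * x := by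
      have : x⁻¹ * (x * y' * x⁻¹) * x = x⁻¹ * y' * x := by rw [h3]
      calc y' = x⁻¹ * (x * y' * x⁻¹) * x := by group
        _ = _ := this
    have h5 : y = x⁻¹ * y' * x := by rw [← h1]; group
    rw [h1, h5]
    exact h4
  have hPy' : ∀ x ∈ P, x * y' * x⁻¹ = y' := by
    intro x hx
    by_contra hne
    have h4 : (x * g) * y * (x * g)⁻¹ = x * y' * x⁻¹ := by rw [hy']; group
    have h2 : x * y' * x⁻¹ = y := by
      by_contra h3
      apply hne
      rw [← h4]
      symm
      apply hcon'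
      · rw [h4]; exact mul_mem (mul_mem hx hg) (inv_mem hx)
      · rw [h4]; exact h3
    have h5 := hPy x hx
    have : y' = y := by
      calc y' = x⁻¹ * (x * y' * x⁻¹) * x := by group
        _ = x⁻¹ * (x * y * x⁻¹) * x := by rw [h2, h5]
        _ = y := by group
    exact hgy this
  -- adjust g to normalize P
  set C : Subgroup G := Subgroup.centralizer ({y'} : Set G) with hC
  have hPC : (P : Subgroup G) ≤ C := by
    intro x hx
    rw [hC, Subgroup.mem_centralizer_singleton_iff]
    have := hPy' x hx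
    rw [mul_inv_eq_iff_eq_mul] at this
    exact this
  have hgPC : ((g • P : Sylow p G) : Subgroup G) ≤ C := by
    intro x hx
    have hx' : g⁻¹ * x * g ∈ P := mem_smul_sylow.1 hx
    have h1 := hPy _ hx'
    rw [hC, Subgroup.mem_centralizer_singleton_iff]
    have h2 : g * ((g⁻¹ * x * g) * y * (g⁻¹ * x * g)⁻¹) * g⁻¹ = y' := by rw [h1]
    have h3 : x * y' * x⁻¹ = y' := by
      calc x * y' * x⁻¹ = g * ((g⁻¹ * x * g) * y * (g⁻¹ * x * g)⁻¹) * g⁻¹ := by rw [hy']; group
        _ = y' := h2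
    rw [mul_inv_eq_iff_eq_mul] at h3
    exact h3
  obtain ⟨c, hcC, hc⟩ := exists_conj_le_of_le (g • P) C hgPC (P : Subgroup G) hPC P.2
  rw [hC, Subgroup.mem_centralizer_singleton_iff] at hcC
  -- x = c * g
  have h1 : (c * g) * y * (c * g)⁻¹ = y' := by
    calc (c * g) * y * (c * g)⁻¹ = c * y' * c⁻¹ := by rw [hy']; group
      _ = y' * c * c⁻¹ := by rw [hcC]
      _ = y' := by group
  have h2 : (c * g) * y' * (c * g)⁻¹ ∈ P := by
    have hle : (P : Subgroup G) ≤ (((c * g) • P : Sylow p G) : Subgroup G) := by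
      intro x hx
      have h3 : c⁻¹ * x * c ∈ g • P := hc x hx
      rw [mem_smul_sylow] at h3
      show x ∈ (c * g) • P
      rw [mem_smul_sylow]
      have e : (c * g)⁻¹ * x * (c * g) = g⁻¹ * (c⁻¹ * x * c) * g := by group
      rw [e]; exact h3
    have heq : P = (c * g) • P := by
      apply Sylow.ext
      apply Subgroup.eq_of_le_of_card_ge hle
      exact (H2.Frobenius.card_sylow_eq _ _).le
    have h4 : (c * g) * y' * (c * g)⁻¹ ∈ (c * g) • P := by
      rw [mem_smul_sylow]
      have e : (c * g)⁻¹ * ((c * g) * y' * (c * g)⁻¹) * (c * g) = y' := by group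
      rw [e]; exact hg
    rwa [← heq] at h4
  have h3 : (c * g) * y' * (c * g)⁻¹ = y := by
    by_contra h4
    have h5 : (c * g * g) * y * (c * g * g)⁻¹ = (c * g) * y' * (c * g)⁻¹ := by rw [hy']; group
    have h6 := hcon' (c * g * g) (by rw [h5]; exact h2) (by rw [h5]; exact h4)
    rw [h5] at h6
    -- then y' = y
    apply hgy
    have h7 : (c * g) * y * (c * g)⁻¹ = (c * g) * y' * (c * g)⁻¹ := by rw [h1, ← h6]
    have h8 : y = y' := by
      calc y = (c * g)⁻¹ * ((c * g) * y * (c * g)⁻¹) * (c * g) := by group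
        _ = (c * g)⁻¹ * ((c * g) * y' * (c * g)⁻¹) * (c * g) := by rw [h7]
        _ = y' := by group
    exact h8.symm
  exact hsw (c * g) h1 h3

/-- `3 k_p(G) ≤ |P| + 2 |Z|` in groups of odd order -/
theorem three_mul_card_le (ho : Odd (Nat.card G)) (P : Sylow p G) :
    3 * Nat.card (PClass p G) ≤ Nat.card (P : Subgroup G) + 2 * Nat.card (isoSubgroup P) := by
  classical
  have := Fintype.ofFinite (P : Subgroup G)
  have := Fintype.ofFinite (isoSubgroup P)
  have hfin : Finite (PClass p G) := Finite.of_surjective _ (toClass_surjective P)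
  have := Fintype.ofFinite (PClass p G)
  let A : Finset (PClass p G) := Finset.univ.image (fun z : isoSubgroup P => toClass P ⟨z, isoSubgroup_le P z.2⟩)
  have hA : A.card ≤ Fintype.card (isoSubgroup P) := Finset.card_image_le
  let T : Finset (P : Subgroup G) := Finset.univ.image (fun z : isoSubgroup P => ⟨z, isoSubgroup_le P z.2⟩)
  have hT : T.card = Fintype.card (isoSubgroup P) := by
    rw [Finset.card_image_of_injective, Finset.card_univ]
    intro a b hab
    have hab' : (a : G) = b := congrArg (fun t : (P : Subgroup G) => (t : G)) hab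
    exact Subtype.ext hab'
  let s : Finset (P : Subgroup G) := Finset.univ.filter (fun y => toClass P y ∉ A)
  have hsT : s.card + T.card ≤ Fintype.card (P : Subgroup G) := by
    rw [← Finset.card_union_of_disjoint, ← Finset.card_univ]
    · exact Finset.card_le_card (Finset.subset_univ _)
    · rw [Finset.disjoint_left]
      intro y hy hyT
      apply (Finset.mem_filter.1 hy).2
      obtain ⟨z, -, rfl⟩ := Finset.mem_image.1 hyT
      exact Finset.mem_image.2 ⟨z, Finset.mem_univ _, rfl⟩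
  have hs : 3 * (Aᶜ).card ≤ s.card := by
    have h1 : ∀ y ∈ s, toClass P y ∈ Aᶜ := by
      intro y hy
      rw [Finset.mem_compl]
      exact (Finset.mem_filter.1 hy).2
    rw [Finset.card_eq_sum_card_fiberwise h1, mul_comm, ← smul_eq_mul]
    apply Finset.card_nsmul_le_sum
    intro c hc
    obtain ⟨y, rfl⟩ := toClass_surjective P c
    rw [Finset.mem_compl] at hc
    have hy : ¬ IsIso P y := by
      intro h2
      apply hc
      exact Finset.mem_image.2 ⟨⟨y, h2⟩, Finset.mem_univ _, rfl⟩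
    obtain ⟨g, h, hg, hh, hgy, hhy, hgh⟩ := exists_three ho P y.2 hy
    have hcl : toClass P ⟨g * y * g⁻¹, hg⟩ = toClass P y := by
      symm
      rw [toClass_eq_iff]
      exact ⟨g, rfl⟩
    have hcl' : toClass P ⟨h * y * h⁻¹, hh⟩ = toClass P y := by
      symm
      rw [toClass_eq_iff]
      exact ⟨h, rfl⟩
    have h3 : ({y, ⟨g * y * g⁻¹, hg⟩, ⟨h * y * h⁻¹, hh⟩} : Finset (P : Subgroup G)) ⊆
        s.filter (fun a => toClass P a = toClass P y) := by
      intro a ha
      rw [Finset.mem_insert, Finset.mem_insert, Finset.mem_singleton] at ha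
      rw [Finset.mem_filter, Finset.mem_filter]
      rcases ha with rfl | rfl | rfl
      · exact ⟨⟨Finset.mem_univ _, hc⟩, rfl⟩
      · refine ⟨⟨Finset.mem_univ _, ?_⟩, hcl⟩
        rw [hcl]; exact hc
      · refine ⟨⟨Finset.mem_univ _, ?_⟩, hcl'⟩
        rw [hcl']; exact hc
    have h4 : ({y, ⟨g * y * g⁻¹, hg⟩, ⟨h * y * h⁻¹, hh⟩} : Finset (P : Subgroup G)).card = 3 := by
      rw [Finset.card_eq_three]
      refine ⟨_, _, _, ?_, ?_, ?_, rfl⟩
      · intro h5; exact hgy (congrArg Subtype.val h5).symm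
      · intro h5; exact hhy (congrArg Subtype.val h5).symm
      · intro h5; exact hgh (congrArg Subtype.val h5)
    rw [← h4]
    exact Finset.card_le_card h3
  have hk : Fintype.card (PClass p G) ≤ A.card + (Aᶜ).card := by
    rw [← Finset.card_univ, ← Finset.union_compl A]
    exact Finset.card_union_le _ _
  rw [Nat.card_eq_fintype_card, Nat.card_eq_fintype_card, Nat.card_eq_fintype_card]
  omega

theorem index_cases (ho : Odd (Nat.card G)) (P : Sylow p G) (h : Nat.card (P : Subgroup G) < 2 * Nat.card (PClass p G)) :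
    isoSubgroup P = (P : Subgroup G) ∨ (p = 3 ∧ Nat.card (P : Subgroup G) = 3 * Nat.card (isoSubgroup P)) := by
  have h1 := three_mul_card_le ho P
  have h2 : Nat.card (P : Subgroup G) < 4 * Nat.card (isoSubgroup P) := by omega
  have hp : p.Prime := Fact.out
  obtain ⟨n, hn⟩ := IsPGroup.iff_card.1 P.2
  have hd : Nat.card (isoSubgroup P) ∣ p ^ n := hn ▸ Subgroup.card_dvd_of_le (isoSubgroup_le P)
  obtain ⟨m, hm, hm'⟩ := (Nat.dvd_prime_pow hp).1 hd
  rcases Nat.lt_or_ge m n with hlt | hge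
  · right
    obtain ⟨j, rfl⟩ : ∃ j, n = m + (j + 1) := ⟨n - m - 1, by omega⟩
    rw [hn, hm', pow_add] at h2
    have hpm : 0 < p ^ m := pow_pos hp.pos m
    have h3 : p ^ (j + 1) < 4 := by
      by_contra hcon
      push Not at hcon
      have := Nat.mul_le_mul_left (p ^ m) hcon
      omega
    have hodd : Odd (p ^ (j + 1)) := by
      apply ho.of_dvd_nat
      have h4 : p ^ (j + 1) ∣ Nat.card (P : Subgroup G) := by
        rw [hn, pow_add p m (j + 1)]; exact Dvd.intro_left (p ^ m) rfl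
      exact h4.trans (Subgroup.card_subgroup_dvd_card _)
    have hp2 := hp.two_le
    have h5 : p ≤ p ^ (j + 1) := by
      calc p = p ^ 1 := (pow_one p).symm
        _ ≤ p ^ (j + 1) := Nat.pow_le_pow_right hp.pos (by omega)
    have h6 : p ^ (j + 1) = 3 := by
      obtain ⟨q, hq⟩ := hodd
      omega
    have h7 : j = 0 := by
      by_contra hj
      have : p ^ 2 ≤ p ^ (j + 1) := Nat.pow_le_pow_right hp.pos (by omega)
      nlinarith
    subst h7
    rw [zero_add, pow_one] at h6
    refine ⟨h6, ?_⟩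
    rw [hn, hm', pow_add, zero_add, pow_one, h6, mul_comm]
  · left
    refine Subgroup.eq_of_le_of_card_ge (isoSubgroup_le P) ?_
    rw [hn, hm']
    exact Nat.pow_le_pow_right hp.pos hge

theorem hasNPC_odd (ho : Odd (Nat.card G)) (P : Sylow p G) (h : Nat.card (P : Subgroup G) < 2 * Nat.card (PClass p G)) :
    Cfsg.HasNormalPComplement p G := by
  apply H2.Frobenius.hasNPC_of_local
  intro D hD g hg hgo
  by_contra hgc
  obtain ⟨Q, hQ⟩ := hD.exists_le_sylow
  have hcQ := H2.Frobenius.card_sylow_eq P Q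
  rw [hcQ] at h
  -- adjust
  obtain ⟨x, hx1, hx2⟩ := exists_adjust Q D hQ g hg
  have hxD : ∀ d ∈ D, x * d * x⁻¹ ∈ D := by
    intro d hd
    rw [hx1 d hd]
    exact (Subgroup.mem_normalizer_iff.1 hg d).1 hd
  have hxk : ∀ (k : ℕ), ∀ d ∈ D, x ^ k * d * (x ^ k)⁻¹ = g ^ k * d * (g ^ k)⁻¹ ∧ x ^ k * d * (x ^ k)⁻¹ ∈ D := by
    intro k
    induction k with
    | zero => intro d hd; simpa using hd
    | succ k ih =>
      intro d hd
      obtain ⟨h1, h2⟩ := ih (x * d * x⁻¹) (hxD d hd)
      have e : x ^ (k + 1) * d * (x ^ (k + 1))⁻¹ = x ^ k * (x * d * x⁻¹) * (x ^ k)⁻¹ := by rw [pow_succ]; group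
      rw [e]
      refine ⟨?_, h2⟩
      rw [h1, hx1 d hd, pow_succ]; group
  set n := orderOf g with hn
  have hxn : ∀ d ∈ D, x ^ n * d * (x ^ n)⁻¹ = d := by
    intro d hd
    rw [(hxk n d hd).1, hn, pow_orderOf_eq_one]; group
  -- no coset moves
  have key : ∀ w ∈ D, IsIso Q (w⁻¹ * (x * w * x⁻¹)) := by
    intro w hwD
    rcases index_cases ho Q h with hZ | ⟨hp3, hcard⟩
    · have : w⁻¹ * (x * w * x⁻¹) ∈ isoSubgroup Q := by
        rw [hZ]
        exact mul_mem (inv_mem (hQ hwD)) (hQ (hxD w hwD))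
      exact this
    · by_contra hwn
      -- the quotient of order three
      set Z' := (isoSubgroup Q).subgroupOf (Q : Subgroup G) with hZ'
      have hZn : Z'.Normal := by
        constructor
        intro z hz a
        rw [hZ', Subgroup.mem_subgroupOf] at hz ⊢
        have h1 : IsIso Q z := hz
        have h2 := h1.comm a.2
        have h3 : ((a * z * a⁻¹ : (Q : Subgroup G)) : G) = z := by
          rw [Subgroup.coe_mul, Subgroup.coe_mul, Subgroup.coe_inv, h2]; group
        rw [h3]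
        exact hz
      have hc3 : Nat.card ((Q : Subgroup G) ⧸ Z') = 3 := by
        have h1 := Z'.card_mul_index
        have h2 : Nat.card Z' = Nat.card (isoSubgroup Q) :=
          Nat.card_congr (Subgroup.subgroupOfEquivOfLe (isoSubgroup_le Q)).toEquiv
        rw [h2, hcard] at h1
        have h3 : 0 < Nat.card (isoSubgroup Q) := Nat.card_pos
        rw [← Subgroup.index_eq_card]
        have : Nat.card (isoSubgroup Q) * Z'.index = Nat.card (isoSubgroup Q) * 3 := by rw [h1]; ring
        exact Nat.eq_of_mul_eq_mul_left h3 this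
      set a : (Q : Subgroup G) ⧸ Z' := QuotientGroup.mk ⟨w, hQ hwD⟩ with ha
      set b : (Q : Subgroup G) ⧸ Z' := QuotientGroup.mk ⟨x * w * x⁻¹, hQ (hxD w hwD)⟩ with hb
      have hab : b ≠ a := by
        intro h1
        apply hwn
        have h2 := QuotientGroup.eq.1 h1.symm
        exact h2
      have ha1 : a ≠ 1 := by
        intro h1
        rw [ha, QuotientGroup.eq_one_iff] at h1
        have h2 : IsIso Q w := h1
        apply hwn
        rw [hx2 w h2, inv_mul_cancel]
        exact IsIso.one Q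
      have hb1 : b ≠ 1 := by
        intro h1
        rw [hb, QuotientGroup.eq_one_iff] at h1
        have h2 : IsIso Q (x * w * x⁻¹) := h1
        have h3 := hx2 _ h2
        have h4 : x * w * x⁻¹ = w := by
          calc x * w * x⁻¹ = x⁻¹ * (x * (x * w * x⁻¹) * x⁻¹) * x := by group
            _ = x⁻¹ * (x * w * x⁻¹) * x := by rw [h3]
            _ = w := by group
        apply hwn
        rw [h4, inv_mul_cancel]
        exact IsIso.one Q
      have : Fact (Nat.Prime 3) := ⟨Nat.prime_three⟩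
      have hoa : orderOf a = 3 := orderOf_eq_prime (by rw [← hc3]; exact pow_card_eq_one') ha1
      have hbz : b ∈ Subgroup.zpowers a := mem_zpowers_of_prime_card hc3 ha1
      classical
      have hba : b = a ^ 2 := by
        rw [mem_zpowers_iff_mem_range_orderOf, hoa] at hbz
        obtain ⟨k, hk, hkb⟩ := Finset.mem_image.1 hbz
        rw [Finset.mem_range] at hk
        interval_cases k
        · rw [pow_zero] at hkb; exact absurd hkb.symm hb1
        · rw [pow_one] at hkb; exact absurd hkb.symm hab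
        · exact hkb.symm
      -- `x w x⁻¹ = w ^ 2 z`
      have hz : IsIso Q ((w ^ 2)⁻¹ * (x * w * x⁻¹)) := by
        have h1 : (QuotientGroup.mk (⟨w, hQ hwD⟩ ^ 2) : (Q : Subgroup G) ⧸ Z') = b := by
          rw [QuotientGroup.mk_pow, ← ha, hba]
        have h2 := QuotientGroup.eq.1 h1
        exact h2
      have hw3 : IsIso Q (w ^ 3) := by
        have h1 : (QuotientGroup.mk (⟨w, hQ hwD⟩ ^ 3) : (Q : Subgroup G) ⧸ Z') = 1 := by
          rw [QuotientGroup.mk_pow, ← ha, ← hc3]
          exact pow_card_eq_one'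
        rw [QuotientGroup.eq_one_iff] at h1
        exact h1
      set z := (w ^ 2)⁻¹ * (x * w * x⁻¹) with hzd
      have e1 : x * w * x⁻¹ = w ^ 2 * z := by rw [hzd]; group
      have hzw : Commute w z := hz.comm (hQ hwD)
      have e2 : x ^ 2 * w * (x ^ 2)⁻¹ = w * (w ^ 3 * z ^ 3) := by
        have e3 : x * z * x⁻¹ = z := hx2 z hz
        calc x ^ 2 * w * (x ^ 2)⁻¹ = x * (x * w * x⁻¹) * x⁻¹ := by rw [pow_two]; group
          _ = x * (w ^ 2 * z) * x⁻¹ := by rw [e1]
          _ = (x * w * x⁻¹) ^ 2 * (x * z * x⁻¹) := by rw [conj_pow]; group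
          _ = (w ^ 2 * z) ^ 2 * z := by rw [e1, e3]
          _ = (w ^ 2) ^ 2 * z ^ 2 * z := by rw [(hzw.pow_left 2).mul_pow]
          _ = w * (w ^ 3 * z ^ 3) := by group
      have h02 : IsIso Q (w⁻¹ * (x ^ 2 * w * (x ^ 2)⁻¹)) := by
        rw [e2, inv_mul_cancel_left]
        exact (isoSubgroup Q).mul_mem hw3 ((isoSubgroup Q).pow_mem hz 3)
      -- as before
      apply hwn
      set v := w⁻¹ * (x ^ 2 * w * (x ^ 2)⁻¹) with hv
      have h1 : x ^ 2 * w * (x ^ 2)⁻¹ = w * v := by rw [hv]; group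
      have hz2 : x ^ 2 * v * (x ^ 2)⁻¹ = v := by
        calc x ^ 2 * v * (x ^ 2)⁻¹ = x * (x * v * x⁻¹) * x⁻¹ := by rw [pow_two]; group
          _ = v := by rw [hx2 v h02, hx2 v h02]
      have h2 : ∀ k : ℕ, x ^ (2 * k) * w * (x ^ (2 * k))⁻¹ = w * v ^ k := by
        intro k
        induction k with
        | zero => simp
        | succ k ih =>
          have e : x ^ (2 * (k + 1)) * w * (x ^ (2 * (k + 1)))⁻¹ = x ^ 2 * (x ^ (2 * k) * w * (x ^ (2 * k))⁻¹) * (x ^ 2)⁻¹ := by
            have : x ^ (2 * (k + 1)) = x ^ 2 * x ^ (2 * k) := by rw [← pow_add]; congr 1; ring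
            rw [this]; group
          have hzk : x ^ 2 * v ^ k * (x ^ 2)⁻¹ = v ^ k := by
            rw [← conj_pow, hz2]
          rw [e, ih]
          calc x ^ 2 * (w * v ^ k) * (x ^ 2)⁻¹ = (x ^ 2 * w * (x ^ 2)⁻¹) * (x ^ 2 * v ^ k * (x ^ 2)⁻¹) := by group
            _ = w * v * v ^ k := by rw [h1, hzk]
            _ = w * v ^ (k + 1) := by rw [mul_assoc, ← pow_succ']
      have hodd : Odd n := odd_orderOf ho g
      obtain ⟨m, hm⟩ := hodd
      have h3 := h2 (m + 1)
      have h4 : x ^ (2 * (m + 1)) * w * (x ^ (2 * (m + 1)))⁻¹ = x * w * x⁻¹ := by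
        have e1 : 2 * (m + 1) = 1 + n := by omega
        rw [e1, pow_add, pow_one]
        calc x * x ^ n * w * (x * x ^ n)⁻¹ = x * (x ^ n * w * (x ^ n)⁻¹) * x⁻¹ := by group
          _ = x * w * x⁻¹ := by rw [hxn w hwD]
      rw [h4] at h3
      rw [h3, inv_mul_cancel_left]
      exact (isoSubgroup Q).pow_mem h02 (m + 1)
  apply hgc
  rw [Subgroup.mem_centralizer_iff]
  intro w hwD
  set z := w⁻¹ * (x * w * x⁻¹) with hz
  have hzi : IsIso Q z := key w hwD
  have h1 : x * w * x⁻¹ = w * z := by rw [hz]; group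
  have h2 : ∀ k : ℕ, x ^ k * w * (x ^ k)⁻¹ = w * z ^ k := by
    intro k
    induction k with
    | zero => simp
    | succ k ih =>
      have e : x ^ (k + 1) * w * (x ^ (k + 1))⁻¹ = x * (x ^ k * w * (x ^ k)⁻¹) * x⁻¹ := by rw [pow_succ']; group
      have hzk : x * z ^ k * x⁻¹ = z ^ k := by
        rw [← conj_pow, hx2 z hzi]
      rw [e, ih]
      calc x * (w * z ^ k) * x⁻¹ = (x * w * x⁻¹) * (x * z ^ k * x⁻¹) := by group
        _ = w * z * z ^ k := by rw [h1, hzk]
        _ = w * z ^ (k + 1) := by rw [mul_assoc, ← pow_succ']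
  have h3 := h2 n
  rw [hxn w hwD] at h3
  have h4 : z ^ n = 1 := by
    have : w * 1 = w * z ^ n := by rw [mul_one]; exact h3
    exact (mul_left_cancel this).symm
  obtain ⟨j, hj⟩ := (IsPGroup.iff_orderOf.1 Q.2) ⟨z, hzi.1⟩
  have hj' : orderOf z = p ^ j := by rw [← hj]; exact (Subgroup.orderOf_coe ⟨z, hzi.1⟩)
  have h5 : orderOf z = 1 := by
    apply Nat.eq_one_of_dvd_coprimes (k := orderOf z) (hgo.pow_right j) (orderOf_dvd_of_pow_eq_one h4)
    rw [hj']
  rw [orderOf_eq_one_iff] at h5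
  rw [h5, mul_one, hx1 w hwD] at h1
  rw [mul_inv_eq_iff_eq_mul] at h1
  exact h1.symm

theorem abelian_odd (ho : Odd (Nat.card G)) (P : Sylow p G) (h : Nat.card (P : Subgroup G) < 2 * Nat.card (PClass p G)) :
    IsMulCommutative (P : Subgroup G) := by
  rcases index_cases ho P h with hZ | ⟨hp3, hcard⟩
  · refine ⟨⟨fun a b => Subtype.ext ?_⟩⟩
    have hb : (b : G) ∈ isoSubgroup P := by rw [hZ]; exact b.2
    exact IsIso.comm hb a.2
  · set Z' := (isoSubgroup P).subgroupOf (P : Subgroup G) with hZ'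
    have hZc : Z' ≤ Subgroup.center (P : Subgroup G) := by
      intro z hz
      rw [Subgroup.mem_center_iff]
      intro a
      have h1 : IsIso P z := hz
      exact Subtype.ext (h1.comm a.2)
    have hZn : Z'.Normal := by
      constructor
      intro z hz a
      have h1 := Subgroup.mem_center_iff.1 (hZc hz) a
      rw [h1, mul_assoc, mul_inv_cancel, mul_one]
      exact hz
    have hc3 : Nat.card ((P : Subgroup G) ⧸ Z') = 3 := by
      have h1 := Z'.card_mul_index
      have h2 : Nat.card Z' = Nat.card (isoSubgroup P) :=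
        Nat.card_congr (Subgroup.subgroupOfEquivOfLe (isoSubgroup_le P)).toEquiv
      rw [h2, hcard] at h1
      have h3 : 0 < Nat.card (isoSubgroup P) := Nat.card_pos
      rw [← Subgroup.index_eq_card]
      have : Nat.card (isoSubgroup P) * Z'.index = Nat.card (isoSubgroup P) * 3 := by rw [h1]; ring
      exact Nat.eq_of_mul_eq_mul_left h3 this
    have : Fact (Nat.Prime 3) := ⟨Nat.prime_three⟩
    have hcyc : IsCyclic ((P : Subgroup G) ⧸ Z') := isCyclic_of_prime_card hc3
    exact MonoidHom.isMulCommutative_of_isCyclic_of_ker_le_center (QuotientGroup.mk' Z')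
      (by rw [QuotientGroup.ker_mk']; exact hZc)

/-- coprime conjugacy: elements of the normal subgroup `K` commuting with the `p`-element `x`. -/
theorem conj_of_coprime (K : Subgroup G) [K.Normal] (hK : ¬ p ∣ Nat.card K) {x y y' k : G}
    (hx : ∃ j, orderOf x = p ^ j) (hxy : x * y = y * x) (hxy' : x * y' = y' * x) (hk : k ∈ K)
    (h : k * y * k⁻¹ = y') : ∃ c ∈ K, x * c = c * x ∧ c * y * c⁻¹ = y' := by
  classical
  let T := {c : G // c ∈ K ∧ c * y * c⁻¹ = y'}
  let act : MulAction (Subgroup.zpowers x) T :=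
    { smul := fun g c => ⟨(g : G) * c.1 * (g : G)⁻¹, by
        refine ⟨(inferInstance : K.Normal).conj_mem _ c.2.1 _, ?_⟩
        obtain ⟨g, hg⟩ := g
        obtain ⟨c, hc1, hc2⟩ := c
        obtain ⟨i, rfl⟩ := Subgroup.mem_zpowers_iff.1 hg
        have c1 : Commute (x ^ i) y := (show Commute x y from hxy).zpow_left i
        have c2 : Commute (x ^ i) y' := (show Commute x y' from hxy').zpow_left i
        show (x ^ i * c * (x ^ i)⁻¹) * y * (x ^ i * c * (x ^ i)⁻¹)⁻¹ = y'
        calc (x ^ i * c * (x ^ i)⁻¹) * y * (x ^ i * c * (x ^ i)⁻¹)⁻¹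
            = x ^ i * c * ((x ^ i)⁻¹ * (y * x ^ i)) * c⁻¹ * (x ^ i)⁻¹ := by group
          _ = x ^ i * c * ((x ^ i)⁻¹ * (x ^ i * y)) * c⁻¹ * (x ^ i)⁻¹ := by rw [c1.eq]
          _ = x ^ i * (c * y * c⁻¹) * (x ^ i)⁻¹ := by group
          _ = x ^ i * y' * (x ^ i)⁻¹ := by rw [hc2]
          _ = y' * x ^ i * (x ^ i)⁻¹ := by rw [c2.eq]
          _ = y' := by group⟩
      one_smul := fun c => Subtype.ext (by
        show ((1 : Subgroup.zpowers x) : G) * c.1 * ((1 : Subgroup.zpowers x) : G)⁻¹ = c.1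
        simp)
      mul_smul := fun g h c => Subtype.ext (by
        show ((g * h : Subgroup.zpowers x) : G) * c.1 * ((g * h : Subgroup.zpowers x) : G)⁻¹ =
          (g : G) * ((h : G) * c.1 * (h : G)⁻¹) * (g : G)⁻¹
        rw [Subgroup.coe_mul]; group) }
  have hpg : IsPGroup p (Subgroup.zpowers x) := by
    obtain ⟨j, hj⟩ := hx
    exact IsPGroup.of_card (n := j) (by rw [Nat.card_zpowers, hj])
  have hcard : ¬ p ∣ Nat.card T := by
    have e : T ≃ (K ⊓ Subgroup.centralizer ({y} : Set G) : Subgroup G) :=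
      { toFun := fun c => ⟨k⁻¹ * c.1, by
          refine Subgroup.mem_inf.2 ⟨K.mul_mem (K.inv_mem hk) c.2.1, ?_⟩
          rw [Subgroup.mem_centralizer_singleton_iff]
          have h1 : c.1 * y = y' * c.1 := by
            have := c.2.2; rw [mul_inv_eq_iff_eq_mul] at this; exact this
          have h2 : k * y = y' * k := by
            have := h; rw [mul_inv_eq_iff_eq_mul] at this; exact this
          calc k⁻¹ * c.1 * y = k⁻¹ * (c.1 * y) := by group
            _ = k⁻¹ * (y' * c.1) := by rw [h1]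
            _ = k⁻¹ * (y' * k) * k⁻¹ * c.1 := by group
            _ = k⁻¹ * (k * y) * k⁻¹ * c.1 := by rw [h2]
            _ = y * (k⁻¹ * c.1) := by group⟩
        invFun := fun c => ⟨k * c.1, by
          obtain ⟨h1, h2⟩ := Subgroup.mem_inf.1 c.2
          rw [Subgroup.mem_centralizer_singleton_iff] at h2
          refine ⟨K.mul_mem hk h1, ?_⟩
          calc k * c.1 * y * (k * c.1)⁻¹ = k * (c.1 * y) * (c.1)⁻¹ * k⁻¹ := by group
            _ = k * (y * c.1) * (c.1)⁻¹ * k⁻¹ := by rw [h2]
            _ = k * y * k⁻¹ := by group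
            _ = y' := h⟩
        left_inv := fun c => Subtype.ext (by simp)
        right_inv := fun c => Subtype.ext (by simp) }
    rw [Nat.card_congr e]
    intro hd
    exact hK (hd.trans (Subgroup.card_dvd_of_le inf_le_left))
  obtain ⟨c, hc⟩ := hpg.nonempty_fixed_point_of_prime_not_dvd_card (α := T) hcard
  refine ⟨c.1, c.2.1, ?_, c.2.2⟩
  have h1 := congrArg Subtype.val (hc ⟨x, Subgroup.mem_zpowers x⟩)
  have h2 : x * c.1 * x⁻¹ = c.1 := h1
  rw [mul_inv_eq_iff_eq_mul] at h2
  exact h2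

/-- class count in the centralizer of a `p`-element, `K` a normal `p`-complement, `p ∉ π`. -/
theorem card_piClass_centralizer_le (K : Subgroup G) [K.Normal] (hK : ¬ p ∣ Nat.card K) (hKi : ∃ j, K.index = p ^ j)
    (π : Finset ℕ) (hπ : p ∉ π) (x : G) (hx : ∃ j, orderOf x = p ^ j) :
    Nat.card (PiClass π (Subgroup.centralizer ({x} : Set G))) ≤ Nat.card (PiClass π K) := by
  classical
  have hp : p.Prime := Fact.out
  have hfin : Finite (PiClass π K) := by
    have := finite_conjClasses K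
    infer_instance
  -- representatives lie in K
  have hrep : ∀ c : PiClass π (Subgroup.centralizer ({x} : Set G)), ∃ y : Subgroup.centralizer ({x} : Set G),
      ConjClasses.mk y = c.1 ∧ (y : G) ∈ K ∧ ∀ r : ℕ, r.Prime → r ∣ orderOf (y : G) → r ∈ π := by
    rintro ⟨c, hc⟩
    obtain ⟨y, rfl⟩ := ConjClasses.exists_rep c
    have h1 := hc y ConjClasses.mem_carrier_mk
    have h2 : ∀ r : ℕ, r.Prime → r ∣ orderOf (y : G) → r ∈ π := by
      intro r hr hd
      rw [Subgroup.orderOf_coe] at hd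
      exact h1 r hr hd
    refine ⟨y, rfl, ?_, h2⟩
    rw [← QuotientGroup.eq_one_iff, ← orderOf_eq_one_iff]
    by_contra hne
    obtain ⟨q, hq, hqd⟩ := Nat.exists_prime_and_dvd hne
    have h3 : q ∣ orderOf (y : G) := hqd.trans (orderOf_map_dvd (QuotientGroup.mk' K) (y : G))
    have h4 : q ∣ K.index := by
      rw [Subgroup.index_eq_card]
      exact hqd.trans (orderOf_dvd_natCard _)
    obtain ⟨j, hj⟩ := hKi
    rw [hj] at h4
    have h5 := (Nat.prime_dvd_prime_iff_eq hq hp).1 (hq.dvd_of_dvd_pow h4)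
    exact hπ (h5 ▸ h2 q hq h3)
  choose y hy1 hy2 hy3 using hrep
  let f : PiClass π (Subgroup.centralizer ({x} : Set G)) → PiClass π K := fun c =>
    ⟨ConjClasses.mk ⟨y c, hy2 c⟩, mem_piClass_mk (by
      intro r hr hd
      apply hy3 c r hr
      rw [← Subgroup.orderOf_coe] at hd
      exact hd)⟩
  apply Nat.card_le_card_of_injective f
  intro c d hcd
  have h1 : ConjClasses.mk (⟨y c, hy2 c⟩ : K) = ConjClasses.mk ⟨y d, hy2 d⟩ := congrArg Subtype.val hcd
  rw [ConjClasses.mk_eq_mk_iff_isConj, isConj_iff] at h1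
  obtain ⟨k, hk⟩ := h1
  have hk' : (k : G) * (y c : G) * (k : G)⁻¹ = y d := congrArg Subtype.val hk
  have e1 := Subgroup.mem_centralizer_singleton_iff.1 (y c).2
  have e2 := Subgroup.mem_centralizer_singleton_iff.1 (y d).2
  obtain ⟨m, hmK, hmx, hm⟩ := conj_of_coprime K hK hx e1.symm e2.symm k.2 hk'
  apply Subtype.ext
  rw [← hy1 c, ← hy1 d, ConjClasses.mk_eq_mk_iff_isConj, isConj_iff]
  exact ⟨⟨m, Subgroup.mem_centralizer_singleton_iff.2 hmx.symm⟩, Subtype.ext hm⟩

end H68.OddClass
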