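import Cfsg.Agent.Lib.H68.AbLift
import Cfsg.Agent.S3911
import Cfsg.Agent.Lib.H1.Solv
import Cfsg.Agent.Lib.H28.RelHall
import Cfsg.Agent.Lib.H76.Commuting

/-! Solvable groups in which abelian subgroups of equal order are conjugate. -/

namespace H68.SolvB

open H68.AbLift

section Quat

variable {m : ℕ}

theorem a_eq (i : ZMod (2 * m)) : (QuaternionGroup.a i : QuaternionGroup m) =
    QuaternionGroup.xa 0 * QuaternionGroup.xa (i - (m : ZMod (2 * m))) := by
  rw [QuaternionGroup.xa_mul_xa]
  congr 1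
  ring

theorem conj_xa (h : QuaternionGroup m) (j : ZMod (2 * m)) (i : ℤ) :
    ∃ l : ℤ, h * (QuaternionGroup.a j : QuaternionGroup m) ^ i * h⁻¹ = QuaternionGroup.a j ^ l := by
  have key : ∃ l : ℤ, h * (QuaternionGroup.a j : QuaternionGroup m) * h⁻¹ = QuaternionGroup.a j ^ l := by
    rcases h with k | k
    · refine ⟨1, ?_⟩
      rw [zpow_one, mul_inv_eq_iff_eq_mul, QuaternionGroup.a_mul_a, QuaternionGroup.a_mul_a, add_comm]
    · refine ⟨-1, ?_⟩
      rw [zpow_neg, zpow_one, mul_inv_eq_iff_eq_mul, eq_inv_mul_iff_mul_eq, QuaternionGroup.xa_mul_a,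
        QuaternionGroup.a_mul_xa]
      congr 1
      ring
  obtain ⟨l, hl⟩ := key
  refine ⟨l * i, ?_⟩
  rw [← conj_zpow, hl, ← zpow_mul]

end Quat

theorem no_large_quaternion {G : Type*} [Group G] [Finite G] (hB : AbConj G) {k : ℕ} (hk : 2 ≤ k)
    (P : Sylow 2 G) (φ : QuaternionGroup (2 ^ k) ≃* (P : Subgroup G))
    (hC : Subgroup.centralizer (Cfsg.pCore 2 G : Set G) ≤ Cfsg.pCore 2 G) : False := by
  have hk4 : 4 ≤ 2 ^ k := by
    calc 4 = 2 ^ 2 := by norm_num
      _ ≤ 2 ^ k := Nat.pow_le_pow_right (by norm_num) hk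
  set m := 2 ^ k with hm
  have hne : NeZero m := ⟨by omega⟩
  have h2p : Fact (Nat.Prime 2) := ⟨Nat.prime_two⟩
  set R := Cfsg.pCore 2 G with hR
  have hRn : R.Normal := inferInstance
  have hRP : R ≤ P := H1.Cores.pCore_le_sylow P
  let ψ : QuaternionGroup m →* G := (P : Subgroup G).subtype.comp φ.toMonoidHom
  have hψ : Function.Injective ψ := (Subgroup.subtype_injective _).comp φ.injective
  have hψr : ∀ x, ψ x ∈ P := fun x => (φ x).2
  have hψs : ∀ x ∈ (P : Subgroup G), ∃ y, ψ y = x := by
    intro x hx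
    refine ⟨φ.symm ⟨x, hx⟩, ?_⟩
    simp [ψ]
  have ho4 : ∀ i : ZMod (2 * m), orderOf (ψ (QuaternionGroup.xa i)) = 4 := by
    intro i
    rw [orderOf_injective ψ hψ, QuaternionGroup.orderOf_xa]
  -- all order 4 elements in `R` once one is
  by_cases h4 : ∃ r ∈ R, orderOf r = 4
  · obtain ⟨r, hrR, hr⟩ := h4
    have hall : ∀ x : G, orderOf x = 4 → x ∈ R := fun x hx =>
      (Cfsg.Agent.S3909.result hB R).1 x ⟨r, hrR, by rw [hr, hx]⟩
    have hPR : (P : Subgroup G) = R := by
      apply le_antisymm _ hRP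
      intro x hx
      obtain ⟨y, rfl⟩ := hψs x hx
      rcases y with i | i
      · rw [a_eq, map_mul]
        exact R.mul_mem (hall _ (ho4 _)) (hall _ (ho4 _))
      · exact hall _ (ho4 _)
    have hPn : (P : Subgroup G).Normal := hPR ▸ hRn
    -- a normal cyclic subgroup of order 4
    set c : QuaternionGroup m := QuaternionGroup.a ((2 ^ (k - 1) : ℕ) : ZMod (2 * m)) with hc
    have hco : orderOf c = 4 := by
      have h1 : c = (QuaternionGroup.a 1 : QuaternionGroup m) ^ (2 ^ (k - 1)) := by
        rw [QuaternionGroup.a_one_pow]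
      rw [h1, orderOf_pow' _ (by positivity), QuaternionGroup.orderOf_a_one]
      have h2 : 2 * m = 2 ^ (k - 1) * 4 := by
        rw [hm, show 2 * 2 ^ k = 2 ^ (k + 1) by ring, show (4 : ℕ) = 2 ^ 2 by norm_num, ← pow_add]
        congr 1; omega
      rw [h2, Nat.gcd_mul_right_left, Nat.mul_div_cancel_left _ (by positivity)]
    have hz : ∀ x : G, IsMulCommutative ↥(Subgroup.zpowers x) := fun x => inferInstance
    obtain ⟨g, hg⟩ := hB (Subgroup.zpowers (ψ c)) (Subgroup.zpowers (ψ (QuaternionGroup.xa 0))) (hz _) (hz _)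
      (by rw [Nat.card_zpowers, Nat.card_zpowers, ho4, orderOf_injective ψ hψ, hco])
    -- `ψ (a 1)` normalizes the second group
    have hnorm : ψ (QuaternionGroup.a 1) * ψ (QuaternionGroup.xa 0) * (ψ (QuaternionGroup.a 1))⁻¹ ∈
        Subgroup.zpowers (ψ (QuaternionGroup.xa 0)) := by
      have h1 : ψ (QuaternionGroup.xa 0) ∈ (Subgroup.zpowers (ψ c)).map (MulAut.conj g).toMonoidHom := by
        rw [← hg]; exact Subgroup.mem_zpowers _
      obtain ⟨w, ⟨i, rfl⟩, hw⟩ := h1
      rw [hg]
      -- `g⁻¹ (ψ a) g = ψ h`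
      have h2 : g⁻¹ * ψ (QuaternionGroup.a 1) * g ∈ (P : Subgroup G) := by
        have := hPn.conj_mem _ (hψr (QuaternionGroup.a 1)) g⁻¹
        simpa using this
      obtain ⟨h, hh⟩ := hψs _ h2
      obtain ⟨l, hl⟩ := conj_xa h ((2 ^ (k - 1) : ℕ) : ZMod (2 * m)) i
      rw [← hc] at hl
      refine ⟨ψ c ^ l, ⟨l, rfl⟩, ?_⟩
      rw [← hw]
      simp only [MulEquiv.toMonoidHom_eq_coe, MonoidHom.coe_coe, MulAut.conj_apply]
      rw [← map_zpow, ← hl, map_mul, map_mul, hh, map_inv, hh]
      simp only [map_zpow]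
      group
    rw [← map_inv, ← map_mul, ← map_mul] at hnorm
    obtain ⟨i, hi⟩ := mem_powers_iff_mem_zpowers.2 hnorm
    simp only at hi
    rw [← map_pow] at hi
    have h5 := hψ hi
    have h6 : (QuaternionGroup.a 1 : QuaternionGroup m) * QuaternionGroup.xa 0 * (QuaternionGroup.a 1)⁻¹ =
        QuaternionGroup.xa (-2) := by
      rw [mul_inv_eq_iff_eq_mul, QuaternionGroup.a_mul_xa, QuaternionGroup.xa_mul_a]
      congr 1; ring
    rw [h6] at h5
    have hx4 : (QuaternionGroup.xa 0 : QuaternionGroup m) ^ 4 = 1 := by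
      rw [← QuaternionGroup.orderOf_xa (n := m) 0]; exact pow_orderOf_eq_one _
    have hx2 : (QuaternionGroup.xa 0 : QuaternionGroup m) ^ 2 = QuaternionGroup.a m := by
      rw [sq, QuaternionGroup.xa_mul_xa]; simp
    have h7 : (QuaternionGroup.xa 0 : QuaternionGroup m) ^ (i % 4) = QuaternionGroup.xa (-2) := by
      rw [← h5, ← Nat.mod_add_div i 4, pow_add, pow_mul, hx4, one_pow, mul_one, Nat.mod_add_div]
    have h8 : i % 4 < 4 := Nat.mod_lt _ (by norm_num)
    have hcast : ∀ n : ℕ, 0 < n → n < 2 * m → ((n : ℕ) : ZMod (2 * m)) ≠ 0 := by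
      intro n h0 hn h9
      rw [ZMod.natCast_eq_zero_iff] at h9
      exact absurd (Nat.le_of_dvd h0 h9) (by omega)
    interval_cases h : i % 4
    · rw [pow_zero, QuaternionGroup.one_def] at h7
      cases h7
    · rw [pow_one, QuaternionGroup.xa.injEq] at h7
      apply hcast 2 (by norm_num) (by omega)
      push_cast
      linear_combination h7
    · rw [hx2] at h7
      cases h7
    · rw [pow_succ, hx2, QuaternionGroup.a_mul_xa, QuaternionGroup.xa.injEq] at h7
      apply hcast (m - 2) (by omega) (by omega)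
      rw [Nat.cast_sub (by omega)]
      push_cast
      linear_combination -h7
  · -- `R` has order at most two
    push Not at h4
    have hsq : ∀ r ∈ R, r ^ 2 = 1 := by
      intro r hr
      by_contra hr2
      obtain ⟨y, hy⟩ := Cfsg.Agent.S3908.exists_order_sq (P := R) (p := 2) (H1.Cores.isPGroup_pCore 2)
        (x := ⟨r, hr⟩) (fun h => hr2 (by simpa using congrArg Subtype.val h))
      exact h4 y y.2 (by rw [Subgroup.orderOf_coe, hy]; norm_num)
    have hRz : ∀ r ∈ R, r = 1 ∨ r = ψ (QuaternionGroup.a m) := by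
      intro r hr
      obtain ⟨y, rfl⟩ := hψs r (hRP hr)
      have h1 := hsq _ hr
      rw [← map_pow, ← map_one ψ] at h1
      have h2 := hψ h1
      rcases y with i | i
      · rw [sq, QuaternionGroup.a_mul_a, QuaternionGroup.one_def, QuaternionGroup.a.injEq] at h2
        have h3 : ((i.val + i.val : ℕ) : ZMod (2 * m)) = 0 := by
          push_cast
          rw [ZMod.natCast_zmod_val]; exact h2
        rw [ZMod.natCast_eq_zero_iff, ← two_mul] at h3
        obtain ⟨c, hc⟩ := Nat.dvd_of_mul_dvd_mul_left (by norm_num) h3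
        have h5 := ZMod.val_lt i
        rw [hc] at h5
        have h6 : c < 2 := by
          by_contra h
          push Not at h
          have : m * 2 ≤ m * c := Nat.mul_le_mul_left m h
          omega
        interval_cases c
        · left
          rw [mul_zero] at hc
          rw [(ZMod.val_eq_zero i).1 hc, ← QuaternionGroup.one_def, map_one]
        · right
          rw [mul_one] at hc
          rw [← ZMod.natCast_zmod_val i, hc]
      · exfalso
        rw [sq, QuaternionGroup.xa_mul_xa, QuaternionGroup.one_def, QuaternionGroup.a.injEq] at h2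
        have h3 : ((m : ℕ) : ZMod (2 * m)) = 0 := by linear_combination h2
        rw [ZMod.natCast_eq_zero_iff] at h3
        exact absurd (Nat.le_of_dvd (by omega) h3) (by omega)
    have hcen : ∀ g : G, g ∈ Subgroup.centralizer (R : Set G) := by
      intro g
      rw [Subgroup.mem_centralizer_iff]
      intro r hr
      rcases hRz r hr with h1 | h1
      · rw [h1, one_mul, mul_one]
      · have h2 := hRn.conj_mem r hr g
        rcases hRz _ h2 with h3 | h3
        · have h4 : r = 1 := by
            rw [mul_inv_eq_one] at h3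
            exact mul_left_cancel (h3.trans (mul_one g).symm)
          rw [h4, one_mul, mul_one]
        · rw [← h1, mul_inv_eq_iff_eq_mul] at h3
          exact h3.symm
    have h1 := hC (hcen (ψ (QuaternionGroup.xa 0)))
    exact h4 _ h1 (ho4 0)


open scoped commutatorElement

section eight

variable {G : Type*} [Group G] [Finite G]

/-- Sylow decomposition of a nilpotent subgroup -/
theorem nilp_decomp {S : Subgroup G} (hS : Group.IsNilpotent S) (p : ℕ) [hp : Fact p.Prime] :
    ∃ Q D : Subgroup G, Q ≤ S ∧ D ≤ S ∧ Q ⊔ D = S ∧ IsPGroup p Q ∧ Nat.card Q * Nat.card D = Nat.card S ∧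
      ¬ p ∣ Nat.card D ∧ ∀ x ∈ Q, ∀ d ∈ D, x * d = d * x := by
  obtain ⟨P', N, hN, hc⟩ := H2.Nilp.hasNPC_of_nilpotent (p := p) hS
  have hPn : (P' : Subgroup S).Normal := by
    have h1 := (Group.isNilpotent_of_finite_tfae (G := S)).out 0 3
    exact (h1.1 hS) p hp P'
  refine ⟨(P' : Subgroup S).map S.subtype, N.map S.subtype, Subgroup.map_subtype_le _, Subgroup.map_subtype_le _,
    ?_, P'.2.map _, ?_, ?_, ?_⟩
  · rw [← Subgroup.map_sup, sup_comm, hc.sup_eq_top, ← MonoidHom.range_eq_map, Subgroup.range_subtype]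
  · rw [Subgroup.card_subtype, Subgroup.card_subtype, mul_comm]
    exact hc.card_mul_card
  · rw [Subgroup.card_subtype]
    intro hd
    have h1 : Nat.card N = (P' : Subgroup S).index := by
      have h2 := hc.card_mul_card
      have h3 := (P' : Subgroup S).card_mul_index
      have h4 : Nat.card (P' : Subgroup S) * Nat.card N = Nat.card (P' : Subgroup S) * (P' : Subgroup S).index := by
        rw [h3, mul_comm, h2]
      exact Nat.eq_of_mul_eq_mul_left Nat.card_pos h4
    rw [h1] at hd
    exact P'.not_dvd_index hd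
  · rintro _ ⟨x, hx, rfl⟩ _ ⟨d, hd, rfl⟩
    have h1 : Commute x d := by
      apply Subgroup.commute_of_normal_of_disjoint _ _ hPn hN _ x d hx hd
      exact hc.disjoint.symm
    exact congrArg S.subtype h1.eq

theorem abConj_quotient_eight (hB : AbConj G) (N : Subgroup G) [hNn : N.Normal] (hN : Nat.card N = 2)
    (P : Sylow 2 G) (hP : Nat.card P = 8) : AbConj (G ⧸ N) := by
  have h2p : Fact (Nat.Prime 2) := ⟨Nat.prime_two⟩
  intro A' B' hA' hB' hcard
  set π := QuotientGroup.mk' N with hπ
  -- involutions lie in `N`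
  have hinv : ∀ x : G, orderOf x = 2 → x ∈ N := by
    intro x hx
    obtain ⟨m, hm⟩ := exists_prime_orderOf_dvd_card' (G := N) 2 (by rw [hN])
    exact (Cfsg.Agent.S3909.result hB N).1 x ⟨m, m.2, by rw [Subgroup.orderOf_coe, hm, hx]⟩
  have h8 : ∀ Q : Subgroup G, IsPGroup 2 Q → Nat.card Q ∣ 8 := by
    intro Q hQ
    obtain ⟨R, hR⟩ := hQ.exists_le_sylow
    rw [← hP, ← Nat.card_congr (Sylow.equiv R P).toEquiv]
    exact Subgroup.card_dvd_of_le hR
  -- the data attached to an abelian subgroup of the quotient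
  have hpre : ∀ A' : Subgroup (G ⧸ N), IsMulCommutative A' → ∃ S : Subgroup G, Group.IsNilpotent S ∧ S.map π = A' ∧
      (∀ a ∈ S, ∀ b ∈ S, ⁅a, b⁆ ∈ N) ∧
      (Nat.card S = if 2 ∣ Nat.card A' then 2 * Nat.card A' else Nat.card A') := by
    intro A' hA'
    have hle : N ≤ A'.comap π := by
      intro m hm
      rw [Subgroup.mem_comap]
      have : π m = 1 := by
        rw [hπ, QuotientGroup.mk'_apply, QuotientGroup.eq_one_iff]; exact hm
      rw [this]; exact A'.one_mem
    obtain ⟨S, hS⟩ := exists_isMinSup N (A'.comap π) hle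
    have hab : ∀ a ∈ A'.comap π, ∀ b ∈ A'.comap π, ⁅a, b⁆ ∈ N := by
      intro a ha b hb
      rw [← QuotientGroup.ker_mk' N, MonoidHom.mem_ker, map_commutatorElement, commutatorElement_eq_one_iff_mul_comm]
      exact congrArg Subtype.val (hA'.is_comm.comm ⟨π a, ha⟩ ⟨π b, hb⟩)
    have hrel : N.relIndex (A'.comap π) = Nat.card A' := by
      have h1 : (⊥ : Subgroup (G ⧸ N)).comap π = N := by
        rw [MonoidHom.comap_bot, hπ, QuotientGroup.ker_mk']
      have h2 := Subgroup.relIndex_comap (⊥ : Subgroup (G ⧸ N)) π (A'.comap π)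
      rw [h1, Subgroup.map_comap_eq_self_of_surjective (QuotientGroup.mk'_surjective N),
        Subgroup.relIndex_bot_left] at h2
      exact h2
    have hnil := hS.isNilpotent hab
    have hmul := card_inf_mul_relIndex N S
    rw [relIndex_eq hNn hS, hrel] at hmul
    refine ⟨S, hnil, ?_, fun a ha b hb => hab a (hS.le ha) b (hS.le hb), ?_⟩
    · have h1 : (S ⊔ N).map π = A' := by
        rw [hS.sup, Subgroup.map_comap_eq_self_of_surjective (QuotientGroup.mk'_surjective N)]
      rw [← h1, Subgroup.map_sup]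
      have h2 : N.map π = ⊥ := by
        rw [Subgroup.map_eq_bot_iff, hπ, QuotientGroup.ker_mk']
      rw [h2, sup_bot_eq]
    · split_ifs with hd
      · have hdS : 2 ∣ Nat.card S := by rw [← hmul]; exact Dvd.dvd.mul_left hd _
        obtain ⟨x, hx⟩ := exists_prime_orderOf_dvd_card' (G := S) 2 hdS
        have hxN : (x : G) ∈ N := hinv _ (by rw [Subgroup.orderOf_coe, hx])
        have h3 : Nat.card (N ⊓ S : Subgroup G) = 2 := by
          have h4 : Nat.card (N ⊓ S : Subgroup G) ∣ 2 := by rw [← hN]; exact Subgroup.card_dvd_of_le inf_le_left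
          rcases (Nat.dvd_prime Nat.prime_two).1 h4 with h5 | h5
          · exfalso
            have h6 := Subgroup.card_eq_one.1 h5
            have h7 : (x : G) ∈ N ⊓ S := ⟨hxN, x.2⟩
            rw [h6, Subgroup.mem_bot] at h7
            have h8 : x = 1 := Subtype.ext h7
            rw [h8, orderOf_one] at hx
            exact absurd hx (by norm_num)
          · exact h5
        rw [← hmul, h3]
      · obtain ⟨P2⟩ := (Sylow.nonempty : Nonempty (Sylow 2 S))
        have h3 := hS.not_dvd hnil P2 (sylow_le_of_not_dvd hNn P2 (by rw [relIndex_eq hNn hS, hrel]; exact hd))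
        have h4 : Nat.card (N ⊓ S : Subgroup G) = 1 := by
          have h5 : Nat.card (N ⊓ S : Subgroup G) ∣ 2 := by rw [← hN]; exact Subgroup.card_dvd_of_le inf_le_left
          rcases (Nat.dvd_prime Nat.prime_two).1 h5 with h6 | h6
          · exact h6
          · exfalso; apply h3; rw [← hmul, h6]; exact Dvd.intro _ rfl
        rw [← hmul, h4, one_mul]
  obtain ⟨S, hSn, hS, hSab, hSc⟩ := hpre A' hA'
  obtain ⟨T, hTn, hT, hTab, hTc⟩ := hpre B' hB'
  have hST : Nat.card S = Nat.card T := by rw [hSc, hTc, hcard]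
  suffices h : ∃ g : G, T = S.map (MulAut.conj g).toMonoidHom by
    obtain ⟨g, hg⟩ := h
    refine ⟨π g, ?_⟩
    rw [← hT, ← hS, hg, Subgroup.map_map, Subgroup.map_map]
    congr 1
  -- odd parts are commutative
  have hodd : ∀ D : Subgroup G, ¬ 2 ∣ Nat.card D → (∀ a ∈ D, ∀ b ∈ D, ⁅a, b⁆ ∈ N) → ∀ a ∈ D, ∀ b ∈ D, a * b = b * a := by
    intro D hD hDN a ha b hb
    rw [← commutatorElement_eq_one_iff_mul_comm]
    have h1 := hDN a ha b hb
    have h2 : ⁅a, b⁆ ∈ D := by
      rw [commutatorElement_def]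
      exact D.mul_mem (D.mul_mem (D.mul_mem ha hb) (D.inv_mem ha)) (D.inv_mem hb)
    rw [← orderOf_eq_one_iff]
    have h3 := Subgroup.orderOf_dvd_natCard N h1
    have h4 := Subgroup.orderOf_dvd_natCard D h2
    rw [hN] at h3
    rcases (Nat.dvd_prime Nat.prime_two).1 h3 with h5 | h5
    · exact h5
    · exact absurd (h5 ▸ h4) hD
  obtain ⟨Q, D, hQS, hDS, hQD, hQp, hQDc, hD2, hQDcomm⟩ := nilp_decomp hSn 2
  obtain ⟨Q', D', hQS', hDS', hQD', hQp', hQDc', hD2', hQDcomm'⟩ := nilp_decomp hTn 2
  have hDc := hodd D hD2 (fun a ha b hb => hSab a (hDS ha) b (hDS hb))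
  have hDc' := hodd D' hD2' (fun a ha b hb => hTab a (hDS' ha) b (hDS' hb))
  have hQd := h8 Q hQp
  have hQd' := h8 Q' hQp'
  -- card of the 2-parts agree
  have hcop : ∀ {q d q' d' : ℕ}, q ∣ 8 → q' ∣ 8 → ¬ 2 ∣ d → ¬ 2 ∣ d' → q * d = q' * d' → q = q' ∧ d = d' := by
    intro q d q' d' h1 h2 h3 h4 h5
    have c1 : Nat.Coprime q d' := Nat.Coprime.coprime_dvd_left h1 (by
      rw [show (8 : ℕ) = 2 ^ 3 by norm_num]
      exact Nat.Coprime.pow_left 3 ((Nat.prime_two.coprime_iff_not_dvd).2 h4))
    have c2 : Nat.Coprime q' d := Nat.Coprime.coprime_dvd_left h2 (by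
      rw [show (8 : ℕ) = 2 ^ 3 by norm_num]
      exact Nat.Coprime.pow_left 3 ((Nat.prime_two.coprime_iff_not_dvd).2 h3))
    have e1 : q ∣ q' := c1.dvd_of_dvd_mul_right (h5 ▸ Dvd.intro _ rfl)
    have e2 : q' ∣ q := c2.dvd_of_dvd_mul_right (h5 ▸ Dvd.intro _ rfl)
    have e3 := Nat.dvd_antisymm e1 e2
    refine ⟨e3, ?_⟩
    rw [e3] at h5
    exact Nat.eq_of_mul_eq_mul_left (Nat.pos_of_dvd_of_pos h2 (by norm_num)) h5
  obtain ⟨hQQ', hDD'⟩ := hcop hQd hQd' hD2 hD2' (by rw [hQDc, hQDc', hST])
  by_cases hQ8 : Nat.card Q = 8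
  · -- elements of order 4
    have hex4 : ∀ Q : Subgroup G, IsPGroup 2 Q → Nat.card Q = 8 → ∃ y ∈ Q, orderOf y = 4 := by
      intro Q hQp hQ8
      obtain ⟨x, hxQ, hx2⟩ : ∃ x ∈ Q, x ^ 2 ≠ 1 := by
        by_contra hcon
        push Not at hcon
        have hle : Q ≤ N := by
          intro x hx
          by_cases hx1 : x = 1
          · rw [hx1]; exact N.one_mem
          · exact hinv x (orderOf_eq_prime (hcon x hx) hx1)
        have := Nat.le_of_dvd Nat.card_pos (Subgroup.card_dvd_of_le hle)
        omega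
      obtain ⟨y, hy⟩ := Cfsg.Agent.S3908.exists_order_sq (P := Q) (p := 2) hQp (x := ⟨x, hxQ⟩)
        (fun h => hx2 (by simpa using congrArg Subtype.val h))
      exact ⟨y, y.2, by rw [Subgroup.orderOf_coe, hy]; norm_num⟩
    have hQ8' : Nat.card Q' = 8 := by rw [← hQQ', hQ8]
    obtain ⟨y, hyQ, hy⟩ := hex4 Q hQp hQ8
    obtain ⟨y', hyQ', hy'⟩ := hex4 Q' hQp' hQ8'
    -- the abelian subgroups
    have hE : ∀ (y : G) (D : Subgroup G), orderOf y = 4 → ¬ 2 ∣ Nat.card D → (∀ a ∈ D, ∀ b ∈ D, a * b = b * a) →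
        (∀ d ∈ D, y * d = d * y) → IsMulCommutative ↥(Subgroup.zpowers y ⊔ D) ∧
          Nat.card ↥(Subgroup.zpowers y ⊔ D) = 4 * Nat.card D := by
      intro y D hy hD hDc hyD
      have hle1 : D ≤ Subgroup.centralizer (Subgroup.zpowers y : Set G) := by
        intro d hd
        rw [Subgroup.mem_centralizer_iff]
        rintro _ ⟨i, rfl⟩
        exact ((show Commute y d from hyD d hd).zpow_left i).eq
      constructor
      · have h1 : (Subgroup.zpowers y ⊔ D) ≤ Subgroup.centralizer ((Subgroup.zpowers y ⊔ D : Subgroup G) : Set G) := by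
          rw [Subgroup.le_centralizer_iff]
          apply sup_le
          · rw [Subgroup.le_centralizer_iff]
            apply sup_le _ hle1
            rw [Subgroup.zpowers_le, Subgroup.mem_centralizer_iff]
            rintro _ ⟨i, rfl⟩
            exact ((Commute.refl y).zpow_left i).eq
          · rw [Subgroup.le_centralizer_iff]
            apply sup_le
            · rw [Subgroup.le_centralizer_iff]; exact hle1
            · intro d hd
              rw [Subgroup.mem_centralizer_iff]
              intro e he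
              exact hDc e he d hd
        refine ⟨⟨fun a b => Subtype.ext ?_⟩⟩
        exact (Subgroup.mem_centralizer_iff.1 (h1 a.2) b b.2).symm
      · have h1 : Subgroup.zpowers y ⊓ D = ⊥ := by
          apply Subgroup.inf_eq_bot_of_coprime
          rw [Nat.card_zpowers, hy, show (4 : ℕ) = 2 ^ 2 by norm_num]
          exact Nat.Coprime.pow_left 2 ((Nat.prime_two.coprime_iff_not_dvd).2 hD)
        have h3 : D ≤ Subgroup.normalizer (Subgroup.zpowers y : Set G) :=
          hle1.trans (Subgroup.centralizer_le_normalizer _)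
        have h2 := H28.RelHall.card_sup_mul_card_inf h3
        rw [inf_comm, h1, Subgroup.card_bot, mul_one, Nat.card_zpowers, hy, sup_comm] at h2
        rw [h2, mul_comm]
    obtain ⟨hE1, hE2⟩ := hE y D hy hD2 hDc (fun d hd => hQDcomm y hyQ d hd)
    obtain ⟨hE1', hE2'⟩ := hE y' D' hy' hD2' hDc' (fun d hd => hQDcomm' y' hyQ' d hd)
    obtain ⟨g, hg⟩ := hB _ _ hE1 hE1' (by rw [hE2, hE2', hDD'])
    -- `D' = D^g`
    have hDg : D.map (MulAut.conj g).toMonoidHom = D' := by
      apply Subgroup.eq_of_le_of_card_ge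
      · rintro _ ⟨d, hd, rfl⟩
        set x := (MulAut.conj g).toMonoidHom d with hx
        have h1 : x ∈ Subgroup.zpowers y' ⊔ D' := by
          rw [hg]; exact Subgroup.mem_map_of_mem _ (Subgroup.mem_sup_right hd)
        have h2 : x ^ Nat.card D = 1 := by
          rw [hx, ← map_pow, orderOf_dvd_iff_pow_eq_one.1 (Subgroup.orderOf_dvd_natCard D hd), map_one]
        have hcomm' : ∀ a ∈ Subgroup.zpowers y', ∀ b ∈ D', a * b = b * a := by
          rintro _ ⟨i, rfl⟩ b hb
          exact ((show Commute y' b from hQDcomm' y' hyQ' b hb).zpow_left i).eq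
        obtain ⟨c, hc, d', hd', hcd⟩ := (H76.Commuting.mem_sup_of_commute hcomm').1 h1
        have h3 : c ^ Nat.card D = 1 := by
          have h4 : Commute c d' := hcomm' c hc d' hd'
          rw [hcd, h4.mul_pow] at h2
          have h5 : d' ^ Nat.card D = 1 := by
            rw [hDD']; exact orderOf_dvd_iff_pow_eq_one.1 (Subgroup.orderOf_dvd_natCard D' hd')
          rwa [h5, mul_one] at h2
        have h4 : orderOf c ∣ 2 ^ 2 := by
          have := Subgroup.orderOf_dvd_natCard _ hc
          rw [Nat.card_zpowers, hy'] at this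
          exact this
        have h5 : orderOf c = 1 := by
          apply Nat.eq_one_of_dvd_coprimes (Nat.Coprime.pow_left 2 ((Nat.prime_two.coprime_iff_not_dvd).2 hD2)) h4
          exact orderOf_dvd_of_pow_eq_one h3
        rw [orderOf_eq_one_iff] at h5
        rw [hcd, h5, one_mul]
        exact hd'
      · rw [← hDD', Subgroup.card_map_of_injective (MulAut.conj g).injective]
    -- Sylow in the centralizer
    have hidx : ∀ R : Subgroup G, Nat.card R = 8 → ∀ H : Subgroup G, R ≤ H → ¬ 2 ∣ R.relIndex H := by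
      intro R hR H hRH hd
      have h1 : R.index = (P : Subgroup G).index := by
        have h2 := R.card_mul_index
        have h3 := (P : Subgroup G).card_mul_index
        rw [hR] at h2
        have h4 : Nat.card (P : Subgroup G) = 8 := hP
        rw [h4] at h3
        omega
      apply P.not_dvd_index
      rw [← h1]
      exact hd.trans ⟨H.index, (Subgroup.relIndex_mul_index hRH).symm⟩
    set H := Subgroup.centralizer (D' : Set G) with hH
    set Q₁ := Q.map (MulAut.conj g).toMonoidHom with hQ₁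
    have hQ₁H : Q₁ ≤ H := by
      rintro _ ⟨x, hx, rfl⟩
      rw [hH, Subgroup.mem_centralizer_iff, ← hDg]
      rintro _ ⟨d, hd, rfl⟩
      rw [← map_mul, ← map_mul, hQDcomm x hx d hd]
    have hQ'H : Q' ≤ H := by
      intro x hx
      rw [hH, Subgroup.mem_centralizer_iff]
      intro d hd
      exact (hQDcomm' x hx d hd).symm
    have hQ₁c : Nat.card Q₁ = 8 := by
      rw [hQ₁, Subgroup.card_map_of_injective (MulAut.conj g).injective, hQ8]
    have s1 : H28.RelSyl.IsSyl 2 Q₁ H := ⟨hQ₁H, hQp.map _, hidx Q₁ hQ₁c H hQ₁H⟩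
    have s2 : H28.RelSyl.IsSyl 2 Q' H := ⟨hQ'H, hQp', hidx Q' hQ8' H hQ'H⟩
    obtain ⟨h, hhH, hh⟩ := s1.exists_conj_eq s2
    refine ⟨h * g, ?_⟩
    have hDh : D'.map (MulAut.conj h).toMonoidHom = D' := by
      apply Subgroup.eq_of_le_of_card_ge
      · rintro _ ⟨d, hd, rfl⟩
        have h1 := Subgroup.mem_centralizer_iff.1 hhH d hd
        have h2 : (MulAut.conj h).toMonoidHom d = d := by
          simp only [MulEquiv.toMonoidHom_eq_coe, MonoidHom.coe_coe, MulAut.conj_apply]
          rw [← h1, mul_inv_cancel_right]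
        rw [h2]; exact hd
      · rw [Subgroup.card_map_of_injective (MulAut.conj h).injective]
    have hcomp : (MulAut.conj (h * g)).toMonoidHom = (MulAut.conj h).toMonoidHom.comp (MulAut.conj g).toMonoidHom := by
      rw [map_mul]; rfl
    rw [hcomp, ← Subgroup.map_map, ← hQD, Subgroup.map_sup, Subgroup.map_sup, hDg, hDh, ← hQD']
    congr 1
  · have hQcomm : ∀ Q : Subgroup G, Nat.card Q ∣ 8 → Nat.card Q ≠ 8 → ∀ a ∈ Q, ∀ b ∈ Q, a * b = b * a := by
      intro Q h1 h2
      have h3 : IsMulCommutative Q := by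
        obtain ⟨k, hk, hkc⟩ := (Nat.dvd_prime_pow Nat.prime_two).1 (show Nat.card Q ∣ 2 ^ 3 from h1)
        interval_cases k
        · rw [pow_zero] at hkc
          have := (Nat.card_eq_one_iff_unique.1 hkc).1
          exact ⟨⟨fun a b => Subsingleton.elim _ _⟩⟩
        · rw [pow_one] at hkc
          have := isCyclic_of_prime_card hkc
          exact IsCyclic.isMulCommutative
        · exact IsPGroup.isMulCommutative_of_card_eq_prime_sq hkc
        · exact absurd hkc h2
      intro a ha b hb
      exact congrArg Subtype.val (h3.is_comm.comm ⟨a, ha⟩ ⟨b, hb⟩)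
    have hcomm : ∀ (Q D S : Subgroup G), Q ⊔ D = S → (∀ a ∈ Q, ∀ b ∈ Q, a * b = b * a) →
        (∀ a ∈ D, ∀ b ∈ D, a * b = b * a) → (∀ x ∈ Q, ∀ d ∈ D, x * d = d * x) → IsMulCommutative S := by
      intro Q D S hS h1 h2 h3
      have h4 : S ≤ Subgroup.centralizer (S : Set G) := by
        rw [← hS, Subgroup.le_centralizer_iff]
        apply sup_le
        · rw [Subgroup.le_centralizer_iff]
          apply sup_le
          · intro a ha
            rw [Subgroup.mem_centralizer_iff]
            intro b hb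
            exact h1 b hb a ha
          · intro d hd
            rw [Subgroup.mem_centralizer_iff]
            intro x hx
            exact h3 x hx d hd
        · rw [Subgroup.le_centralizer_iff]
          apply sup_le
          · intro x hx
            rw [Subgroup.mem_centralizer_iff]
            intro d hd
            exact (h3 x hx d hd).symm
          · intro a ha
            rw [Subgroup.mem_centralizer_iff]
            intro b hb
            exact h2 b hb a ha
      exact ⟨⟨fun a b => Subtype.ext (Subgroup.mem_centralizer_iff.1 (h4 a.2) b b.2).symm⟩⟩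
    exact hB S T (hcomm Q D S hQD (hQcomm Q hQd hQ8) hDc hQDcomm)
      (hcomm Q' D' T hQD' (hQcomm Q' hQd' (fun h => hQ8 (by rw [hQQ', h]))) hDc' hQDcomm') hST

end eight

end H68.SolvB
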