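import Cfsg.Agent.Lib.H68.SolvB
import Cfsg.Agent.Lib.H73.SolvSmall

/-! Quotients of solvable groups in which abelian subgroups of equal order are conjugate. -/

namespace H68.SolvB

open H68.AbLift

universe u

theorem AbConj.of_equiv {G H : Type*} [Group G] [Group H] (e : G ≃* H) (hG : AbConj G) : AbConj H := by
  intro A B hA hB hAB
  have key : ∀ A : Subgroup H, IsMulCommutative A → IsMulCommutative (A.map e.symm.toMonoidHom) := by
    intro A hA
    refine ⟨⟨?_⟩⟩
    rintro ⟨_, a, ha, rfl⟩ ⟨_, b, hb, rfl⟩
    apply Subtype.ext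
    have h1 := congrArg Subtype.val (hA.is_comm.comm ⟨a, ha⟩ ⟨b, hb⟩)
    have h2 : a * b = b * a := h1
    change e.symm a * e.symm b = e.symm b * e.symm a
    rw [← map_mul, ← map_mul, h2]
  have hcard : ∀ A : Subgroup H, Nat.card (A.map e.symm.toMonoidHom) = Nat.card A := by
    intro A
    exact Subgroup.card_map_of_injective e.symm.injective
  obtain ⟨g, hg⟩ := hG _ _ (key A hA) (key B hB) (by rw [hcard, hcard, hAB])
  refine ⟨e g, ?_⟩
  have hback : ∀ A : Subgroup H, (A.map e.symm.toMonoidHom).map e.toMonoidHom = A := by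
    intro A
    rw [Subgroup.map_map]
    have : e.toMonoidHom.comp e.symm.toMonoidHom = MonoidHom.id H := by
      ext x; simp
    rw [this, Subgroup.map_id]
  rw [← hback B, hg, Subgroup.map_map, Subgroup.map_map]
  congr 1
  ext x
  simp

theorem base {G : Type u} [Group G] [Finite G] (hs : Group.IsSolvable G) (hB : AbConj G) (N : Subgroup G)
    [hNn : N.Normal] (hN : N ≠ ⊥) (hmin : ∀ M : Subgroup G, M.Normal → M ≤ N → M = ⊥ ∨ M = N) :
    AbConj (G ⧸ N) := by
  obtain ⟨hNc, p, hp, hNp⟩ := H1.Solv.minimal_normal_elementary hs N hN hmin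
  have hpp := Fact.mk hp
  have hNpg : IsPGroup p N := by
    intro x
    exact ⟨1, by rw [pow_one]; exact Subtype.ext (by simpa using hNp x x.2)⟩
  obtain ⟨t, ht⟩ := IsPGroup.iff_card.1 hNpg
  have ht0 : t ≠ 0 := by
    rintro rfl
    rw [pow_zero] at ht
    exact hN (Subgroup.card_eq_one.1 ht)
  by_cases hp2 : p = 2
  · subst hp2
    by_cases ht1 : t = 1
    · -- order two
      subst ht1
      rw [pow_one] at ht
      have hinv : ∀ x : G, orderOf x = 2 → x ∈ N := by
        intro x hx
        obtain ⟨m, hm⟩ := exists_prime_orderOf_dvd_card' (G := N) 2 (by rw [ht])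
        exact (Cfsg.Agent.S3909.result hB N).1 x ⟨m, m.2, by rw [Subgroup.orderOf_coe, hm, hx]⟩
      obtain ⟨P⟩ := (Sylow.nonempty : Nonempty (Sylow 2 G))
      have hcyc : IsCyclic P → AbConj (G ⧸ N) := by
        intro hPc
        apply abConj_quotient hB N
        intro q hq hqN _
        rw [ht, Nat.prime_dvd_prime_iff_eq hq Nat.prime_two] at hqN
        subst hqN
        exact ⟨P, P.2, P.not_dvd_index, hPc⟩
      rcases (Cfsg.Agent.S3908.result hB).1 P with h | h | ⟨k, ⟨e⟩⟩
      · exact hcyc h
      · apply abConj_quotient hB N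
        intro q hq hqN hqi
        rw [ht, Nat.prime_dvd_prime_iff_eq hq Nat.prime_two] at hqN
        subst hqN
        exfalso
        have hPN : (P : Subgroup G) ≤ N := by
          intro x hx
          by_cases hx1 : x = 1
          · rw [hx1]; exact N.one_mem
          · exact hinv x (orderOf_eq_prime (h.2 x hx) hx1)
        exact P.not_dvd_index (hqi.trans (Subgroup.index_dvd_of_le hPN))
      · rcases Nat.lt_or_ge k 2 with hk | hk
        · interval_cases k
          · apply hcyc
            have := QuaternionGroup.quaternionGroup_one_isCyclic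
            exact isCyclic_of_injective e.toMonoidHom e.injective
          · apply abConj_quotient_eight hB N ht P
            rw [Nat.card_congr e.toEquiv, Nat.card_eq_fintype_card, QuaternionGroup.card]
            norm_num
        · exfalso
          -- pass to the quotient by the odd core
          set O := Cfsg.pPrimeCore 2 G with hO
          have hOc := H1.Cores.coprime_card_pPrimeCore (G := G) 2
          have hOodd : Odd (Nat.card O) := Nat.coprime_two_right.1 hOc
          have hB1 : AbConj (G ⧸ O) := Cfsg.Agent.S3911.result hB O hOodd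
          let P1 : Sylow 2 (G ⧸ O) := P.mapSurjective (QuotientGroup.mk'_surjective O)
          have hinj : Function.Injective ((QuotientGroup.mk' O).subgroupMap (P : Subgroup G)) := by
            rw [injective_iff_map_eq_one]
            intro x hx
            have h1 : QuotientGroup.mk' O (x : G) = 1 := congrArg Subtype.val hx
            rw [QuotientGroup.mk'_apply, QuotientGroup.eq_one_iff] at h1
            have h2 := H1.Cores.disjoint_of_isPGroup (p := 2) P.2 hOc
            have h3 : (x : G) ∈ (P : Subgroup G) ⊓ O := ⟨x.2, h1⟩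
            rw [h2, Subgroup.mem_bot] at h3
            exact Subtype.ext h3
          have e1 : (P : Subgroup G) ≃* (P1 : Subgroup (G ⧸ O)) :=
            MulEquiv.ofBijective ((QuotientGroup.mk' O).subgroupMap (P : Subgroup G))
              ⟨hinj, (QuotientGroup.mk' O).subgroupMap_surjective _⟩
          apply no_large_quaternion hB1 hk P1 (e.symm.trans e1)
          apply H1.Solv.centralizer_pCore_le inferInstance 2
          exact H1.Cores.pPrimeCore_quotient_pPrimeCore 2
    · -- the Sylow 2-subgroup
      apply abConj_quotient hB N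
      intro q hq hqN hqi
      exfalso
      have hq2 : q = 2 := by
        rw [ht] at hqN
        exact (Nat.prime_dvd_prime_iff_eq hq Nat.prime_two).1 (hq.dvd_of_dvd_pow hqN)
      subst hq2
      obtain ⟨P⟩ := (Sylow.nonempty : Nonempty (Sylow 2 G))
      have h1 := (Cfsg.Agent.S3909.result hB N).2 2 t (by omega) ht ⟨hNc, hNp⟩ P
      exact P.not_dvd_index (h1 ▸ hqi)
  · apply Cfsg.Agent.S3911.result hB N
    rw [ht]
    exact (hp.odd_of_ne_two hp2).pow

theorem main (n : ℕ) : ∀ (G : Type u) [Group G] [Finite G], Nat.card G = n → Group.IsSolvable G → AbConj G →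
    ∀ (M : Subgroup G) [M.Normal], AbConj (G ⧸ M) := by
  induction n using Nat.strong_induction_on with
  | _ n ih =>
    intro G _ _ hn hs hB M hM
    by_cases hMb : M = ⊥
    · subst hMb
      exact AbConj.of_equiv QuotientGroup.quotientBot.symm hB
    obtain ⟨N, hNM, hN, hNb, hmin⟩ := H73.SolvSmall.exists_minimal_normal hM hMb
    have h1 : AbConj (G ⧸ N) := base hs hB N hNb hmin
    have hlt : Nat.card (G ⧸ N) < n := by
      rw [← hn, ← Subgroup.card_mul_index N, ← Subgroup.index_eq_card]
      have h2 : 1 < Nat.card N := by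
        rw [Subgroup.one_lt_card_iff_ne_bot]; exact hNb
      have h3 : 0 < N.index := Nat.pos_of_ne_zero Subgroup.index_ne_zero_of_finite
      nlinarith
    have hMn : (M.map (QuotientGroup.mk' N)).Normal := hM.map _ (QuotientGroup.mk'_surjective N)
    have h2 := ih _ hlt (G ⧸ N) rfl inferInstance h1 (M.map (QuotientGroup.mk' N))
    exact AbConj.of_equiv (QuotientGroup.quotientQuotientEquivQuotient N M hNM) h2

end H68.SolvB
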