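import Cfsg.Agent.Lib.H1.ThompsonFpf
import Cfsg.Agent.Lib.H1.ThompsonNPC

/-! Splitting automorphisms of prime order (Kegel). -/

set_option autoImplicit false
open Subgroup Cfsg
open scoped Pointwise commutatorElement IsMulCommutative

namespace H68.Split

open H1.ThompsonFpf

universe u

variable {G : Type u} [Group G]

/-- `x φ(x) ... φ^(k-1)(x)` -/
def nm (φ : MulAut G) : ℕ → G → G
  | 0, _ => 1
  | (k + 1), x => x * φ (nm φ k x)

theorem nm_zero (φ : MulAut G) (x : G) : nm φ 0 x = 1 := rfl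
theorem nm_succ (φ : MulAut G) (k : ℕ) (x : G) : nm φ (k + 1) x = x * φ (nm φ k x) := rfl

theorem nm_eq_list (φ : MulAut G) (k : ℕ) (x : G) :
    nm φ k x = ((List.range k).map (fun i : ℕ => (φ ^ i) x)).prod := by
  induction k with
  | zero => simp [nm_zero]
  | succ k ih =>
    rw [nm_succ, ih, List.range_succ_eq_map, List.map_cons, List.prod_cons, List.map_map, map_list_prod, List.map_map]
    rw [pow_zero, MulAut.one_apply]
    congr 2
    apply List.map_congr_left
    intro i _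
    show φ ((φ ^ i) x) = (φ ^ (i + 1)) x
    rw [pow_succ', MulAut.mul_apply]

/-- splitting automorphism -/
def Spl (r : ℕ) (φ : MulAut G) : Prop := φ ^ r = 1 ∧ ∀ x : G, nm φ r x = 1

theorem nm_conj (φ : MulAut G) (g : G) (k : ℕ) (x : G) :
    nm (MulAut.conj g * φ) k x = nm φ k (x * g) * (nm φ k g)⁻¹ := by
  induction k with
  | zero => simp [nm_zero]
  | succ k ih =>
    rw [nm_succ, nm_succ, nm_succ, ih, MulAut.mul_apply, MulAut.conj_apply, map_mul, map_inv]
    group

theorem pow_conj (φ : MulAut G) (g : G) (k : ℕ) :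
    (MulAut.conj g * φ) ^ k = MulAut.conj (nm φ k g) * φ ^ k := by
  induction k with
  | zero => simp [nm_zero]
  | succ k ih =>
    rw [pow_succ', ih, nm_succ]
    ext y
    show g * φ (nm φ k g * (φ ^ k) y * (nm φ k g)⁻¹) * g⁻¹ = g * φ (nm φ k g) * (φ ^ (k + 1)) y * (g * φ (nm φ k g))⁻¹
    rw [map_mul, map_mul, map_inv, pow_succ', MulAut.mul_apply]
    group

theorem Spl.conj {r : ℕ} {φ : MulAut G} (h : Spl r φ) (g : G) : Spl r (MulAut.conj g * φ) := by
  refine ⟨?_, fun x => ?_⟩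
  · rw [pow_conj, h.1, h.2]; simp
  · rw [nm_conj, h.2, h.2]; simp

/-- powers in the semidirect product -/
theorem sd_pow (φ : MulAut G) (k : ℕ) (x : G) :
    ((SemidirectProduct.inl x * SemidirectProduct.inr φ : G ⋊[MonoidHom.id (MulAut G)] (MulAut G)) ^ k) =
      SemidirectProduct.inl (nm φ k x) * SemidirectProduct.inr (φ ^ k) := by
  induction k with
  | zero => simp [nm_zero]
  | succ k ih =>
    rw [pow_succ', ih, nm_succ]
    ext <;> simp [pow_succ', mul_assoc]

theorem nm_restrict {φ : MulAut G} {H : Subgroup G} {χ : MulAut H} (h : ∀ x : H, (χ x : G) = φ x) (k : ℕ) (x : H) :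
    ((nm χ k x : H) : G) = nm φ k x := by
  induction k with
  | zero => rfl
  | succ k ih => rw [nm_succ, nm_succ, Subgroup.coe_mul, h, ih]

theorem nm_quotient {φ : MulAut G} {N : Subgroup G} [N.Normal] {ψ : MulAut (G ⧸ N)}
    (h : ∀ x : G, ψ (x : G ⧸ N) = (φ x : G ⧸ N)) (k : ℕ) (x : G) :
    nm ψ k (x : G ⧸ N) = ((nm φ k x : G) : G ⧸ N) := by
  induction k with
  | zero => rfl
  | succ k ih => rw [nm_succ, nm_succ, ih, h]; rfl

theorem Spl.restrict {r : ℕ} {φ : MulAut G} (hs : Spl r φ) {H : Subgroup G} {χ : MulAut H}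
    (h : ∀ x : H, (χ x : G) = φ x) : Spl r χ := by
  refine ⟨?_, fun x => ?_⟩
  · ext x
    rw [pow_restrict h, hs.1]; rfl
  · apply Subtype.ext
    rw [nm_restrict h, hs.2]; rfl

theorem Spl.quotient {r : ℕ} {φ : MulAut G} (hs : Spl r φ) {N : Subgroup G} [N.Normal] {ψ : MulAut (G ⧸ N)}
    (h : ∀ x : G, ψ (x : G ⧸ N) = (φ x : G ⧸ N)) : Spl r ψ := by
  refine ⟨?_, fun x => ?_⟩
  · ext q
    obtain ⟨x, rfl⟩ := QuotientGroup.mk_surjective q
    rw [pow_quotient h, hs.1]; rfl
  · obtain ⟨x, rfl⟩ := QuotientGroup.mk_surjective x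
    rw [nm_quotient h, hs.2]; rfl

theorem Spl.exists_sylow [Finite G] {r : ℕ} {φ : MulAut G} (hs : Spl r φ) {p : ℕ} [Fact p.Prime] (P : Sylow p G) :
    ∃ g : G, (P : Subgroup G).map (MulAut.conj g * φ).toMonoidHom = P := by
  obtain ⟨g, hg⟩ := MulAction.exists_smul_eq G P (P.mapSurjective (f := φ.toMonoidHom) φ.surjective)
  have hg' : (g • P : Sylow p G) = (P : Subgroup G).map φ.toMonoidHom := by
    have := congrArg (fun Q : Sylow p G => (Q : Subgroup G)) hg
    exact this.trans (Sylow.coe_mapSurjective _ _)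
  refine ⟨g⁻¹, ?_⟩
  have h1 : (MulAut.conj g⁻¹ * φ).toMonoidHom = (MulAut.conj g⁻¹).toMonoidHom.comp φ.toMonoidHom := rfl
  rw [h1, ← Subgroup.map_map, ← hg', Sylow.coe_subgroup_smul]
  ext x
  constructor
  · rintro ⟨y, hy, rfl⟩
    rw [SetLike.mem_coe, H1.SZ.mem_conj_smul] at hy
    simpa using hy
  · intro hx
    refine ⟨g * x * g⁻¹, ?_, ?_⟩
    · rw [SetLike.mem_coe, H1.SZ.mem_conj_smul]
      have e : g⁻¹ * (g * x * g⁻¹) * g = x := by group
      rw [e]; exact hx
    · show g⁻¹ * (g * x * g⁻¹) * g⁻¹⁻¹ = x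
      group

theorem nm_mem {φ : MulAut G} {S : Subgroup G} (hS : ∀ s ∈ S, φ s ∈ S) (k : ℕ) {s : G} (hs : s ∈ S) : nm φ k s ∈ S := by
  induction k with
  | zero => exact S.one_mem
  | succ k ih => rw [nm_succ]; exact S.mul_mem hs (hS _ ih)

theorem nm_injective {r : ℕ} (hr : r.Prime) {φ : MulAut G} (hs : Spl r φ) {i : ℕ} (hi : 0 < i) (hir : i < r)
    {s t : G} (h : nm φ i s = nm φ i t) : s = t := by
  let Γ := G ⋊[MonoidHom.id (MulAut G)] (MulAut G)
  have hord : ∀ x : G, (SemidirectProduct.inl x * SemidirectProduct.inr φ : Γ) ^ r = 1 := by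
    intro x
    rw [sd_pow, hs.1, hs.2]; simp
  have h1 : (SemidirectProduct.inl s * SemidirectProduct.inr φ : Γ) ^ i =
      (SemidirectProduct.inl t * SemidirectProduct.inr φ : Γ) ^ i := by
    rw [sd_pow, sd_pow, h]
  have hcop : i.Coprime r := (Nat.coprime_of_lt_prime hi.ne' hir hr).symm
  obtain ⟨m, -, hm⟩ := Nat.exists_mul_mod_eq_one_of_coprime hcop hr.one_lt
  have key : ∀ y : Γ, y ^ r = 1 → (y ^ i) ^ m = y := by
    intro y hy
    rw [← pow_mul, ← Nat.div_add_mod (i * m) r, hm, pow_add, pow_mul, hy, one_pow, one_mul, pow_one]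
  have h2 : (SemidirectProduct.inl s * SemidirectProduct.inr φ : Γ) = SemidirectProduct.inl t * SemidirectProduct.inr φ := by
    rw [← key _ (hord s), h1, key _ (hord t)]
  exact SemidirectProduct.inl_injective (mul_right_cancel h2)

/-- **Key lemma** -/
theorem key [Finite G] {r : ℕ} (hr : r.Prime) {φ : MulAut G} (hs : Spl r φ) (V S : Subgroup G) [hVc : IsMulCommutative V]
    (hV : ∀ v ∈ V, φ v ∈ V) (hS : ∀ s ∈ S, φ s ∈ S) (hSV : ∀ s ∈ S, ∀ v ∈ V, s * v * s⁻¹ ∈ V)
    (hcop : (Nat.card S).Coprime (Nat.card V)) : ∀ s ∈ S, ∀ v ∈ V, s * v * s⁻¹ = v := by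
  classical
  have := Fintype.ofFinite S
  -- the action of `(s, φ)`
  have hVi : ∀ (s : S) (i : ℕ), ∀ v ∈ V, ((MulAut.conj (s : G) * φ) ^ i) v ∈ V := by
    intro s i v hv
    rw [pow_conj, MulAut.mul_apply, MulAut.conj_apply]
    apply hSV _ (nm_mem hS i s.2)
    clear hs
    induction i with
    | zero => simpa using hv
    | succ i ih => rw [pow_succ', MulAut.mul_apply]; exact hV _ ih
  have hφi : ∀ (i : ℕ), ∀ v ∈ V, (φ ^ i) v ∈ V := by
    intro i v hv
    induction i with
    | zero => simpa using hv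
    | succ i ih => rw [pow_succ', MulAut.mul_apply]; exact hV _ ih
  -- product formula inside the commutative group `V`
  have hprod : ∀ (s : S) (k : ℕ) (v : V), nm (MulAut.conj (s : G) * φ) k v =
      ((∏ i ∈ Finset.range k, (⟨_, hVi s i v v.2⟩ : V) : V) : G) := by
    intro s k v
    induction k with
    | zero => simp [nm_zero]
    | succ k ih =>
      rw [nm_succ, ih, Finset.prod_range_succ', Subgroup.coe_mul]
      have h1 : ((MulAut.conj (s : G)) * φ) ((∏ i ∈ Finset.range k, (⟨_, hVi s i v v.2⟩ : V) : V) : G) =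
          ((∏ i ∈ Finset.range k, (⟨_, hVi s (i + 1) v v.2⟩ : V) : V) : G) := by
        have hmul : ∀ T : Finset ℕ, ((MulAut.conj (s : G)) * φ) ((∏ i ∈ T, (⟨_, hVi s i v v.2⟩ : V) : V) : G) =
          ((∏ i ∈ T, (⟨_, hVi s (i + 1) v v.2⟩ : V) : V) : G) := by
          intro T
          induction T using Finset.induction_on with
          | empty => simp
          | insert a T ha ih' =>
            rw [Finset.prod_insert ha, Finset.prod_insert ha, Subgroup.coe_mul, Subgroup.coe_mul, map_mul, ih']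
            congr 1
            show ((MulAut.conj (s : G)) * φ) (((MulAut.conj (s : G) * φ) ^ a) v) = ((MulAut.conj (s : G) * φ) ^ (a + 1)) v
            rw [pow_succ']; rfl
        exact hmul _
      rw [h1]
      have h2 : ((⟨_, hVi s 0 v v.2⟩ : V) : G) = v := by simp
      rw [h2]
      have h3 := congrArg Subtype.val (mul_comm v (∏ i ∈ Finset.range k, (⟨_, hVi s (i + 1) v v.2⟩ : V) : V))
      exact h3
  have hone : ∀ (s : S) (v : V), (∏ i ∈ Finset.range r, (⟨_, hVi s i v v.2⟩ : V) : V) = 1 := by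
    intro s v
    apply Subtype.ext
    rw [← hprod, (hs.conj (s : G)).2]; rfl
  -- conjugation by `s` on `V`
  let cj : S → V →* V := fun s =>
    { toFun := fun v => ⟨(s : G) * v * (s : G)⁻¹, hSV s s.2 v v.2⟩
      map_one' := Subtype.ext (by simp)
      map_mul' := fun a b => Subtype.ext (by simp) }
  have hcj : ∀ (s t : S) (v : V), cj s (cj t v) = cj (s * t) v := by
    intro s t v
    apply Subtype.ext
    show (s : G) * ((t : G) * v * (t : G)⁻¹) * (s : G)⁻¹ = ((s * t : S) : G) * v * ((s * t : S) : G)⁻¹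
    rw [Subgroup.coe_mul]; group
  -- the sum over `S`
  let W : V → V := fun w => ∏ s : S, cj s w
  have hW : ∀ (t : S) (w : V), cj t (W w) = W w := by
    intro t w
    show cj t (∏ s : S, cj s w) = ∏ s : S, cj s w
    rw [map_prod]
    refine Fintype.prod_bijective (fun s => t * s) (Group.mulLeft_bijective t) _ _ (fun s => ?_)
    rw [hcj]
  have hbij : ∀ i, 0 < i → i < r → Function.Bijective (fun s : S => (⟨nm φ i s, nm_mem hS i s.2⟩ : S)) := by
    intro i hi hir
    rw [← Finite.injective_iff_bijective]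
    intro s t hst
    exact Subtype.ext (nm_injective hr hs hi hir (congrArg Subtype.val hst))
  have hterm : ∀ i, 0 < i → i < r → ∀ v : V, (∏ s : S, (⟨_, hVi s i v v.2⟩ : V) : V) = W ⟨(φ ^ i) v, hφi i v v.2⟩ := by
    intro i hi hir v
    refine Fintype.prod_bijective _ (hbij i hi hir) _ _ (fun s => ?_)
    apply Subtype.ext
    show ((MulAut.conj (s : G) * φ) ^ i) v = nm φ i s * (φ ^ i) v * (nm φ i s)⁻¹
    rw [pow_conj, MulAut.mul_apply, MulAut.conj_apply]
  -- conclusion
  obtain ⟨m, rfl⟩ : ∃ m, r = m + 1 := ⟨r - 1, by have := hr.pos; omega⟩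
  have hfinal : ∀ v : V, v ^ (Fintype.card S) * ∏ i ∈ Finset.range m, W ⟨(φ ^ (i + 1)) v, hφi (i + 1) v v.2⟩ = 1 := by
    intro v
    have h1 : (∏ s : S, ∏ i ∈ Finset.range (m + 1), (⟨_, hVi s i v v.2⟩ : V) : V) = 1 := by
      apply Finset.prod_eq_one
      intro s _
      exact hone s v
    rw [Finset.prod_comm, Finset.prod_range_succ'] at h1
    have h2 : (∏ s : S, (⟨_, hVi s 0 v v.2⟩ : V) : V) = v ^ (Fintype.card S) := by
      have h3 : ∀ s : S, (⟨_, hVi s 0 v v.2⟩ : V) = v := fun s => Subtype.ext (by simp)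
      simp only [h3]
      rw [Finset.prod_const, Finset.card_univ]
    rw [h2] at h1
    rw [mul_comm, ← h1]
    congr 1
    apply Finset.prod_congr rfl
    intro i hi
    rw [Finset.mem_range] at hi
    exact (hterm (i + 1) (Nat.succ_pos i) (by omega) v).symm
  intro s hsS v hvV
  set s' : S := ⟨s, hsS⟩
  set v' : V := ⟨v, hvV⟩
  have h1 : cj s' (v' ^ (Fintype.card S)) = v' ^ (Fintype.card S) := by
    have h2 := hfinal v'
    have h3 : v' ^ (Fintype.card S) = (∏ i ∈ Finset.range m, W ⟨(φ ^ (i + 1)) v', hφi (i + 1) v' v'.2⟩)⁻¹ :=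
      eq_inv_of_mul_eq_one_left h2
    rw [h3, map_inv, map_prod]
    congr 1
    apply Finset.prod_congr rfl
    intro i _
    exact hW s' _
  have h4 : (cj s' v' * v'⁻¹) ^ (Fintype.card S) = 1 := by
    rw [mul_pow, ← map_pow, h1, inv_pow, mul_inv_cancel]
  have h5 : (cj s' v' * v'⁻¹) ^ (Nat.card V) = 1 := pow_card_eq_one'
  have h6 : cj s' v' * v'⁻¹ = 1 := by
    have h7 := orderOf_dvd_of_pow_eq_one h4
    have h8 := orderOf_dvd_of_pow_eq_one h5
    rw [← Nat.card_eq_fintype_card] at h7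
    exact orderOf_eq_one_iff.1 (Nat.eq_one_of_dvd_coprimes hcop h7 h8)
  rw [mul_inv_eq_one] at h6
  exact congrArg Subtype.val h6

end H68.Split
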