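import Mathlib
import Cfsg.Agent.Lib.H68.TjRedA
import Cfsg.Agent.Lib.H39.KTrans
import Cfsg.Agent.Lib.H51.ThompsonA
import Cfsg.Agent.Lib.H98.TjDef

set_option autoImplicit false

/-!
S3068, piece RED, part 2: the Thompson subgroup (abelian version) as a `p`-group functor; no minimal failure.
-/

namespace H68.TjRed

open Cfsg H38.Basic H38.Control H39.Sect H39.MinFail
open H39 H51.ThompsonA
open scoped commutatorElement

universe u

variable {p : ℕ} [hp : Fact p.Prime]

theorem thompsonA_eq (P : Type*) [Group P] : thompsonSubgroupA P = J (⊤ : Subgroup P) := by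
  have key : ∀ A : Subgroup P, A ∈ maxAbelianSubgroups P ↔ MaxAb A ⊤ := by
    intro A
    constructor
    · rintro ⟨h1, h2⟩
      exact ⟨le_top, ab_iff.2 h1, fun B _ hB => h2 B (ab_iff.1 hB)⟩
    · rintro ⟨-, h2, h3⟩
      exact ⟨ab_iff.1 h2, fun B hB => h3 B le_top (ab_iff.2 hB)⟩
  rw [thompsonSubgroupA, J]
  congr 1
  ext A
  exact key A

/-- the Thompson subgroup as a functor -/
abbrev WA : ∀ (Q : Type u) [Group Q], Subgroup Q := fun Q _ => thompsonSubgroupA Q

theorem char_thompsonA : IsCharPFunctor.{u} p WA := by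
  constructor
  · intro Q _ _ hQ hnt h
    simp only [thompsonA_eq] at h
    have hc := hQ.center_nontrivial
    obtain ⟨⟨z, hz⟩, hne⟩ := exists_ne (1 : Subgroup.center Q)
    have h1 : z ∈ J (⊤ : Subgroup Q) := mem_J_of_center (Subgroup.mem_top z) (fun a _ => Subgroup.mem_center_iff.1 hz a)
    rw [h] at h1
    exact hne (Subtype.ext (Subgroup.mem_bot.1 h1))
  · intro Q R _ _ _ _ φ
    simp only [thompsonA_eq]
    rw [map_J]
    congr 1
    rw [← MonoidHom.range_eq_map, MonoidHom.range_eq_top]
    exact φ.surjective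

theorem induced_thompsonA {G : Type u} [Group G] (P : Subgroup G) :
    inducedFunctor (G := G) WA P = thompsonSubgroupAOf P := rfl

theorem no_minFail (hB : ∀ (X : Type u) [Group X] [Finite X], H98.Tj.BB p X) (h7 : 7 ≤ p)
    (X : Type u) [Group X] [Finite X] : ¬ IsMinFail p {WA} X := by
  intro h
  obtain ⟨S⟩ : Nonempty (Sylow p X) := inferInstance
  have hn : ¬ (thompsonSubgroupAOf (S : Subgroup X)).Normal := by
    intro hn
    exact h.NW_ne_top S (Set.mem_singleton _) (Subgroup.normalizer_eq_top_iff.2 hn)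
  have hJ : ¬ thompsonSubgroupAOf (S : Subgroup X) ≤ pCore p X := by
    intro hle
    apply hn
    rw [thompsonSubgroupAOf_eq] at hle ⊢
    have hQS : pCore p X ≤ (S : Subgroup X) := H52.PCore.pCore_le_sylow S
    rw [← J_eq_of_le hle hQS]
    rw [← Subgroup.normalizer_eq_top_iff]
    have hQn : (pCore p X).Normal := inferInstance
    have h1 := normalizer_le_normalizer_J (pCore p X)
    rw [Subgroup.normalizer_eq_top_iff.2 hQn] at h1
    exact top_le_iff.1 h1
  obtain ⟨U, V, hUV, hU, huniq, hne⟩ := exists_chief h S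
  obtain ⟨g, hgS, hgT, h6⟩ := hB X S hJ U V hUV hU huniq
  have hUn : U.Normal := hUV.2.1
  exact hne g hgS hgT ((Degree.iter_anti Degree.normalizer_top_le (by omega)).trans h6)

theorem inf_commutator (hB : ∀ (X : Type u) [Group X] [Finite X], H98.Tj.BB p X) (h7 : 7 ≤ p)
    {G : Type u} [Group G] [Finite G] (S : Sylow p G) : (S : Subgroup G) ⊓ commutator G = (S : Subgroup G) ⊓
      ⁅Subgroup.normalizer (thompsonSubgroupAOf (S : Subgroup G) : Set G),
        Subgroup.normalizer (thompsonSubgroupAOf (S : Subgroup G) : Set G)⁆ := by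
  have hch : ∀ W ∈ ({WA} : Set (∀ (Q : Type u) [Group Q], Subgroup Q)), IsCharPFunctor.{u} p W := by
    rintro W' rfl
    exact char_thompsonA
  have h1 := KTrans.fc_of_no_minFail hch (Set.singleton_nonempty _) (no_minFail hB h7) G
  rw [fc_iff hch (isSyl_sylow S), KTrans.rt_singleton] at h1
  rw [top_inf_eq, induced_thompsonA] at h1
  rw [commutator_def]
  exact h1

end H68.TjRed
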