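import Mathlib
import Cfsg.Agent.Lib.H73.HallWielandt

set_option autoImplicit false

/-!
S3068, piece RED, part 3: from `P ∩ G' ≤ H'` to `O^p(H) = O^p(G) ∩ H` and `G/O^p(G) ≃* H/O^p(H)`.
-/

namespace H68.TjRed

open Cfsg
open scoped commutatorElement

variable {G : Type*} [Group G] [Finite G] {p : ℕ} [hp : Fact p.Prime]

theorem exists_ext (P : Sylow p G) {H : Subgroup G} (hPH : (P : Subgroup G) ≤ H)
    (h : (P : Subgroup G) ⊓ commutator G ≤ ⁅H, H⁆) (φ : H →* Multiplicative (ZMod p)) :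
    ∃ μ : G →* Multiplicative (ZMod p), ∀ x : H, μ (x : G) = φ x := by
  classical
  obtain ⟨f, hf⟩ : ∃ f : (P : Subgroup G) →* Abelianization G, f = (Abelianization.of).comp (P : Subgroup G).subtype := ⟨_, rfl⟩
  obtain ⟨φP, hφP⟩ : ∃ φP : (P : Subgroup G) →* Multiplicative (ZMod p), φP = φ.comp (Subgroup.inclusion hPH) := ⟨_, rfl⟩
  have hφ1 : ∀ x : H, (x : G) ∈ ⁅H, H⁆ → φ x = 1 := by
    intro x hx
    rw [← Subgroup.map_subtype_commutator] at hx
    obtain ⟨y, hy, hyx⟩ := hx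
    have hyx' : y = x := Subtype.ext hyx
    rw [← hyx']
    exact (Abelianization.commutator_subset_ker φ) hy
  have hker : f.rangeRestrict.ker ≤ φP.ker := by
    intro x hx
    rw [MonoidHom.ker_rangeRestrict, MonoidHom.mem_ker, hf] at hx
    have h1 : (x : G) ∈ commutator G := by
      rw [← Abelianization.ker_of, MonoidHom.mem_ker]
      exact hx
    rw [MonoidHom.mem_ker, hφP]
    exact hφ1 _ (h ⟨x.2, h1⟩)
  obtain ⟨ψ, hψ⟩ : ∃ ψ : f.range →* Multiplicative (ZMod p), ∀ x, ψ (f.rangeRestrict x) = φP x :=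
    ⟨f.rangeRestrict.liftOfSurjective f.rangeRestrict_surjective ⟨φP, hker⟩,
      fun x => MonoidHom.liftOfRightInverse_comp_apply _ _ _ ⟨φP, hker⟩ x⟩
  obtain ⟨n, hn⟩ : ∃ n, n = (P : Subgroup G).index := ⟨_, rfl⟩
  have hpn : ¬ p ∣ n := by rw [hn]; exact P.not_dvd_index
  have hrange : f.range = (P : Subgroup G).map Abelianization.of := by
    rw [hf, MonoidHom.range_comp, Subgroup.range_subtype]
  have hmem : ∀ a : Abelianization G, a ^ n ∈ f.range := by
    intro a
    have h1 : f.range.index ∣ n := by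
      rw [hrange, hn]
      exact Subgroup.index_map_dvd _ (QuotientGroup.mk'_surjective _)
    obtain ⟨k, hk⟩ := h1
    rw [hk, pow_mul]
    exact f.range.pow_mem (Subgroup.pow_index_mem f.range a) k
  let κ : Abelianization G →* f.range := (powMonoidHom n : Abelianization G →* Abelianization G).codRestrict f.range hmem
  obtain ⟨e, he⟩ : ∃ e : ℕ, e * n ≡ 1 [MOD p] := by
    have hc : Nat.Coprime n p := ((Nat.Prime.coprime_iff_not_dvd hp.out).2 hpn).symm
    obtain ⟨m, hm⟩ := Nat.exists_mul_mod_eq_one_of_coprime hc hp.out.one_lt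
    refine ⟨m, ?_⟩
    rw [Nat.ModEq, mul_comm, hm.2, Nat.mod_eq_of_lt hp.out.one_lt]
  have hpow : ∀ z : Multiplicative (ZMod p), z ^ (e * n) = z := by
    intro z
    have h1 : z ^ p = 1 := by
      have h2 : z ^ Nat.card (Multiplicative (ZMod p)) = 1 := pow_card_eq_one'
      have h3 : Nat.card (Multiplicative (ZMod p)) = p := Nat.card_zmod p
      rwa [h3] at h2
    have h2 : z ^ (e * n) = z ^ 1 := by
      rw [pow_eq_pow_iff_modEq]
      exact he.of_dvd (orderOf_dvd_of_pow_eq_one h1)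
    rw [h2, pow_one]
  let μ : G →* Multiplicative (ZMod p) :=
    (powMonoidHom e : Multiplicative (ZMod p) →* Multiplicative (ZMod p)).comp (ψ.comp (κ.comp Abelianization.of))
  have hμP : ∀ (x : G) (hx : x ∈ (P : Subgroup G)), μ x = φ ⟨x, hPH hx⟩ := by
    intro x hx
    have h1 : κ (Abelianization.of x) = f.rangeRestrict (⟨x, hx⟩ ^ n) := by
      apply Subtype.ext
      have h2 : ((f.rangeRestrict (⟨x, hx⟩ ^ n) : f.range) : Abelianization G) = f (⟨x, hx⟩ ^ n) := rfl
      have h3 : f ⟨x, hx⟩ = Abelianization.of x := by rw [hf]; rfl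
      rw [h2, map_pow, h3]
      rfl
    show (ψ (κ (Abelianization.of x))) ^ e = _
    rw [h1, hψ, map_pow, ← pow_mul, mul_comm n e, hpow, hφP]
    rfl
  refine ⟨μ, fun x => ?_⟩
  have hA : IsPGroup p (Multiplicative (ZMod p)) := IsPGroup.of_card (n := 1) (by
    rw [pow_one]; exact Nat.card_zmod p)
  have h1 := H73.HallWielandt.eq_one_of_sylow hA (P.subtype hPH) ((μ.comp H.subtype) / φ) (by
    intro y hy
    have hy' : (y : G) ∈ (P : Subgroup G) := hy
    rw [MonoidHom.div_apply, MonoidHom.comp_apply, Subgroup.coe_subtype, hμP _ hy', div_eq_one]) x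
  rw [MonoidHom.div_apply, div_eq_one] at h1
  exact h1

theorem residual_eq (P : Sylow p G) {H : Subgroup G} (hPH : (P : Subgroup G) ≤ H)
    (h : (P : Subgroup G) ⊓ commutator G ≤ ⁅H, H⁆) : Cfsg.pResidualOf p H = Cfsg.pResidual p G ⊓ H :=
  H73.HallWielandt.residual_of_ext P hPH (exists_ext P hPH h)

theorem nonempty_equiv (P : Sylow p G) {H : Subgroup G} (hPH : (P : Subgroup G) ≤ H)
    (h : (P : Subgroup G) ⊓ commutator G ≤ ⁅H, H⁆) [hn : (Cfsg.pResidual p G).Normal] [hm : (Cfsg.pResidual p H).Normal] :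
    Nonempty (G ⧸ Cfsg.pResidual p G ≃* H ⧸ Cfsg.pResidual p H) := by
  have h1 := residual_eq P hPH h
  let f : H →* G ⧸ Cfsg.pResidual p G := (QuotientGroup.mk' (Cfsg.pResidual p G)).comp H.subtype
  have hsurj : Function.Surjective f := by
    intro y
    obtain ⟨g, rfl⟩ := QuotientGroup.mk'_surjective _ y
    have hg : g ∈ (P : Subgroup G) ⊔ Cfsg.pResidual p G := by rw [H2.Residual.sylow_sup_residual P]; trivial
    obtain ⟨s, hs, r, hr, rfl⟩ := Subgroup.mem_sup_of_normal_right.1 hg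
    refine ⟨⟨s, hPH hs⟩, ?_⟩
    show QuotientGroup.mk' (Cfsg.pResidual p G) s = QuotientGroup.mk' (Cfsg.pResidual p G) (s * r)
    have h2 : QuotientGroup.mk' (Cfsg.pResidual p G) r = 1 := (QuotientGroup.eq_one_iff r).2 hr
    rw [map_mul, h2, mul_one]
  have hker : f.ker = Cfsg.pResidual p H := by
    ext x
    rw [MonoidHom.mem_ker]
    have h2 : f x = 1 ↔ (x : G) ∈ Cfsg.pResidual p G := QuotientGroup.eq_one_iff _
    rw [h2]
    have h3 : (x : G) ∈ Cfsg.pResidualOf p H ↔ x ∈ Cfsg.pResidual p H := by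
      rw [Cfsg.pResidualOf]
      exact Subgroup.mem_map_iff_mem H.subtype_injective
    rw [← h3, h1]
    exact ⟨fun h4 => ⟨h4, x.2⟩, fun h4 => h4.1⟩
  exact ⟨((QuotientGroup.quotientMulEquivOfEq hker.symm).trans (QuotientGroup.quotientKerEquivOfSurjective f hsurj)).symm⟩

end H68.TjRed
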