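import Mathlib
import Cfsg.Agent.Lib.H68.TjRedB
import Cfsg.Agent.Lib.H68.TjRedC

set_option autoImplicit false

/-!
S3068, piece RED: the reduction to the key statement `H98.Tj.BB`.
-/

namespace H68.TjRed

open Cfsg

universe u

theorem red {G : Type u} [Group G] [Finite G] {p : ℕ} [Fact p.Prime]
    (hB : ∀ (X : Type u) [Group X] [Finite X], H98.Tj.BB p X) (hp : 7 ≤ p) (S : Sylow p G)
    [hn : (Cfsg.pResidual p G).Normal]
    [hm : (Cfsg.pResidual p ↥(Subgroup.normalizer (Cfsg.thompsonSubgroupAOf (S : Subgroup G) : Set G))).Normal] :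
    Nonempty (G ⧸ Cfsg.pResidual p G ≃*
      ↥(Subgroup.normalizer (Cfsg.thompsonSubgroupAOf (S : Subgroup G) : Set G)) ⧸
        Cfsg.pResidual p ↥(Subgroup.normalizer (Cfsg.thompsonSubgroupAOf (S : Subgroup G) : Set G))) := by
  have hSM : (S : Subgroup G) ≤ Subgroup.normalizer (Cfsg.thompsonSubgroupAOf (S : Subgroup G) : Set G) := by
    rw [H51.ThompsonA.thompsonSubgroupAOf_eq]
    exact Subgroup.le_normalizer.trans (H51.ThompsonA.normalizer_le_normalizer_J (S : Subgroup G))
  refine nonempty_equiv S hSM ?_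
  rw [inf_commutator hB hp S]
  exact inf_le_right

end H68.TjRed
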