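import Cfsg.Agent.Lib.H68.MinNorm

/-! Partially subnormal subgroups and unique maximal subgroups. -/

namespace H68.UniqMax

open Subgroup Pointwise H11.SubnormalJoin

universe u

theorem chain {G : Type u} [Group G] [Finite G] (D Z T : Subgroup G) (hTZ : T < Z) :
    ∃ N : Subgroup G, T < N ∧ N ≤ Z ∧ ∀ n ∈ N, ∀ g : G, MulAut.conj g • D ≤ T →
      ((MulAut.conj g • D).subgroupOf Z).IsSubnormal →
      MulAut.conj (n * g) • D ≤ T ∧ ((MulAut.conj (n * g) • D).subgroupOf Z).IsSubnormal := by
  let S : Set (Subgroup G) := {B | (∃ g : G, B = MulAut.conj g • D) ∧ B ≤ Z ∧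
    (B.subgroupOf Z).IsSubnormal}
  let W : Set (Subgroup G) := {B | B ∈ S ∧ B ≤ T}
  have hconj : ∀ B ∈ S, ∀ g ∈ Z, MulAut.conj g • B ∈ S := by
    intro B hB g hg
    obtain ⟨⟨x, hx⟩, hBM, hsn⟩ := hB
    refine ⟨⟨g * x, by rw [hx, map_mul, mul_smul]⟩, ?_, ?_⟩
    · exact Subgroup.conj_smul_le_of_le hBM ⟨g, hg⟩
    · have := hsn.smul (MulAut.conj (⟨g, hg⟩ : Z))
      rwa [Subgroup.conj_smul_subgroupOf hBM ⟨g, hg⟩] at this
  have hT : ∀ t ∈ T, ∀ B ∈ W, MulAut.conj t • B ∈ W := by
    intro t ht B hB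
    exact ⟨hconj B hB.1 t (hTZ.le ht), Subgroup.conj_smul_le_of_le hB.2 ⟨t, ht⟩⟩
  have hnorm : ∀ Y : Subgroup G, (∀ t ∈ Y, ∀ B ∈ W, MulAut.conj t • B ∈ W) →
      Y ≤ normalizer ((sSup W : Subgroup G) : Set G) := by
    intro Y hY t ht
    rw [mem_normalizer_iff_conj]
    apply conj_smul_eq_of_le
    rw [Subgroup.pointwise_smul_subset_iff]
    refine sSup_le fun B hB => ?_
    rw [Subgroup.subset_pointwise_smul_iff, inv_inv]
    exact le_sSup (hY t ht B hB)
  refine ⟨Z ⊓ normalizer ((sSup W : Subgroup G) : Set G), ?_, inf_le_left, ?_⟩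
  · refine lt_of_le_of_ne (le_inf hTZ.le (hnorm T hT)) ?_
    intro heq
    by_cases hWS : W = S
    · have h1 : Z ≤ normalizer ((sSup W : Subgroup G) : Set G) := by
        apply hnorm
        intro t ht B hB
        rw [hWS] at hB ⊢
        exact hconj B hB t ht
      rw [inf_eq_left.2 h1] at heq
      exact hTZ.ne heq
    · obtain ⟨B, hB, hB0, hBn⟩ := H11.SubnormalMore.exists_mem_normalizes_sSup_rel Z S W
        (fun B hB => hB.2.1) (fun B hB => hB.2.2) hconj
        ⟨fun B hB => hB.1, fun h => hWS (subset_antisymm (fun B hB => hB.1) h)⟩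
      apply hB0
      refine ⟨hB, ?_⟩
      rw [heq]
      exact le_inf hB.2.1 hBn
  · intro n hn g hgT hgs
    have hB : MulAut.conj g • D ∈ W := ⟨⟨⟨g, rfl⟩, hgT.trans hTZ.le, hgs⟩, hgT⟩
    have h1 : MulAut.conj n • MulAut.conj g • D ∈ S := hconj _ hB.1 n hn.1
    have h2 : MulAut.conj n • MulAut.conj g • D ≤ T := by
      have h3 : MulAut.conj n • MulAut.conj g • D ≤ MulAut.conj n • (sSup W : Subgroup G) := by
        rw [Subgroup.pointwise_smul_le_pointwise_smul_iff]
        exact le_sSup hB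
      rw [mem_normalizer_iff_conj.1 hn.2] at h3
      exact h3.trans (sSup_le fun B hB => hB.2)
    rw [map_mul, mul_smul]
    exact ⟨h2, h1.2.2⟩

theorem isCoatom_conj {G : Type u} [Group G] {M : Subgroup G} (hM : IsCoatom M) (g : G) :
    IsCoatom (MulAut.conj g • M) := by
  constructor
  · intro h
    apply hM.1
    have h1 : M = (MulAut.conj g)⁻¹ • (MulAut.conj g • M) := by rw [inv_smul_smul]
    rw [h1, h, eq_top_iff]
    intro x _
    rw [Subgroup.mem_pointwise_smul_iff_inv_smul_mem]
    exact Subgroup.mem_top _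
  · intro K hK
    have h1 : M < (MulAut.conj g)⁻¹ • K := by
      have h2 : M ≤ (MulAut.conj g)⁻¹ • K := by
        rw [Subgroup.subset_pointwise_smul_iff, inv_inv]
        exact hK.le
      refine lt_of_le_of_ne h2 ?_
      intro h3
      apply hK.ne
      rw [h3, smul_inv_smul]
    have h4 := hM.2 _ h1
    have h5 : K = MulAut.conj g • ((MulAut.conj g)⁻¹ • K) := by rw [smul_inv_smul]
    rw [h5, h4, eq_top_iff]
    intro x _
    rw [Subgroup.mem_pointwise_smul_iff_inv_smul_mem]
    exact Subgroup.mem_top _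

theorem coreFree {G : Type u} [Group G] [Finite G] (M D : Subgroup G) (hM : IsCoatom M)
    (hcore : M.normalCore = ⊥) (hDM : D ≤ M) (hD : ¬ D.IsSubnormal)
    (hX : ∀ X, IsCoatom X → D ≤ X → X ≠ M → (D.subgroupOf X).IsSubnormal) :
    ∀ X, IsCoatom X → D ≤ X → X = M := by
  have hD0 : D ≠ ⊥ := by
    rintro rfl
    exact hD .bot
  have hMn : ¬ M.Normal := by
    intro h
    have := Subgroup.normalCore_eq_self M
    rw [hcore] at this
    rw [← this, le_bot_iff] at hDM
    exact hD0 hDM
  have hNM : ∀ g : G, MulAut.conj g • M = M → g ∈ M := by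
    intro g hg
    by_contra hgM
    apply hMn
    rw [← Subgroup.normalizer_eq_top_iff]
    apply hM.2
    refine lt_of_le_of_ne Subgroup.le_normalizer ?_
    intro h
    apply hgM
    rw [h, mem_normalizer_iff_conj]
    exact hg
  have hX' : ∀ g : G, ∀ X, IsCoatom X → MulAut.conj g • D ≤ X → X ≠ MulAut.conj g • M →
      ((MulAut.conj g • D).subgroupOf X).IsSubnormal := by
    intro g X hXc hDX hXM
    apply H68.Zipper.isSubnormal_subgroupOf_of_conj
    apply hX
    · have := isCoatom_conj hXc g⁻¹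
      rwa [map_inv] at this
    · rwa [Subgroup.subset_pointwise_smul_iff, inv_inv]
    · intro h
      apply hXM
      rw [← h, smul_inv_smul]
  have hND : ∀ g : G, MulAut.conj g • D = D → g ∈ M := by
    intro g hg
    by_contra hgM
    have h1 : MulAut.conj g • M ≠ M := fun h => hgM (hNM g h)
    have h2 : (D.subgroupOf M).IsSubnormal := by
      have := hX' g M hM (by rw [hg]; exact hDM) (Ne.symm h1)
      rwa [hg] at this
    obtain ⟨M₁, hM₁, -, hM₁u⟩ := H68.Zipper.exists_unique_max D hD (by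
      intro V hV hDV
      obtain ⟨X, hXc, hVX⟩ := (eq_top_or_exists_le_coatom V).resolve_left hV
      apply H68.Zipper.isSubnormal_subgroupOf_of_le hVX
      by_cases hXM : X = M
      · rw [hXM]; exact h2
      · exact hX X hXc (hDV.trans hVX) hXM)
    have h3 : M = M₁ := by
      rcases hM.le_iff.1 (hM₁u M hM.1 hDM) with h | h
      · exact absurd h hM₁
      · exact h.symm
    have h4 : MulAut.conj g • M = M₁ := by
      have h5 : D ≤ MulAut.conj g • M := by
        rw [← hg, Subgroup.pointwise_smul_le_pointwise_smul_iff]; exact hDM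
      rcases (isCoatom_conj hM g).le_iff.1 (hM₁u _ (isCoatom_conj hM g).1 h5) with h | h
      · exact absurd h hM₁
      · exact h.symm
    exact h1 (h4.trans h3.symm)
  by_contra hcon
  push Not at hcon
  obtain ⟨X, ⟨hXc, hDX, hXM⟩, hXmax⟩ := Set.exists_max_image
    {X : Subgroup G | IsCoatom X ∧ D ≤ X ∧ X ≠ M} (fun X => Nat.card ↥(X ⊓ M)) (Set.toFinite _)
    (by obtain ⟨X, h1, h2, h3⟩ := hcon; exact ⟨X, h1, h2, h3⟩)
  set T := X ⊓ M with hT
  have hTX : T < X := by
    refine lt_of_le_of_ne inf_le_left ?_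
    intro h
    have h1 : X ≤ M := inf_eq_left.1 h
    rcases hXc.le_iff.1 h1 with h2 | h2
    · exact hM.1 h2
    · exact hXM h2.symm
  have hTM : T < M := by
    refine lt_of_le_of_ne inf_le_right ?_
    intro h
    have h1 : M ≤ X := inf_eq_right.1 h
    rcases hM.le_iff.1 h1 with h2 | h2
    · exact hXc.1 h2
    · exact hXM h2
  have hDT : D ≤ T := le_inf hDX hDM
  obtain ⟨N₁, hTN₁, hN₁X, hN₁⟩ := chain D X T hTX
  obtain ⟨N₂, hTN₂, hN₂M, hN₂⟩ := chain D M T hTM
  have hgen : N₁ ⊔ N₂ = ⊤ := by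
    by_contra hne
    obtain ⟨Z, hZ, hle⟩ := (eq_top_or_exists_le_coatom _).resolve_left hne
    by_cases hZM : Z = M
    · have : N₁ ≤ T := le_inf hN₁X (hZM ▸ (le_sup_left.trans hle))
      exact absurd this (not_le_of_gt hTN₁)
    · have h1 := hXmax Z ⟨hZ, (hDT.trans hTN₂.le).trans (le_sup_right.trans hle), hZM⟩
      have h2 : Nat.card N₂ ≤ Nat.card ↥(Z ⊓ M) :=
        Subgroup.card_le_of_le (le_inf (le_sup_right.trans hle) hN₂M)
      have h3 : Nat.card T < Nat.card N₂ := by
        refine lt_of_le_of_ne (Subgroup.card_le_of_le hTN₂.le) ?_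
        intro h
        exact hTN₂.ne (Subgroup.eq_of_le_of_card_ge hTN₂.le h.ge)
      omega
  let Q : Set (Subgroup G) := {M' | ∃ g : G, MulAut.conj g • D ≤ T ∧ M' = MulAut.conj g • M}
  have hMQ : M ∈ Q := ⟨1, by simpa using hDT, by simp⟩
  have hQ1 : ∀ n ∈ N₁, ∀ M' ∈ Q, MulAut.conj n • M' ∈ Q := by
    rintro n hn M' ⟨g, hg, rfl⟩
    by_cases hgX : X = MulAut.conj g • M
    · rw [← hgX, mem_normalizer_iff_conj.1 (Subgroup.le_normalizer (hN₁X hn)), hgX]
      exact ⟨g, hg, rfl⟩
    · have h1 := hN₁ n hn g hg (hX' g X hXc (hg.trans hTX.le) hgX)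
      exact ⟨n * g, h1.1, by rw [map_mul, mul_smul]⟩
  have hQ2 : ∀ n ∈ N₂, ∀ M' ∈ Q, MulAut.conj n • M' ∈ Q := by
    rintro n hn M' ⟨g, hg, rfl⟩
    by_cases hgX : M = MulAut.conj g • M
    · rw [← hgX, mem_normalizer_iff_conj.1 (Subgroup.le_normalizer (hN₂M hn))]
      exact hMQ
    · have h1 := hN₂ n hn g hg (hX' g M hM (hg.trans hTM.le) hgX)
      exact ⟨n * g, h1.1, by rw [map_mul, mul_smul]⟩
  have hQ : ∀ x : G, (∀ M' ∈ Q, MulAut.conj x • M' ∈ Q) ∧ (∀ M' ∈ Q, MulAut.conj x⁻¹ • M' ∈ Q) := by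
    intro x
    have hx : x ∈ Subgroup.closure ((N₁ : Set G) ∪ N₂) := by
      rw [Subgroup.closure_union, Subgroup.closure_eq, Subgroup.closure_eq, hgen]
      exact Subgroup.mem_top _
    induction hx using Subgroup.closure_induction with
    | mem x hx =>
      rcases hx with hx | hx
      · exact ⟨hQ1 x hx, hQ1 x⁻¹ (inv_mem hx)⟩
      · exact ⟨hQ2 x hx, hQ2 x⁻¹ (inv_mem hx)⟩
    | one => simp
    | mul x y _ _ h1 h2 =>
      refine ⟨fun M' hM' => ?_, fun M' hM' => ?_⟩
      · rw [map_mul, mul_smul]; exact h1.1 _ (h2.1 _ hM')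
      · rw [mul_inv_rev, map_mul, mul_smul]; exact h2.2 _ (h1.2 _ hM')
    | inv x _ h => exact ⟨h.2, by rw [inv_inv]; exact h.1⟩
  -- minimal normal subgroup of X
  obtain ⟨N, hN⟩ := (Set.toFinite {K : Subgroup X | K.Normal ∧ K ≠ ⊥}).exists_minimal (by
    refine ⟨⊤, inferInstance, ?_⟩
    intro h
    apply hD0
    rw [eq_bot_iff]
    have h2 : (⊤ : Subgroup X).map X.subtype = X := by rw [← MonoidHom.range_eq_map, Subgroup.range_subtype]
    rw [h, Subgroup.map_bot] at h2
    rw [h2]
    exact hDX)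
  have hNmin : ∀ K : Subgroup X, K.Normal → K ≤ N → K = ⊥ ∨ K = N := by
    intro K hK hKN
    by_cases hK0 : K = ⊥
    · exact Or.inl hK0
    · exact Or.inr (le_antisymm hKN (hN.le_of_le ⟨hK, hK0⟩ hKN))
  have hNall : ∀ g : G, N.map X.subtype ≤ MulAut.conj g • M := by
    intro g
    obtain ⟨h, hh, he⟩ := (hQ g).1 M hMQ
    rw [he]
    by_cases hgX : X = MulAut.conj h • M
    · rw [← hgX]
      exact Subgroup.map_subtype_le N
    · have h1 := hX' h X hXc (hh.trans hTX.le) hgX
      have h2 := H68.MinNorm.minNormal_le_normalizer N _ hN.prop.1 hNmin h1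
      have h3 : N.map X.subtype ≤ normalizer (((MulAut.conj h • D : Subgroup G)) : Set G) := by
        have := (Subgroup.map_mono h2).trans (Subgroup.le_normalizer_map X.subtype)
        rwa [Subgroup.map_subgroupOf_eq_of_le (hh.trans hTX.le)] at this
      intro x hx
      have h4 := mem_normalizer_iff_conj.1 (h3 hx)
      rw [Subgroup.mem_pointwise_smul_iff_inv_smul_mem]
      apply hND
      have h5 : ((MulAut.conj h)⁻¹ • x : G) = h⁻¹ * x * h := by
        rw [← map_inv, MulAut.smul_def, MulAut.conj_apply, inv_inv]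
      rw [h5, map_mul, map_mul, mul_smul, mul_smul, h4, map_inv, inv_smul_smul]
  apply hN.prop.2
  have h1 : N.map X.subtype ≤ M.normalCore := by
    intro x hx b
    have := hNall b⁻¹ hx
    rw [Subgroup.mem_pointwise_smul_iff_inv_smul_mem] at this
    rw [map_inv, inv_inv] at this
    exact this
  rw [hcore, le_bot_iff] at h1
  exact (Subgroup.map_eq_bot_iff_of_injective _ X.subtype_injective).1 h1

theorem eq_top_of_isSubnormal {G : Type u} [Group G] {A B : Subgroup G}
    (hA : Subgroup.normalClosure (A : Set G) = ⊤) (hAB : A ≤ B) (hB : B.IsSubnormal) : B = ⊤ := by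
  by_contra hne
  obtain ⟨K, hK, hBK, hKT⟩ := hB.exists_normal_and_le_and_lt_top_of_ne hne
  have : Subgroup.normalClosure (A : Set G) ≤ K := Subgroup.normalClosure_le_normal (hAB.trans hBK)
  rw [hA] at this
  exact hKT.ne (top_le_iff.1 this)

theorem uniq {G : Type u} [Group G] [Finite G] (M A : Subgroup G) (hM : IsCoatom M)
    (hA : Subgroup.normalClosure (A : Set G) = ⊤) (hAM : A ≤ M)
    (hX : ∀ X, IsCoatom X → A ≤ X → X ≠ M → (A.subgroupOf X).IsSubnormal) :
    ∀ X, IsCoatom X → A ≤ X → X = M := by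
  set C := M.normalCore with hC
  have hCM : C ≤ M := Subgroup.normalCore_le M
  -- every such `X` contains `C`
  have hCX : ∀ X, IsCoatom X → A ≤ X → X ≠ M → C ≤ X := by
    intro X hXc hAX hXM
    by_contra hCX
    have h1 : X ⊔ C = ⊤ := hXc.2 _ (by
      refine lt_of_le_of_ne le_sup_left ?_
      intro h
      exact hCX (h ▸ le_sup_right))
    have h2 := hX X hXc hAX hXM
    -- `A ⊔ C` subnormal
    have h3 : ((A.map (QuotientGroup.mk' C)) : Subgroup (G ⧸ C)).IsSubnormal := by
      have h4 : Function.Surjective ((QuotientGroup.mk' C).comp X.subtype) := by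
        rw [← MonoidHom.range_eq_top, MonoidHom.range_comp, Subgroup.range_subtype]
        have h5 : (X ⊔ C).map (QuotientGroup.mk' C) = ⊤ := by
          rw [h1, Subgroup.map_top_of_surjective _ (QuotientGroup.mk'_surjective C)]
        rw [Subgroup.map_sup, QuotientGroup.map_mk'_self, sup_bot_eq] at h5
        exact h5
      have h6 := h2.map h4
      rwa [← Subgroup.map_map, Subgroup.map_subgroupOf_eq_of_le hAX] at h6
    have h7 := h3.comap (QuotientGroup.mk' C)
    have h8 : A ⊔ C = ⊤ := by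
      have h9 : (A.map (QuotientGroup.mk' C)).comap (QuotientGroup.mk' C) = A ⊔ C := by
        rw [Subgroup.comap_map_eq, QuotientGroup.ker_mk']
      rw [h9] at h7
      exact eq_top_of_isSubnormal hA le_sup_left h7
    apply hM.1
    rw [eq_top_iff, ← h8]
    exact sup_le hAM hCM
  let q := QuotientGroup.mk' C
  have hq : Function.Surjective q := QuotientGroup.mk'_surjective C
  have hcm : ∀ X : Subgroup G, C ≤ X → (X.map q).comap q = X := by
    intro X hX
    rw [Subgroup.comap_map_eq, QuotientGroup.ker_mk', sup_eq_left.2 hX]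
  have hcoat : ∀ X : Subgroup G, IsCoatom X → C ≤ X → IsCoatom (X.map q) := by
    intro X hXc hCX
    constructor
    · intro h
      apply hXc.1
      rw [← hcm X hCX, h, Subgroup.comap_top]
    · intro K hK
      have h1 : X < K.comap q := by
        refine lt_of_le_of_ne ?_ ?_
        · rw [← Subgroup.map_le_iff_le_comap]; exact hK.le
        · intro h
          apply hK.ne
          rw [h, Subgroup.map_comap_eq_self_of_surjective hq]
      have h2 := hXc.2 _ h1
      rw [← Subgroup.map_comap_eq_self_of_surjective hq K, h2, Subgroup.map_top_of_surjective _ hq]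
  have hcoat' : ∀ K : Subgroup (G ⧸ C), IsCoatom K → IsCoatom (K.comap q) := by
    intro K hK
    constructor
    · intro h
      apply hK.1
      rw [← Subgroup.map_comap_eq_self_of_surjective hq K, h, Subgroup.map_top_of_surjective _ hq]
    · intro X hX
      have hCX : C ≤ X := by
        refine le_trans ?_ hX.le
        exact (QuotientGroup.ker_mk' C).ge.trans (Subgroup.ker_le_comap q K)
      have h1 : K < X.map q := by
        refine lt_of_le_of_ne ?_ ?_
        · rw [← Subgroup.map_comap_eq_self_of_surjective hq K]; exact Subgroup.map_mono hX.le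
        · intro h
          apply hX.ne
          rw [h, hcm X hCX]
      have h2 := hK.2 _ h1
      rw [← hcm X hCX, h2, Subgroup.comap_top]
  have key := coreFree (M.map q) (A.map q) (hcoat M hM hCM) (by
      rw [eq_bot_iff]
      have h1 : ((M.map q).normalCore).comap q ≤ C := by
        apply Subgroup.normal_le_normalCore.2
        have h2 := Subgroup.comap_mono (f := q) (Subgroup.normalCore_le (M.map q))
        rwa [hcm M hCM] at h2
      rw [← Subgroup.map_comap_eq_self_of_surjective hq ((M.map q).normalCore)]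
      refine (Subgroup.map_mono h1).trans ?_
      rw [QuotientGroup.map_mk'_self])
    (Subgroup.map_mono hAM)
    (by
      intro h
      have h1 := h.comap q
      rw [Subgroup.comap_map_eq, QuotientGroup.ker_mk'] at h1
      have h2 := eq_top_of_isSubnormal hA le_sup_left h1
      apply hM.1
      rw [eq_top_iff, ← h2]
      exact sup_le hAM hCM)
    (by
      intro X hXc hAX hXM
      have h1 : A ≤ X.comap q := by rwa [← Subgroup.map_le_iff_le_comap]
      have h2 := hX (X.comap q) (hcoat' X hXc) h1 (by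
        intro h
        apply hXM
        have h7 := Subgroup.map_comap_eq_self_of_surjective hq X
        rw [h] at h7
        exact h7.symm)
      -- restrict q
      have h3 : Function.Surjective (q.subgroupComap X) := by
        rintro ⟨y, hy⟩
        obtain ⟨x, rfl⟩ := hq y
        exact ⟨⟨x, hy⟩, rfl⟩
      have h4 := h2.map h3
      convert h4 using 1
      ext x
      rw [Subgroup.mem_subgroupOf]
      constructor
      · rintro ⟨a, ha, hax⟩
        refine ⟨⟨a, h1 ha⟩, ha, ?_⟩
        exact Subtype.ext hax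
      · rintro ⟨⟨a, ha'⟩, ha, hax⟩
        refine ⟨a, ha, ?_⟩
        exact congrArg Subtype.val hax)
  intro X hXc hAX
  by_contra hXM
  have h1 := key (X.map q) (hcoat X hXc (hCX X hXc hAX hXM)) (Subgroup.map_mono hAX)
  apply hXM
  rw [← hcm X (hCX X hXc hAX hXM), h1, hcm M hCM]

/-- the family of `S3947` -/
def Sig {G : Type u} [Group G] (A : Subgroup G) : Set (Subgroup G) :=
  {H : Subgroup G | A ≤ H ∧ H ≠ ⊤ ∧ Subgroup.normalClosure ((A.subgroupOf H : Subgroup ↥H) : Set ↥H) = ⊤}

/-- subnormal closure -/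
theorem exists_subnormalClosure {G : Type u} [Group G] [Finite G] (A X : Subgroup G) (hAX : A ≤ X) :
    ∃ B : Subgroup G, A ≤ B ∧ B ≤ X ∧ (B.subgroupOf X).IsSubnormal ∧
      Subgroup.normalClosure ((A.subgroupOf B : Subgroup ↥B) : Set ↥B) = ⊤ := by
  obtain ⟨B, hB⟩ := (Set.toFinite {B : Subgroup G | A ≤ B ∧ B ≤ X ∧ (B.subgroupOf X).IsSubnormal}).exists_minimal
    ⟨X, hAX, le_rfl, by rw [Subgroup.subgroupOf_self]; exact .top⟩
  refine ⟨B, hB.prop.1, hB.prop.2.1, hB.prop.2.2, ?_⟩
  set N := Subgroup.normalClosure ((A.subgroupOf B : Subgroup ↥B) : Set ↥B) with hN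
  have h1 : A ≤ N.map B.subtype := by
    intro a ha
    exact ⟨⟨a, hB.prop.1 ha⟩, Subgroup.subset_normalClosure (by exact ha), rfl⟩
  have h2 : N.map B.subtype ≤ B := Subgroup.map_subtype_le N
  have h3 : ((N.map B.subtype).subgroupOf X).IsSubnormal := by
    have hBX := hB.prop.2.1
    refine Subgroup.IsSubnormal.step _ (B.subgroupOf X) ?_ hB.prop.2.2 ?_
    · exact Subgroup.comap_mono h2
    · -- normal
      have h4 : B.subgroupOf X ≤ normalizer (((N.map B.subtype).subgroupOf X : Subgroup X) : Set X) := by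
        intro x hx
        rw [Subgroup.mem_normalizer_iff]
        intro y
        have key : ∀ b ∈ B, ∀ y ∈ N.map B.subtype, b * y * b⁻¹ ∈ N.map B.subtype := by
          rintro b hb _ ⟨y, hy, rfl⟩
          exact ⟨⟨b, hb⟩ * y * ⟨b, hb⟩⁻¹, Subgroup.normalClosure_normal.conj_mem _ hy _, rfl⟩
        constructor
        · intro hy
          exact key _ hx _ hy
        · intro hy
          have := key _ (inv_mem (show (x : G) ∈ B from hx)) _ hy
          have h5 : (x : G)⁻¹ * (X.subtype (x * y * x⁻¹ : X) : G) * ((x : G)⁻¹)⁻¹ = X.subtype y := by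
            rw [map_mul, map_mul, map_inv]
            show (x : G)⁻¹ * ((x : G) * (y : G) * (x : G)⁻¹) * ((x : G)⁻¹)⁻¹ = (y : G)
            group
          rw [h5] at this
          exact this
      exact Subgroup.normal_subgroupOf_of_le_normalizer h4
  have h6 : B ≤ N.map B.subtype := hB.le_of_le ⟨h1, h2.trans hB.prop.2.1, h3⟩ h2
  rw [eq_top_iff]
  intro x _
  obtain ⟨y, hy, hyx⟩ := h6 x.2
  have : y = x := Subtype.ext hyx
  rwa [← this]

theorem sig_mono {G : Type u} [Group G] {A B H : Subgroup G} (_hAB : A ≤ B)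
    (hB : Subgroup.normalClosure ((A.subgroupOf B : Subgroup ↥B) : Set ↥B) = ⊤) (hBH : B ≤ H)
    (hH : Subgroup.normalClosure ((B.subgroupOf H : Subgroup ↥H) : Set ↥H) = ⊤) :
    Subgroup.normalClosure ((A.subgroupOf H : Subgroup ↥H) : Set ↥H) = ⊤ := by
  rw [eq_top_iff, ← hH]
  apply Subgroup.normalClosure_le_normal
  intro x hx
  have h1 : (⟨x, hx⟩ : B) ∈ Subgroup.normalClosure ((A.subgroupOf B : Subgroup ↥B) : Set ↥B) := by
    rw [hB]; exact Subgroup.mem_top _
  have h2 : Subgroup.normalClosure ((A.subgroupOf B : Subgroup ↥B) : Set ↥B) ≤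
      (Subgroup.normalClosure ((A.subgroupOf H : Subgroup ↥H) : Set ↥H)).comap (Subgroup.inclusion hBH) := by
    apply Subgroup.normalClosure_le_normal
    intro y hy
    exact Subgroup.subset_normalClosure (show Subgroup.inclusion hBH y ∈ A.subgroupOf H from hy)
  exact h2 h1

theorem main {G : Type u} [Group G] [Finite G] (A : Subgroup G)
    (hA : Subgroup.normalClosure (A : Set G) = ⊤) (hAG : A ≠ ⊤) (hY : sSup (Sig A) ≠ ⊤) :
    ∃ M : Subgroup G, IsCoatom M ∧ A ≤ M ∧ ∀ X, IsCoatom X → A ≤ X → X = M := by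
  induction hn : Nat.card G - Nat.card A using Nat.strong_induction_on generalizing A with
  | _ n ih =>
    set Y := sSup (Sig A) with hYdef
    have hAS : A ∈ Sig A := by
      refine ⟨le_rfl, hAG, ?_⟩
      rw [Subgroup.subgroupOf_self, eq_top_iff]
      exact Subgroup.subset_normalClosure
    have hAY : A ≤ Y := le_sSup hAS
    have hYS : Subgroup.normalClosure ((A.subgroupOf Y : Subgroup ↥Y) : Set ↥Y) = ⊤ := by
      have h1 : Y ≤ (Subgroup.normalClosure ((A.subgroupOf Y : Subgroup ↥Y) : Set ↥Y)).map Y.subtype := by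
        refine sSup_le fun H hH => ?_
        have hHY : H ≤ Y := le_sSup hH
        have h2 : Subgroup.normalClosure ((A.subgroupOf H : Subgroup ↥H) : Set ↥H) ≤
            (Subgroup.normalClosure ((A.subgroupOf Y : Subgroup ↥Y) : Set ↥Y)).comap (Subgroup.inclusion hHY) := by
          apply Subgroup.normalClosure_le_normal
          intro y hy
          exact Subgroup.subset_normalClosure (show Subgroup.inclusion hHY y ∈ A.subgroupOf Y from hy)
        rw [hH.2.2] at h2
        intro x hx
        exact ⟨⟨x, hHY hx⟩, h2 (Subgroup.mem_top (⟨x, hx⟩ : H)), rfl⟩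
      rw [eq_top_iff]
      intro x _
      obtain ⟨y, hy, hyx⟩ := h1 x.2
      have : y = x := Subtype.ext hyx
      rwa [← this]
    have hYsub : ∀ V : Subgroup G, V ≠ ⊤ → Y ≤ V → (Y.subgroupOf V).IsSubnormal := by
      intro V hV hYV
      obtain ⟨B, hAB, hBV, hBs, hBn⟩ := exists_subnormalClosure A V (hAY.trans hYV)
      have hBS : B ∈ Sig A := ⟨hAB, fun h => hV (top_le_iff.1 (h ▸ hBV)), hBn⟩
      have hBY : B ≤ Y := le_sSup hBS
      have h1 : (B.subgroupOf Y).IsSubnormal := H68.Zipper.isSubnormal_subgroupOf_of_le hYV hBs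
      have h2 : B.subgroupOf Y = ⊤ := eq_top_of_isSubnormal hYS (Subgroup.comap_mono hAB) h1
      have h3 : Y ≤ B := Subgroup.subgroupOf_eq_top.1 h2
      rwa [le_antisymm h3 hBY]
    have hYns : ¬ Y.IsSubnormal := fun h => hY (eq_top_of_isSubnormal hA hAY h)
    obtain ⟨M, hMT, hYM, hMu⟩ := H68.Zipper.exists_unique_max Y hYns hYsub
    have hMc : IsCoatom M := by
      refine ⟨hMT, fun V hV => ?_⟩
      by_contra hVT
      exact absurd (hMu V hVT (hYM.trans hV.le)) (not_le_of_gt hV)
    refine ⟨M, hMc, hAY.trans hYM, uniq M A hMc hA (hAY.trans hYM) ?_⟩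
    intro X hXc hAX hXM
    obtain ⟨B, hAB, hBX, hBs, hBn⟩ := exists_subnormalClosure A X hAX
    by_cases hAB' : A = B
    · rwa [hAB']
    · exfalso
      have hBT : B ≠ ⊤ := fun h => hXc.1 (top_le_iff.1 (h ▸ hBX))
      have hBS : B ∈ Sig A := ⟨hAB, hBT, hBn⟩
      have hsub : Sig B ⊆ Sig A := fun H hH => ⟨hAB.trans hH.1, hH.2.1, sig_mono hAB hBn hH.1 hH.2.2⟩
      have hlt : Nat.card A < Nat.card B := by
        refine lt_of_le_of_ne (Subgroup.card_le_of_le hAB) ?_
        intro h
        exact hAB' (Subgroup.eq_of_le_of_card_ge hAB h.ge)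
      have hlt2 : Nat.card B ≤ Nat.card G := Nat.le_of_dvd Nat.card_pos (Subgroup.card_subgroup_dvd_card _)
      obtain ⟨M', -, -, hM'⟩ := ih _ (by omega) B (by
          rw [eq_top_iff, ← hA]
          exact Subgroup.normalClosure_mono hAB) hBT
        (fun h => hY (top_le_iff.1 (h ▸ sSup_le_sSup hsub))) rfl
      have h1 := hM' X hXc hBX
      have h2 := hM' M hMc ((le_sSup hBS).trans hYM)
      exact hXM (h1.trans h2.symm)

end H68.UniqMax
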